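import Mathlib

/-! Isotypic components of a representation of a finite abelian group given a pairing with values in a field:
support bounds for the degree of a representation. -/

set_option autoImplicit false
set_option linter.unusedSectionVars false
set_option linter.unusedSimpArgs false
set_option linter.style.haveILetI false

namespace Cfsg.Agent.H10

open Matrix

section Framework

variable {A B L : Type*} [AddCommGroup A] [Fintype A] [Fintype B] [DecidableEq B] [Field L] {d : ℕ}
variable (χ : B → A → L) (R : A → Matrix (Fin d) (Fin d) L)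

/-- The (non-normalised) isotypic projector. -/
noncomputable def isoE (b : B) : Matrix (Fin d) (Fin d) L := ∑ x : A, χ b (-x) • R x

variable {χ R}

/-- The action of `R y` on an isotypic projector. -/
lemma R_mul_isoE (hχ : ∀ b x y, χ b (x + y) = χ b x * χ b y) (hR : ∀ x y, R (x + y) = R x * R y) (y : A) (b : B) :
    R y * isoE χ R b = χ b y • isoE χ R b := by
  unfold isoE
  rw [Finset.mul_sum, Finset.smul_sum]
  refine Fintype.sum_equiv (Equiv.addLeft y) _ _ (fun x => ?_)
  simp only [Equiv.coe_addLeft]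
  have e : χ b (-x) = χ b y * χ b (-(y + x)) := by
    rw [← hχ]
    congr 1
    abel
  rw [Matrix.mul_smul, ← hR, smul_smul, e]

lemma sum_isoE [DecidableEq A] {c : L} (hB : ∀ x : A, ∑ b, χ b (-x) = if x = 0 then c else 0) (hR0 : R 0 = 1) :
    ∑ b, isoE χ R b = c • (1 : Matrix (Fin d) (Fin d) L) := by
  unfold isoE
  rw [Finset.sum_comm]
  simp_rw [← Finset.sum_smul, hB]
  rw [Finset.sum_eq_single 0]
  · simp [hR0]
  · intro x _ hx
    simp [hx]
  · simp

lemma isoE_mulVec_eigen {c : L} (hO : ∀ b b' : B, ∑ x : A, χ b' (-x) * χ b x = if b = b' then c else 0)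
    {b : B} {w : Fin d → L} (hw : ∀ x, R x *ᵥ w = χ b x • w) (b' : B) :
    isoE χ R b' *ᵥ w = if b = b' then c • w else 0 := by
  unfold isoE
  rw [Matrix.sum_mulVec]
  simp_rw [Matrix.smul_mulVec, hw, smul_smul]
  rw [← Finset.sum_smul, hO]
  split_ifs
  · rfl
  · simp

lemma eigen_isoE (hχ : ∀ b x y, χ b (x + y) = χ b x * χ b y) (hR : ∀ x y, R (x + y) = R x * R y) (b : B)
    (v : Fin d → L) (y : A) : R y *ᵥ (isoE χ R b *ᵥ v) = χ b y • (isoE χ R b *ᵥ v) := by
  rw [Matrix.mulVec_mulVec, R_mul_isoE hχ hR, Matrix.smul_mulVec]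

open Classical in
/-- The number of isotypic components is at most the degree. -/
theorem card_support_le {c : L} (hc : c ≠ 0) (hχ : ∀ b x y, χ b (x + y) = χ b x * χ b y)
    (hR : ∀ x y, R (x + y) = R x * R y)
    (hO : ∀ b b' : B, ∑ x : A, χ b' (-x) * χ b x = if b = b' then c else 0) :
    (Finset.univ.filter (fun b : B => isoE χ R b ≠ 0)).card ≤ d := by
  classical
  have hex : ∀ b : {b : B // isoE χ R b ≠ 0}, ∃ v : Fin d → L, isoE χ R b.1 *ᵥ v ≠ 0 := by
    rintro ⟨b, hb⟩
    by_contra hcon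
    push Not at hcon
    apply hb
    ext i j
    have := congrFun (hcon (Pi.single j 1)) i
    rw [Matrix.mulVec_single_one] at this
    simpa using this
  choose v hv using hex
  let w : {b : B // isoE χ R b ≠ 0} → (Fin d → L) := fun b => isoE χ R b.1 *ᵥ v b
  have hli : LinearIndependent L w := by
    rw [Fintype.linearIndependent_iff]
    intro g hg i
    have h1 := congrArg (fun y => isoE χ R i.1 *ᵥ y) hg
    simp only [Matrix.mulVec_zero, Matrix.mulVec_sum, Matrix.mulVec_smul] at h1
    have h2 : ∀ b : {b : B // isoE χ R b ≠ 0}, isoE χ R i.1 *ᵥ w b = if b.1 = i.1 then c • w b else 0 := by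
      intro b
      exact isoE_mulVec_eigen hO (fun x => eigen_isoE hχ hR b.1 (v b) x) i.1
    simp_rw [h2] at h1
    rw [Finset.sum_eq_single i] at h1
    · simp only [if_true, smul_smul] at h1
      have h3 := (smul_eq_zero.1 h1).resolve_right (hv i)
      exact (mul_eq_zero.1 h3).resolve_right hc
    · intro b _ hb
      have : b.1 ≠ i.1 := fun e => hb (Subtype.ext e)
      simp [this]
    · simp
  have h := hli.fintype_card_le_finrank
  rw [Module.finrank_fin_fun, Fintype.card_subtype] at h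
  exact h

/-- A non-trivial action yields an isotypic component with a non-trivial character. -/
theorem exists_isoE_ne [DecidableEq A] {c : L} (hc : c ≠ 0) (hχ : ∀ b x y, χ b (x + y) = χ b x * χ b y)
    (hR : ∀ x y, R (x + y) = R x * R y) (hR0 : R 0 = 1)
    (hB : ∀ x : A, ∑ b, χ b (-x) = if x = 0 then c else 0) {y : A} (hy : R y ≠ 1) :
    ∃ b, isoE χ R b ≠ 0 ∧ χ b y ≠ 1 := by
  by_contra hcon
  push Not at hcon
  apply hy
  have h1 : R y * (c • (1 : Matrix (Fin d) (Fin d) L)) = c • (1 : Matrix (Fin d) (Fin d) L) := by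
    rw [← sum_isoE hB hR0, Finset.mul_sum]
    refine Finset.sum_congr rfl (fun b _ => ?_)
    rw [R_mul_isoE hχ hR]
    by_cases hb : isoE χ R b = 0
    · rw [hb, smul_zero]
    · rw [hcon b hb, one_smul]
  rw [Matrix.mul_smul, Matrix.mul_one] at h1
  exact smul_right_injective _ hc h1

/-- Transport of isotypic projectors. -/
theorem isoE_transport (σ : A ≃+ A) {T T' : Matrix (Fin d) (Fin d) L} (hT : ∀ x, T * R x * T' = R (σ x))
    {τ : B → B} (hτ : ∀ b x, χ (τ b) x = χ b (σ x)) (b : B) :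
    T * isoE χ R (τ b) * T' = isoE χ R b := by
  unfold isoE
  rw [Finset.mul_sum, Finset.sum_mul]
  refine Fintype.sum_equiv σ.toEquiv _ _ (fun x => ?_)
  simp only [AddEquiv.toEquiv_eq_coe, EquivLike.coe_coe]
  rw [Matrix.mul_smul, Matrix.smul_mul, hT, hτ, map_neg]

theorem isoE_ne_of_transport (σ : A ≃+ A) {T T' : Matrix (Fin d) (Fin d) L} (hT : ∀ x, T * R x * T' = R (σ x))
    {τ : B → B} (hτ : ∀ b x, χ (τ b) x = χ b (σ x)) {b : B} (hb : isoE χ R b ≠ 0) : isoE χ R (τ b) ≠ 0 := by
  intro h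
  apply hb
  rw [← isoE_transport σ hT hτ b, h, Matrix.mul_zero, Matrix.zero_mul]

end Framework

section Dot

variable {F L : Type*} [Field F] [Fintype F] [DecidableEq F] [Field L]
variable {ι : Type*} [Fintype ι] [DecidableEq ι]

/-- The character sum over the vector space `ι → F`. -/
lemma sum_dot {ψ : AddChar F L} (hψ : ψ.IsPrimitive) (a : ι → F) :
    ∑ x : ι → F, ψ (a ⬝ᵥ x) = if a = 0 then ((Fintype.card (ι → F) : ℕ) : L) else 0 := by
  split_ifs with ha
  · subst ha
    simp
  · obtain ⟨i, hi⟩ : ∃ i, a i ≠ 0 := by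
      by_contra hcon
      push Not at hcon
      exact ha (funext hcon)
    have h1 := hψ (one_ne_zero (α := F))
    obtain ⟨t, ht⟩ : ∃ t, ψ t ≠ 1 := by
      by_contra hcon
      push Not at hcon
      apply h1
      ext x
      simp [AddChar.mulShift_apply, hcon]
    let y : ι → F := Pi.single i (t / a i)
    have hy : a ⬝ᵥ y = t := by
      simp only [y, dotProduct_single]
      field_simp
    have h2 : ∑ x : ι → F, ψ (a ⬝ᵥ x) = ψ t * ∑ x : ι → F, ψ (a ⬝ᵥ x) := by
      conv_lhs => rw [← Equiv.sum_comp (Equiv.addRight y)]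
      rw [Finset.mul_sum]
      refine Finset.sum_congr rfl (fun x _ => ?_)
      simp only [Equiv.coe_addRight, dotProduct_add, hy, AddChar.map_add_eq_mul]
      ring
    have h3 : (ψ t - 1) * ∑ x : ι → F, ψ (a ⬝ᵥ x) = 0 := by
      rw [sub_mul, one_mul, ← h2, sub_self]
    exact (mul_eq_zero.1 h3).resolve_left (sub_ne_zero.2 ht)

variable {G : Type*} [Group G] {d : ℕ}

/-- The isotypic projector of the dot-product character attached to a homomorphism into matrices. -/
noncomputable def dotE (ψ : AddChar F L) (M : G →* Matrix (Fin d) (Fin d) L) (u : (ι → F) → G) (a : ι → F) :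
    Matrix (Fin d) (Fin d) L :=
  isoE (fun (a : ι → F) (x : ι → F) => ψ (a ⬝ᵥ x)) (fun x => M (u x)) a

variable {ψ : AddChar F L}
variable {M : G →* Matrix (Fin d) (Fin d) L} {u : (ι → F) → G}

lemma dot_hχ : ∀ (b x y : ι → F), ψ (b ⬝ᵥ (x + y)) = ψ (b ⬝ᵥ x) * ψ (b ⬝ᵥ y) := by
  intro b x y
  rw [dotProduct_add, AddChar.map_add_eq_mul]

lemma dot_hB (hψ : ψ.IsPrimitive) (x : ι → F) :
    ∑ b : ι → F, ψ (b ⬝ᵥ (-x)) = if x = 0 then ((Fintype.card (ι → F) : ℕ) : L) else 0 := by
  have e : ∀ b : ι → F, b ⬝ᵥ (-x) = (-x) ⬝ᵥ b := fun b => dotProduct_comm _ _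
  simp_rw [e]
  rw [sum_dot hψ]
  simp

lemma dot_hO (hψ : ψ.IsPrimitive) (b b' : ι → F) :
    ∑ x : ι → F, ψ (b' ⬝ᵥ (-x)) * ψ (b ⬝ᵥ x) = if b = b' then ((Fintype.card (ι → F) : ℕ) : L) else 0 := by
  have e : ∀ x : ι → F, ψ (b' ⬝ᵥ (-x)) * ψ (b ⬝ᵥ x) = ψ ((b - b') ⬝ᵥ x) := by
    intro x
    rw [← AddChar.map_add_eq_mul, sub_dotProduct, dotProduct_neg]
    congr 1
    ring
  simp_rw [e]
  rw [sum_dot hψ]
  simp [sub_eq_zero]

open Classical in
/-- The support of `dotE` has at most `d` elements. -/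
theorem card_dotE_le (hψ : ψ.IsPrimitive) (hc : ((Fintype.card (ι → F) : ℕ) : L) ≠ 0)
    (hu : ∀ x y, u (x + y) = u x * u y) :
    (Finset.univ.filter (fun a : ι → F => dotE ψ M u a ≠ 0)).card ≤ d :=
  card_support_le (χ := fun (a : ι → F) (x : ι → F) => ψ (a ⬝ᵥ x)) (R := fun x => M (u x)) hc dot_hχ
    (fun x y => by simp only [hu, map_mul]) (dot_hO hψ)

theorem exists_dotE_ne (hψ : ψ.IsPrimitive) (hc : ((Fintype.card (ι → F) : ℕ) : L) ≠ 0)
    (hu : ∀ x y, u (x + y) = u x * u y) {y : ι → F} (hy : M (u y) ≠ 1) :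
    ∃ a, dotE ψ M u a ≠ 0 ∧ ψ (a ⬝ᵥ y) ≠ 1 := by
  have hu0 : u 0 = 1 := by
    have := hu 0 0
    rw [add_zero] at this
    exact (left_eq_mul.1 this)
  exact exists_isoE_ne (χ := fun (a : ι → F) (x : ι → F) => ψ (a ⬝ᵥ x)) (R := fun x => M (u x)) hc dot_hχ
    (fun x y => by simp only [hu, map_mul]) (by simp only [hu0, map_one]) (dot_hB hψ) hy

/-- Transport of the support along elements normalising the image of `u`. -/
theorem dotE_ne_of_transport (σ : (ι → F) ≃+ (ι → F)) (g : G) (hg : ∀ x, g * u x * g⁻¹ = u (σ x))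
    {τ : (ι → F) → (ι → F)} (hτ : ∀ a x, τ a ⬝ᵥ x = a ⬝ᵥ σ x) {a : ι → F} (ha : dotE ψ M u a ≠ 0) :
    dotE ψ M u (τ a) ≠ 0 := by
  refine isoE_ne_of_transport (χ := fun (a : ι → F) (x : ι → F) => ψ (a ⬝ᵥ x)) (R := fun x => M (u x))
    σ (T := M g) (T' := M g⁻¹) (fun x => ?_) (fun b x => ?_) ha
  · simp only [← map_mul, hg]
  · simp only [hτ]

end Dot

section Ext

universe u v

/-- The order of `F` is invertible in a field of a different characteristic. -/
lemma natCast_card_ne {F : Type*} [Field F] [Fintype F] {K : Type*} [Field K] (hK : ringChar K ≠ ringChar F) :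
    ((Fintype.card F : ℕ) : K) ≠ 0 := by
  classical
  haveI hp : Fact (ringChar F).Prime := ⟨CharP.char_is_prime F _⟩
  obtain ⟨n, -, hn⟩ := FiniteField.card F (ringChar F)
  rw [hn]
  push_cast
  apply pow_ne_zero
  intro h
  have h1 : ringChar K ∣ ringChar F := ringChar.dvd h
  rcases (Nat.dvd_prime hp.out).1 h1 with h2 | h2
  · exact CharP.ringChar_ne_one h2
  · exact hK h2

/-- Existence of a primitive additive character over an extension field. -/
theorem exists_prim_ext (F : Type*) [Field F] [Fintype F] (K : Type u) [Field K] (hK : ringChar K ≠ ringChar F) :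
    ∃ (L : Type u) (_ : Field L) (_ : Algebra K L) (ψ : AddChar F L), ψ.IsPrimitive := by
  classical
  let P := AddChar.FiniteField.primitiveChar F K hK
  exact ⟨CyclotomicField P.n K, inferInstance, inferInstance, P.char, P.prim⟩

/-- Extension of scalars for a representation. -/
noncomputable def extM {G : Type*} [Group G] {K L : Type*} [Field K] [Field L] [Algebra K L] {d : ℕ}
    (ρ : G →* Matrix.GeneralLinearGroup (Fin d) K) : G →* Matrix (Fin d) (Fin d) L :=
  ((algebraMap K L).mapMatrix : Matrix (Fin d) (Fin d) K →+* Matrix (Fin d) (Fin d) L).toMonoidHom.comp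
    ((Units.coeHom _).comp ρ)

lemma extM_ne_one {G : Type*} [Group G] {K L : Type*} [Field K] [Field L] [Algebra K L] {d : ℕ}
    (ρ : G →* Matrix.GeneralLinearGroup (Fin d) K) {g : G} (hg : ρ g ≠ 1) : extM (L := L) ρ g ≠ 1 := by
  intro h
  apply hg
  apply Units.ext
  ext i j
  have h2 : (algebraMap K L) ((ρ g).val i j) = (1 : Matrix (Fin d) (Fin d) L) i j :=
    congrFun (congrFun h i) j
  have h3 : (1 : Matrix (Fin d) (Fin d) L) i j = algebraMap K L ((1 : Matrix (Fin d) (Fin d) K) i j) := by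
    rw [Matrix.one_apply, Matrix.one_apply]
    split_ifs <;> simp
  rw [h3] at h2
  exact (algebraMap K L).injective h2

lemma natCast_card_fun_ne {F : Type*} [Field F] [Fintype F] [DecidableEq F] {K L : Type*} [Field K] [Field L] [Algebra K L]
    (hK : ringChar K ≠ ringChar F) (ι : Type*) [Fintype ι] [DecidableEq ι] :
    ((Fintype.card (ι → F) : ℕ) : L) ≠ 0 := by
  rw [Fintype.card_fun]
  push_cast
  apply pow_ne_zero
  have h := natCast_card_ne (F := F) hK
  intro h0
  apply h
  have : algebraMap K L ((Fintype.card F : ℕ) : K) = 0 := by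
    rw [map_natCast]; exact h0
  exact (map_eq_zero_iff _ (algebraMap K L).injective).1 this

end Ext

end Cfsg.Agent.H10
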