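import Mathlib

/-! Words in a free group are not laws in `SL₂(F)` for large finite fields `F`. -/

set_option autoImplicit false
set_option linter.unusedSectionVars false
set_option linter.unusedSimpArgs false
set_option linter.style.haveILetI false

namespace Cfsg.Agent.H10

open Polynomial

local notation "SL₂" => Matrix.SpecialLinearGroup (Fin 2)

section Poly

variable {F : Type*} [Field F]

/-- head parameter of a letter -/
noncomputable def hdP (x : ℕ × Bool) : F[X] := if x.2 then X ^ (2 * x.1 + 1) else -X ^ (2 * x.1 + 2)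
/-- tail parameter of a letter -/
noncomputable def tlP (x : ℕ × Bool) : F[X] := if x.2 then X ^ (2 * x.1 + 2) else -X ^ (2 * x.1 + 1)
/-- sign of a letter -/
noncomputable def sgP (x : ℕ × Bool) : F[X] := if x.2 then 1 else -1

lemma sgP_sq (x : ℕ × Bool) : (sgP x : F[X]) * sgP x = 1 := by
  unfold sgP
  split_ifs <;> simp

/-- First column of the product of the letters. -/
noncomputable def colA : List (ℕ × Bool) → F[X]
  | [] => 1
  | x :: L => sgP x * (-(hdP x) * colA L + (1 - hdP x * tlP x) * colC L)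
where
  /-- lower entry -/
  colC : List (ℕ × Bool) → F[X]
  | [] => 0
  | x :: L => sgP x * (-(colA L) - tlP x * colC L)

lemma colA_cons (x : ℕ × Bool) (L : List (ℕ × Bool)) :
    (colA (x :: L) : F[X]) = sgP x * (-(hdP x) * colA L + (1 - hdP x * tlP x) * colA.colC L) := by
  rw [colA]

lemma colC_cons (x : ℕ × Bool) (L : List (ℕ × Bool)) :
    (colA.colC (x :: L) : F[X]) = sgP x * (-(colA L) - tlP x * colA.colC L) := by
  rw [colA.colC]

lemma sgP_ne_zero (x : ℕ × Bool) : (sgP x : F[X]) ≠ 0 := by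
  unfold sgP
  split_ifs <;> simp

lemma degree_sgP_mul (x : ℕ × Bool) (f : F[X]) : degree ((sgP x : F[X]) * f) = degree f := by
  unfold sgP
  split_ifs <;> simp

/-- Sum of two monomials with units coefficients and different exponents. -/
lemma degree_two_mono (e e' : ℕ) (h : e < e') (u v : F) (hv : v ≠ 0) :
    degree (C u * X ^ e + C v * X ^ e') = (e' : WithBot ℕ) := by
  have h2 : degree (C v * X ^ e') = (e' : WithBot ℕ) := degree_C_mul_X_pow e' hv
  rw [degree_add_eq_right_of_degree_lt, h2]
  rw [h2]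
  refine lt_of_le_of_lt (degree_C_mul_X_pow_le e u) ?_
  exact_mod_cast h

/-- The parameter appearing between two letters. -/
noncomputable def gapP (x y : ℕ × Bool) : F[X] := tlP x + hdP y

/-- The bound for the degree of the gap. -/
def gapB (x y : ℕ × Bool) : ℕ := (2 * x.1 + 2) + (2 * y.1 + 2)

lemma gapP_degree (x y : ℕ × Bool) (h : x.1 = y.1 → x.2 = y.2) :
    ∃ d : ℕ, 1 ≤ d ∧ d ≤ gapB x y ∧ degree (gapP x y : F[X]) = d := by
  obtain ⟨j, a⟩ := x
  obtain ⟨i, b⟩ := y
  simp only at h
  have key : ∀ (e e' : ℕ) (u v : F), u ≠ 0 → v ≠ 0 → e ≠ e' → 1 ≤ e → 1 ≤ e' →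
      e ≤ 2 * j + 2 → e' ≤ 2 * i + 2 → (gapP (j, a) (i, b) : F[X]) = C u * X ^ e + C v * X ^ e' →
      ∃ d : ℕ, 1 ≤ d ∧ d ≤ gapB (j, a) (i, b) ∧ degree (gapP (j, a) (i, b) : F[X]) = d := by
    intro e e' u v hu hv hne he he' hle hle' hp
    rcases lt_or_gt_of_ne hne with hlt | hlt
    · refine ⟨e', he', ?_, ?_⟩
      · simp only [gapB]
        omega
      · rw [hp, degree_two_mono e e' hlt u v hv]
    · refine ⟨e, he, ?_, ?_⟩
      · simp only [gapB]
        omega
      · rw [hp, add_comm, degree_two_mono e' e hlt v u hu]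
  cases a <;> cases b
  · refine key (2 * j + 1) (2 * i + 2) (-1) (-1) (by simp) (by simp) (by omega) (by omega) (by omega)
      (by omega) (by omega) ?_
    simp [gapP, tlP, hdP]
  · have hij : j ≠ i := fun e => by simpa using h e
    refine key (2 * j + 1) (2 * i + 1) (-1) 1 (by simp) (by simp) (by omega) (by omega) (by omega)
      (by omega) (by omega) ?_
    simp [gapP, tlP, hdP]
  · have hij : j ≠ i := fun e => by simpa using h e
    refine key (2 * j + 2) (2 * i + 2) 1 (-1) (by simp) (by simp) (by omega) (by omega) (by omega)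
      (by omega) (by omega) ?_
    simp [gapP, tlP, hdP]
  · refine key (2 * j + 2) (2 * i + 1) 1 1 (by simp) (by simp) (by omega) (by omega) (by omega)
      (by omega) (by omega) ?_
    simp [gapP, tlP, hdP]

/-- The bound for the degree of the lower entry. -/
def wordB : List (ℕ × Bool) → ℕ
  | [] => 0
  | x :: L => (2 * x.1 + 2) + (2 * x.1 + 2) + wordB L

/-- The main invariant. -/
theorem word_invariant (y : ℕ × Bool) (L : List (ℕ × Bool)) (hL : FreeGroup.IsReduced (y :: L)) :
    ∃ d : ℕ, d + (2 * y.1 + 2) ≤ wordB (y :: L) ∧ degree (colA.colC (y :: L) : F[X]) = d ∧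
      degree ((colA (y :: L) : F[X]) - hdP y * colA.colC (y :: L)) < d := by
  induction L generalizing y with
  | nil =>
    refine ⟨0, by simp only [wordB]; omega, ?_, ?_⟩
    · rw [colC_cons, degree_sgP_mul]
      simp [colA, colA.colC]
    · have : (colA [y] : F[X]) - hdP y * colA.colC [y] = 0 := by
        rw [colA_cons, colC_cons]
        simp [colA, colA.colC]
        ring
      rw [this]
      simp [WithBot.bot_lt_coe]
  | cons z L ih =>
    rw [FreeGroup.isReduced_cons_cons] at hL
    obtain ⟨d, hd, hC, hα⟩ := ih z hL.2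
    obtain ⟨g, hg1, hg2, hg3⟩ := gapP_degree (F := F) y z hL.1
    set A : F[X] := colA (z :: L) with hA
    set Cc : F[X] := colA.colC (z :: L) with hCc
    set α : F[X] := A - hdP z * Cc with hαdef
    have hC0 : Cc ≠ 0 := by
      intro h0
      rw [h0, degree_zero] at hC
      exact absurd hC (by simp)
    have hs0 : (gapP y z : F[X]) ≠ 0 := by
      intro h0
      rw [h0, degree_zero] at hg3
      exact absurd hg3 (by simp)
    have hdeg1 : degree ((gapP y z : F[X]) * Cc) = ((g + d : ℕ) : WithBot ℕ) := by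
      rw [degree_mul, hg3, hC]
      rfl
    have hlt : degree α < degree ((gapP y z : F[X]) * Cc) := by
      rw [hdeg1]
      refine lt_trans hα ?_
      exact_mod_cast (by omega : d < g + d)
    have hCnew : (colA.colC (y :: z :: L) : F[X]) = sgP y * -(α + gapP y z * Cc) := by
      rw [colC_cons y (z :: L), hαdef, gapP]
      ring
    have hαnew : (colA (y :: z :: L) : F[X]) - hdP y * colA.colC (y :: z :: L) = sgP y * Cc := by
      rw [colA_cons y (z :: L), colC_cons y (z :: L)]
      ring
    refine ⟨g + d, ?_, ?_, ?_⟩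
    · simp only [wordB] at hd ⊢
      simp only [gapB] at hg2
      omega
    · rw [hCnew, degree_sgP_mul, degree_neg, degree_add_eq_right_of_degree_lt hlt, hdeg1]
    · rw [hαnew, degree_sgP_mul, hC]
      exact_mod_cast (by omega : d < g + d)

end Poly

section Eval

variable {F : Type*} [Field F]

/-- The generator of `SL₂` depending on a parameter. -/
def genSL (t : F) (i : ℕ) : SL₂ F :=
  ⟨!![-(t ^ (2 * i + 1)), 1 - t ^ (2 * i + 1) * t ^ (2 * i + 2); -1, -(t ^ (2 * i + 2))], by
    rw [Matrix.det_fin_two_of]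
    ring⟩

lemma genSL_coe (t : F) (i : ℕ) : ((genSL t i : SL₂ F) : Matrix (Fin 2) (Fin 2) F) =
    !![-(t ^ (2 * i + 1)), 1 - t ^ (2 * i + 1) * t ^ (2 * i + 2); -1, -(t ^ (2 * i + 2))] := rfl

lemma genSL_inv_coe (t : F) (i : ℕ) : (((genSL t i)⁻¹ : SL₂ F) : Matrix (Fin 2) (Fin 2) F) =
    !![-(t ^ (2 * i + 2)), -(1 - t ^ (2 * i + 1) * t ^ (2 * i + 2)); 1, -(t ^ (2 * i + 1))] := by
  rw [Matrix.SpecialLinearGroup.coe_inv, genSL_coe, Matrix.adjugate_fin_two_of]
  simp

/-- Evaluation of the first column. -/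
theorem col_eval (t : F) (L : List (ℕ × Bool)) :
    (((L.map fun x => cond x.2 (genSL t x.1) (genSL t x.1)⁻¹).prod : SL₂ F) :
      Matrix (Fin 2) (Fin 2) F) 0 0 = eval t (colA L) ∧
    (((L.map fun x => cond x.2 (genSL t x.1) (genSL t x.1)⁻¹).prod : SL₂ F) :
      Matrix (Fin 2) (Fin 2) F) 1 0 = eval t (colA.colC L) := by
  induction L with
  | nil => simp [colA, colA.colC]
  | cons x L ih =>
    obtain ⟨h0, h1⟩ := ih
    rw [List.map_cons, List.prod_cons, Matrix.SpecialLinearGroup.coe_mul, colA_cons, colC_cons]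
    obtain ⟨i, b⟩ := x
    cases b
    · simp only [cond_false, genSL_inv_coe]
      simp only [Matrix.mul_apply, Fin.sum_univ_two, h0, h1]
      simp [sgP, hdP, tlP]
      constructor <;> ring
    · simp only [cond_true, genSL_coe]
      simp only [Matrix.mul_apply, Fin.sum_univ_two, h0, h1]
      simp [sgP, hdP, tlP]
      ring

/-- The degree bound attached to a word. -/
def lawBound (w : FreeGroup ℕ) : ℕ := wordB w.toWord + 1

/-- Every nontrivial word takes a noncentral value in `SL₂(F)`, `F` large. -/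
theorem exists_word_noncentral (w : FreeGroup ℕ) (hw : w ≠ 1) (F : Type*) [Field F] [Fintype F]
    (hF : lawBound w ≤ Fintype.card F) :
    ∃ f : ℕ → SL₂ F, ((FreeGroup.lift f w : SL₂ F) : Matrix (Fin 2) (Fin 2) F) 1 0 ≠ 0 := by
  have hmk : FreeGroup.mk w.toWord = w := FreeGroup.mk_toWord
  have hred : FreeGroup.IsReduced w.toWord := FreeGroup.isReduced_toWord
  rcases hL : w.toWord with _ | ⟨y, L⟩
  · exfalso
    apply hw
    rw [← hmk, hL]
    rfl
  rw [hL] at hred
  obtain ⟨d, hd, hC, -⟩ := word_invariant (F := F) y L hred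
  have hnat : (colA.colC (y :: L) : F[X]).natDegree = d := natDegree_eq_of_degree_eq_some hC
  have hC0 : (colA.colC (y :: L) : F[X]) ≠ 0 := by
    intro h0
    rw [h0, degree_zero] at hC
    exact absurd hC (by simp)
  have hcard : (colA.colC (y :: L) : F[X]).natDegree < Cardinal.mk F := by
    rw [hnat, Cardinal.mk_fintype]
    have : d < Fintype.card F := by
      unfold lawBound at hF
      rw [hL] at hF
      omega
    exact_mod_cast this
  obtain ⟨t, ht⟩ := exists_eval_ne_zero_of_natDegree_lt_card _ hC0 hcard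
  refine ⟨genSL t, ?_⟩
  rw [← hmk, hL, FreeGroup.lift_mk, (col_eval t (y :: L)).2]
  exact ht

end Eval

section Map

lemma lift_map {G H : Type*} [Group G] [Group H] (φ : G →* H) (f : ℕ → G) (w : FreeGroup ℕ) :
    φ (FreeGroup.lift f w) = FreeGroup.lift (fun n => φ (f n)) w := by
  have : φ.comp (FreeGroup.lift f) = FreeGroup.lift (fun n => φ (f n)) := by
    apply FreeGroup.ext_hom
    intro a
    simp
  exact congrArg (fun g : FreeGroup ℕ →* H => g w) this

/-- Central elements of `SL₂` have vanishing lower left entry. -/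
lemma lower_left_of_central {F : Type*} [Field F] (M : SL₂ F) (hM : M ∈ Subgroup.center (SL₂ F)) :
    (M : Matrix (Fin 2) (Fin 2) F) 1 0 = 0 := by
  let u : SL₂ F := ⟨!![1, 1; 0, 1], by simp [Matrix.det_fin_two]⟩
  have h1 : u * M = M * u := (Subgroup.mem_center_iff.mp hM u)
  have h2 : ((u : Matrix (Fin 2) (Fin 2) F) * (M : Matrix (Fin 2) (Fin 2) F)) 0 0 =
      ((M : Matrix (Fin 2) (Fin 2) F) * (u : Matrix (Fin 2) (Fin 2) F)) 0 0 := by
    rw [← Matrix.SpecialLinearGroup.coe_mul, ← Matrix.SpecialLinearGroup.coe_mul, h1]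
  have hu : (u : Matrix (Fin 2) (Fin 2) F) = !![1, 1; 0, 1] := rfl
  rw [hu, Matrix.mul_apply, Matrix.mul_apply, Fin.sum_univ_two, Fin.sum_univ_two] at h2
  simpa using h2

end Map

end Cfsg.Agent.H10
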