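import Mathlib
import Cfsg.Agent.Lib.H10.LawSL2
import Cfsg.Agent.Lib.Lead.SLn
import Cfsg.Prelude.Def_Classical

/-! Laws in the classical families: embeddings of `SL₂` and of alternating groups. -/

set_option autoImplicit false
set_option linter.unusedSectionVars false
set_option linter.unusedSimpArgs false
set_option linter.style.haveILetI false

namespace Cfsg.Agent.H10

open Matrix Cfsg

local notation "SL₂" => Matrix.SpecialLinearGroup (Fin 2)

section Law

variable {w : FreeGroup ℕ}

/-- `w` is a law in `G`. -/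
def IsLaw (w : FreeGroup ℕ) (G : Type*) [Group G] : Prop := ∀ f : ℕ → G, FreeGroup.lift f w = 1

lemma IsLaw.equiv {G G' : Type*} [Group G] [Group G'] (e : G ≃* G') (h : IsLaw w G) : IsLaw w G' := by
  intro f
  have h1 := lift_map e.toMonoidHom (fun n => e.symm (f n)) w
  simp only [MulEquiv.coe_toMonoidHom, MulEquiv.apply_symm_apply] at h1
  rw [← h1, h]
  simp

/-- If `SL₂(F)` embeds in `H` with `F` large, then `w` is no law in `H / Z(H)`. -/
theorem not_law_of_sl2 (hw : w ≠ 1) {F : Type*} [Field F] [Fintype F] {H : Type*} [Group H]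
    (ι : SL₂ F →* H) (hι : Function.Injective ι) (hF : lawBound w ≤ Fintype.card F) :
    ¬ IsLaw w (H ⧸ Subgroup.center H) := by
  intro hlaw
  obtain ⟨f, hf⟩ := exists_word_noncentral w hw F hF
  have h1 := hlaw (fun n => (QuotientGroup.mk' (Subgroup.center H)) (ι (f n)))
  have h2 := lift_map ((QuotientGroup.mk' (Subgroup.center H)).comp ι) f w
  simp only [MonoidHom.comp_apply] at h2
  rw [← h2] at h1
  have h3 : ι (FreeGroup.lift f w) ∈ Subgroup.center H := (QuotientGroup.eq_one_iff _).mp h1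
  apply hf
  apply lower_left_of_central
  rw [Subgroup.mem_center_iff] at h3 ⊢
  intro g
  apply hι
  rw [map_mul, map_mul, h3]

/-- If `Alt(k)` embeds in `H` and `w` is no law in it, then `w` is no law in `H / Z(H)`. -/
theorem not_law_of_alt {k : ℕ} (hk : 4 ≤ k) {H : Type*} [Group H]
    (ι : alternatingGroup (Fin k) →* H) (hι : Function.Injective ι)
    (hf : ∃ f : ℕ → alternatingGroup (Fin k), FreeGroup.lift f w ≠ 1) :
    ¬ IsLaw w (H ⧸ Subgroup.center H) := by
  intro hlaw
  obtain ⟨f, hf⟩ := hf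
  have h1 := hlaw (fun n => (QuotientGroup.mk' (Subgroup.center H)) (ι (f n)))
  have h2 := lift_map ((QuotientGroup.mk' (Subgroup.center H)).comp ι) f w
  simp only [MonoidHom.comp_apply] at h2
  rw [← h2] at h1
  have h3 : ι (FreeGroup.lift f w) ∈ Subgroup.center H := (QuotientGroup.eq_one_iff _).mp h1
  apply hf
  have h4 : FreeGroup.lift f w ∈ Subgroup.center (alternatingGroup (Fin k)) := by
    rw [Subgroup.mem_center_iff] at h3 ⊢
    intro g
    apply hι
    rw [map_mul, map_mul, h3]
  rw [alternatingGroup.center_eq_bot (by simpa using hk)] at h4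
  exact (Subgroup.mem_bot).mp h4

end Law

section Block

variable {F : Type*} [Field F]

/-- The block inclusion of `SL_κ` in `SL_{κ ⊕ κ'}`. -/
def sumSL (κ κ' : Type*) [Fintype κ] [DecidableEq κ] [Fintype κ'] [DecidableEq κ'] :
    Matrix.SpecialLinearGroup κ F →* Matrix.SpecialLinearGroup (κ ⊕ κ') F where
  toFun g := ⟨fromBlocks g.1 0 0 1, by
    rw [Matrix.det_fromBlocks_zero₂₁, g.2, Matrix.det_one, one_mul]⟩
  map_one' := Subtype.ext (by
    change fromBlocks (1 : Matrix κ κ F) 0 0 1 = 1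
    simp)
  map_mul' g h := Subtype.ext (by
    change fromBlocks (g.1 * h.1) 0 0 1 = fromBlocks g.1 0 0 1 * fromBlocks h.1 0 0 1
    simp [Matrix.fromBlocks_multiply])

lemma sumSL_inj (κ κ' : Type*) [Fintype κ] [DecidableEq κ] [Fintype κ'] [DecidableEq κ'] :
    Function.Injective (sumSL (F := F) κ κ') := by
  intro g h e
  have h1 : fromBlocks g.1 0 0 1 = fromBlocks h.1 0 0 (1 : Matrix κ' κ' F) := congrArg Subtype.val e
  exact Subtype.ext (Matrix.fromBlocks_inj.mp h1).1

/-- Reindexing of special linear groups. -/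
def reindexSLx {κ κ' : Type*} [Fintype κ] [DecidableEq κ] [Fintype κ'] [DecidableEq κ'] (e : κ ≃ κ') :
    Matrix.SpecialLinearGroup κ F →* Matrix.SpecialLinearGroup κ' F where
  toFun g := ⟨g.1.submatrix e.symm e.symm, by
    rw [Matrix.det_submatrix_equiv_self]; exact g.2⟩
  map_one' := Subtype.ext (by
    change (1 : Matrix κ κ F).submatrix e.symm e.symm = 1
    simp)
  map_mul' g h := Subtype.ext (by
    change (g.1 * h.1).submatrix e.symm e.symm = g.1.submatrix e.symm e.symm * h.1.submatrix e.symm e.symm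
    rw [Matrix.submatrix_mul_equiv])

lemma reindexSLx_inj {κ κ' : Type*} [Fintype κ] [DecidableEq κ] [Fintype κ'] [DecidableEq κ'] (e : κ ≃ κ') :
    Function.Injective (reindexSLx (F := F) e) := by
  intro g h hgh
  have h1 : g.1.submatrix e.symm e.symm = h.1.submatrix e.symm e.symm := congrArg Subtype.val hgh
  apply Subtype.ext
  ext i j
  have h2 := congrFun (congrFun h1 (e i)) (e j)
  simpa using h2

/-- The equivalence of indices for blocks. -/
def blockEquiv (m : ℕ) (hm : 2 ≤ m) : Fin 2 ⊕ Fin (m - 2) ≃ Fin m :=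
  finSumFinEquiv.trans (finCongr (by omega))

/-- The block inclusion of `SL₂` in `SL_m`. -/
def blockSL (m : ℕ) (hm : 2 ≤ m) : SL₂ F →* Matrix.SpecialLinearGroup (Fin m) F :=
  (reindexSLx (blockEquiv m hm)).comp (sumSL (Fin 2) (Fin (m - 2)))

lemma blockSL_inj (m : ℕ) (hm : 2 ≤ m) : Function.Injective (blockSL (F := F) m hm) := by
  intro g h e
  exact sumSL_inj _ _ (reindexSLx_inj (blockEquiv m hm) e)

/-- Permutation matrices of even permutations. -/
def permSL (k : ℕ) : alternatingGroup (Fin k) →* Matrix.SpecialLinearGroup (Fin k) F where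
  toFun σ := ⟨(σ.1⁻¹ : Equiv.Perm (Fin k)).permMatrix F, by
    rw [Matrix.det_permutation, map_inv, Equiv.Perm.mem_alternatingGroup.mp σ.2]
    simp⟩
  map_one' := Subtype.ext (by
    change ((1 : Equiv.Perm (Fin k))⁻¹ : Equiv.Perm (Fin k)).permMatrix F = 1
    simp)
  map_mul' σ τ := Subtype.ext (by
    change ((σ.1 * τ.1)⁻¹ : Equiv.Perm (Fin k)).permMatrix F =
      (σ.1⁻¹ : Equiv.Perm (Fin k)).permMatrix F * (τ.1⁻¹ : Equiv.Perm (Fin k)).permMatrix F
    rw [_root_.mul_inv_rev, Matrix.permMatrix_mul])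

lemma permSL_inj (k : ℕ) : Function.Injective (permSL (F := F) k) := by
  intro σ τ e
  have h1 : (σ.1⁻¹ : Equiv.Perm (Fin k)).permMatrix F = (τ.1⁻¹ : Equiv.Perm (Fin k)).permMatrix F :=
    congrArg Subtype.val e
  have h2 := PEquiv.toMatrix_injective h1
  have h3 : (σ.1⁻¹ : Equiv.Perm (Fin k)) = τ.1⁻¹ := by
    apply Equiv.ext
    intro i
    have h4 := congrFun (congrArg DFunLike.coe h2) i
    simp only [Equiv.toPEquiv_apply] at h4
    exact Option.some_injective _ h4
  exact Subtype.ext (inv_injective h3)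

/-- General form of the consequences of a law. -/
theorem bounds_of_SL {w : FreeGroup ℕ} (hw : w ≠ 1) (Nalt : ℕ)
    (hNalt : ∀ n, Nalt ≤ n → ∃ f : ℕ → alternatingGroup (Fin n), FreeGroup.lift f w ≠ 1)
    {F : Type*} [Field F] [Fintype F] {m : ℕ} (hm : 2 ≤ m) {H : Type*} [Group H]
    (Ψ : Matrix.SpecialLinearGroup (Fin m) F →* H) (hΨ : Function.Injective Ψ)
    (hlaw : IsLaw w (H ⧸ Subgroup.center H)) :
    Fintype.card F < lawBound w ∧ m < Nalt + 4 := by
  constructor
  · by_contra hcon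
    push Not at hcon
    exact not_law_of_sl2 hw (Ψ.comp (blockSL m hm)) (hΨ.comp (blockSL_inj m hm)) hcon hlaw
  · by_contra hcon
    push Not at hcon
    exact not_law_of_alt (by omega) (Ψ.comp (permSL m)) (hΨ.comp (permSL_inj m))
      (hNalt m (by omega)) hlaw

end Block

section Sp

variable {F : Type*} [Field F]

/-- The block map of `SL_m` to the symplectic group. -/
def spHom (m : ℕ) : Matrix.SpecialLinearGroup (Fin m) F →* Matrix.symplecticGroup (Fin m) F where
  toFun A := ⟨fromBlocks A.1 0 0 ((A⁻¹ : Matrix.SpecialLinearGroup (Fin m) F).1)ᵀ, by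
    have h1 : A.1 * (A⁻¹ : Matrix.SpecialLinearGroup (Fin m) F).1 = 1 := by
      rw [← Matrix.SpecialLinearGroup.coe_mul, mul_inv_cancel, Matrix.SpecialLinearGroup.coe_one]
    have h2 : ((A⁻¹ : Matrix.SpecialLinearGroup (Fin m) F).1)ᵀ * A.1ᵀ = 1 := by
      rw [← Matrix.transpose_mul, h1, Matrix.transpose_one]
    rw [SymplecticGroup.mem_iff, Matrix.fromBlocks_transpose]
    simp only [J, Matrix.fromBlocks_multiply, Matrix.mul_zero, Matrix.zero_mul, add_zero, zero_add,
      Matrix.mul_neg, Matrix.mul_one, Matrix.transpose_zero, Matrix.transpose_transpose, h1, h2,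
      Matrix.neg_mul, neg_zero]⟩
  map_one' := Subtype.ext (by
    change fromBlocks (1 : Matrix (Fin m) (Fin m) F) 0 0 (((1 : Matrix.SpecialLinearGroup (Fin m) F)⁻¹ : Matrix.SpecialLinearGroup (Fin m) F).1)ᵀ = 1
    simp)
  map_mul' A B := Subtype.ext (by
    change fromBlocks (A.1 * B.1) 0 0 (((A * B)⁻¹ : Matrix.SpecialLinearGroup (Fin m) F).1)ᵀ =
      fromBlocks A.1 0 0 ((A⁻¹ : Matrix.SpecialLinearGroup (Fin m) F).1)ᵀ *
        fromBlocks B.1 0 0 ((B⁻¹ : Matrix.SpecialLinearGroup (Fin m) F).1)ᵀ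
    rw [_root_.mul_inv_rev, Matrix.SpecialLinearGroup.coe_mul, Matrix.transpose_mul]
    simp [Matrix.fromBlocks_multiply])

lemma spHom_inj (m : ℕ) : Function.Injective (spHom (F := F) m) := by
  intro A B e
  have h1 := congrArg Subtype.val e
  exact Subtype.ext (Matrix.fromBlocks_inj.mp h1).1

end Sp

end Cfsg.Agent.H10
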