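import Mathlib
import Cfsg.Agent.Lib.H10.LawFam

/-! Orthogonal groups contain `SL_m`. -/

set_option autoImplicit false
set_option linter.unusedSectionVars false
set_option linter.unusedSimpArgs false
set_option linter.style.haveILetI false

namespace Cfsg.Agent.H10

open Matrix Cfsg

section Orth

variable {F : Type*} [Field F] {m : ℕ}

/-- The block matrix attached to an element of `SL_m`. -/
def isoBlock (κ : Type) [Fintype κ] [DecidableEq κ] (m : ℕ) (F : Type*) [Field F] :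
    Matrix.SpecialLinearGroup (Fin m) F →* Matrix (κ ⊕ (Fin m ⊕ Fin m)) (κ ⊕ (Fin m ⊕ Fin m)) F where
  toFun A := fromBlocks 1 0 0 (spHom m A).1
  map_one' := by
    rw [map_one]
    change fromBlocks (1 : Matrix κ κ F) 0 0 (1 : Matrix (Fin m ⊕ Fin m) (Fin m ⊕ Fin m) F) = 1
    simp
  map_mul' A B := by
    rw [map_mul]
    change fromBlocks (1 : Matrix κ κ F) 0 0 ((spHom m A).1 * (spHom m B).1) = _
    simp [Matrix.fromBlocks_multiply]

lemma isoBlock_inj (κ : Type) [Fintype κ] [DecidableEq κ] :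
    Function.Injective (isoBlock κ m F) := by
  intro A B e
  have h1 : fromBlocks 1 0 0 (spHom m A).1 = fromBlocks 1 0 0 (spHom m B).1 := e
  have h2 := (Matrix.fromBlocks_inj.mp h1).2.2.2
  exact spHom_inj m (Subtype.ext h2)

lemma isoBlock_mulVec (κ : Type) [Fintype κ] [DecidableEq κ]
    (A : Matrix.SpecialLinearGroup (Fin m) F) (x : κ ⊕ (Fin m ⊕ Fin m) → F) :
    isoBlock κ m F A *ᵥ x = Sum.elim (fun k => x (.inl k))
      (Sum.elim (A.1 *ᵥ (fun i => x (.inr (.inl i))))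
        (((A⁻¹ : Matrix.SpecialLinearGroup (Fin m) F).1)ᵀ *ᵥ (fun i => x (.inr (.inr i))))) := by
  change fromBlocks (1 : Matrix κ κ F) 0 0 (fromBlocks A.1 0 0 ((A⁻¹ : Matrix.SpecialLinearGroup (Fin m) F).1)ᵀ) *ᵥ x = _
  rw [Matrix.fromBlocks_mulVec, Matrix.fromBlocks_mulVec]
  ext i
  rcases i with k | i | i
  · simp [Function.comp_def]
  · simp [Function.comp_def]
  · simp [Function.comp_def]

lemma pairing_invariant (A : Matrix.SpecialLinearGroup (Fin m) F) (y z : Fin m → F) :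
    ∑ i, (A.1 *ᵥ y) i * (((A⁻¹ : Matrix.SpecialLinearGroup (Fin m) F).1)ᵀ *ᵥ z) i = ∑ i, y i * z i := by
  have h1 : (A⁻¹ : Matrix.SpecialLinearGroup (Fin m) F).1 * A.1 = 1 := by
    rw [← Matrix.SpecialLinearGroup.coe_mul, inv_mul_cancel, Matrix.SpecialLinearGroup.coe_one]
  change (A.1 *ᵥ y) ⬝ᵥ (((A⁻¹ : Matrix.SpecialLinearGroup (Fin m) F).1)ᵀ *ᵥ z) = y ⬝ᵥ z
  rw [Matrix.dotProduct_mulVec, Matrix.vecMul_transpose, Matrix.mulVec_mulVec, h1, Matrix.one_mulVec]

/-- Embedding of `SL_m` in `GL_ι`. -/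
noncomputable def isoGL {ι κ : Type} [Fintype ι] [DecidableEq ι] [Fintype κ] [DecidableEq κ]
    (e : κ ⊕ (Fin m ⊕ Fin m) ≃ ι) : Matrix.SpecialLinearGroup (Fin m) F →* Matrix.GeneralLinearGroup ι F :=
  MonoidHom.toHomUnits (((Matrix.reindexAlgEquiv F F e : _ ≃ₐ[F] _) : _ →* _).comp (isoBlock κ m F))

lemma isoGL_val {ι κ : Type} [Fintype ι] [DecidableEq ι] [Fintype κ] [DecidableEq κ]
    (e : κ ⊕ (Fin m ⊕ Fin m) ≃ ι) (A : Matrix.SpecialLinearGroup (Fin m) F) :
    (isoGL e A).1 = (isoBlock κ m F A).submatrix e.symm e.symm := rfl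

lemma isoGL_inj {ι κ : Type} [Fintype ι] [DecidableEq ι] [Fintype κ] [DecidableEq κ]
    (e : κ ⊕ (Fin m ⊕ Fin m) ≃ ι) : Function.Injective (isoGL (F := F) e) := by
  intro A B h
  have h1 : (isoGL e A).1 = (isoGL e B).1 := congrArg Units.val h
  rw [isoGL_val, isoGL_val] at h1
  apply isoBlock_inj κ
  ext i j
  have h2 := congrFun (congrFun h1 (e i)) (e j)
  simpa using h2

theorem exists_omega_embed {ι κ : Type} [Fintype ι] [DecidableEq ι] [Fintype κ] [DecidableEq κ]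
    (e : κ ⊕ (Fin m ⊕ Fin m) ≃ ι) (hm : 3 ≤ m) (Q : (ι → F) → F) (S : (κ → F) → F)
    (hQ : ∀ v, Q v = (∑ i, v (e (.inr (.inl i))) * v (e (.inr (.inr i)))) + S (fun k => v (e (.inl k)))) :
    ∃ Ψ : Matrix.SpecialLinearGroup (Fin m) F →* Omega F Q, Function.Injective Ψ := by
  have hmem : ∀ A, isoGL (F := F) e A ∈ isometryGroup F Q := by
    intro A u _
    change Q ((isoGL e A).1 *ᵥ u) = Q u
    rw [isoGL_val, Matrix.submatrix_mulVec_equiv, hQ, hQ]
    simp only [Equiv.symm_symm, Function.comp_apply, Equiv.symm_apply_apply]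
    rw [isoBlock_mulVec]
    simp only [Sum.elim_inl, Sum.elim_inr, Function.comp_apply]
    rw [pairing_invariant]
  let Ψ₀ : Matrix.SpecialLinearGroup (Fin m) F →* isometryGroup F Q :=
    (isoGL e).codRestrict _ hmem
  have hcomm : ∀ A, Ψ₀ A ∈ Omega F Q := by
    intro A
    have h1 : A ∈ commutator (Matrix.SpecialLinearGroup (Fin m) F) := by
      rw [Cfsg.Agent.Lead.commutator_SL_eq_top (by simpa using hm)]
      trivial
    have h2 := Subgroup.mem_map_of_mem Ψ₀ h1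
    rw [commutator_def, Subgroup.map_commutator] at h2
    exact Subgroup.commutator_mono le_top le_top h2
  refine ⟨Ψ₀.codRestrict _ hcomm, ?_⟩
  intro A B h
  apply isoGL_inj e
  have h1 : Ψ₀ A = Ψ₀ B := congrArg Subtype.val h
  exact congrArg Subtype.val h1

/-- Cardinal bound through matrices. -/
lemma card_quot_le_of_matrix {G H : Type*} [Group G] [Group H] [Fintype F] {κ : Type*} [Fintype κ]
    (e : G ≃* H ⧸ Subgroup.center H) (φ : H → Matrix κ κ F) (hφ : Function.Injective φ)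
    {Q D : ℕ} (hQ : Fintype.card F ≤ Q) (hD : Fintype.card κ ≤ D) (hF : 1 ≤ Q) :
    Nat.card G ≤ Q ^ (D ^ 2) := by
  classical
  have h0 : Finite H := Finite.of_injective φ hφ
  have h1 : Nat.card H ≤ Nat.card (Matrix κ κ F) := Nat.card_le_card_of_injective φ hφ
  have h2 : Nat.card (Matrix κ κ F) = Fintype.card F ^ (Fintype.card κ ^ 2) := by
    rw [Nat.card_eq_fintype_card]
    change Fintype.card (κ → κ → F) = _
    rw [Fintype.card_fun, Fintype.card_fun, pow_two, pow_mul]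
  have h3 : Nat.card G = Nat.card (H ⧸ Subgroup.center H) := Nat.card_congr e.toEquiv
  have h4 : Nat.card (H ⧸ Subgroup.center H) ≤ Nat.card H :=
    Nat.card_le_card_of_surjective _ (QuotientGroup.mk'_surjective (Subgroup.center H))
  rw [h3]
  refine h4.trans (h1.trans ?_)
  rw [h2]
  calc Fintype.card F ^ (Fintype.card κ ^ 2) ≤ Q ^ (Fintype.card κ ^ 2) := Nat.pow_le_pow_left hQ _
    _ ≤ Q ^ (D ^ 2) := Nat.pow_le_pow_right hF (Nat.pow_le_pow_left hD 2)

end Orth

end Cfsg.Agent.H10
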