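import Mathlib
import Cfsg.Agent.Lib.H10.LawOmega

/-! Unitary groups contain `SL₂(q)` and `Alt(n)`. -/

set_option autoImplicit false
set_option linter.unusedSectionVars false
set_option linter.unusedSimpArgs false
set_option linter.style.haveILetI false

namespace Cfsg.Agent.H10

open Matrix Cfsg

local notation "SL₂" => Matrix.SpecialLinearGroup (Fin 2)

section SU

variable {F : Type*} [Field F] {q : ℕ}

/-- Conjugation by an invertible matrix. -/
def conjSLx {n : ℕ} (P : Matrix.GeneralLinearGroup (Fin n) F) :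
    Matrix.SpecialLinearGroup (Fin n) F →* Matrix.SpecialLinearGroup (Fin n) F where
  toFun g := ⟨P.val * g.1 * P.inv, by
    rw [Matrix.det_mul, Matrix.det_mul, g.2, mul_one, ← Matrix.det_mul, P.val_inv, Matrix.det_one]⟩
  map_one' := Subtype.ext (by
    change P.val * 1 * P.inv = 1
    rw [mul_one, P.val_inv])
  map_mul' g h := Subtype.ext (by
    change P.val * (g.1 * h.1) * P.inv = (P.val * g.1 * P.inv) * (P.val * h.1 * P.inv)
    calc P.val * (g.1 * h.1) * P.inv = P.val * g.1 * 1 * h.1 * P.inv := by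
          simp only [Matrix.mul_one, Matrix.mul_assoc]
      _ = P.val * g.1 * (P.inv * P.val) * h.1 * P.inv := by rw [P.inv_val]
      _ = _ := by simp only [Matrix.mul_assoc])

lemma conjSLx_inj {n : ℕ} (P : Matrix.GeneralLinearGroup (Fin n) F) :
    Function.Injective (conjSLx P) := by
  intro g h e
  have h1 : P.val * g.1 * P.inv = P.val * h.1 * P.inv := congrArg Subtype.val e
  apply Subtype.ext
  calc g.1 = (P.inv * P.val) * g.1 * (P.inv * P.val)  := by rw [P.inv_val]; simp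
    _ = P.inv * (P.val * g.1 * P.inv) * P.val := by simp only [Matrix.mul_assoc]
    _ = P.inv * (P.val * h.1 * P.inv) * P.val := by rw [h1]
    _ = (P.inv * P.val) * h.1 * (P.inv * P.val) := by simp only [Matrix.mul_assoc]
    _ = h.1 := by rw [P.inv_val]; simp

lemma herm2_eq (φ : F →+* F) (hφ : ∀ x, x ^ q = φ x) (u v : Fin 2 → F) :
    hermForm 2 F q u v = u 0 * φ (v 0) + u 1 * φ (v 1) := by
  simp [hermForm, Fin.sum_univ_two, hφ]

lemma conj_mem_SU2 (φ : F →+* F) (hφ : ∀ x, x ^ q = φ x) (l₁ l₂ c ω : F)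
    (h1 : 1 + l₁ * φ l₁ = 0) (h2 : 1 + l₂ * φ l₂ = 0)
    (hc1 : φ c * (1 + l₁ * φ l₂) = ω) (hc2 : c * (1 + l₂ * φ l₁) = -ω)
    (P : Matrix.GeneralLinearGroup (Fin 2) F) (hP : P.val = !![1, c; l₁, c * l₂])
    (g : SL₂ F) (hg : ∀ i j, φ (g.1 i j) = g.1 i j) : conjSLx P g ∈ SU 2 F q := by
  have step1 : ∀ x y : Fin 2 → F, hermForm 2 F q (P.val *ᵥ x) (P.val *ᵥ y) =
      ω * (x 0 * φ (y 1) - x 1 * φ (y 0)) := by
    intro x y
    rw [herm2_eq φ hφ, hP]
    simp only [Matrix.mulVec, dotProduct, Fin.sum_univ_two, Matrix.of_apply, Matrix.cons_val',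
      Matrix.cons_val_zero, Matrix.cons_val_one, Matrix.cons_val_fin_one, map_add, map_mul, one_mul,
      Matrix.empty_val', map_one]
    linear_combination (x 0 * φ (y 0)) * h1 + (x 1 * φ (y 1) * c * φ c) * h2 +
      (x 0 * φ (y 1)) * hc1 + (x 1 * φ (y 0)) * hc2
  have step2 : ∀ x y : Fin 2 → F,
      ω * ((g.1 *ᵥ x) 0 * φ ((g.1 *ᵥ y) 1) - (g.1 *ᵥ x) 1 * φ ((g.1 *ᵥ y) 0)) =
      ω * (x 0 * φ (y 1) - x 1 * φ (y 0)) := by
    intro x y
    have hdet : g.1 0 0 * g.1 1 1 - g.1 0 1 * g.1 1 0 = 1 := by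
      have := g.2
      rwa [Matrix.det_fin_two] at this
    simp only [Matrix.mulVec, dotProduct, Fin.sum_univ_two, map_add, map_mul, hg]
    linear_combination (ω * (x 0 * φ (y 1) - x 1 * φ (y 0))) * hdet
  intro u v
  change hermForm 2 F q ((P.val * g.1 * P.inv) *ᵥ u) ((P.val * g.1 * P.inv) *ᵥ v) = hermForm 2 F q u v
  have hu : ∀ u : Fin 2 → F, P.val *ᵥ (P.inv *ᵥ u) = u := by
    intro u
    rw [Matrix.mulVec_mulVec, P.val_inv, Matrix.one_mulVec]
  have hu2 : ∀ u : Fin 2 → F, (P.val * g.1 * P.inv) *ᵥ u = P.val *ᵥ (g.1 *ᵥ (P.inv *ᵥ u)) := by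
    intro u
    simp only [Matrix.mulVec_mulVec, Matrix.mul_assoc]
  rw [hu2, hu2, step1, step2, ← step1, hu, hu]

/-- Existence of the data for the conjugation. -/
theorem exists_unitary_data [Fintype F] (hq : Fintype.card F = q ^ 2) :
    ∃ (φ : F →+* F) (N : F) (l₁ l₂ c ω : F),
      (∀ x, x ^ q = φ x) ∧ (∀ i j : ℕ, i < q - 1 → j < q - 1 → N ^ i = N ^ j → i = j) ∧ φ N = N ∧
      1 + l₁ * φ l₁ = 0 ∧ 1 + l₂ * φ l₂ = 0 ∧ φ c * (1 + l₁ * φ l₂) = ω ∧
      c * (1 + l₂ * φ l₁) = -ω ∧ c * (l₂ - l₁) ≠ 0 := by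
  classical
  have hcardF : 2 ≤ Fintype.card F := Fintype.one_lt_card
  have hq2 : 2 ≤ q := by
    by_contra hcon
    have : q = 0 ∨ q = 1 := by omega
    rcases this with rfl | rfl <;> · rw [hq] at hcardF; norm_num at hcardF
  obtain ⟨n, hp, hn⟩ := FiniteField.card F (ringChar F)
  set p := ringChar F with hpdef
  haveI : Fact p.Prime := ⟨hp⟩
  haveI : CharP F p := ringChar.charP F
  haveI : ExpChar F p := ExpChar.prime hp
  obtain ⟨k, -, hk⟩ := (Nat.dvd_prime_pow hp).mp (show q ∣ p ^ (n : ℕ) from by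
    rw [← hn, hq]; exact dvd_pow_self q (by norm_num))
  let φ : F →+* F := iterateFrobenius F p k
  have hφ : ∀ x, x ^ q = φ x := by
    intro x
    rw [hk]
    exact (iterateFrobenius_def p k x).symm
  have hφφ : ∀ x, φ (φ x) = x := by
    intro x
    rw [← hφ, ← hφ, ← pow_mul, ← pow_two, ← hq, FiniteField.pow_card]
  obtain ⟨g, hg⟩ := IsCyclic.exists_generator (α := Fˣ)
  have hord : orderOf g = q ^ 2 - 1 := by
    rw [orderOf_eq_card_of_forall_mem_zpowers hg, Nat.card_eq_fintype_card, Fintype.card_units, hq]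
  have hfact : q ^ 2 - 1 = (q + 1) * (q - 1) := by
    obtain ⟨r, rfl⟩ : ∃ r, q = r + 1 := ⟨q - 1, by omega⟩
    simp only [Nat.add_sub_cancel]
    have : (r + 1) ^ 2 = (r + 1 + 1) * r + 1 := by ring
    omega
  have hpos : 0 < q - 1 := by omega
  have hgpow : ∀ m : ℕ, g ^ m = 1 ↔ (q + 1) * (q - 1) ∣ m := by
    intro m
    rw [← hfact, ← hord, orderOf_dvd_iff_pow_eq_one]
  let G : F := (g : F)
  have hG : ∀ m : ℕ, G ^ m = 1 ↔ (q + 1) * (q - 1) ∣ m := by
    intro m
    rw [← hgpow m]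
    change ((g : F)) ^ m = 1 ↔ _
    rw [← Units.val_pow_eq_pow_val, Units.val_eq_one]
  -- the element `l₁`
  obtain ⟨s, hs⟩ : ∃ s : ℕ, g ^ s = -1 := by
    have := hg (-1)
    rw [Subgroup.mem_zpowers_iff] at this
    obtain ⟨z, hz⟩ := this
    refine ⟨(z % (orderOf g : ℤ)).toNat, ?_⟩
    have h1 := zpow_mod_orderOf g z
    rw [hz] at h1
    rw [← h1, ← zpow_natCast, Int.toNat_of_nonneg]
    exact Int.emod_nonneg _ (by
      have : 0 < orderOf g := orderOf_pos g
      omega)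
  have hqm1 : ((-1 : Fˣ)) ^ (q - 1) = 1 := by
    have h1 : ((-1 : F)) ^ q = -1 := by rw [hφ, map_neg, map_one]
    have h2 : ((-1 : F)) ^ (q - 1) = 1 := by
      have h3 : (-1 : F) ^ q = (-1) ^ (q - 1) * (-1) := by
        rw [← pow_succ]; congr 1; omega
      rw [h3] at h1
      have h4 : ((-1 : F) ^ (q - 1) - 1) * (-1) = 0 := by linear_combination h1
      have h5 := (mul_eq_zero.mp h4).resolve_right (by simp)
      exact sub_eq_zero.mp h5
    apply Units.ext
    simpa using h2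
  have hdvd : (q + 1) ∣ s := by
    have h1 : g ^ (s * (q - 1)) = 1 := by rw [pow_mul, hs, hqm1]
    have h2 := (hgpow _).mp h1
    rw [mul_comm s] at h2
    rw [mul_comm (q + 1)] at h2
    exact Nat.dvd_of_mul_dvd_mul_left hpos h2
  obtain ⟨t, rfl⟩ := hdvd
  -- the elements
  let l₁ : F := G ^ t
  let ζ : F := G ^ (q - 1)
  have hζ1 : ζ ≠ 1 := by
    intro h
    have h1 := (hG (q - 1)).mp h
    have h2 := Nat.le_of_dvd hpos h1
    have : (q + 1) * (q - 1) ≥ 3 * (q - 1) := Nat.mul_le_mul_right _ (by omega)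
    omega
  have hG0 : G ≠ 0 := Units.ne_zero g
  have hζq : ζ ^ (q + 1) = 1 := by
    change (G ^ (q - 1)) ^ (q + 1) = 1
    rw [← pow_mul, hG]
    rw [mul_comm]
  have hl₁ : l₁ ^ (q + 1) = -1 := by
    change (G ^ t) ^ (q + 1) = -1
    rw [← pow_mul, mul_comm]
    have := congrArg (Units.val) hs
    simpa using this
  have hnorm : ∀ x : F, x * φ x = x ^ (q + 1) := by
    intro x
    rw [← hφ, pow_succ]; ring
  let l₂ : F := l₁ * ζ
  have hl₂ : l₂ ^ (q + 1) = -1 := by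
    change (l₁ * ζ) ^ (q + 1) = -1
    rw [mul_pow, hl₁, hζq, mul_one]
  have hl₁0 : l₁ ≠ 0 := pow_ne_zero _ hG0
  have hl₂0 : l₂ ≠ 0 := mul_ne_zero hl₁0 (pow_ne_zero _ hG0)
  have hl₁₂ : l₂ - l₁ ≠ 0 := by
    intro h
    have h1 : l₁ * (ζ - 1) = 0 := by
      change l₁ * ζ - l₁ = 0 at h
      linear_combination h
    exact (mul_eq_zero.mp h1).elim hl₁0 (fun h2 => hζ1 (sub_eq_zero.mp h2))
  have e1 : 1 + l₁ * φ l₁ = 0 := by rw [hnorm, hl₁]; ring
  have e2 : 1 + l₂ * φ l₂ = 0 := by rw [hnorm, hl₂]; ring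
  let τ : F := 1 + l₁ * φ l₂
  have hτ : τ ≠ 0 := by
    intro h
    have h1 : τ * l₂ = l₂ - l₁ := by
      change (1 + l₁ * φ l₂) * l₂ = l₂ - l₁
      linear_combination l₁ * e2
    rw [h, zero_mul] at h1
    exact hl₁₂ h1.symm
  let ω : F := φ G - G
  have hω : ω ≠ 0 := by
    intro h
    have h1 : φ G = G := sub_eq_zero.mp h
    rw [← hφ] at h1
    apply hζ1
    have h3 : G ^ q = G ^ (q - 1) * G := by
      rw [← pow_succ]; congr 1; omega
    rw [h3] at h1
    exact mul_right_cancel₀ hG0 (h1.trans (one_mul G).symm)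
  have hωφ : φ ω = -ω := by
    change φ (φ G - G) = -(φ G - G)
    rw [map_sub, hφφ]; ring
  let c : F := φ (ω / τ)
  have hc1 : φ c * (1 + l₁ * φ l₂) = ω := by
    change φ (φ (ω / τ)) * τ = ω
    rw [hφφ]
    field_simp
  have hφτ : φ τ = 1 + l₂ * φ l₁ := by
    change φ (1 + l₁ * φ l₂) = _
    rw [map_add, map_one, map_mul, hφφ]; ring
  have hc2 : c * (1 + l₂ * φ l₁) = -ω := by
    rw [← hφτ]
    change φ (ω / τ) * φ τ = -ω
    rw [← map_mul, div_mul_cancel₀ _ hτ, hωφ]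
  have hc0 : c ≠ 0 := by
    intro h
    change φ (ω / τ) = 0 at h
    rw [map_eq_zero] at h
    exact (div_ne_zero hω hτ) h
  refine ⟨φ, G ^ (q + 1), l₁, l₂, c, ω, hφ, ?_, ?_, e1, e2, hc1, hc2, mul_ne_zero hc0 hl₁₂⟩
  · intro i j hi hj h
    have hbound : ∀ i : ℕ, i < q - 1 → (q + 1) * i < q ^ 2 - 1 := by
      intro i hi
      rw [hfact]
      exact Nat.mul_lt_mul_of_pos_left hi (by omega)
    have h1 : g ^ ((q + 1) * i) = g ^ ((q + 1) * j) := by
      apply Units.ext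
      simp only [Units.val_pow_eq_pow_val]
      rw [pow_mul, pow_mul]
      exact h
    have h2 := pow_injOn_Iio_orderOf (by simpa [hord] using hbound i hi)
      (by simpa [hord] using hbound j hj) h1
    exact Nat.eq_of_mul_eq_mul_left (by omega) h2
  · rw [← hφ, ← pow_mul]
    have h1 : (q + 1) * q = (q + 1) * (q - 1) + (q + 1) := by
      obtain ⟨r, rfl⟩ : ∃ r, q = r + 1 := ⟨q - 1, by omega⟩
      simp only [Nat.add_sub_cancel]
      ring
    rw [h1, pow_add, (hG _).mpr (dvd_refl _), one_mul]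

/-- `SL₂` of the fixed field embeds in `SU₂`. -/
theorem exists_sl2_in_su2 [Fintype F] (hq : Fintype.card F = q ^ 2) :
    ∃ F₀ : Subfield F, q - 1 ≤ Nat.card F₀ ∧ ∃ Ψ : SL₂ F₀ →* SL₂ F, Function.Injective Ψ ∧
      ∀ g, Ψ g ∈ SU 2 F q := by
  classical
  obtain ⟨φ, N, l₁, l₂, c, ω, hφ, hN, hφN, h1, h2, hc1, hc2, hne⟩ := exists_unitary_data hq
  let F₀ : Subfield F := φ.eqLocusField (RingHom.id F)
  have hF₀ : ∀ x : F₀, φ x.1 = x.1 := fun x => x.2
  have hNF : ∀ j : ℕ, N ^ j ∈ F₀ := by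
    intro j
    change φ (N ^ j) = RingHom.id F (N ^ j)
    rw [map_pow, hφN]
    rfl
  have hfin : Finite F₀ := inferInstance
  refine ⟨F₀, ?_, ?_⟩
  · have h3 : Function.Injective (fun j : Fin (q - 1) => (⟨N ^ j.1, hNF j.1⟩ : F₀)) := by
      intro i j hij
      have h4 : N ^ i.1 = N ^ j.1 := congrArg Subtype.val hij
      exact Fin.ext (hN _ _ i.2 j.2 h4)
    have h5 := Nat.card_le_card_of_injective _ h3
    simpa using h5
  · let Pm : Matrix (Fin 2) (Fin 2) F := !![1, c; l₁, c * l₂]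
    have hdet : Pm.det ≠ 0 := by
      rw [Matrix.det_fin_two]
      simp only [Pm, Matrix.of_apply, Matrix.cons_val', Matrix.cons_val_zero, Matrix.cons_val_one,
        Matrix.cons_val_fin_one]
      intro h
      apply hne
      linear_combination h
    let P : Matrix.GeneralLinearGroup (Fin 2) F := Matrix.GeneralLinearGroup.mkOfDetNeZero Pm hdet
    refine ⟨(conjSLx P).comp (Matrix.SpecialLinearGroup.map F₀.subtype), ?_, ?_⟩
    · apply (conjSLx_inj P).comp
      intro g h e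
      apply Subtype.ext
      ext i j
      have h6 := congrFun (congrFun (congrArg Subtype.val e) i) j
      exact h6
    · intro g
      apply conj_mem_SU2 φ hφ l₁ l₂ c ω h1 h2 hc1 hc2 P rfl
      intro i j
      exact hF₀ (g.1 i j)

lemma block_mem_SU {n : ℕ} (hn : 2 ≤ n) (h : SL₂ F) (hh : h ∈ SU 2 F q) :
    blockSL n hn h ∈ SU n F q := by
  intro u v
  change hermForm n F q (((fromBlocks h.1 0 0 1).submatrix (blockEquiv n hn).symm (blockEquiv n hn).symm) *ᵥ u)
    (((fromBlocks h.1 0 0 1).submatrix (blockEquiv n hn).symm (blockEquiv n hn).symm) *ᵥ v) = hermForm n F q u v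
  rw [Matrix.submatrix_mulVec_equiv, Matrix.submatrix_mulVec_equiv]
  simp only [Equiv.symm_symm]
  have hsum : ∀ a b : Fin n → F, hermForm n F q a b =
      hermForm 2 F q (fun i => a (blockEquiv n hn (.inl i))) (fun i => b (blockEquiv n hn (.inl i))) +
        ∑ j : Fin (n - 2), a (blockEquiv n hn (.inr j)) * b (blockEquiv n hn (.inr j)) ^ q := by
    intro a b
    unfold hermForm
    rw [← Equiv.sum_comp (blockEquiv n hn), Fintype.sum_sum_type]
  rw [hsum, hsum u v]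
  have h1 := hh (fun i => u (blockEquiv n hn (.inl i))) (fun i => v (blockEquiv n hn (.inl i)))
  change hermForm 2 F q (h.1 *ᵥ _) (h.1 *ᵥ _) = _ at h1
  rw [← h1]
  congr 1
  · congr 1 <;>
    · ext i
      simp [Matrix.fromBlocks_mulVec, Function.comp_def]
  · apply Finset.sum_congr rfl
    intro j _
    simp [Matrix.fromBlocks_mulVec, Function.comp_def]

lemma perm_mem_SU {n : ℕ} (σ : alternatingGroup (Fin n)) : permSL n σ ∈ SU n F q := by
  intro u v
  change hermForm n F q ((σ.1⁻¹ : Equiv.Perm (Fin n)).permMatrix F *ᵥ u)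
    ((σ.1⁻¹ : Equiv.Perm (Fin n)).permMatrix F *ᵥ v) = hermForm n F q u v
  rw [Matrix.permMatrix_mulVec, Matrix.permMatrix_mulVec]
  unfold hermForm
  exact Equiv.sum_comp (σ.1⁻¹ : Equiv.Perm (Fin n)) (fun i => u i * v i ^ q)

/-- A law in `PSU` bounds `q` and the dimension. -/
theorem bounds_of_PSU {w : FreeGroup ℕ} (hw : w ≠ 1) (Nalt : ℕ)
    (hNalt : ∀ n, Nalt ≤ n → ∃ f : ℕ → alternatingGroup (Fin n), FreeGroup.lift f w ≠ 1)
    [Fintype F] {n : ℕ} (hq : Fintype.card F = q ^ 2) (hn : 2 ≤ n)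
    (hlaw : IsLaw w (SU n F q ⧸ Subgroup.center (SU n F q))) :
    q ≤ lawBound w ∧ n < Nalt + 4 := by
  classical
  constructor
  · obtain ⟨F₀, hF₀, Ψ, hΨ, hmem⟩ := exists_sl2_in_su2 hq
    by_contra hcon
    push Not at hcon
    haveI : Fintype F₀ := Fintype.ofFinite _
    have h1 : lawBound w ≤ Fintype.card F₀ := by
      rw [← Nat.card_eq_fintype_card]
      omega
    let Φ : SL₂ F₀ →* SU n F q :=
      ((blockSL n hn).comp Ψ).codRestrict _ (fun g => block_mem_SU hn _ (hmem g))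
    refine not_law_of_sl2 hw Φ ?_ h1 hlaw
    intro g h e
    apply hΨ
    apply blockSL_inj n hn
    exact congrArg Subtype.val e
  · by_contra hcon
    push Not at hcon
    let Φ : alternatingGroup (Fin n) →* SU n F q :=
      (permSL n).codRestrict _ (fun g => perm_mem_SU g)
    refine not_law_of_alt (by omega) Φ ?_ (hNalt n (by omega)) hlaw
    intro g h e
    apply permSL_inj (F := F) n
    exact congrArg Subtype.val e

end SU

end Cfsg.Agent.H10
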