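import Mathlib

set_option autoImplicit false

namespace Cfsg.Agent.H10

open Nat


/-- The `2`-adic valuation of `n!`. -/
noncomputable def wv (n : ℕ) : ℕ := padicValNat 2 n.factorial

lemma wv_zero : wv 0 = 0 := by simp [wv]

lemma wv_one : wv 1 = 0 := by simp [wv]

lemma wv_succ (n : ℕ) : wv (n + 1) = wv n + padicValNat 2 (n + 1) := by
  unfold wv
  rw [Nat.factorial_succ, padicValNat.mul (by omega) (Nat.factorial_ne_zero n), add_comm]

lemma wv_two_mul (n : ℕ) : wv (2 * n) = wv n + n := padicValNat_factorial_mul n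

lemma wv_succ_odd (n : ℕ) : wv (2 * n + 1) = wv (2 * n) := by
  rw [wv_succ]
  have : padicValNat 2 (2 * n + 1) = 0 := by
    apply padicValNat.eq_zero_of_not_dvd
    omega
  omega

lemma wv_mono {a b : ℕ} (h : a ≤ b) : wv a ≤ wv b := by
  induction h with
  | refl => exact le_rfl
  | step _ ih =>
    rw [wv_succ]
    omega

lemma two_pow_wv_dvd (n : ℕ) : 2 ^ wv n ∣ n.factorial := pow_padicValNat_dvd

lemma le_wv_of_dvd {n k : ℕ} (h : 2 ^ k ∣ n.factorial) : k ≤ wv n :=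
  (padicValNat_dvd_iff_le (Nat.factorial_ne_zero n)).1 h

lemma wv_add_le (a b : ℕ) : wv a + wv b ≤ wv (a + b) := by
  apply le_wv_of_dvd
  rw [pow_add]
  exact (mul_dvd_mul (two_pow_wv_dvd a) (two_pow_wv_dvd b)).trans (Nat.factorial_mul_factorial_dvd_factorial_add a b)

lemma wv_four_add_one (k : ℕ) : wv (4 * k + 1) = wv (4 * k) := by
  have := wv_succ_odd (2 * k)
  rwa [show 2 * (2 * k) = 4 * k by ring] at this

lemma wv_four_add_two (k : ℕ) : wv (4 * k + 2) = wv (4 * k) + 1 := by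
  rw [show 4 * k + 2 = 4 * k + 1 + 1 by ring, wv_succ, wv_four_add_one]
  have h : padicValNat 2 (4 * k + 1 + 1) = 1 := by
    rw [show 4 * k + 1 + 1 = 2 * (2 * k + 1) by ring, padicValNat.mul (by omega) (by omega),
      padicValNat.self (by norm_num)]
    have : padicValNat 2 (2 * k + 1) = 0 := by
      apply padicValNat.eq_zero_of_not_dvd
      omega
    omega
  omega

lemma wv_four_add_three (k : ℕ) : wv (4 * k + 3) = wv (4 * k) + 1 := by
  have := wv_succ_odd (2 * k + 1)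
  rw [show 2 * (2 * k + 1) + 1 = 4 * k + 3 by ring, show 2 * (2 * k + 1) = 4 * k + 2 by ring,
    wv_four_add_two] at this
  exact this

lemma wv_four_add_four (k : ℕ) : wv (4 * k) + 3 ≤ wv (4 * k + 4) := by
  rw [show 4 * k + 4 = 4 * k + 3 + 1 by ring, wv_succ, wv_four_add_three]
  have h : 2 ≤ padicValNat 2 (4 * k + 3 + 1) := by
    have h1 : 2 ^ 2 ∣ 4 * k + 3 + 1 := ⟨k + 1, by ring⟩
    exact (padicValNat_dvd_iff_le (by omega)).1 h1
  omega

/-- The coefficient function. -/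
def ffv : ℕ → ℕ
  | 0 => 1
  | 1 => 1
  | 2 => 2
  | _ => 3

/-- The bound for nilpotent subgroups of the symmetric group. -/
noncomputable def BBv (n : ℕ) : ℕ := ffv (n % 4) * 2 ^ wv (4 * (n / 4))

lemma BBv_eq (k r : ℕ) (hr : r < 4) : BBv (4 * k + r) = ffv r * 2 ^ wv (4 * k) := by
  unfold BBv
  have h1 : (4 * k + r) % 4 = r := by omega
  have h2 : (4 * k + r) / 4 = k := by omega
  rw [h1, h2]

lemma BBv_mul (a b : ℕ) : BBv a * BBv b ≤ BBv (a + b) := by
  obtain ⟨k, r, hr, rfl⟩ : ∃ k r, r < 4 ∧ a = 4 * k + r := ⟨a / 4, a % 4, Nat.mod_lt _ (by norm_num), by omega⟩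
  obtain ⟨l, s, hs, rfl⟩ : ∃ k r, r < 4 ∧ b = 4 * k + r := ⟨b / 4, b % 4, Nat.mod_lt _ (by norm_num), by omega⟩
  rw [BBv_eq k r hr, BBv_eq l s hs]
  have hadd := wv_add_le (4 * k) (4 * l)
  rw [show 4 * k + 4 * l = 4 * (k + l) by ring] at hadd
  have hp : 2 ^ wv (4 * k) * 2 ^ wv (4 * l) ≤ 2 ^ wv (4 * (k + l)) := by
    rw [← pow_add]
    exact Nat.pow_le_pow_right (by norm_num) hadd
  by_cases hrs : r + s < 4
  · rw [show 4 * k + r + (4 * l + s) = 4 * (k + l) + (r + s) by ring, BBv_eq _ _ hrs]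
    have h1 : ffv r * ffv s ≤ ffv (r + s) := by
      interval_cases r <;> interval_cases s <;> simp_all [ffv]
    calc ffv r * 2 ^ wv (4 * k) * (ffv s * 2 ^ wv (4 * l))
        = (ffv r * ffv s) * (2 ^ wv (4 * k) * 2 ^ wv (4 * l)) := by ring
      _ ≤ _ := Nat.mul_le_mul h1 hp
  · rw [show 4 * k + r + (4 * l + s) = 4 * (k + l + 1) + (r + s - 4) by omega, BBv_eq _ _ (by omega)]
    have h2 := wv_four_add_four (k + l)
    rw [show 4 * (k + l) + 4 = 4 * (k + l + 1) by ring] at h2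
    have h3 : 8 * 2 ^ wv (4 * (k + l)) ≤ 2 ^ wv (4 * (k + l + 1)) := by
      calc 8 * 2 ^ wv (4 * (k + l)) = 2 ^ (wv (4 * (k + l)) + 3) := by ring
        _ ≤ _ := Nat.pow_le_pow_right (by norm_num) h2
    have h1 : ffv r * ffv s ≤ 8 * ffv (r + s - 4) := by
      interval_cases r <;> interval_cases s <;> simp_all [ffv]
    calc ffv r * 2 ^ wv (4 * k) * (ffv s * 2 ^ wv (4 * l))
        = (ffv r * ffv s) * (2 ^ wv (4 * k) * 2 ^ wv (4 * l)) := by ring
      _ ≤ (8 * ffv (r + s - 4)) * 2 ^ wv (4 * (k + l)) := Nat.mul_le_mul h1 hp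
      _ = ffv (r + s - 4) * (8 * 2 ^ wv (4 * (k + l))) := by ring
      _ ≤ _ := Nat.mul_le_mul_left _ h3

lemma BBv_zero : BBv 0 = 1 := by
  have := BBv_eq 0 0 (by norm_num)
  simpa [wv_zero, ffv] using this

lemma BBv_one : BBv 1 = 1 := by
  have := BBv_eq 0 1 (by norm_num)
  simpa [wv_zero, ffv] using this

lemma BBv_pos (n : ℕ) : 0 < BBv n := by
  unfold BBv
  have : 0 < ffv (n % 4) := by
    have : n % 4 < 4 := Nat.mod_lt _ (by norm_num)
    interval_cases (n % 4) <;> simp [ffv]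
  positivity

lemma BBv_mono {a b : ℕ} (h : a ≤ b) : BBv a ≤ BBv b := by
  induction h with
  | refl => exact le_rfl
  | @step m _ ih =>
    refine ih.trans ?_
    have := BBv_mul m 1
    rwa [BBv_one, mul_one] at this

lemma BBv_of_not_three {n : ℕ} (hn : n % 4 ≠ 3) : BBv n = 2 ^ wv n := by
  obtain ⟨k, r, hr, rfl⟩ : ∃ k r, r < 4 ∧ n = 4 * k + r := ⟨n / 4, n % 4, Nat.mod_lt _ (by norm_num), by omega⟩
  rw [BBv_eq k r hr]
  have hr3 : r ≠ 3 := by omega
  interval_cases r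
  · simp [ffv]
  · simp [ffv, wv_four_add_one]
  · simp only [ffv, wv_four_add_two]; ring
  · exact absurd rfl hr3

lemma BBv_of_three {n : ℕ} (hn : n % 4 = 3) : BBv n = 3 * 2 ^ wv (n - 3) := by
  obtain ⟨k, rfl⟩ : ∃ k, n = 4 * k + 3 := ⟨n / 4, by omega⟩
  rw [BBv_eq k 3 (by norm_num), Nat.add_sub_cancel]
  rfl

lemma two_pow_le_BBv (n : ℕ) : 2 ^ wv n ≤ BBv n := by
  by_cases hn : n % 4 = 3
  · rw [BBv_of_three hn]
    obtain ⟨k, rfl⟩ : ∃ k, n = 4 * k + 3 := ⟨n / 4, by omega⟩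
    rw [wv_four_add_three, Nat.add_sub_cancel, pow_succ]
    have h0 : 0 < 2 ^ wv (4 * k) := by positivity
    nlinarith
  · rw [BBv_of_not_three hn]

/-- Legendre's bound. -/
lemma two_pow_le_mul_wv (n : ℕ) (hn : 1 ≤ n) : 2 ^ n ≤ 2 * n * 2 ^ wv n := by
  induction n using Nat.strong_induction_on with
  | _ n ih =>
    obtain ⟨m, h | h⟩ : ∃ m, n = 2 * m ∨ n = 2 * m + 1 := ⟨n / 2, by omega⟩
    · subst h
      have := ih m (by omega) (by omega)
      rw [wv_two_mul, pow_add, two_mul m, pow_add]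
      have h2 : 0 < 2 ^ wv m * 2 ^ m := by positivity
      calc 2 ^ m * 2 ^ m ≤ (2 * m * 2 ^ wv m) * 2 ^ m := Nat.mul_le_mul_right _ this
        _ = 2 * m * (2 ^ wv m * 2 ^ m) := by ring
        _ ≤ _ := Nat.mul_le_mul_right _ (by omega)
    · subst h
      by_cases hm : m = 0
      · subst hm
        simp [wv_one]
      have := ih m (by omega) (by omega)
      rw [wv_succ_odd, wv_two_mul, pow_succ, pow_add, two_mul m, pow_add]
      have h2 : 0 < 2 ^ wv m * 2 ^ m := by positivity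
      calc 2 ^ m * 2 ^ m * 2 ≤ (2 * m * 2 ^ wv m) * 2 ^ m * 2 := Nat.mul_le_mul_right _ (Nat.mul_le_mul_right _ this)
        _ = 2 * (2 * m) * (2 ^ wv m * 2 ^ m) := by ring
        _ ≤ _ := Nat.mul_le_mul_right _ (by omega)

/-- `v_p` of factorials of powers of `p`. -/
lemma vp_succ (p : ℕ) [Fact p.Prime] (a : ℕ) :
    padicValNat p (p ^ (a + 1)).factorial = padicValNat p (p ^ a).factorial + p ^ a := by
  rw [pow_succ', padicValNat_factorial_mul]

lemma vp_one (p : ℕ) [Fact p.Prime] : padicValNat p (p ^ 1).factorial = 1 := by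
  have := vp_succ p 0
  simpa using this

lemma two_mul_sq_le {p : ℕ} (hp : 7 ≤ p) : 2 * p * p ≤ 2 ^ p := by
  induction p, hp using Nat.le_induction with
  | base => norm_num
  | succ m hm ih =>
    rw [pow_succ]
    nlinarith

lemma six_mul_le {p : ℕ} (hp : 5 ≤ p) : 3 * (2 * p) ≤ 2 ^ p := by
  induction p, hp using Nat.le_induction with
  | base => norm_num
  | succ m hm ih =>
    rw [pow_succ]
    nlinarith

lemma three_step {m : ℕ} (hm : 4 ≤ m) : 3 * 6 ^ m ≤ 8 ^ m := by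
  induction m, hm using Nat.le_induction with
  | base => norm_num
  | succ m hm ih =>
    rw [pow_succ, pow_succ]
    nlinarith [Nat.pow_pos (n := m) (show 0 < 6 by norm_num)]

/-- The inductive step of the numerical bound for `p ≥ 5`. -/
lemma num_step (p : ℕ) [Fact p.Prime] (hp : 5 ≤ p) (a : ℕ) (ha : 1 ≤ a)
    (h : p ^ padicValNat p (p ^ a).factorial * (2 * p ^ a) ≤ 2 ^ (p ^ a)) :
    p ^ padicValNat p (p ^ (a + 1)).factorial * (2 * p ^ (a + 1)) ≤ 2 ^ (p ^ (a + 1)) := by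
  rw [vp_succ, pow_add]
  set m := p ^ a with hm
  set P := padicValNat p (p ^ a).factorial with hP
  have hpm : p ≤ m := by
    calc p = p ^ 1 := (pow_one p).symm
      _ ≤ p ^ a := Nat.pow_le_pow_right (by omega) ha
  have h1 : 3 ^ m * (2 * p) ^ m ≤ (2 ^ p) ^ m := by
    rw [← mul_pow]
    exact Nat.pow_le_pow_left (six_mul_le hp) m
  have h2 : p < 3 ^ m := lt_of_le_of_lt hpm (Nat.lt_pow_self (by norm_num))
  have e1 : 2 ^ (p ^ (a + 1)) = (2 ^ p) ^ m := by
    rw [← pow_mul, pow_succ', hm]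
  rw [e1]
  have e2 : 2 * p ^ (a + 1) = p * (2 * m) := by
    rw [pow_succ', hm]; ring
  rw [e2]
  calc p ^ P * p ^ m * (p * (2 * m)) = p * p ^ m * (p ^ P * (2 * m)) := by ring
    _ ≤ p * p ^ m * 2 ^ m := Nat.mul_le_mul_left _ h
    _ = p * (2 * p) ^ m := by rw [mul_pow]; ring
    _ ≤ 3 ^ m * (2 * p) ^ m := Nat.mul_le_mul_right _ h2.le
    _ ≤ _ := h1

lemma num_main_seven (p : ℕ) [Fact p.Prime] (hp : 7 ≤ p) (a : ℕ) (ha : 1 ≤ a) :
    p ^ padicValNat p (p ^ a).factorial * (2 * p ^ a) ≤ 2 ^ (p ^ a) := by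
  induction a, ha using Nat.le_induction with
  | base =>
    rw [vp_one]
    simp only [pow_one]
    have := two_mul_sq_le hp
    nlinarith
  | succ a ha ih => exact num_step p (by omega) a ha ih

lemma num_main_five (a : ℕ) (ha : 2 ≤ a) :
    haveI : Fact (Nat.Prime 5) := ⟨by norm_num⟩
    5 ^ padicValNat 5 (5 ^ a).factorial * (2 * 5 ^ a) ≤ 2 ^ (5 ^ a) := by
  haveI : Fact (Nat.Prime 5) := ⟨by norm_num⟩
  induction a, ha using Nat.le_induction with
  | base =>
    have h1 := vp_succ 5 1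
    rw [vp_one] at h1
    rw [show 2 = 1 + 1 from rfl, h1]
    norm_num
  | succ a ha ih => exact num_step 5 (by omega) a (by omega) ih

lemma num_main_three (a : ℕ) (ha : 3 ≤ a) :
    haveI : Fact (Nat.Prime 3) := ⟨by norm_num⟩
    3 ^ padicValNat 3 (3 ^ a).factorial * (2 * 3 ^ a) ≤ 2 ^ (3 ^ a) := by
  haveI : Fact (Nat.Prime 3) := ⟨by norm_num⟩
  induction a, ha using Nat.le_induction with
  | base =>
    have h1 := vp_succ 3 1
    have h2 := vp_succ 3 2
    rw [vp_one] at h1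
    rw [show 1 + 1 = 2 from rfl] at h1
    rw [h1] at h2
    rw [show 3 = 2 + 1 from rfl, h2]
    norm_num
  | succ a ha ih =>
    rw [vp_succ, pow_add]
    set m := 3 ^ a with hm
    set P := padicValNat 3 (3 ^ a).factorial with hP
    have hm4 : 4 ≤ m := by
      calc 4 ≤ 3 ^ 2 := by norm_num
        _ ≤ 3 ^ a := Nat.pow_le_pow_right (by norm_num) (by omega)
    have e1 : 2 ^ (3 ^ (a + 1)) = 8 ^ m := by
      rw [pow_succ', pow_mul, hm]; norm_num
    rw [e1]
    have e2 : 2 * 3 ^ (a + 1) = 3 * (2 * m) := by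
      rw [pow_succ', hm]; ring
    rw [e2]
    calc 3 ^ P * 3 ^ m * (3 * (2 * m)) = 3 * 3 ^ m * (3 ^ P * (2 * m)) := by ring
      _ ≤ 3 * 3 ^ m * 2 ^ m := Nat.mul_le_mul_left _ ih
      _ = 3 * 6 ^ m := by rw [show (6 : ℕ) = 3 * 2 by norm_num, mul_pow]; ring
      _ ≤ _ := three_step hm4

/-- The numerical bound for `p`-groups, `p` odd. -/
theorem odd_pow_le_BBv (p : ℕ) [Fact p.Prime] (hp : p ≠ 2) (a : ℕ) (ha : 1 ≤ a) :
    p ^ padicValNat p (p ^ a).factorial ≤ BBv (p ^ a) := by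
  have hpp : p.Prime := Fact.out
  have h3 : 3 ≤ p := by
    have := hpp.two_le
    omega
  have key : ∀ n, 1 ≤ n → ∀ x, x * (2 * n) ≤ 2 ^ n → x ≤ BBv n := by
    intro n hn x hx
    refine le_trans ?_ (two_pow_le_BBv n)
    have h1 := two_pow_le_mul_wv n hn
    have h2 : x * (2 * n) ≤ 2 ^ wv n * (2 * n) := by
      calc x * (2 * n) ≤ 2 ^ n := hx
        _ ≤ 2 * n * 2 ^ wv n := h1
        _ = _ := by ring
    exact Nat.le_of_mul_le_mul_right h2 (by omega)
  by_cases h7 : 7 ≤ p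
  · exact key _ (Nat.one_le_pow _ _ hpp.pos) _ (num_main_seven p h7 a ha)
  have hcases : p = 3 ∨ p = 5 := by
    have hp4 : p ≠ 4 := fun h => by subst h; norm_num at hpp
    have hp6 : p ≠ 6 := fun h => by subst h; norm_num at hpp
    omega
  have hw2 : wv 2 = 1 := by
    have := wv_two_mul 1
    simpa [wv_one] using this
  have hw4 : wv 4 = 3 := by
    have := wv_two_mul 2
    simpa [hw2] using this
  have hw8 : wv 8 = 7 := by
    have := wv_two_mul 4
    simpa [hw4] using this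
  rcases hcases with rfl | rfl
  · by_cases ha3 : 3 ≤ a
    · exact key _ (Nat.one_le_pow _ _ hpp.pos) _ (num_main_three a ha3)
    have h1 := vp_succ 3 1
    rw [vp_one] at h1
    have hcases : a = 1 ∨ a = 2 := by omega
    rcases hcases with rfl | rfl
    · rw [vp_one]
      have := BBv_eq 0 3 (by norm_num)
      simp only [mul_zero, zero_add, wv_zero, pow_zero, mul_one] at this
      simp only [pow_one]
      rw [this]
      simp [ffv]
    · rw [show 2 = 1 + 1 from rfl, h1]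
      have := BBv_eq 2 1 (by norm_num)
      norm_num at this ⊢
      rw [this, hw8]
      simp [ffv]
  · by_cases ha3 : 2 ≤ a
    · exact key _ (Nat.one_le_pow _ _ hpp.pos) _ (num_main_five a ha3)
    have : a = 1 := by omega
    subst this
    rw [vp_one]
    have := BBv_eq 1 1 (by norm_num)
    norm_num at this ⊢
    rw [this, hw4]
    simp [ffv]

end Cfsg.Agent.H10
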