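import Mathlib
import Cfsg.Agent.Lib.H10.NilpNum
import Cfsg.Agent.Lib.H13.CharP

set_option autoImplicit false

namespace Cfsg.Agent.H10

open Equiv

/-- Restriction to an invariant predicate. -/
def resHomN {Ω H : Type} [Group H] (φ : H →* Perm Ω) (p : Ω → Prop) (hp : ∀ h z, p (φ h z) ↔ p z) :
    H →* Perm {z // p z} where
  toFun h := (φ h).subtypePerm (hp h)
  map_one' := by ext z; simp
  map_mul' a b := by
    apply Equiv.ext
    intro z
    apply Subtype.ext
    show φ (a * b) z = φ a (φ b z)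
    rw [map_mul]
    rfl

lemma resHomN_apply {Ω H : Type} [Group H] (φ : H →* Perm Ω) (p : Ω → Prop) (hp : ∀ h z, p (φ h z) ↔ p z)
    (h : H) (z : {z // p z}) : ((resHomN φ p hp h z : {z // p z}) : Ω) = φ h z := rfl

/-- The orbit predicate. -/
def orbP {Ω K : Type} [Group K] (φ : K →* Perm Ω) (x z : Ω) : Prop := ∃ k, φ k x = z

lemma orbP_inv {Ω K : Type} [Group K] (φ : K →* Perm Ω) (x : Ω) (h : K) (z : Ω) :
    orbP φ x (φ h z) ↔ orbP φ x z := by
  constructor
  · rintro ⟨k, hk⟩
    refine ⟨h⁻¹ * k, ?_⟩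
    rw [map_mul, Perm.mul_apply, hk, map_inv]
    simp
  · rintro ⟨k, rfl⟩
    exact ⟨h * k, by rw [map_mul, Perm.mul_apply]⟩

lemma orbP_self {Ω K : Type} [Group K] (φ : K →* Perm Ω) (x : Ω) : orbP φ x x := ⟨1, by simp⟩

/-- Coprime orders: stabilizers split. -/
lemma fix_of_coprime {Ω H : Type} [Group H] [Finite H] (φ : H →* Perm Ω) (A B : Subgroup H) (x : Ω)
    (hcomm : ∀ a ∈ A, ∀ b ∈ B, a * b = b * a) (hcop : Nat.Coprime (Nat.card A) (Nat.card B))
    {a b : H} (ha : a ∈ A) (hb : b ∈ B) (h : φ (a * b) x = x) : φ a x = x := by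
  set m := Nat.card B with hm
  have hbm : b ^ m = 1 := by
    have := pow_card_eq_one' (G := B) (x := ⟨b, hb⟩)
    exact congrArg Subtype.val this
  have hpow : (a * b) ^ m = a ^ m := by
    rw [(show Commute a b from hcomm a ha b hb).mul_pow, hbm, mul_one]
  have h1 : φ (a ^ m) x = x := by
    rw [← hpow, map_pow]
    exact Function.IsFixedPt.perm_pow h m
  have hcop' : Nat.Coprime m (orderOf a) :=
    (hcop.coprime_dvd_left (Subgroup.orderOf_dvd_natCard A ha)).symm
  obtain ⟨k, hk⟩ := exists_pow_eq_self_of_coprime hcop'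
  rw [← hk, map_pow]
  exact Function.IsFixedPt.perm_pow h1 k

/-- `|Δ_A| |Δ_B| ≤ |Ω|`. -/
lemma card_orbits_le {Ω H : Type} [Finite Ω] [Group H] [Finite H] (φ : H →* Perm Ω) (A B : Subgroup H) (x : Ω)
    (hcomm : ∀ a ∈ A, ∀ b ∈ B, a * b = b * a) (hcop : Nat.Coprime (Nat.card A) (Nat.card B)) :
    Nat.card {z // orbP (φ.comp A.subtype) x z} * Nat.card {z // orbP (φ.comp B.subtype) x z} ≤ Nat.card Ω := by
  classical
  have hA : ∀ z : {z // orbP (φ.comp A.subtype) x z}, ∃ a : A, φ a x = z := fun z => z.2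
  have hB : ∀ z : {z // orbP (φ.comp B.subtype) x z}, ∃ a : B, φ a x = z := fun z => z.2
  choose ga hga using hA
  choose gb hgb using hB
  rw [← Nat.card_prod]
  apply Nat.card_le_card_of_injective (fun u => φ (ga u.1) (φ (gb u.2) x))
  rintro ⟨z, w⟩ ⟨z', w'⟩ h
  simp only at h
  set a : H := (ga z).1
  set a' : H := (ga z').1
  set b : H := (gb w).1
  set b' : H := (gb w').1
  have ha : a ∈ A := (ga z).2
  have ha' : a' ∈ A := (ga z').2
  have hb : b ∈ B := (gb w).2
  have hb' : b' ∈ B := (gb w').2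
  have hα : a'⁻¹ * a ∈ A := A.mul_mem (A.inv_mem ha') ha
  have hβ : b'⁻¹ * b ∈ B := B.mul_mem (B.inv_mem hb') hb
  have e1 : φ ((a'⁻¹ * a) * (b'⁻¹ * b)) x = x := by
    have e2 : (a'⁻¹ * a) * (b'⁻¹ * b) = b'⁻¹ * (a'⁻¹ * (a * b)) := by
      have := hcomm _ hα _ (B.inv_mem hb')
      rw [← mul_assoc, this]
      group
    rw [e2, map_mul, map_mul, map_mul, Perm.mul_apply, Perm.mul_apply, Perm.mul_apply, h, map_inv, map_inv]
    simp
  have e3 : φ (a'⁻¹ * a) x = x := fix_of_coprime φ A B x hcomm hcop hα hβ e1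
  have e4 : φ (b'⁻¹ * b) x = x := by
    have e5 : (b'⁻¹ * b) * (a'⁻¹ * a) = (a'⁻¹ * a) * (b'⁻¹ * b) := (hcomm _ hα _ hβ).symm
    refine fix_of_coprime φ B A x (fun u hu v hv => (hcomm v hv u hu).symm) hcop.symm hβ hα ?_
    rw [e5]
    exact e1
  have e6 : φ a x = φ a' x := by
    rw [map_mul, Perm.mul_apply, map_inv, Perm.inv_eq_iff_eq] at e3
    exact e3
  have e7 : φ b x = φ b' x := by
    rw [map_mul, Perm.mul_apply, map_inv, Perm.inv_eq_iff_eq] at e4
    exact e4
  have e8 : z = z' := Subtype.ext (by rw [← hga z, ← hga z']; exact e6)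
  have e9 : w = w' := Subtype.ext (by rw [← hgb w, ← hgb w']; exact e7)
  rw [e8, e9]

/-- Faithfulness on an orbit of a normal factor. -/
lemma injective_orbit {Ω H : Type} [Group H] (φ : H →* Perm Ω) (hφ : Function.Injective φ)
    (A B : Subgroup H) (x : Ω) (hcomm : ∀ a ∈ A, ∀ b ∈ B, a * b = b * a)
    (hy : ∀ y, ∃ a ∈ A, ∃ b ∈ B, φ b (φ a x) = y) :
    Function.Injective (resHomN (φ.comp A.subtype) (orbP (φ.comp A.subtype) x) (orbP_inv _ x)) := by
  intro a a' h
  apply Subtype.ext
  apply hφ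
  apply Equiv.ext
  intro y
  obtain ⟨c, hc, b, hb, rfl⟩ := hy y
  have e1 : φ a (φ c x) = φ a' (φ c x) := by
    have hmem : orbP (φ.comp A.subtype) x (φ c x) := ⟨⟨c, hc⟩, rfl⟩
    have := congrArg (fun f => ((f ⟨_, hmem⟩ : {z // orbP (φ.comp A.subtype) x z}) : Ω)) h
    exact this
  have comm : ∀ a₀ ∈ A, ∀ z, φ a₀ (φ b z) = φ b (φ a₀ z) := by
    intro a₀ h₀ z
    rw [← Perm.mul_apply, ← Perm.mul_apply, ← map_mul, ← map_mul, hcomm a₀ h₀ b hb]
  rw [comm a a.2, comm a' a'.2, e1]

/-- The main bound: a nilpotent group acting faithfully on `n` points has order at most `BBv n`. -/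
theorem nilp_card_le : ∀ (n : ℕ) (Ω H : Type) [Finite Ω] [Group H] [Finite H] [Group.IsNilpotent H]
    (φ : H →* Perm Ω), Function.Injective φ → Nat.card Ω = n → Nat.card H ≤ BBv n := by
  intro n
  induction n using Nat.strong_induction_on with
  | _ n ih =>
  intro Ω H _ _ _ _ φ hφ hn
  classical
  have intrans : ∀ (p : Ω → Prop) (hp : ∀ h z, p (φ h z) ↔ p z), (∃ x, p x) → (∃ y, ¬ p y) →
      Nat.card H ≤ BBv n := by
    rintro p hp ⟨x, hx⟩ ⟨y, hy⟩
    have hcard : Nat.card {z // p z} + Nat.card {z // ¬ p z} = n := by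
      rw [← hn, ← Nat.card_sum, Nat.card_congr (Equiv.sumCompl p)]
    have ha : 0 < Nat.card {z // p z} := by
      haveI : Nonempty {z // p z} := ⟨⟨x, hx⟩⟩
      exact Nat.card_pos
    have hb : 0 < Nat.card {z // ¬ p z} := by
      haveI : Nonempty {z // ¬ p z} := ⟨⟨y, hy⟩⟩
      exact Nat.card_pos
    let ρ := resHomN φ p hp
    haveI : Group.IsNilpotent ρ.range :=
      nilpotent_of_surjective ρ.rangeRestrict ρ.rangeRestrict_surjective
    have h1 : Nat.card ρ.range ≤ BBv (Nat.card {z // p z}) :=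
      ih _ (by omega) {z // p z} ρ.range ρ.range.subtype Subtype.val_injective rfl
    let K := ρ.ker
    let σ := resHomN (φ.comp K.subtype) (fun z => ¬ p z) (fun h z => not_congr (hp h z))
    have hσ : Function.Injective σ := by
      intro a b hab
      apply Subtype.ext
      apply hφ
      apply Equiv.ext
      intro z
      by_cases hz : p z
      · have ha' : ρ a = 1 := a.2
        have hb' : ρ b = 1 := b.2
        have e1 := congrArg (fun f => ((f ⟨z, hz⟩ : {z // p z}) : Ω)) (ha'.trans hb'.symm)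
        exact e1
      · have := congrArg (fun f => ((f ⟨z, hz⟩ : {z // ¬ p z}) : Ω)) hab
        exact this
    have h2 : Nat.card K ≤ BBv (Nat.card {z // ¬ p z}) :=
      ih _ (by omega) {z // ¬ p z} K σ hσ rfl
    have h3 : Nat.card H = Nat.card K * Nat.card ρ.range := by
      rw [← Subgroup.index_ker ρ, Subgroup.card_mul_index]
    rw [h3]
    calc _ ≤ BBv (Nat.card {z // ¬ p z}) * BBv (Nat.card {z // p z}) := Nat.mul_le_mul h2 h1
      _ ≤ BBv (Nat.card {z // ¬ p z} + Nat.card {z // p z}) := BBv_mul _ _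
      _ = BBv n := by rw [add_comm, hcard]
  by_cases htriv : Nat.card H = 1
  · rw [htriv]
    exact BBv_pos n
  have hne : Nonempty Ω := by
    by_contra hemp
    rw [not_nonempty_iff] at hemp
    haveI : Subsingleton H := hφ.subsingleton
    exact htriv Nat.card_unique
  obtain ⟨x⟩ := hne
  by_cases htrans : ∀ y, orbP φ x y
  swap
  · push Not at htrans
    obtain ⟨y, hy⟩ := htrans
    exact intrans (orbP φ x) (orbP_inv φ x) ⟨x, orbP_self φ x⟩ ⟨y, hy⟩
  by_cases hpp : ∃ q k, q.Prime ∧ Nat.card H = q ^ k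
  · obtain ⟨q, k, hq, hk⟩ := hpp
    haveI : Fact q.Prime := ⟨hq⟩
    have hdvd : n ∣ Nat.card H := by
      letI : MulAction H Ω := MulAction.compHom Ω φ
      have h0 : MulAction.orbit H x = Set.univ := by
        ext y
        simp only [Set.mem_univ, iff_true]
        obtain ⟨h, hh⟩ := htrans y
        exact ⟨h, hh⟩
      have h2 := MulAction.index_stabilizer H x
      rw [h0, Set.ncard_univ, hn] at h2
      rw [← h2]
      exact Subgroup.index_dvd_card _
    rw [hk] at hdvd
    obtain ⟨a, -, ha⟩ := (Nat.dvd_prime_pow hq).1 hdvd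
    have hfact : q ^ k ∣ n.factorial := by
      have := Subgroup.card_dvd_of_injective φ hφ
      rwa [Nat.card_perm, hn, hk] at this
    have hle : k ≤ padicValNat q n.factorial := (padicValNat_dvd_iff_le (Nat.factorial_ne_zero n)).1 hfact
    have hpw : q ^ k ≤ q ^ padicValNat q n.factorial := Nat.pow_le_pow_right hq.pos hle
    rw [hk]
    by_cases hq2 : q = 2
    · subst hq2
      exact hpw.trans (two_pow_le_BBv n)
    · refine hpw.trans ?_
      by_cases ha0 : a = 0
      · subst ha0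
        simp only [pow_zero] at ha
        subst ha
        simp only [Nat.factorial_one, Nat.dvd_one] at hfact
        rw [hk, hfact] at htriv
        exact absurd rfl htriv
      · rw [ha]
        exact odd_pow_le_BBv q hq2 a (by omega)
  · -- coprime factorization
    have hq : ((Nat.card H).minFac).Prime := Nat.minFac_prime htriv
    haveI : Fact ((Nat.card H).minFac).Prime := ⟨hq⟩
    obtain ⟨P⟩ : Nonempty (Sylow (Nat.card H).minFac H) := inferInstance
    have hPn : (P : Subgroup H).Normal := inferInstance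
    obtain ⟨Q, hQ⟩ := Subgroup.exists_right_complement'_of_coprime P.card_coprime_index
    have hcard := hQ.card_mul_card
    have hcard2 := Subgroup.card_mul_index (P : Subgroup H)
    have hcop : Nat.Coprime (Nat.card (P : Subgroup H)) (Nat.card Q) := by
      have h0 : 0 < Nat.card (P : Subgroup H) := Nat.card_pos
      have h1 : (P : Subgroup H).index = Nat.card Q :=
        Nat.eq_of_mul_eq_mul_left h0 (hcard2.trans hcard.symm)
      have := P.card_coprime_index
      rwa [h1] at this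
    have hP1 : Nat.card (P : Subgroup H) ≠ 1 := by
      intro h
      have := P.dvd_card_of_dvd_card (Nat.minFac_dvd (Nat.card H))
      rw [h] at this
      exact hq.one_lt.ne' (Nat.dvd_one.1 this)
    have hQ1 : Nat.card Q ≠ 1 := by
      intro h
      rw [h, mul_one] at hcard
      obtain ⟨k, hk⟩ := IsPGroup.iff_card.1 P.isPGroup'
      exact hpp ⟨(Nat.card H).minFac, k, hq, hcard.symm.trans hk⟩
    have hcomm : ∀ a ∈ (P : Subgroup H), ∀ b ∈ Q, a * b = b * a := by
      intro a ha b hb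
      have h1 : Nat.Coprime (orderOf a) (orderOf b) :=
        Nat.Coprime.coprime_dvd_left (Subgroup.orderOf_dvd_natCard _ ha)
          (Nat.Coprime.coprime_dvd_right (Subgroup.orderOf_dvd_natCard _ hb) hcop)
      exact H13.commute_of_coprime_of_nilpotent H a b h1
    have hprod : ∀ h : H, ∃ a ∈ (P : Subgroup H), ∃ b ∈ Q, h = a * b := by
      intro h
      obtain ⟨⟨u, v⟩, huv, -⟩ := hQ.existsUnique h
      exact ⟨u, u.2, v, v.2, huv.symm⟩
    have hy1 : ∀ y, ∃ a ∈ (P : Subgroup H), ∃ b ∈ Q, φ b (φ a x) = y := by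
      intro y
      obtain ⟨h, rfl⟩ := htrans y
      obtain ⟨a, ha, b, hb, rfl⟩ := hprod h
      refine ⟨a, ha, b, hb, ?_⟩
      rw [← Perm.mul_apply, ← map_mul, hcomm a ha b hb]
    have hy2 : ∀ y, ∃ b ∈ Q, ∃ a ∈ (P : Subgroup H), φ a (φ b x) = y := by
      intro y
      obtain ⟨h, rfl⟩ := htrans y
      obtain ⟨a, ha, b, hb, rfl⟩ := hprod h
      refine ⟨b, hb, a, ha, ?_⟩
      rw [← Perm.mul_apply, ← map_mul]
    have inj1 := injective_orbit φ hφ (P : Subgroup H) Q x hcomm hy1
    have inj2 := injective_orbit φ hφ Q (P : Subgroup H) x (fun u hu v hv => (hcomm v hv u hu).symm) hy2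
    have hst := card_orbits_le φ (P : Subgroup H) Q x hcomm hcop
    set s := Nat.card {z // orbP (φ.comp (P : Subgroup H).subtype) x z} with hs
    set t := Nat.card {z // orbP (φ.comp Q.subtype) x z} with ht
    have hs2 : 2 ≤ s := by
      by_contra hlt
      have h1 : Nat.card {z // orbP (φ.comp (P : Subgroup H).subtype) x z} ≤ 1 := by omega
      haveI : Subsingleton {z // orbP (φ.comp (P : Subgroup H).subtype) x z} :=
        (Finite.card_le_one_iff_subsingleton).1 h1
      haveI : Subsingleton (P : Subgroup H) := inj1.subsingleton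
      exact hP1 Nat.card_unique
    have ht2 : 2 ≤ t := by
      by_contra hlt
      have h1 : Nat.card {z // orbP (φ.comp Q.subtype) x z} ≤ 1 := by omega
      haveI : Subsingleton {z // orbP (φ.comp Q.subtype) x z} :=
        (Finite.card_le_one_iff_subsingleton).1 h1
      haveI : Subsingleton Q := inj2.subsingleton
      exact hQ1 Nat.card_unique
    rw [hn] at hst
    have hsn : s + t ≤ n := by nlinarith
    have h1 : Nat.card (P : Subgroup H) ≤ BBv s :=
      ih s (by omega) _ (P : Subgroup H) _ inj1 rfl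
    have h2 : Nat.card Q ≤ BBv t :=
      ih t (by omega) _ Q _ inj2 rfl
    rw [← hcard]
    calc _ ≤ BBv s * BBv t := Nat.mul_le_mul h1 h2
      _ ≤ BBv (s + t) := BBv_mul _ _
      _ ≤ BBv n := BBv_mono hsn

end Cfsg.Agent.H10
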