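import Mathlib
import Cfsg.Agent.Lib.H10.NilpGrp

set_option autoImplicit false

namespace Cfsg.Agent.H10

open Equiv

/-! ### values -/

lemma wv_2 : wv 2 = 1 := by
  have := wv_two_mul 1
  simpa [wv_one] using this

lemma wv_4 : wv 4 = 3 := by
  have := wv_two_mul 2
  simpa [wv_2] using this

lemma wv_8 : wv 8 = 7 := by
  have := wv_two_mul 4
  simpa [wv_4] using this

lemma wv_3 : wv 3 = 1 := by
  have := wv_succ_odd 1
  simpa [wv_2] using this

lemma wv_6 : wv 6 = 4 := by
  have := wv_two_mul 3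
  simpa [wv_3] using this

lemma wv_12 : wv 12 = 10 := by
  have := wv_two_mul 6
  simpa [wv_6] using this

lemma wv_16 : wv 16 = 15 := by
  have := wv_two_mul 8
  simpa [wv_8] using this

lemma wv_24 : wv 24 = 22 := by
  have := wv_two_mul 12
  simpa [wv_12] using this

lemma BBv_val (k r : ℕ) (n : ℕ) (hn : n = 4 * k + r) (hr : r < 4) : BBv n = ffv r * 2 ^ wv (4 * k) := by
  subst hn
  exact BBv_eq k r hr

lemma BBv_2 : BBv 2 = 2 := by rw [BBv_val 0 2 2 rfl (by norm_num)]; simp [ffv, wv_zero]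
lemma BBv_3 : BBv 3 = 3 := by rw [BBv_val 0 3 3 rfl (by norm_num)]; simp [ffv, wv_zero]
lemma BBv_4 : BBv 4 = 8 := by rw [BBv_val 1 0 4 rfl (by norm_num)]; simp [ffv, wv_4]
lemma BBv_5 : BBv 5 = 8 := by rw [BBv_val 1 1 5 rfl (by norm_num)]; simp [ffv, wv_4]
lemma BBv_6 : BBv 6 = 16 := by rw [BBv_val 1 2 6 rfl (by norm_num)]; simp [ffv, wv_4]
lemma BBv_7 : BBv 7 = 24 := by rw [BBv_val 1 3 7 rfl (by norm_num)]; simp [ffv, wv_4]
lemma BBv_8 : BBv 8 = 128 := by rw [BBv_val 2 0 8 rfl (by norm_num)]; simp [ffv, wv_8]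
lemma BBv_9 : BBv 9 = 128 := by rw [BBv_val 2 1 9 rfl (by norm_num)]; simp [ffv, wv_8]
lemma BBv_10 : BBv 10 = 256 := by rw [BBv_val 2 2 10 rfl (by norm_num)]; simp [ffv, wv_8]
lemma BBv_11 : BBv 11 = 384 := by rw [BBv_val 2 3 11 rfl (by norm_num)]; simp [ffv, wv_8]
lemma BBv_12 : BBv 12 = 1024 := by rw [BBv_val 3 0 12 rfl (by norm_num)]; simp [ffv, wv_12]
lemma BBv_14 : BBv 14 = 2048 := by rw [BBv_val 3 2 14 rfl (by norm_num)]; simp [ffv, wv_12]
lemma BBv_15 : BBv 15 = 3072 := by rw [BBv_val 3 3 15 rfl (by norm_num)]; simp [ffv, wv_12]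
lemma BBv_18 : BBv 18 = 65536 := by rw [BBv_val 4 2 18 rfl (by norm_num)]; simp [ffv, wv_16]
lemma BBv_27 : BBv 27 = 3 * 2 ^ 22 := by rw [BBv_val 6 3 27 rfl (by norm_num)]; simp [ffv, wv_24]

/-- Two nontrivial factors. -/
lemma two_mul_BB_le {s t d : ℕ} (hs : 2 ≤ s) (ht : 2 ≤ t) (hd : s * t ≤ d) :
    2 * (BBv s * BBv t) ≤ BBv d := by
  have h1 := BBv_mul s t
  by_cases h2 : s + t + 2 ≤ s * t
  · have h3 := BBv_mul (s + t) 2
    rw [BBv_2] at h3
    have h4 := BBv_mono (h2.trans hd)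
    nlinarith
  · have hcases : (s = 2 ∧ t = 2) ∨ (s = 2 ∧ t = 3) ∨ (s = 3 ∧ t = 2) := by
      by_contra hcon
      apply h2
      have hs3 : 2 < s ∨ s = 2 := by omega
      rcases hs3 with hs3 | rfl
      · have ht3 : 2 < t ∨ t = 2 := by omega
        rcases ht3 with ht3 | rfl
        · nlinarith
        · omega
      · omega
    rcases hcases with ⟨rfl, rfl⟩ | ⟨rfl, rfl⟩ | ⟨rfl, rfl⟩
    · have := BBv_mono hd
      norm_num [BBv_2] at this ⊢
      rwa [BBv_4] at this
    · have := BBv_mono hd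
      norm_num [BBv_2, BBv_3] at this ⊢
      rw [BBv_6] at this
      omega
    · have := BBv_mono hd
      norm_num [BBv_2, BBv_3] at this ⊢
      rw [BBv_6] at this
      omega

/-! ### numerics for odd prime powers -/

lemma four_mul_sq_le {p : ℕ} (hp : 11 ≤ p) : 4 * p * p ≤ 2 ^ p := by
  induction p, hp using Nat.le_induction with
  | base => norm_num
  | succ m hm ih =>
    rw [pow_succ]
    nlinarith

/-- The inductive step of the refined numerical bound for `p ≥ 5`. -/
lemma num_step' (p : ℕ) [Fact p.Prime] (hp : 5 ≤ p) (a : ℕ) (ha : 1 ≤ a)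
    (h : p ^ padicValNat p (p ^ a).factorial * (4 * p ^ a) ≤ 2 ^ (p ^ a)) :
    p ^ padicValNat p (p ^ (a + 1)).factorial * (4 * p ^ (a + 1)) ≤ 2 ^ (p ^ (a + 1)) := by
  rw [vp_succ, pow_add]
  set m := p ^ a with hm
  set P := padicValNat p (p ^ a).factorial with hP
  have hpm : p ≤ m := by
    calc p = p ^ 1 := (pow_one p).symm
      _ ≤ p ^ a := Nat.pow_le_pow_right (by omega) ha
  have h1 : 3 ^ m * (2 * p) ^ m ≤ (2 ^ p) ^ m := by
    rw [← mul_pow]
    exact Nat.pow_le_pow_left (six_mul_le hp) m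
  have h2 : p < 3 ^ m := lt_of_le_of_lt hpm (Nat.lt_pow_self (by norm_num))
  have e1 : 2 ^ (p ^ (a + 1)) = (2 ^ p) ^ m := by
    rw [← pow_mul, pow_succ', hm]
  rw [e1]
  have e2 : 4 * p ^ (a + 1) = p * (4 * m) := by
    rw [pow_succ', hm]; ring
  rw [e2]
  calc p ^ P * p ^ m * (p * (4 * m)) = p * p ^ m * (p ^ P * (4 * m)) := by ring
    _ ≤ p * p ^ m * 2 ^ m := Nat.mul_le_mul_left _ h
    _ = p * (2 * p) ^ m := by rw [mul_pow]; ring
    _ ≤ 3 ^ m * (2 * p) ^ m := Nat.mul_le_mul_right _ h2.le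
    _ ≤ _ := h1

lemma num_main_eleven (p : ℕ) [Fact p.Prime] (hp : 11 ≤ p) (a : ℕ) (ha : 1 ≤ a) :
    p ^ padicValNat p (p ^ a).factorial * (4 * p ^ a) ≤ 2 ^ (p ^ a) := by
  induction a, ha using Nat.le_induction with
  | base =>
    rw [vp_one]
    simp only [pow_one]
    have := four_mul_sq_le hp
    nlinarith
  | succ a ha ih => exact num_step' p (by omega) a ha ih

lemma vp_two (p : ℕ) [Fact p.Prime] : padicValNat p (p ^ 2).factorial = 1 + p := by
  have h1 := vp_succ p 1
  rw [vp_one] at h1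
  simpa using h1

lemma num_main_seven' (a : ℕ) (ha : 2 ≤ a) :
    haveI : Fact (Nat.Prime 7) := ⟨by norm_num⟩
    7 ^ padicValNat 7 (7 ^ a).factorial * (4 * 7 ^ a) ≤ 2 ^ (7 ^ a) := by
  haveI : Fact (Nat.Prime 7) := ⟨by norm_num⟩
  induction a, ha using Nat.le_induction with
  | base =>
    rw [vp_two]
    norm_num
  | succ a ha ih => exact num_step' 7 (by omega) a (by omega) ih

lemma num_main_five' (a : ℕ) (ha : 2 ≤ a) :
    haveI : Fact (Nat.Prime 5) := ⟨by norm_num⟩
    5 ^ padicValNat 5 (5 ^ a).factorial * (4 * 5 ^ a) ≤ 2 ^ (5 ^ a) := by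
  haveI : Fact (Nat.Prime 5) := ⟨by norm_num⟩
  induction a, ha using Nat.le_induction with
  | base =>
    rw [vp_two]
    norm_num
  | succ a ha ih => exact num_step' 5 (by omega) a (by omega) ih

lemma vp3_vals :
    haveI : Fact (Nat.Prime 3) := ⟨by norm_num⟩
    padicValNat 3 (3 ^ 3).factorial = 13 ∧ padicValNat 3 (3 ^ 4).factorial = 40 := by
  haveI : Fact (Nat.Prime 3) := ⟨by norm_num⟩
  have h2 : padicValNat 3 (3 ^ 2).factorial = 4 := by rw [vp_two]
  have h3 := vp_succ 3 2
  rw [h2] at h3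
  have h3' : padicValNat 3 (3 ^ 3).factorial = 13 := by simpa using h3
  have h4 := vp_succ 3 3
  rw [h3'] at h4
  exact ⟨h3', by simpa using h4⟩

lemma num_main_three' (a : ℕ) (ha : 4 ≤ a) :
    haveI : Fact (Nat.Prime 3) := ⟨by norm_num⟩
    3 ^ padicValNat 3 (3 ^ a).factorial * (4 * 3 ^ a) ≤ 2 ^ (3 ^ a) := by
  haveI : Fact (Nat.Prime 3) := ⟨by norm_num⟩
  induction a, ha using Nat.le_induction with
  | base =>
    rw [vp3_vals.2]
    norm_num
  | succ a ha ih =>
    rw [vp_succ, pow_add]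
    set m := 3 ^ a with hm
    set P := padicValNat 3 (3 ^ a).factorial with hP
    have hm4 : 4 ≤ m := by
      calc 4 ≤ 3 ^ 2 := by norm_num
        _ ≤ 3 ^ a := Nat.pow_le_pow_right (by norm_num) (by omega)
    have e1 : 2 ^ (3 ^ (a + 1)) = 8 ^ m := by
      rw [pow_succ', pow_mul, hm]; norm_num
    rw [e1]
    have e2 : 4 * 3 ^ (a + 1) = 3 * (4 * m) := by
      rw [pow_succ', hm]; ring
    rw [e2]
    calc 3 ^ P * 3 ^ m * (3 * (4 * m)) = 3 * 3 ^ m * (3 ^ P * (4 * m)) := by ring
      _ ≤ 3 * 3 ^ m * 2 ^ m := Nat.mul_le_mul_left _ ih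
      _ = 3 * 6 ^ m := by rw [show (6 : ℕ) = 3 * 2 by norm_num, mul_pow]; ring
      _ ≤ _ := three_step hm4

/-- The refined numerical bound for `p`-groups, `p` odd. -/
theorem two_odd_pow_le_BBv (p : ℕ) [Fact p.Prime] (hp : p ≠ 2) (a : ℕ) (ha : 1 ≤ a)
    (h3 : p ^ a ≠ 3) (h5 : p ^ a ≠ 5) (h9 : p ^ a ≠ 9) :
    2 * p ^ padicValNat p (p ^ a).factorial ≤ BBv (p ^ a) := by
  have hpp : p.Prime := Fact.out
  have hp3 : 3 ≤ p := by
    have := hpp.two_le
    omega
  have key : ∀ n, 1 ≤ n → ∀ x, x * (4 * n) ≤ 2 ^ n → 2 * x ≤ BBv n := by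
    intro n hn x hx
    refine le_trans ?_ (two_pow_le_BBv n)
    have h1 := two_pow_le_mul_wv n hn
    have h2 : (2 * x) * (2 * n) ≤ 2 ^ wv n * (2 * n) := by
      calc (2 * x) * (2 * n) = x * (4 * n) := by ring
        _ ≤ 2 ^ n := hx
        _ ≤ 2 * n * 2 ^ wv n := h1
        _ = _ := by ring
    exact Nat.le_of_mul_le_mul_right h2 (by omega)
  by_cases h11 : 11 ≤ p
  · exact key _ (Nat.one_le_pow _ _ hpp.pos) _ (num_main_eleven p h11 a ha)
  have hcases : p = 3 ∨ p = 5 ∨ p = 7 := by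
    have hp4 : p ≠ 4 := fun h => by subst h; norm_num at hpp
    have hp6 : p ≠ 6 := fun h => by subst h; norm_num at hpp
    have hp8 : p ≠ 8 := fun h => by subst h; norm_num at hpp
    have hp9 : p ≠ 9 := fun h => by subst h; norm_num at hpp
    have hp10 : p ≠ 10 := fun h => by subst h; norm_num at hpp
    omega
  rcases hcases with rfl | rfl | rfl
  · by_cases ha4 : 4 ≤ a
    · exact key _ (Nat.one_le_pow _ _ hpp.pos) _ (num_main_three' a ha4)
    have hcases : a = 1 ∨ a = 2 ∨ a = 3 := by omega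
    rcases hcases with rfl | rfl | rfl
    · exact absurd (by norm_num) h3
    · exact absurd (by norm_num) h9
    · rw [vp3_vals.1]
      norm_num
      rw [BBv_27]
      norm_num
  · by_cases ha2 : 2 ≤ a
    · exact key _ (Nat.one_le_pow _ _ hpp.pos) _ (num_main_five' a ha2)
    have : a = 1 := by omega
    subst this
    exact absurd (by norm_num) h5
  · by_cases ha2 : 2 ≤ a
    · exact key _ (Nat.one_le_pow _ _ hpp.pos) _ (num_main_seven' a ha2)
    have : a = 1 := by omega
    subst this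
    rw [vp_one]
    norm_num
    rw [BBv_7]
    norm_num

/-! ### transitive groups -/

/-- The transitive non-prime-power case. -/
theorem trans_nonprimepower_bound (Ω H : Type) [Finite Ω] [Group H] [Finite H] [Group.IsNilpotent H]
    (φ : H →* Perm Ω) (hφ : Function.Injective φ) (x : Ω) (htrans : ∀ y, orbP φ x y)
    (hpp : ¬ ∃ q k, q.Prime ∧ Nat.card H = q ^ k) (htriv : Nat.card H ≠ 1) :
    ∃ s t, 2 ≤ s ∧ 2 ≤ t ∧ s * t ≤ Nat.card Ω ∧ Nat.card H ≤ BBv s * BBv t := by
  classical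
  have hq : ((Nat.card H).minFac).Prime := Nat.minFac_prime htriv
  haveI : Fact ((Nat.card H).minFac).Prime := ⟨hq⟩
  obtain ⟨P⟩ : Nonempty (Sylow (Nat.card H).minFac H) := inferInstance
  have hPn : (P : Subgroup H).Normal := inferInstance
  obtain ⟨Q, hQ⟩ := Subgroup.exists_right_complement'_of_coprime P.card_coprime_index
  have hcard := hQ.card_mul_card
  have hcard2 := Subgroup.card_mul_index (P : Subgroup H)
  have hcop : Nat.Coprime (Nat.card (P : Subgroup H)) (Nat.card Q) := by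
    have h0 : 0 < Nat.card (P : Subgroup H) := Nat.card_pos
    have h1 : (P : Subgroup H).index = Nat.card Q :=
      Nat.eq_of_mul_eq_mul_left h0 (hcard2.trans hcard.symm)
    have := P.card_coprime_index
    rwa [h1] at this
  have hP1 : Nat.card (P : Subgroup H) ≠ 1 := by
    intro h
    have := P.dvd_card_of_dvd_card (Nat.minFac_dvd (Nat.card H))
    rw [h] at this
    exact hq.one_lt.ne' (Nat.dvd_one.1 this)
  have hQ1 : Nat.card Q ≠ 1 := by
    intro h
    rw [h, mul_one] at hcard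
    obtain ⟨k, hk⟩ := IsPGroup.iff_card.1 P.isPGroup'
    exact hpp ⟨(Nat.card H).minFac, k, hq, hcard.symm.trans hk⟩
  have hcomm : ∀ a ∈ (P : Subgroup H), ∀ b ∈ Q, a * b = b * a := by
    intro a ha b hb
    have h1 : Nat.Coprime (orderOf a) (orderOf b) :=
      Nat.Coprime.coprime_dvd_left (Subgroup.orderOf_dvd_natCard _ ha)
        (Nat.Coprime.coprime_dvd_right (Subgroup.orderOf_dvd_natCard _ hb) hcop)
    exact H13.commute_of_coprime_of_nilpotent H a b h1
  have hprod : ∀ h : H, ∃ a ∈ (P : Subgroup H), ∃ b ∈ Q, h = a * b := by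
    intro h
    obtain ⟨⟨u, v⟩, huv, -⟩ := hQ.existsUnique h
    exact ⟨u, u.2, v, v.2, huv.symm⟩
  have hy1 : ∀ y, ∃ a ∈ (P : Subgroup H), ∃ b ∈ Q, φ b (φ a x) = y := by
    intro y
    obtain ⟨h, rfl⟩ := htrans y
    obtain ⟨a, ha, b, hb, rfl⟩ := hprod h
    refine ⟨a, ha, b, hb, ?_⟩
    rw [← Perm.mul_apply, ← map_mul, hcomm a ha b hb]
  have hy2 : ∀ y, ∃ b ∈ Q, ∃ a ∈ (P : Subgroup H), φ a (φ b x) = y := by
    intro y
    obtain ⟨h, rfl⟩ := htrans y
    obtain ⟨a, ha, b, hb, rfl⟩ := hprod h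
    refine ⟨b, hb, a, ha, ?_⟩
    rw [← Perm.mul_apply, ← map_mul]
  have inj1 := injective_orbit φ hφ (P : Subgroup H) Q x hcomm hy1
  have inj2 := injective_orbit φ hφ Q (P : Subgroup H) x (fun u hu v hv => (hcomm v hv u hu).symm) hy2
  have hst := card_orbits_le φ (P : Subgroup H) Q x hcomm hcop
  set s := Nat.card {z // orbP (φ.comp (P : Subgroup H).subtype) x z} with hs
  set t := Nat.card {z // orbP (φ.comp Q.subtype) x z} with ht
  have hs2 : 2 ≤ s := by
    by_contra hlt
    have h1 : Nat.card {z // orbP (φ.comp (P : Subgroup H).subtype) x z} ≤ 1 := by omega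
    haveI : Subsingleton {z // orbP (φ.comp (P : Subgroup H).subtype) x z} :=
      (Finite.card_le_one_iff_subsingleton).1 h1
    haveI : Subsingleton (P : Subgroup H) := inj1.subsingleton
    exact hP1 Nat.card_unique
  have ht2 : 2 ≤ t := by
    by_contra hlt
    have h1 : Nat.card {z // orbP (φ.comp Q.subtype) x z} ≤ 1 := by omega
    haveI : Subsingleton {z // orbP (φ.comp Q.subtype) x z} :=
      (Finite.card_le_one_iff_subsingleton).1 h1
    haveI : Subsingleton Q := inj2.subsingleton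
    exact hQ1 Nat.card_unique
  refine ⟨s, t, hs2, ht2, hst, ?_⟩
  have h1 : Nat.card (P : Subgroup H) ≤ BBv s :=
    nilp_card_le s _ (P : Subgroup H) _ inj1 rfl
  have h2 : Nat.card Q ≤ BBv t :=
    nilp_card_le t _ Q _ inj2 rfl
  rw [← hcard]
  exact Nat.mul_le_mul h1 h2

/-- The bound for transitive non-`2`-groups. -/
noncomputable def TTv (d : ℕ) : ℕ := if d = 3 then 3 else if d = 5 then 5 else if d = 9 then 81 else BBv d / 2

lemma half_le_TTv (d : ℕ) : BBv d / 2 ≤ TTv d := by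
  unfold TTv
  by_cases h3 : d = 3
  · subst h3; simp [BBv_3]
  by_cases h5 : d = 5
  · subst h5; simp [BBv_5]
  by_cases h9 : d = 9
  · subst h9; simp [BBv_9]
  simp [h3, h5, h9]

lemma TTv_le_BBv (d : ℕ) : TTv d ≤ BBv d := by
  unfold TTv
  by_cases h3 : d = 3
  · subst h3; simp [BBv_3]
  by_cases h5 : d = 5
  · subst h5; simp [BBv_5]
  by_cases h9 : d = 9
  · subst h9; simp [BBv_9]
  simp only [h3, h5, h9, if_false]
  exact Nat.div_le_self _ _

/-- Transitive nilpotent group with an odd prime divisor. -/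
theorem trans_card_le_TT (Ω H : Type) [Finite Ω] [Group H] [Finite H] [Group.IsNilpotent H]
    (φ : H →* Perm Ω) (hφ : Function.Injective φ) (x : Ω) (htrans : ∀ y, orbP φ x y)
    (p : ℕ) (hp : p.Prime) (hp2 : p ≠ 2) (hdvd : p ∣ Nat.card H) :
    Nat.card H ≤ TTv (Nat.card Ω) := by
  classical
  have htriv : Nat.card H ≠ 1 := by
    intro h
    rw [h] at hdvd
    exact hp.one_lt.ne' (Nat.dvd_one.1 hdvd)
  by_cases hpp : ∃ q k, q.Prime ∧ Nat.card H = q ^ k
  · obtain ⟨q, k, hq, hk⟩ := hpp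
    haveI : Fact q.Prime := ⟨hq⟩
    have hpq : p = q := by
      rw [hk] at hdvd
      exact (Nat.prime_dvd_prime_iff_eq hp hq).1 (hp.dvd_of_dvd_pow hdvd)
    subst hpq
    have hnd : Nat.card Ω ∣ Nat.card H := by
      letI : MulAction H Ω := MulAction.compHom Ω φ
      have h0 : MulAction.orbit H x = Set.univ := by
        ext y
        simp only [Set.mem_univ, iff_true]
        obtain ⟨h, hh⟩ := htrans y
        exact ⟨h, hh⟩
      have h2 := MulAction.index_stabilizer H x
      rw [h0, Set.ncard_univ] at h2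
      rw [← h2]
      exact Subgroup.index_dvd_card _
    rw [hk] at hnd
    obtain ⟨a, -, ha⟩ := (Nat.dvd_prime_pow hq).1 hnd
    have hfact : p ^ k ∣ (Nat.card Ω).factorial := by
      have := Subgroup.card_dvd_of_injective φ hφ
      rwa [Nat.card_perm, hk] at this
    have hle : k ≤ padicValNat p (Nat.card Ω).factorial :=
      (padicValNat_dvd_iff_le (Nat.factorial_ne_zero _)).1 hfact
    have hpw : p ^ k ≤ p ^ padicValNat p (Nat.card Ω).factorial := Nat.pow_le_pow_right hq.pos hle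
    rw [hk]
    refine hpw.trans ?_
    by_cases ha0 : a = 0
    · subst ha0
      simp only [pow_zero] at ha
      rw [ha] at hfact
      simp only [Nat.factorial_one, Nat.dvd_one] at hfact
      rw [hk, hfact] at htriv
      exact absurd rfl htriv
    rw [ha]
    by_cases h3 : p ^ a = 3
    · have h31 : p = 3 := by
        have : p ∣ 3 := by rw [← h3]; exact dvd_pow_self p ha0
        exact (Nat.prime_dvd_prime_iff_eq hp (by norm_num)).1 this
      subst h31
      have h32 : a = 1 := Nat.pow_right_injective (a := 3) (by norm_num) (show 3 ^ a = 3 ^ 1 by simpa using h3)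
      subst h32
      rw [vp_one]
      simp [TTv]
    by_cases h5 : p ^ a = 5
    · have h31 : p = 5 := by
        have : p ∣ 5 := by rw [← h5]; exact dvd_pow_self p ha0
        exact (Nat.prime_dvd_prime_iff_eq hp (by norm_num)).1 this
      subst h31
      have h32 : a = 1 := Nat.pow_right_injective (a := 5) (by norm_num) (show 5 ^ a = 5 ^ 1 by simpa using h5)
      subst h32
      rw [vp_one]
      simp [TTv]
    by_cases h9 : p ^ a = 9
    · have h31 : p = 3 := by
        have : p ∣ 3 ^ 2 := by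
          rw [show 3 ^ 2 = 9 by norm_num, ← h9]
          exact dvd_pow_self p ha0
        exact (Nat.prime_dvd_prime_iff_eq hp (by norm_num)).1 (hp.dvd_of_dvd_pow this)
      subst h31
      have h32 : a = 2 := Nat.pow_right_injective (a := 3) (by norm_num) (show 3 ^ a = 3 ^ 2 by simpa using h9)
      subst h32
      rw [vp_two]
      simp [TTv]
    have h0 := two_odd_pow_le_BBv p hp2 a (by omega) h3 h5 h9
    refine le_trans ?_ (half_le_TTv _)
    rw [Nat.le_div_iff_mul_le (by norm_num)]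
    rw [mul_comm]
    exact h0
  · obtain ⟨s, t, hs, ht, hst, hle⟩ := trans_nonprimepower_bound Ω H φ hφ x htrans hpp htriv
    refine le_trans ?_ (half_le_TTv _)
    rw [Nat.le_div_iff_mul_le (by norm_num)]
    have := two_mul_BB_le hs ht hst
    nlinarith

/-! ### The alternating bound -/

/-- The bound for nilpotent subgroups of the alternating group. -/
noncomputable def BAv (n : ℕ) : ℕ :=
  if n ≤ 1 then 1 else if n = 3 then 3 else if n = 5 then 5 else if n = 6 then 9 else if n = 9 then 81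
  else BBv n / 2

lemma half_le_BAv (n : ℕ) : BBv n / 2 ≤ BAv n := by
  unfold BAv
  by_cases h1 : n ≤ 1
  · have : n = 0 ∨ n = 1 := by omega
    rcases this with rfl | rfl
    · simp [BBv_zero]
    · simp [BBv_one]
  by_cases h3 : n = 3
  · subst h3; simp [BBv_3]
  by_cases h5 : n = 5
  · subst h5; simp [BBv_5]
  by_cases h6 : n = 6
  · subst h6; simp [BBv_6]
  by_cases h9 : n = 9
  · subst h9; simp [BBv_9]
  simp [h1, h3, h5, h6, h9]

lemma BAv_le_BBv (n : ℕ) : BAv n ≤ BBv n := by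
  unfold BAv
  by_cases h1 : n ≤ 1
  · simp only [h1, if_true]
    exact BBv_pos n
  by_cases h3 : n = 3
  · subst h3; simp [BBv_3]
  by_cases h5 : n = 5
  · subst h5; simp [BBv_5]
  by_cases h6 : n = 6
  · subst h6; simp [BBv_6]
  by_cases h9 : n = 9
  · subst h9; simp [BBv_9]
  simp only [h1, h3, h5, h6, h9, if_false]
  exact Nat.div_le_self _ _

lemma BAv_vals : BAv 0 = 1 ∧ BAv 1 = 1 ∧ BAv 3 = 3 ∧ BAv 4 = 4 ∧ BAv 5 = 5 ∧ BAv 6 = 9 ∧ BAv 8 = 64 ∧ BAv 9 = 81 ∧
    BAv 10 = 128 ∧ BAv 11 = 192 ∧ BAv 12 = 512 ∧ BAv 14 = 1024 ∧ BAv 15 = 1536 ∧ BAv 18 = 32768 := by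
  simp [BAv, BBv_4, BBv_8, BBv_10, BBv_11, BBv_12, BBv_14, BBv_15, BBv_18]

/-- The numerical heart. -/
lemma TT_mul_BA (d m : ℕ) : TTv d * BAv m ≤ BAv (d + m) := by
  have hgen : ∀ a b x y, x ≤ BBv a → y ≤ BBv b / 2 → x * y ≤ BAv (a + b) := by
    intro a b x y hx hy
    refine le_trans ?_ (half_le_BAv _)
    rw [Nat.le_div_iff_mul_le (by norm_num)]
    have h1 : y * 2 ≤ BBv b := by
      have := Nat.div_mul_le_self (BBv b) 2
      nlinarith
    calc x * y * 2 = x * (y * 2) := by ring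
      _ ≤ BBv a * BBv b := Nat.mul_le_mul hx h1
      _ ≤ _ := BBv_mul a b
  have hgen2 : ∀ a b x y, x ≤ BBv a / 2 → y ≤ BBv b → x * y ≤ BAv (a + b) := by
    intro a b x y hx hy
    rw [mul_comm, add_comm]
    exact hgen b a y x hy hx
  -- `m` generic
  by_cases hm : m ≤ 1 ∨ m = 3 ∨ m = 5 ∨ m = 6 ∨ m = 9
  swap
  · push Not at hm
    have : BAv m = BBv m / 2 := by
      unfold BAv
      have h1 : ¬ m ≤ 1 := by omega
      simp [h1, hm.2.1, hm.2.2.1, hm.2.2.2.1, hm.2.2.2.2]
    rw [this]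
    exact hgen d m _ _ (TTv_le_BBv d) le_rfl
  -- `d` generic
  by_cases hd : d = 3 ∨ d = 5 ∨ d = 9
  swap
  · push Not at hd
    have : TTv d = BBv d / 2 := by
      unfold TTv
      simp [hd.1, hd.2.1, hd.2.2]
    rw [this]
    exact hgen2 d m _ _ le_rfl (BAv_le_BBv m)
  obtain ⟨h0, h1, h3, h4, h5, h6, h8, h9, h10, h11, h12, h14, h15, h18⟩ := BAv_vals
  have hm' : m = 0 ∨ m = 1 ∨ m = 3 ∨ m = 5 ∨ m = 6 ∨ m = 9 := by omega
  rcases hd with rfl | rfl | rfl <;> rcases hm' with rfl | rfl | rfl | rfl | rfl | rfl <;>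
    norm_num [TTv, h0, h1, h3, h4, h5, h6, h8, h9, h10, h11, h12, h14, h15, h18]

/-- The bound for nilpotent groups of even permutations. -/
theorem alt_card_le : ∀ (n : ℕ) (Ω H : Type) [Fintype Ω] [DecidableEq Ω] [Group H] [Finite H] [Group.IsNilpotent H]
    (φ : H →* Perm Ω), Function.Injective φ → (∀ h, Perm.sign (φ h) = 1) → Nat.card Ω = n → Nat.card H ≤ BAv n := by
  intro n
  induction n using Nat.strong_induction_on with
  | _ n ih =>
  intro Ω H _ _ _ _ _ φ hφ hsign hn
  classical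
  rcases Nat.eq_two_pow_or_exists_odd_prime_and_dvd (Nat.card H) with ⟨k, hk⟩ | ⟨p, hp, hdvd, hodd⟩
  · -- a 2-group
    by_cases hn1 : n ≤ 1
    · have h1 : Nat.card Ω ≤ 1 := by omega
      haveI : Subsingleton Ω := (Finite.card_le_one_iff_subsingleton).1 h1
      haveI : Subsingleton H := hφ.subsingleton
      rw [Nat.card_unique]
      unfold BAv
      simp [hn1]
    · haveI : Nontrivial Ω := by
        apply Finite.one_lt_card_iff_nontrivial.1
        omega
      let ψ : H →* alternatingGroup Ω := φ.codRestrict (alternatingGroup Ω)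
        (fun h => Equiv.Perm.mem_alternatingGroup.2 (hsign h))
      have hψ : Function.Injective ψ := by
        intro a b hab
        apply hφ
        exact congrArg Subtype.val hab
      have h1 : Nat.card H ∣ Nat.card (alternatingGroup Ω) := Subgroup.card_dvd_of_injective ψ hψ
      have h2 : 2 * Nat.card (alternatingGroup Ω) = n.factorial := by
        have := two_mul_card_alternatingGroup (α := Ω)
        rw [Fintype.card_perm] at this
        rw [Nat.card_eq_fintype_card (α := alternatingGroup Ω), this, ← Nat.card_eq_fintype_card, hn]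
      have h3 : 2 ^ (k + 1) ∣ n.factorial := by
        rw [← h2, pow_succ']
        apply Nat.mul_dvd_mul_left
        rw [← hk]
        exact h1
      have h4 := le_wv_of_dvd h3
      refine le_trans ?_ (half_le_BAv n)
      rw [Nat.le_div_iff_mul_le (by norm_num), hk]
      calc 2 ^ k * 2 = 2 ^ (k + 1) := by ring
        _ ≤ 2 ^ wv n := Nat.pow_le_pow_right (by norm_num) h4
        _ ≤ _ := two_pow_le_BBv n
  · -- an odd prime divides the order
    have hp2 : p ≠ 2 := by
      rintro rfl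
      exact absurd hodd (by decide)
    haveI : Fact p.Prime := ⟨hp⟩
    obtain ⟨u, hu⟩ := exists_prime_orderOf_dvd_card' p hdvd
    have hu1 : φ u ≠ 1 := by
      intro h
      have : u = 1 := hφ (by rw [h, map_one])
      rw [this, orderOf_one] at hu
      exact hp.one_lt.ne hu
    obtain ⟨x, hx⟩ : ∃ x, φ u x ≠ x := by
      by_contra h
      push Not at h
      exact hu1 (Equiv.ext h)
    let ρ := resHomN φ (orbP φ x) (orbP_inv φ x)
    haveI : Group.IsNilpotent ρ.range :=
      nilpotent_of_surjective ρ.rangeRestrict ρ.rangeRestrict_surjective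
    set x' : {z // orbP φ x z} := ⟨x, orbP_self φ x⟩ with hx'
    have htr : ∀ y, orbP (ρ.range.subtype) x' y := by
      rintro ⟨y, h, rfl⟩
      refine ⟨⟨ρ h, ⟨h, rfl⟩⟩, ?_⟩
      apply Subtype.ext
      rfl
    have hpu : p ∣ Nat.card ρ.range := by
      have h1 : ρ u ≠ 1 := by
        intro h
        have := congrArg (fun f => ((f x' : {z // orbP φ x z}) : Ω)) h
        exact hx this
      have h2 : orderOf (ρ u) ∣ p := by
        apply orderOf_dvd_of_pow_eq_one
        rw [← map_pow, ← hu, pow_orderOf_eq_one, map_one]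
      have h3 : orderOf (ρ u) = p := by
        rcases (Nat.dvd_prime hp).1 h2 with h | h
        · exact absurd (orderOf_eq_one_iff.1 h) h1
        · exact h
      rw [← h3]
      exact Subgroup.orderOf_dvd_natCard _ ⟨u, rfl⟩
    have h1 : Nat.card ρ.range ≤ TTv (Nat.card {z // orbP φ x z}) :=
      trans_card_le_TT _ _ ρ.range.subtype Subtype.val_injective x' htr p hp hp2 hpu
    have hcard : Nat.card {z // orbP φ x z} + Nat.card {z // ¬ orbP φ x z} = n := by
      rw [← hn, ← Nat.card_sum, Nat.card_congr (Equiv.sumCompl (orbP φ x))]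
    have hd : 0 < Nat.card {z // orbP φ x z} := by
      haveI : Nonempty {z // orbP φ x z} := ⟨x'⟩
      exact Nat.card_pos
    let K := ρ.ker
    let σ := resHomN (φ.comp K.subtype) (fun z => ¬ orbP φ x z) (fun h z => not_congr (orbP_inv φ x h z))
    have hfix : ∀ k : K, ∀ z, orbP φ x z → φ k z = z := by
      intro k z hz
      have hk : ρ k = 1 := k.2
      have e1 := congrArg (fun f => ((f ⟨z, hz⟩ : {z // orbP φ x z}) : Ω)) hk
      exact e1
    have hσ : Function.Injective σ := by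
      intro a b hab
      apply Subtype.ext
      apply hφ
      apply Equiv.ext
      intro z
      by_cases hz : orbP φ x z
      · rw [hfix a z hz, hfix b z hz]
      · have := congrArg (fun f => ((f ⟨z, hz⟩ : {z // ¬ orbP φ x z}) : Ω)) hab
        exact this
    have hσs : ∀ k, Perm.sign (σ k) = 1 := by
      intro k
      have h0 : Perm.sign (σ k) = Perm.sign (φ k) :=
        Perm.sign_subtypePerm (φ k) (fun z => not_congr (orbP_inv φ x k z)) (fun z hz hzz => hz (hfix k z hzz))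
      rw [h0]
      exact hsign k
    have h2 : Nat.card K ≤ BAv (Nat.card {z // ¬ orbP φ x z}) :=
      ih _ (by omega) {z // ¬ orbP φ x z} K σ hσ hσs rfl
    have h3 : Nat.card H = Nat.card K * Nat.card ρ.range := by
      rw [← Subgroup.index_ker ρ, Subgroup.card_mul_index]
    rw [h3, ← hcard, mul_comm]
    exact (Nat.mul_le_mul h1 h2).trans (TT_mul_BA _ _)

/-- The order of a Sylow `2`-subgroup of the alternating group. -/
lemma card_sylow_alt {m : ℕ} (hm : 2 ≤ m) (P : Sylow 2 (alternatingGroup (Fin m))) :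
    Nat.card (P : Subgroup (alternatingGroup (Fin m))) = 2 ^ (wv m - 1) ∧ 1 ≤ wv m := by
  haveI : Nontrivial (Fin m) := Fin.nontrivial_iff_two_le.2 hm
  have h1 : 2 * Nat.card (alternatingGroup (Fin m)) = m.factorial := by
    have := two_mul_card_alternatingGroup (α := Fin m)
    rw [Fintype.card_perm, Fintype.card_fin] at this
    rw [Nat.card_eq_fintype_card]
    exact this
  have h0 : Nat.card (alternatingGroup (Fin m)) ≠ 0 := Nat.card_pos.ne'
  have h2 : wv m = 1 + padicValNat 2 (Nat.card (alternatingGroup (Fin m))) := by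
    unfold wv
    rw [← h1, padicValNat.mul (by norm_num) h0, padicValNat.self (by norm_num)]
  have h3 := P.card_eq_multiplicity
  rw [Nat.factorization_def _ Nat.prime_two] at h3
  refine ⟨?_, by omega⟩
  rw [h3, h2]
  simp

lemma BAv_of_ne {n : ℕ} (h1 : 2 ≤ n) (h3 : n ≠ 3) (h5 : n ≠ 5) (h6 : n ≠ 6) (h9 : n ≠ 9) : BAv n = BBv n / 2 := by
  unfold BAv
  have : ¬ n ≤ 1 := by omega
  simp [this, h3, h5, h6, h9]

end Cfsg.Agent.H10
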