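import Mathlib
import Cfsg.Agent.Lib.H10.NilpAlt

set_option autoImplicit false

namespace Cfsg.Agent.H10

open Equiv

/-- The group of permutations fixing the support of `c` pointwise. -/
def fixS {X : Type} (c : Perm X) : Subgroup (Perm X) where
  carrier := {g | ∀ z, c z ≠ z → g z = z}
  one_mem' := fun z _ => rfl
  mul_mem' := fun {a b} ha hb z hz => by rw [Perm.mul_apply, hb z hz, ha z hz]
  inv_mem' := fun {a} ha z hz => by rw [Perm.inv_eq_iff_eq]; exact (ha z hz).symm

lemma mem_fixS {X : Type} (c g : Perm X) : g ∈ fixS c ↔ ∀ z, c z ≠ z → g z = z := Iff.rfl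

/-- A nilpotent group of order `3 * 2 ^ e` splits. -/
theorem decomp_three {X : Type} [Finite X] (N : Subgroup (Perm X)) (hN : Group.IsNilpotent N) (e : ℕ)
    (hcard : Nat.card N = 3 * 2 ^ e) :
    ∃ c ∈ N, ∃ T : Subgroup (Perm X), T ≤ N ∧ orderOf c = 3 ∧ Nat.card T = 2 ^ e ∧
      (∀ t ∈ T, t * c = c * t) ∧ N = Subgroup.zpowers c ⊔ T := by
  classical
  haveI : Fact (Nat.Prime 3) := ⟨by norm_num⟩
  obtain ⟨c', hc'⟩ := exists_prime_orderOf_dvd_card' (G := N) 3 (by rw [hcard]; exact dvd_mul_right _ _)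
  obtain ⟨T', hT'⟩ := Sylow.exists_subgroup_card_pow_prime (G := N) 2 (n := e) (by rw [hcard]; exact dvd_mul_left _ _)
  have hord : orderOf (c' : Perm X) = 3 := by
    rw [Subgroup.orderOf_coe]
    exact hc'
  refine ⟨c', c'.2, T'.map N.subtype, ?_, hord, ?_, ?_, ?_⟩
  · rintro _ ⟨t, -, rfl⟩
    exact t.2
  · rw [Subgroup.card_map_of_injective Subtype.val_injective, hT']
  · rintro _ ⟨t, ht, rfl⟩
    have h1 : orderOf t ∣ 2 ^ e := by
      rw [← hT']
      exact Subgroup.orderOf_dvd_natCard _ ht
    have h2 : Nat.Coprime (orderOf t) (orderOf c') := by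
      rw [hc']
      exact Nat.Coprime.coprime_dvd_left h1 (Nat.Coprime.pow_left _ (by norm_num))
    have := H13.commute_of_coprime_of_nilpotent N t c' h2
    exact congrArg Subtype.val this
  · symm
    apply Subgroup.eq_of_le_of_card_ge
    · apply sup_le
      · rw [Subgroup.zpowers_le]
        exact c'.2
      · rintro _ ⟨t, -, rfl⟩
        exact t.2
    · set Y := Subgroup.zpowers (c' : Perm X) ⊔ T'.map N.subtype with hY
      have h3 : 3 ∣ Nat.card Y := by
        rw [← hord]
        exact Subgroup.orderOf_dvd_natCard Y (Subgroup.mem_sup_left (Subgroup.mem_zpowers _))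
      have h4 : 2 ^ e ∣ Nat.card Y := by
        have h5 : T'.map N.subtype ≤ Y := le_sup_right
        have h6 := Subgroup.card_dvd_of_le h5
        rwa [Subgroup.card_map_of_injective Subtype.val_injective, hT'] at h6
      have h7 : 3 * 2 ^ e ∣ Nat.card Y :=
        Nat.Coprime.mul_dvd_of_dvd_of_dvd (Nat.Coprime.pow_right _ (by norm_num)) h3 h4
      rw [hcard]
      exact Nat.le_of_dvd Nat.card_pos h7

/-- The orbit relation of a permutation. -/
def relS {X : Type} (c : Perm X) : Setoid X where
  r z z' := ∃ j : ℤ, (c ^ j) z = z'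
  iseqv :=
    { refl := fun z => ⟨0, by simp⟩
      symm := fun {z z'} h => by
        obtain ⟨j, rfl⟩ := h
        refine ⟨-j, ?_⟩
        show (c ^ (-j)) ((c ^ j) z) = z
        rw [zpow_neg]
        simp
      trans := fun {z z' z''} h h' => by
        obtain ⟨j, rfl⟩ := h
        obtain ⟨j', rfl⟩ := h'
        refine ⟨j' + j, ?_⟩
        rw [zpow_add, Perm.mul_apply] }

/-- The action of the centralizer on the orbit space. -/
noncomputable def quotHom {X : Type} (c : Perm X) (T : Subgroup (Perm X)) (hcomm : ∀ t ∈ T, t * c = c * t) :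
    T →* Perm (Quotient (relS c)) where
  toFun t := Quotient.congr (t : Perm X) (by
    intro a b
    have hc : ∀ j : ℤ, (t : Perm X) * c ^ j = c ^ j * t := fun j =>
      (show Commute (t : Perm X) c from hcomm t t.2).zpow_right j
    constructor
    · rintro ⟨j, rfl⟩
      refine ⟨j, ?_⟩
      rw [← Perm.mul_apply, ← hc j, Perm.mul_apply]
    · rintro ⟨j, hj⟩
      refine ⟨j, ?_⟩
      apply (t : Perm X).injective
      rw [← hj, ← Perm.mul_apply, hc j, Perm.mul_apply])
  map_one' := by
    apply Equiv.ext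
    intro q
    induction q using Quotient.inductionOn with
    | h z => rfl
  map_mul' a b := by
    apply Equiv.ext
    intro q
    induction q using Quotient.inductionOn with
    | h z => rfl

lemma quotHom_mk {X : Type} (c : Perm X) (T : Subgroup (Perm X)) (hcomm : ∀ t ∈ T, t * c = c * t) (t : T) (z : X) :
    quotHom c T hcomm t (Quotient.mk (relS c) z) = Quotient.mk (relS c) ((t : Perm X) z) := rfl

/-- A coprime element agreeing with a power of `c` fixes. -/
lemma fix_of_zpow {X : Type} [Finite X] (c : Perm X) (T : Subgroup (Perm X)) (hcomm : ∀ t ∈ T, t * c = c * t)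
    (hcop : Nat.Coprime (Nat.card T) (orderOf c)) {t : Perm X} (ht : t ∈ T) {z : X} {j : ℤ}
    (h : (c ^ j) z = t z) : t z = z := by
  have hc : Commute t (c ^ (-j)) := (show Commute t c from hcomm t ht).zpow_right (-j)
  have h1 : (t * c ^ (-j)) z = z := by
    rw [hc.eq, Perm.mul_apply, ← h, zpow_neg]
    simp
  refine fix_of_coprime (MonoidHom.id (Perm X)) T (Subgroup.zpowers c) z ?_ ?_ ht ?_ h1
  · rintro a ha _ ⟨i, rfl⟩
    exact (show Commute a c from hcomm a ha).zpow_right i
  · rw [Nat.card_zpowers]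
    exact hcop
  · exact Subgroup.zpow_mem_zpowers c (-j)

/-- The structure of a group commuting with an element of order three. -/
theorem three_struct {X : Type} [Fintype X] [DecidableEq X] (c : Perm X) (hc : orderOf c = 3)
    (T : Subgroup (Perm X)) (e : ℕ) (hT : Nat.card T = 2 ^ e) (hcomm : ∀ t ∈ T, t * c = c * t)
    (hn : Fintype.card X % 4 = 3) (he : wv (Fintype.card X - 3) ≤ e + 1) :
    c.IsThreeCycle ∧ ∀ t ∈ T, ∀ z, c z ≠ z → t z = z := by
  classical
  have hc3 : c ^ 3 = 1 := by rw [← hc]; exact pow_orderOf_eq_one c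
  have hccc : ∀ z, c (c (c z)) = z := fun z => by
    have := congrArg (fun f : Perm X => f z) hc3
    simpa [pow_succ, Perm.mul_apply] using this
  have hc1 : c ≠ 1 := by
    rintro rfl
    rw [orderOf_one] at hc
    norm_num at hc
  obtain ⟨a, ha⟩ : ∃ a, c a ≠ a := by
    by_contra h
    push Not at h
    exact hc1 (Equiv.ext h)
  have hmove : ∀ z, c z ≠ z → c (c z) ≠ c z ∧ c (c z) ≠ z := by
    intro z hz
    constructor
    · intro h
      exact hz (c.injective h)
    · intro h
      have h1 := hccc z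
      rw [h] at h1
      exact hz h1
  have hcop : Nat.Coprime (Nat.card T) (orderOf c) := by
    rw [hT, hc]
    exact Nat.Coprime.pow_left _ (by norm_num)
  have hinj : Function.Injective (quotHom c T hcomm) := by
    rw [injective_iff_map_eq_one]
    intro t ht
    apply Subtype.ext
    apply Equiv.ext
    intro z
    have h1 : Quotient.mk (relS c) ((t : Perm X) z) = Quotient.mk (relS c) z := by
      rw [← quotHom_mk c T hcomm, ht]
      rfl
    have h2 : (relS c) z ((t : Perm X) z) := Quotient.exact h1.symm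
    obtain ⟨j, hj⟩ := h2
    exact fix_of_zpow c T hcomm hcop t.2 hj
  have hdvd : 2 ^ e ∣ (Nat.card (Quotient (relS c))).factorial := by
    have := Subgroup.card_dvd_of_injective _ hinj
    rwa [Nat.card_perm, hT] at this
  -- the support is a single cycle
  have hsingle : ∀ b, c b ≠ b → b = a ∨ b = c a ∨ b = c (c a) := by
    intro b hb
    by_contra hcon
    push Not at hcon
    obtain ⟨hb1, hb2, hb3⟩ := hcon
    obtain ⟨ha1, ha2⟩ := hmove a ha
    obtain ⟨hb4, hb5⟩ := hmove b hb
    set S : Finset X := {c a, c (c a), c b, c (c b)} with hS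
    have hScard : S.card = 4 := by
      rw [hS]
      have n1 : c a ≠ c (c a) := ha1.symm
      have n2 : c a ≠ c b := fun h => hb1 (c.injective h).symm
      have n3 : c a ≠ c (c b) := fun h => by
        apply hb3
        have := c.injective h
        rw [this, hccc]
      have n4 : c (c a) ≠ c b := fun h => by
        apply hb2
        exact (c.injective h).symm
      have n5 : c (c a) ≠ c (c b) := fun h => hb1 (c.injective (c.injective h)).symm
      have n6 : c b ≠ c (c b) := hb4.symm
      rw [Finset.card_insert_of_notMem, Finset.card_insert_of_notMem, Finset.card_insert_of_notMem,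
        Finset.card_singleton]
      · simpa using n6
      · simp [n4, n5]
      · simp [n1, n2, n3]
    have hsurj : Function.Surjective (fun z : (Sᶜ : Finset X) => Quotient.mk (relS c) (z : X)) := by
      intro q
      induction q using Quotient.inductionOn with
      | h z =>
        by_cases hz : z ∈ S
        · have hz' : z = c a ∨ z = c (c a) ∨ z = c b ∨ z = c (c b) := by
            simpa [hS] using hz
          have hanot : a ∈ Sᶜ := by
            simp only [hS, Finset.mem_compl, Finset.mem_insert, Finset.mem_singleton, not_or]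
            refine ⟨ha.symm, ha2.symm, ?_, ?_⟩
            · intro h
              apply hb3
              rw [h, hccc]
            · intro h
              apply hb2
              rw [h, hccc]
          have hbnot : b ∈ Sᶜ := by
            simp only [hS, Finset.mem_compl, Finset.mem_insert, Finset.mem_singleton, not_or]
            refine ⟨hb2, hb3, hb.symm, hb5.symm⟩
          rcases hz' with rfl | rfl | rfl | rfl
          · exact ⟨⟨a, hanot⟩, Quotient.sound ⟨1, by simp⟩⟩
          · exact ⟨⟨a, hanot⟩, Quotient.sound ⟨2, by rw [zpow_two]; rfl⟩⟩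
          · exact ⟨⟨b, hbnot⟩, Quotient.sound ⟨1, by simp⟩⟩
          · exact ⟨⟨b, hbnot⟩, Quotient.sound ⟨2, by rw [zpow_two]; rfl⟩⟩
        · exact ⟨⟨z, by simpa using hz⟩, rfl⟩
    have hle : Nat.card (Quotient (relS c)) ≤ Fintype.card X - 4 := by
      have h1 := Nat.card_le_card_of_surjective _ hsurj
      have h2 : Nat.card ↥(Sᶜ : Finset X) = Fintype.card X - 4 := by
        rw [Nat.card_eq_fintype_card, Fintype.card_coe, Finset.card_compl, hScard]
      exact h1.trans h2.le
    have hd2 : 2 ^ e ∣ (Fintype.card X - 4).factorial :=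
      hdvd.trans (Nat.factorial_dvd_factorial hle)
    have h4 := le_wv_of_dvd hd2
    have hX4 : 4 ≤ Fintype.card X := by
      have : S.card ≤ Fintype.card X := Finset.card_le_univ S
      omega
    obtain ⟨l, hl⟩ : ∃ l, Fintype.card X = 4 * l + 7 := ⟨(Fintype.card X - 7) / 4, by omega⟩
    rw [hl] at h4 he
    have e1 : 4 * l + 7 - 3 = (4 * l + 3) + 1 := by omega
    have e2 : 4 * l + 7 - 4 = 4 * l + 3 := by omega
    rw [e1] at he
    rw [e2] at h4
    rw [wv_succ] at he
    have h5 : 2 ≤ padicValNat 2 (4 * l + 3 + 1) := by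
      have h6 : 2 ^ 2 ∣ 4 * l + 3 + 1 := ⟨l + 1, by ring⟩
      exact (padicValNat_dvd_iff_le (by omega)).1 h6
    omega
  obtain ⟨ha1, ha2⟩ := hmove a ha
  have hsup : c.support = {a, c a, c (c a)} := by
    ext z
    simp only [Perm.mem_support, Finset.mem_insert, Finset.mem_singleton]
    constructor
    · exact hsingle z
    · rintro (rfl | rfl | rfl)
      · exact ha
      · exact ha1
      · intro h
        have := hccc a
        rw [h] at this
        exact ha2 this
  have hthree : c.IsThreeCycle := by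
    apply card_support_eq_three_iff.1
    rw [hsup, Finset.card_insert_of_notMem, Finset.card_insert_of_notMem, Finset.card_singleton]
    · simpa using ha1.symm
    · simp [ha.symm, ha2.symm]
  refine ⟨hthree, ?_⟩
  intro t ht z hz
  have htz : c (t z) ≠ t z := by
    intro h
    have h1 := congrArg (fun f : Perm X => f z) (hcomm t ht)
    simp only [Perm.mul_apply] at h1
    rw [← h1] at h
    exact hz (t.injective h)
  -- `t z` lies in the cycle of `z`
  have hpow : ∀ y, c y ≠ y → ∃ j : ℤ, (c ^ j) a = y := by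
    intro y hy
    rcases hsingle y hy with rfl | rfl | rfl
    · exact ⟨0, by simp⟩
    · exact ⟨1, by simp⟩
    · exact ⟨2, by rw [zpow_two]; rfl⟩
  obtain ⟨j₁, hj₁⟩ := hpow z hz
  obtain ⟨j₂, hj₂⟩ := hpow _ htz
  have h2 : (c ^ (j₂ - j₁)) z = t z := by
    rw [← hj₂, ← hj₁, ← Perm.mul_apply, ← zpow_add]
    congr 2
    ring
  exact fix_of_zpow c T hcomm hcop ht h2

/-- The conjugacy statement. -/
theorem conj_of_struct {X : Type} [Finite X] (G : Subgroup (Perm X)) {c₁ c₂ : Perm X}
    {T₁ T₂ : Subgroup (Perm X)} {e : ℕ} (g₀ : Perm X) (hg₀G : g₀ ∈ G) (hg₀ : g₀ * c₁ * g₀⁻¹ = c₂)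
    (hT₁G : T₁ ≤ G) (hT₂G : T₂ ≤ G) (fix₁ : ∀ t ∈ T₁, ∀ z, c₁ z ≠ z → t z = z)
    (fix₂ : ∀ t ∈ T₂, ∀ z, c₂ z ≠ z → t z = z) (hc₁ : Nat.card T₁ = 2 ^ e) (hc₂ : Nat.card T₂ = 2 ^ e)
    (hW : (Nat.card ↥(G ⊓ fixS c₂)).factorization 2 = e) :
    ∃ g ∈ G, Subgroup.zpowers c₂ ⊔ T₂ = (Subgroup.zpowers c₁ ⊔ T₁).map (MulAut.conj g).toMonoidHom := by
  classical
  set W : Subgroup (Perm X) := G ⊓ fixS c₂ with hWdef
  set T₁' : Subgroup (Perm X) := T₁.map (MulAut.conj g₀).toMonoidHom with hT₁'
  have hT₁'W : T₁' ≤ W := by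
    rintro _ ⟨t, ht, rfl⟩
    refine ⟨G.mul_mem (G.mul_mem hg₀G (hT₁G ht)) (G.inv_mem hg₀G), ?_⟩
    intro z hz
    have h1 : c₁ (g₀⁻¹ z) ≠ g₀⁻¹ z := by
      intro h
      apply hz
      rw [← hg₀]
      simp only [Perm.mul_apply]
      rw [h]
      simp
    have h2 := fix₁ t ht _ h1
    show (g₀ * t * g₀⁻¹) z = z
    simp only [Perm.mul_apply]
    rw [h2]
    simp
  have hT₂W : T₂ ≤ W := fun t ht => ⟨hT₂G ht, fun z hz => fix₂ t ht z hz⟩
  have hc₁' : Nat.card T₁' = 2 ^ e := by
    rw [hT₁', Subgroup.card_map_of_injective (MulAut.conj g₀).injective, hc₁]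
  let A₁ : Subgroup W := T₁'.subgroupOf W
  let A₂ : Subgroup W := T₂.subgroupOf W
  have hA₁ : Nat.card A₁ = 2 ^ e := by
    rw [← hc₁']
    exact Nat.card_congr (Subgroup.subgroupOfEquivOfLe hT₁'W).toEquiv
  have hA₂ : Nat.card A₂ = 2 ^ e := by
    rw [← hc₂]
    exact Nat.card_congr (Subgroup.subgroupOfEquivOfLe hT₂W).toEquiv
  let S₁ : Sylow 2 W := Sylow.ofCard A₁ (by rw [hA₁, hW])
  let S₂ : Sylow 2 W := Sylow.ofCard A₂ (by rw [hA₂, hW])
  obtain ⟨h, hh⟩ := MulAction.exists_smul_eq W S₁ S₂
  have hmap : T₂ = T₁'.map (MulAut.conj (h : Perm X)).toMonoidHom := by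
    symm
    apply Subgroup.eq_of_le_of_card_ge
    · rintro _ ⟨y, hy, rfl⟩
      have hy' : (⟨y, hT₁'W hy⟩ : W) ∈ (S₁ : Subgroup W) := hy
      have h1 : ((h * ⟨y, hT₁'W hy⟩ * h⁻¹ : W)) ∈ (S₂ : Subgroup W) := by
        rw [← hh, Sylow.coe_subgroup_smul, Subgroup.pointwise_smul_def]
        exact ⟨_, hy', rfl⟩
      exact h1
    · rw [Subgroup.card_map_of_injective (MulAut.conj (h : Perm X)).injective, hc₁', hc₂]
  have hcommh : (h : Perm X) * c₂ = c₂ * (h : Perm X) := by
    have hdisj : Perm.Disjoint (h : Perm X) c₂ := by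
      intro z
      by_cases hz : c₂ z = z
      · exact Or.inr hz
      · exact Or.inl (h.2.2 z hz)
    exact hdisj.commute
  refine ⟨(h : Perm X) * g₀, G.mul_mem h.2.1 hg₀G, ?_⟩
  rw [Subgroup.map_sup, MonoidHom.map_zpowers]
  congr 1
  · congr 1
    show c₂ = (h : Perm X) * g₀ * c₁ * ((h : Perm X) * g₀)⁻¹
    calc c₂ = (h : Perm X) * c₂ * (h : Perm X)⁻¹ := by rw [hcommh]; simp
      _ = _ := by rw [← hg₀]; group
  · rw [hmap, hT₁', Subgroup.map_map]
    congr 1

/-- The order of the fixer of a three-cycle. -/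
lemma card_fixS {X : Type} [Fintype X] [DecidableEq X] (c : Perm X) (hc : c.IsThreeCycle) :
    Nat.card (fixS c) = (Fintype.card X - 3).factorial := by
  classical
  let p : X → Prop := fun z => c z = z
  have h1 : Fintype.card {z // p z} = Fintype.card X - 3 := by
    have h2 : Fintype.card {z // p z} = (c.supportᶜ).card :=
      Fintype.card_of_subtype _ (fun z => by simp [p])
    rw [h2, Finset.card_compl, card_support_eq_three_iff.2 hc]
  have e : Perm {z // p z} ≃ fixS c :=
    (Perm.subtypeEquivSubtypePerm p).trans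
      { toFun := fun f => ⟨f.1, fun z hz => f.2 z hz⟩
        invFun := fun f => ⟨f.1, fun z hz => f.2 z hz⟩
        left_inv := fun _ => rfl
        right_inv := fun _ => rfl }
  rw [← Nat.card_congr e, Nat.card_perm, Nat.card_eq_fintype_card, h1]

/-- The order of the even fixer of a three-cycle. -/
lemma card_fixS_alt {X : Type} [Fintype X] [DecidableEq X] (c : Perm X) (hc : c.IsThreeCycle)
    (hX : 5 ≤ Fintype.card X) :
    2 * Nat.card ↥(alternatingGroup X ⊓ fixS c) = (Fintype.card X - 3).factorial := by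
  classical
  let p : X → Prop := fun z => c z = z
  have h1 : Fintype.card {z // p z} = Fintype.card X - 3 := by
    have h2 : Fintype.card {z // p z} = (c.supportᶜ).card :=
      Fintype.card_of_subtype _ (fun z => by simp [p])
    rw [h2, Finset.card_compl, card_support_eq_three_iff.2 hc]
  haveI : Nontrivial {z // p z} := by
    apply Fintype.one_lt_card_iff_nontrivial.1
    omega
  have h2 := two_mul_card_alternatingGroup (α := {z // p z})
  rw [Fintype.card_perm, h1] at h2
  rw [← h2, ← Nat.card_eq_fintype_card]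
  congr 1
  symm
  let F : alternatingGroup {z // p z} → ↥(alternatingGroup X ⊓ fixS c) := fun s =>
    ⟨Perm.ofSubtype s.1, ⟨by
        show Perm.ofSubtype s.1 ∈ alternatingGroup X
        rw [Perm.mem_alternatingGroup, Perm.sign_ofSubtype]
        exact Perm.mem_alternatingGroup.1 s.2, by
        intro z hz
        exact Perm.ofSubtype_apply_of_not_mem _ hz⟩⟩
  apply Nat.card_congr (Equiv.ofBijective F ⟨?_, ?_⟩)
  · intro a b hab
    apply Subtype.ext
    apply Perm.ofSubtype_injective
    exact congrArg Subtype.val hab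
  · rintro ⟨g, hg1, hg2⟩
    obtain ⟨s, hs⟩ := (Perm.subtypeEquivSubtypePerm p).surjective ⟨g, fun z hz => hg2 z hz⟩
    have hs' : Perm.ofSubtype s = g := by
      have := congrArg Subtype.val hs
      rwa [Perm.subtypeEquivSubtypePerm_apply_coe] at this
    refine ⟨⟨s, ?_⟩, Subtype.ext hs'⟩
    rw [Perm.mem_alternatingGroup, ← Perm.sign_ofSubtype, hs']
    exact Perm.mem_alternatingGroup.1 hg1

/-- The embedding of `Perm (Fin (n - 3)) × C₃` into `Perm (Fin n)`. -/
noncomputable def embThree (n : ℕ) (hn : 3 ≤ n) :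
    Perm (Fin (n - 3)) × Multiplicative (ZMod 3) →* Perm (Fin n) :=
  let β := Multiplicative (ZMod 3)
  let e : (Fin (n - 3) ⊕ β) ≃ Fin n := Fintype.equivFinOfCardEq (by
    rw [Fintype.card_sum, Fintype.card_fin, Fintype.card_multiplicative, ZMod.card]
    omega)
  ((Equiv.permCongrHom e).toMonoidHom).comp ((Perm.sumCongrHom _ _).comp
    (MonoidHom.prodMap (MonoidHom.id _) (MulAction.toPermHom β β)))

lemma embThree_injective (n : ℕ) (hn : 3 ≤ n) : Function.Injective (embThree n hn) := by
  unfold embThree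
  simp only [MonoidHom.coe_comp]
  apply Function.Injective.comp (MulEquiv.injective _)
  apply Function.Injective.comp Perm.sumCongrHom_injective
  rw [MonoidHom.coe_prodMap]
  apply Function.Injective.prodMap
  · exact fun _ _ h => h
  · exact MulAction.toPerm_injective

lemma sign_embThree (n : ℕ) (hn : 3 ≤ n) (a : Perm (Fin (n - 3))) (b : Multiplicative (ZMod 3)) :
    Perm.sign (embThree n hn (a, b)) = Perm.sign a := by
  have h1 : ∀ y : Perm (Multiplicative (ZMod 3)), y ^ 3 = 1 → Perm.sign y = 1 := by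
    intro y hy
    have h2 : (Perm.sign y) ^ 3 = 1 := by rw [← map_pow, hy, map_one]
    rcases Int.units_eq_one_or (Perm.sign y) with h | h
    · exact h
    · rw [h] at h2
      exact absurd h2 (by decide)
  have hb : (MulAction.toPermHom (Multiplicative (ZMod 3)) (Multiplicative (ZMod 3)) b) ^ 3 = 1 := by
    rw [← map_pow]
    have : b ^ 3 = 1 := by
      have h3 : Nat.card (Multiplicative (ZMod 3)) = 3 := by
        rw [Nat.card_eq_fintype_card, Fintype.card_multiplicative, ZMod.card]
      have h4 := pow_card_eq_one' (G := Multiplicative (ZMod 3)) (x := b)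
      rwa [h3] at h4
    rw [this, map_one]
  show Perm.sign (Equiv.permCongr _ (Perm.sumCongr a (MulAction.toPermHom (Multiplicative (ZMod 3)) (Multiplicative (ZMod 3)) b))) = _
  rw [Perm.sign_permCongr, Perm.sign_sumCongr, h1 _ hb, mul_one]

end Cfsg.Agent.H10
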