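import Mathlib

set_option autoImplicit false

namespace Cfsg.Agent.H10

open Equiv

/-- For an abelian group of permutations there is an involution inverting it. -/
theorem exists_inverting_involution {X : Type*} (A : Subgroup (Perm X))
    (hA : ∀ a ∈ A, ∀ b ∈ A, a * b = b * a) :
    ∃ t : Perm X, t * t = 1 ∧ ∀ a ∈ A, t * a * t⁻¹ = a⁻¹ := by
  classical
  -- representatives of orbits
  let s : Setoid X := MulAction.orbitRel A X
  let rep : X → X := fun x => (Quotient.mk s x).out
  have h1 : ∀ x, ∃ a ∈ A, a (rep x) = x := by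
    intro x
    have h : s (rep x) x := Quotient.mk_out (s := s) x
    obtain ⟨a, ha⟩ := (MulAction.orbitRel_apply.1 h : rep x ∈ MulAction.orbit A x)
    refine ⟨(a : Perm X)⁻¹, A.inv_mem a.2, ?_⟩
    have ha' : (a : Perm X) x = rep x := ha
    rw [← ha']; simp
  have h2 : ∀ x, ∀ a ∈ A, rep (a x) = rep x := by
    intro x a ha
    have : s (a x) x := by
      apply MulAction.orbitRel_apply.2
      exact ⟨⟨a, ha⟩, rfl⟩
    have h3 : (Quotient.mk s (a x)) = Quotient.mk s x := Quotient.sound this
    simp only [rep, h3]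
  choose g hgA hg using h1
  -- independence of choice
  have key : ∀ (r : X) (a b : Perm X), a ∈ A → b ∈ A → a r = b r → a⁻¹ r = b⁻¹ r := by
    intro r a b ha hb hab
    have h3 : (b⁻¹ * a) r = r := by simp [Perm.mul_apply, hab]
    have h4 : (b⁻¹ * a)⁻¹ r = r := by
      rw [Perm.inv_eq_iff_eq]; exact h3.symm
    have h5 : a⁻¹ = b⁻¹ * (b⁻¹ * a)⁻¹ := by
      have := hA _ (A.inv_mem ha) _ hb
      rw [mul_inv_rev, inv_inv, this]
      group
    rw [h5, Perm.mul_apply, h4]
  let tf : X → X := fun x => (g x)⁻¹ (rep x)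
  have ht : ∀ x, ∀ a ∈ A, a (rep x) = x → tf x = a⁻¹ (rep x) := by
    intro x a ha hax
    exact key (rep x) (g x) a (hgA x) ha ((hg x).trans hax.symm)
  have hinv : Function.Involutive tf := by
    intro x
    have hy : rep (tf x) = rep x := by
      show rep ((g x)⁻¹ (rep x)) = rep x
      have h6 : rep ((g x)⁻¹ (rep x)) = rep (rep x) := h2 _ _ (A.inv_mem (hgA x))
      have h7 : rep x = rep (rep x) := by
        have := h2 (rep x) (g x) (hgA x)
        rw [hg x] at this
        exact this
      rw [h6, ← h7]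
    have h8 := ht (tf x) (g x)⁻¹ (A.inv_mem (hgA x)) (by rw [hy])
    rw [h8, hy, inv_inv, hg x]
  refine ⟨Function.Involutive.toPerm tf hinv, ?_, ?_⟩
  · ext x
    simp [Perm.mul_apply, Function.Involutive.coe_toPerm, hinv x]
  · intro a ha
    have h3 : ∀ x, tf (a x) = a⁻¹ (tf x) := by
      intro x
      have hrep : rep (a x) = rep x := h2 x a ha
      have h4 := ht (a x) (a * g x) (A.mul_mem ha (hgA x)) (by
        rw [hrep, Perm.mul_apply, hg x])
      rw [h4, hrep]
      show ((a * g x)⁻¹) (rep x) = a⁻¹ ((g x)⁻¹ (rep x))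
      rw [← Perm.mul_apply, mul_inv_rev, hA _ (A.inv_mem (hgA x)) _ (A.inv_mem ha)]
    rw [mul_inv_eq_iff_eq_mul]
    ext x
    simp only [Perm.mul_apply, Function.Involutive.coe_toPerm]
    exact h3 x

theorem centralizer_subgroupOf_normalizer_normal {G : Type*} [Group G] (S : Set G) :
    ((Subgroup.centralizer S).subgroupOf (Subgroup.normalizer S)).Normal := by
  rw [Subgroup.normal_subgroupOf_iff (Subgroup.centralizer_le_normalizer S)]
  intro h k hh hk
  rw [Subgroup.mem_centralizer_iff] at hh ⊢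
  intro q hq
  have hq' : k⁻¹ * q * k ∈ S := by
    exact (Subgroup.mem_set_normalizer_iff''.1 hk q).1 hq
  have h3 := hh _ hq'
  have h4 : k * (k⁻¹ * q * k * h) * k⁻¹ = k * (h * (k⁻¹ * q * k)) * k⁻¹ := by rw [h3]
  simpa [mul_assoc] using h4

/-- An element normalizing `S`, not centralizing it, with square centralizing it, makes `N(S)/C(S)` even. -/
theorem two_dvd_index_of_involution {G : Type*} [Group G] [Finite G] (S : Set G) (t : G)
    (ht : t ∈ Subgroup.normalizer S) (h1 : t ∉ Subgroup.centralizer S)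
    (h2 : t * t ∈ Subgroup.centralizer S) :
    2 ∣ ((Subgroup.centralizer S).subgroupOf (Subgroup.normalizer S)).index := by
  have := centralizer_subgroupOf_normalizer_normal S
  set K := (Subgroup.centralizer S).subgroupOf (Subgroup.normalizer S) with hK
  let x : Subgroup.normalizer S ⧸ K := QuotientGroup.mk ⟨t, ht⟩
  have : Fact (Nat.Prime 2) := ⟨Nat.prime_two⟩
  have hx : orderOf x = 2 := by
    apply orderOf_eq_prime
    · show ((⟨t, ht⟩ : Subgroup.normalizer S) : Subgroup.normalizer S ⧸ K) ^ 2 = 1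
      rw [← QuotientGroup.mk_pow, QuotientGroup.eq_one_iff, hK, Subgroup.mem_subgroupOf]
      simpa [pow_two] using h2
    · show ((⟨t, ht⟩ : Subgroup.normalizer S) : Subgroup.normalizer S ⧸ K) ≠ 1
      rw [Ne, QuotientGroup.eq_one_iff, hK, Subgroup.mem_subgroupOf]
      exact h1
  rw [Subgroup.index_eq_card, ← hx]
  exact orderOf_dvd_natCard x

end Cfsg.Agent.H10
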