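import Mathlib

/-! Transitivity of `SL_n` on vectors and on pairs of independent vectors, by shears. -/

set_option autoImplicit false
set_option linter.unusedSectionVars false
set_option linter.unusedSimpArgs false
set_option linter.style.haveILetI false

namespace Cfsg.Agent.H10

open Matrix

variable {F : Type*} [Field F] {n : ℕ}

/-- Shears attached to a linear form vanishing at the direction. -/
lemma exists_shear (φ : Module.Dual F (Fin n → F)) (x : Fin n → F) (hφ : φ x = 0) :
    ∃ g : Matrix.SpecialLinearGroup (Fin n) F, ∀ y, g.1 *ᵥ y = y + φ y • x := by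
  let r : Fin n → F := fun k => φ (Pi.single k 1)
  have hr : ∀ y, r ⬝ᵥ y = φ y := by
    intro y
    rw [LinearMap.pi_apply_eq_sum_univ φ y]
    simp only [dotProduct, smul_eq_mul, r]
    refine Finset.sum_congr rfl (fun k _ => ?_)
    rw [mul_comm]
    congr 2
    ext j
    simp [Pi.single_apply, eq_comm]
  have hdet : (1 + replicateCol (Fin 1) x * replicateRow (Fin 1) r : Matrix (Fin n) (Fin n) F).det = 1 := by
    have h0 : (replicateRow (Fin 1) r * replicateCol (Fin 1) x : Matrix (Fin 1) (Fin 1) F) 0 0 = r ⬝ᵥ x := by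
      simp [Matrix.mul_apply, dotProduct]
    rw [det_one_add_mul_comm, det_fin_one, Matrix.add_apply, h0, hr, hφ, add_zero, Matrix.one_apply_eq]
  refine ⟨⟨_, hdet⟩, fun y => ?_⟩
  change (1 + replicateCol (Fin 1) x * replicateRow (Fin 1) r : Matrix (Fin n) (Fin n) F) *ᵥ y = _
  rw [add_mulVec, one_mulVec, ← hr]
  congr 1
  ext k
  simp only [mulVec, dotProduct, Matrix.mul_apply, Pi.smul_apply, smul_eq_mul, Finset.mul_sum, Fin.sum_univ_one,
    replicateCol_apply, replicateRow_apply, Finset.sum_mul]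
  refine Finset.sum_congr rfl (fun j _ => by ring)

/-- One shear step. -/
lemma exists_SL_pair_step {v w w' : Fin n → F} (hw : ∀ a : F, w ≠ a • v)
    (hw' : ∀ a b : F, w' ≠ a • v + b • w) :
    ∃ g : Matrix.SpecialLinearGroup (Fin n) F, g.1 *ᵥ v = v ∧ g.1 *ᵥ w = w' := by
  have hnot : w ∉ Submodule.span F {v, w' - w} := by
    intro h
    obtain ⟨a, b, hab⟩ := Submodule.mem_span_pair.1 h
    by_cases hb : b = 0
    · subst hb
      apply hw a
      rw [← hab]
      simp
    · apply hw' (-(a / b)) ((1 + b) / b)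
      have h1 : b • w' = w + b • w - a • v := by
        have e : a • v + b • (w' - w) = a • v + b • w' - b • w := by
          rw [smul_sub]
          abel
        rw [e] at hab
        calc b • w' = (a • v + b • w' - b • w) + b • w - a • v := by abel
          _ = w + b • w - a • v := by rw [hab]
      have h2 : w' = b⁻¹ • (b • w') := by rw [smul_smul, inv_mul_cancel₀ hb, one_smul]
      rw [h2, h1]
      ext i
      simp only [Pi.smul_apply, Pi.sub_apply, Pi.add_apply, smul_eq_mul]
      field_simp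
      ring
  obtain ⟨φ₀, hφ₀, hker⟩ := Submodule.exists_le_ker_of_notMem hnot
  let φ : Module.Dual F (Fin n → F) := (φ₀ w)⁻¹ • φ₀
  have h1 : φ w = 1 := by simp [φ, hφ₀]
  have h2 : φ v = 0 := by
    have : φ₀ v = 0 := hker (Submodule.subset_span (by simp))
    simp [φ, this]
  have h3 : φ (w' - w) = 0 := by
    have : φ₀ (w' - w) = 0 := hker (Submodule.subset_span (by simp))
    simp only [φ, LinearMap.smul_apply, this, smul_zero]
  obtain ⟨g, hg⟩ := exists_shear φ (w' - w) h3
  refine ⟨g, ?_, ?_⟩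
  · rw [hg, h2, zero_smul, add_zero]
  · rw [hg, h1, one_smul]
    abel

/-- `SL_n`, `n ≥ 3`, is transitive on vectors outside a given line, fixing a vector of the line. -/
theorem exists_SL_pair [Fintype F] (hn : 3 ≤ n) {v w w' : Fin n → F} (hw : ∀ a : F, w ≠ a • v)
    (hw' : ∀ a : F, w' ≠ a • v) :
    ∃ g : Matrix.SpecialLinearGroup (Fin n) F, g.1 *ᵥ v = v ∧ g.1 *ᵥ w = w' := by
  classical
  by_cases hdirect : ∀ a b : F, w' ≠ a • v + b • w
  · exact exists_SL_pair_step hw hdirect
  push Not at hdirect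
  obtain ⟨a', b', h'⟩ := hdirect
  -- a vector outside the plane
  obtain ⟨z, hz⟩ : ∃ z : Fin n → F, ∀ a b : F, z ≠ a • v + b • w := by
    by_contra hcon
    push Not at hcon
    choose a b hab using hcon
    have hsurj : Function.Surjective (fun p : F × F => p.1 • v + p.2 • w) := fun z =>
      ⟨(a z, b z), (hab z).symm⟩
    have h1 := Fintype.card_le_of_surjective _ hsurj
    rw [Fintype.card_prod, Fintype.card_fun, Fintype.card_fin] at h1
    have hq : 2 ≤ Fintype.card F := Fintype.one_lt_card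
    have h2 : Fintype.card F ^ 3 ≤ Fintype.card F ^ n := Nat.pow_le_pow_right (by omega) hn
    nlinarith [Nat.pos_of_ne_zero (by omega : Fintype.card F ≠ 0)]
  obtain ⟨g₁, hg₁, hg₁'⟩ := exists_SL_pair_step hw hz
  have hz1 : ∀ a : F, z ≠ a • v := fun a h => hz a 0 (by rw [h]; simp)
  have hz' : ∀ a b : F, w' ≠ a • v + b • z := by
    intro a b h
    by_cases hb : b = 0
    · subst hb
      exact hw' a (by rw [h]; simp)
    · apply hz (b⁻¹ * (a' - a)) (b⁻¹ * b')
      have h3 : b • z = w' - a • v := by rw [h]; abel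
      have h4 : z = b⁻¹ • (b • z) := by rw [smul_smul, inv_mul_cancel₀ hb, one_smul]
      rw [h4, h3, h']
      ext i
      simp only [Pi.smul_apply, Pi.sub_apply, Pi.add_apply, smul_eq_mul]
      ring
  obtain ⟨g₂, hg₂, hg₂'⟩ := exists_SL_pair_step hz1 hz'
  exact ⟨g₂ * g₁, by
    change (g₂.1 * g₁.1) *ᵥ v = v
    rw [← mulVec_mulVec, hg₁, hg₂], by
    change (g₂.1 * g₁.1) *ᵥ w = w'
    rw [← mulVec_mulVec, hg₁', hg₂']⟩

/-- `SL_n`, `n ≥ 3`, is transitive on non-zero vectors. -/
theorem exists_SL_nonzero [Fintype F] (hn : 3 ≤ n) {w w' : Fin n → F} (hw : w ≠ 0) (hw' : w' ≠ 0) :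
    ∃ g : Matrix.SpecialLinearGroup (Fin n) F, g.1 *ᵥ w = w' := by
  obtain ⟨g, -, hg⟩ := exists_SL_pair (v := 0) hn (w := w) (w' := w') (fun a => by simpa using hw)
    (fun a => by simpa using hw')
  exact ⟨g, hg⟩

end Cfsg.Agent.H10
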