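import Mathlib
import Cfsg.Agent.Lib.H10.SLTrans

/-! Counting lemmas for the permutation action of `SL_n` on non-zero vectors. -/

set_option autoImplicit false
set_option linter.unusedSectionVars false
set_option linter.unusedSimpArgs false
set_option linter.style.haveILetI false

namespace Cfsg.Agent.H10

open Matrix

variable {F : Type*} [Field F] [Fintype F] [DecidableEq F] {n : ℕ}

local notation "G" => Matrix.SpecialLinearGroup (Fin n) F

/-- Elements moving `v` to `u`. -/
noncomputable def cntV (v u : Fin n → F) : ℕ :=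
  (Finset.univ.filter fun g : G => g.1 *ᵥ v = u).card

/-- Elements moving `v` to `u` and `w` to `t`. -/
noncomputable def cnt2V (v u w t : Fin n → F) : ℕ :=
  (Finset.univ.filter fun g : G => g.1 *ᵥ v = u ∧ g.1 *ᵥ w = t).card

/-- Non-zero vectors. -/
def nzV (F : Type*) [Field F] [Fintype F] [DecidableEq F] (n : ℕ) : Finset (Fin n → F) :=
  Finset.univ.filter (· ≠ 0)

lemma mem_nzV {v : Fin n → F} : v ∈ nzV F n ↔ v ≠ 0 := by simp [nzV]

/-- Vectors outside the line of `v`. -/
def offV (v : Fin n → F) : Finset (Fin n → F) :=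
  Finset.univ.filter fun x => ∀ a : F, x ≠ a • v

lemma mem_offV {v x : Fin n → F} : x ∈ offV v ↔ ∀ a : F, x ≠ a • v := by simp [offV]

lemma mulVec_smul' (g : G) (a : F) (v : Fin n → F) : g.1 *ᵥ (a • v) = a • (g.1 *ᵥ v) :=
  Matrix.mulVec_smul _ _ _

lemma mulVec_inv_mulVec (g : G) (v : Fin n → F) : (g⁻¹).1 *ᵥ (g.1 *ᵥ v) = v := by
  rw [Matrix.mulVec_mulVec]
  have : (g⁻¹).1 * g.1 = 1 := congrArg Subtype.val (inv_mul_cancel g)
  rw [this, Matrix.one_mulVec]

lemma mulVec_ne_zero (g : G) {v : Fin n → F} (hv : v ≠ 0) : g.1 *ᵥ v ≠ 0 := by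
  intro h
  apply hv
  have := mulVec_inv_mulVec g v
  rw [h, Matrix.mulVec_zero] at this
  exact this.symm

lemma mulVec_mul (g h : G) (v : Fin n → F) : (g * h).1 *ᵥ v = g.1 *ᵥ (h.1 *ᵥ v) := by
  rw [Matrix.mulVec_mulVec]
  rfl

lemma cntV_le (hn : 3 ≤ n) {v u v' u' : Fin n → F} (hv : v ≠ 0) (hu : u ≠ 0) (hv' : v' ≠ 0) (hu' : u' ≠ 0) :
    cntV v u ≤ cntV v' u' := by
  obtain ⟨h₁, hh₁⟩ := exists_SL_nonzero hn hv' hv
  obtain ⟨h₂, hh₂⟩ := exists_SL_nonzero hn hu hu'
  refine Finset.card_le_card_of_injOn (fun g => h₂ * g * h₁) ?_ ?_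
  · intro g hg
    have hg' : g.1 *ᵥ v = u := by simpa using hg
    simp only [Finset.coe_filter, Finset.mem_univ, true_and, Set.mem_ofPred_eq]
    rw [mulVec_mul, mulVec_mul, hh₁, hg', hh₂]
  · intro g _ g' _ h
    exact mul_left_cancel (mul_right_cancel h)

lemma cntV_eq (hn : 3 ≤ n) {v u v' u' : Fin n → F} (hv : v ≠ 0) (hu : u ≠ 0) (hv' : v' ≠ 0) (hu' : u' ≠ 0) :
    cntV v u = cntV v' u' :=
  le_antisymm (cntV_le hn hv hu hv' hu') (cntV_le hn hv' hu' hv hu)

lemma cnt2V_le (hn : 3 ≤ n) {v u w t w' t' : Fin n → F} (hw : w ∈ offV v) (hw' : w' ∈ offV v)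
    (ht : t ∈ offV u) (ht' : t' ∈ offV u) : cnt2V v u w t ≤ cnt2V v u w' t' := by
  obtain ⟨h₁, hh₁, hh₁'⟩ := exists_SL_pair hn (mem_offV.1 hw') (mem_offV.1 hw)
  obtain ⟨h₂, hh₂, hh₂'⟩ := exists_SL_pair hn (mem_offV.1 ht) (mem_offV.1 ht')
  refine Finset.card_le_card_of_injOn (fun g => h₂ * g * h₁) ?_ ?_
  · intro g hg
    have hg' : g.1 *ᵥ v = u ∧ g.1 *ᵥ w = t := by simpa using hg
    simp only [Finset.coe_filter, Finset.mem_univ, true_and, Set.mem_ofPred_eq]
    rw [mulVec_mul, mulVec_mul, hh₁, hg'.1, hh₂, mulVec_mul, mulVec_mul, hh₁', hg'.2, hh₂']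
    exact ⟨rfl, rfl⟩
  · intro g _ g' _ h
    exact mul_left_cancel (mul_right_cancel h)

lemma cnt2V_eq (hn : 3 ≤ n) {v u w t w' t' : Fin n → F} (hw : w ∈ offV v) (hw' : w' ∈ offV v)
    (ht : t ∈ offV u) (ht' : t' ∈ offV u) : cnt2V v u w t = cnt2V v u w' t' :=
  le_antisymm (cnt2V_le hn hw hw' ht ht') (cnt2V_le hn hw' hw ht' ht)

/-- The orbit equation. -/
lemma sum_cntV {v : Fin n → F} (hv : v ≠ 0) : ∑ u ∈ nzV F n, cntV v u = Nat.card G := by
  classical
  rw [Nat.card_eq_fintype_card, ← Finset.card_univ]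
  symm
  exact Finset.card_eq_sum_card_fiberwise (f := fun g : G => g.1 *ᵥ v) (t := nzV F n)
    (fun g _ => by
      simpa [nzV] using mulVec_ne_zero g hv)

lemma offV_mulVec {v w : Fin n → F} (hw : w ∈ offV v) (g : G) : g.1 *ᵥ w ∈ offV (g.1 *ᵥ v) := by
  rw [mem_offV]
  intro a h
  apply mem_offV.1 hw a
  have := congrArg (fun x => (g⁻¹).1 *ᵥ x) h
  simp only [mulVec_inv_mulVec, mulVec_smul'] at this
  exact this

lemma sum_cnt2V {v u w : Fin n → F} (hw : w ∈ offV v) :
    ∑ t ∈ offV u, cnt2V v u w t = cntV v u := by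
  classical
  unfold cntV
  rw [Finset.card_eq_sum_card_fiberwise (f := fun g : G => g.1 *ᵥ w) (t := offV u)]
  · refine Finset.sum_congr rfl (fun t _ => ?_)
    unfold cnt2V
    congr 1
    ext g
    simp only [Finset.mem_filter, Finset.mem_univ, true_and]
  · intro g hg
    have hg' : g.1 *ᵥ v = u := by simpa using hg
    have := offV_mulVec hw g
    rw [hg'] at this
    exact this

lemma offV_smul {v : Fin n → F} {c : F} (hc : c ≠ 0) : offV (c • v) = offV v := by
  ext x
  simp only [mem_offV]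
  constructor
  · intro h a e
    apply h (a / c)
    rw [e, smul_smul, div_mul_cancel₀ _ hc]
  · intro h a e
    apply h (a * c)
    rw [e, smul_smul]

lemma exists_offV [NeZero n] (hn : 2 ≤ n) (v : Fin n → F) : ∃ z, z ∈ offV v := by
  by_contra hcon
  push Not at hcon
  have h1 : ∀ z : Fin n → F, ∃ a : F, z = a • v := by
    intro z
    have := hcon z
    rw [mem_offV] at this
    push Not at this
    exact this
  choose a ha using h1
  have hsurj : Function.Surjective (fun t : F => t • v) := fun z => ⟨a z, (ha z).symm⟩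
  have h2 := Fintype.card_le_of_surjective _ hsurj
  rw [Fintype.card_fun, Fintype.card_fin] at h2
  have hq : 2 ≤ Fintype.card F := Fintype.one_lt_card
  have h3 : Fintype.card F ^ 2 ≤ Fintype.card F ^ n := Nat.pow_le_pow_right (by omega) hn
  nlinarith

/-- The count over the off-line vectors. -/
lemma sum_off (hn : 3 ≤ n) {v : Fin n → F} (c d : Fˣ) :
    ∑ w ∈ offV v, cnt2V v ((c : F) • v) w ((d : F) • w) = cntV v ((c : F) • v) := by
  classical
  haveI : NeZero n := ⟨by omega⟩
  obtain ⟨z, hz⟩ := exists_offV (by omega) v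
  have hoff : offV ((c : F) • v) = offV v := offV_smul c.ne_zero
  have hz' : z ∈ offV ((c : F) • v) := by rwa [hoff]
  have hdw : ∀ w ∈ offV v, (d : F) • w ∈ offV ((c : F) • v) := by
    intro w hw
    rw [hoff, mem_offV]
    intro a e
    apply mem_offV.1 hw ((d : F)⁻¹ * a)
    have := congrArg (fun x => ((d : F)⁻¹) • x) e
    simpa [smul_smul] using this
  rw [← sum_cnt2V (u := (c : F) • v) hz, hoff]
  refine Finset.sum_congr rfl (fun w hw => ?_)
  exact cnt2V_eq hn hw hz (hdw w hw) (by rwa [hoff])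

/-- The full sum over non-zero vectors. -/
lemma sum_nz (hn : 3 ≤ n) {v : Fin n → F} (hv : v ≠ 0) (c d : Fˣ) :
    ∑ w ∈ nzV F n, cnt2V v ((c : F) • v) w ((d : F) • w) =
      cntV v ((c : F) • v) * (1 + (Fintype.card F - 1) * if c = d then 1 else 0) := by
  classical
  rw [← Finset.sum_filter_add_sum_filter_not (nzV F n) (fun w => ∀ a : F, w ≠ a • v)]
  have h1 : (nzV F n).filter (fun w => ∀ a : F, w ≠ a • v) = offV v := by
    ext x
    simp only [Finset.mem_filter, mem_nzV, mem_offV]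
    constructor
    · exact fun h => h.2
    · intro h
      refine ⟨?_, h⟩
      have := h 0
      simpa using this
  have h2 : (nzV F n).filter (fun w => ¬ ∀ a : F, w ≠ a • v) =
      (Finset.univ : Finset Fˣ).image (fun t : Fˣ => (t : F) • v) := by
    ext x
    simp only [Finset.mem_filter, mem_nzV, Finset.mem_image, Finset.mem_univ, true_and]
    push Not
    constructor
    · rintro ⟨hx, a, rfl⟩
      have ha : a ≠ 0 := by
        rintro rfl
        exact hx (zero_smul _ _)
      exact ⟨Units.mk0 a ha, rfl⟩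
    · rintro ⟨t, rfl⟩
      refine ⟨smul_ne_zero t.ne_zero hv, _, rfl⟩
  rw [h1, h2, sum_off hn, Finset.sum_image]
  · have h3 : ∀ t : Fˣ, cnt2V v ((c : F) • v) ((t : F) • v) ((d : F) • (t : F) • v) =
        if c = d then cntV v ((c : F) • v) else 0 := by
      intro t
      unfold cnt2V cntV
      split_ifs with hcd
      · congr 1
        ext g
        simp only [Finset.mem_filter, Finset.mem_univ, true_and, mulVec_smul', hcd]
        constructor
        · exact fun h => h.1
        · intro h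
          rw [h]
          exact ⟨rfl, smul_comm _ _ _⟩
      · rw [Finset.card_eq_zero, Finset.filter_eq_empty_iff]
        rintro g - ⟨h5, h6⟩
        rw [mulVec_smul', h5, smul_comm] at h6
        have h7 : ((c : F) - (d : F)) • (t : F) • v = 0 := by
          rw [sub_smul, h6.symm, sub_self]
        rcases smul_eq_zero.1 h7 with h8 | h8
        · exact hcd (Units.ext (sub_eq_zero.1 h8))
        · exact smul_ne_zero t.ne_zero hv h8
    simp only [h3, Finset.sum_const, Finset.card_univ, Fintype.card_units]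
    split_ifs
    · simp
      ring
    · simp
  · intro a _ b _ hab
    apply Units.ext
    have h5 : ((a : F) - (b : F)) • v = 0 := by
      rw [sub_smul]
      exact sub_eq_zero.2 hab
    rcases smul_eq_zero.1 h5 with h6 | h6
    · exact sub_eq_zero.1 h6
    · exact absurd h6 hv

/-- The count for the character sum. -/
lemma sum_all (hn : 3 ≤ n) (c : Fˣ) : ∑ v ∈ nzV F n, cntV v ((c : F) • v) = Nat.card G := by
  classical
  haveI : NeZero n := ⟨by omega⟩
  let v₀ : Fin n → F := Pi.single 0 1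
  have hv₀ : v₀ ≠ 0 := by
    intro h
    have := congrFun h 0
    simp [v₀] at this
  rw [← sum_cntV hv₀]
  refine Finset.sum_congr rfl (fun v hv => ?_)
  have hv' := mem_nzV.1 hv
  exact cntV_eq hn hv' (smul_ne_zero c.ne_zero hv') hv₀ hv'

/-- The number of non-zero vectors with `g v = c v`. -/
noncomputable def fcV (c : Fˣ) (g : G) : ℕ :=
  ((nzV F n).filter fun v => g.1 *ᵥ v = (c : F) • v).card

lemma sum_fcV (hn : 3 ≤ n) (c : Fˣ) : ∑ g : G, fcV c g = Nat.card G := by
  classical
  rw [← sum_all hn c]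
  unfold fcV cntV
  simp only [Finset.card_filter]
  rw [Finset.sum_comm]

lemma sum_fcV_mul (hn : 3 ≤ n) (c d : Fˣ) :
    ∑ g : G, fcV c g * fcV d g = Nat.card G * (1 + (Fintype.card F - 1) * if c = d then 1 else 0) := by
  classical
  rw [← sum_all hn c, Finset.sum_mul]
  have h1 : ∀ v ∈ nzV F n, cntV v ((c : F) • v) * (1 + (Fintype.card F - 1) * if c = d then 1 else 0) =
      ∑ w ∈ nzV F n, cnt2V v ((c : F) • v) w ((d : F) • w) := by
    intro v hv
    exact (sum_nz hn (mem_nzV.1 hv) c d).symm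
  rw [Finset.sum_congr rfl h1]
  unfold fcV cnt2V
  simp only [Finset.card_filter]
  simp only [Finset.sum_mul_sum]
  rw [Finset.sum_comm]
  refine Finset.sum_congr rfl (fun v _ => ?_)
  rw [Finset.sum_comm]
  refine Finset.sum_congr rfl (fun w _ => ?_)
  refine Finset.sum_congr rfl (fun g _ => ?_)
  by_cases h1 : g.1 *ᵥ v = (c : F) • v <;> by_cases h2 : g.1 *ᵥ w = (d : F) • w <;> simp [h1, h2]

end Cfsg.Agent.H10
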