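import Cfsg.Agent.Lib.H10.ReeF4

/-!
# The small Ree group: the minimal degree of a non-trivial complex representation
-/

set_option autoImplicit false
set_option linter.style.longLine false
set_option linter.unusedSimpArgs false
set_option linter.unusedSectionVars false
set_option linter.style.haveILetI false
set_option maxRecDepth 100000

open Cfsg Cfsg.Lie Cfsg.Agent.H04.Chev Matrix Module
open scoped MatrixGroups commutatorElement Pointwise

namespace Cfsg.Agent.H10

/-- A representation whose character vanishes off the identity has degree divisible by the group order. -/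
theorem card_dvd_finrank_of_char {U V : Type*} [Group U] [Fintype U] [AddCommGroup V] [Module ℂ V]
    [FiniteDimensional ℂ V] (τ : Representation ℂ U V) (h0 : ∀ u, u ≠ 1 → τ.character u = 0) :
    Fintype.card U ∣ finrank ℂ V := by
  classical
  have hq : (Fintype.card U : ℂ) ≠ 0 := by exact_mod_cast Fintype.card_ne_zero
  let P : V →ₗ[ℂ] V := ((Fintype.card U : ℂ)⁻¹) • ∑ g : U, τ g
  have hP : LinearMap.IsProj τ.invariants P := by
    constructor
    · intro v g
      simp only [P, LinearMap.smul_apply, LinearMap.sum_apply, map_smul, map_sum]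
      congr 1
      have e : ∀ x : U, τ g (τ x v) = τ (g * x) v := by
        intro x
        rw [map_mul]
        rfl
      simp_rw [e]
      exact Equiv.sum_comp (Equiv.mulLeft g) (fun x => τ x v)
    · intro v hv
      simp only [P, LinearMap.smul_apply, LinearMap.sum_apply]
      have h1 : ∀ g : U, τ g v = v := fun g => hv g
      simp_rw [h1]
      rw [Finset.sum_const, Finset.card_univ, ← Nat.cast_smul_eq_nsmul ℂ, smul_smul, inv_mul_cancel₀ hq, one_smul]
  have h := hP.trace
  have h2 : LinearMap.trace ℂ V (∑ g : U, τ g) = τ.character 1 := by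
    rw [map_sum, ← Finset.add_sum_erase Finset.univ _ (Finset.mem_univ (1 : U))]
    have : ∑ g ∈ Finset.univ.erase (1 : U), LinearMap.trace ℂ V (τ g) = 0 := by
      apply Finset.sum_eq_zero
      intro g hg
      exact h0 g (Finset.ne_of_mem_erase hg)
    rw [this, add_zero]
    rfl
  have h3 : (finrank ℂ V : ℂ) = (Fintype.card U : ℂ) * (finrank ℂ τ.invariants : ℂ) := by
    rw [← h]
    simp only [P, map_smul, smul_eq_mul, h2, Representation.char_one]
    field_simp
  have h4 : finrank ℂ V = Fintype.card U * finrank ℂ τ.invariants := by exact_mod_cast h3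
  exact ⟨_, h4⟩

variable {K : Type*} [Field K] [CharP K 3] {m : ℕ} [Fintype K] (hK : Fintype.card K = 3 ^ (2 * m + 1))

section rep

variable {V : Type*} [AddCommGroup V] [Module ℂ V] (ρ : Representation ℂ (RT K m) V)

/-- The simultaneous eigenspace of the centre of `U`. -/
def reW (ψ : AddChar K ℂ) : Submodule ℂ V where
  carrier := {v | ∀ b : K, ρ (tU m 0 0 b) v = ψ b • v}
  add_mem' := by
    intro v w hv hw b
    rw [map_add, hv b, hw b, smul_add]
  zero_mem' := by
    intro b
    simp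
  smul_mem' := by
    intro c v hv b
    rw [map_smul, hv b, smul_comm]

include hK in
lemma tZ_add (b c : K) : tU m (0 : K) 0 b * tU m 0 0 c = tU m 0 0 (b + c) := by
  rw [tU_mul hK]
  congr 1 <;> simp

/-- The projection on an eigenspace. -/
noncomputable def reP (ψ : AddChar K ℂ) : V →ₗ[ℂ] V :=
  ((Fintype.card K : ℂ)⁻¹) • ∑ b : K, ψ (-b) • ρ (tU m 0 0 b)

include hK in
lemma reP_mem (ψ : AddChar K ℂ) (v : V) : reP ρ ψ v ∈ reW ρ ψ := by
  intro c
  have h1 : ∀ b : K, ρ (tU m 0 0 c) (ψ (-b) • ρ (tU m 0 0 b) v) = ψ c • (ψ (-(c + b)) • ρ (tU m 0 0 (c + b)) v) := by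
    intro b
    have e1 : ρ (tU m 0 0 c) (ρ (tU m 0 0 b) v) = ρ (tU m 0 0 (c + b)) v := by
      rw [← tZ_add hK, map_mul]
      rfl
    rw [map_smul, e1, smul_smul, ← AddChar.map_add_eq_mul]
    congr 2
    ring
  have h2 : ∑ b : K, ρ (tU m 0 0 c) (ψ (-b) • ρ (tU m 0 0 b) v) = ψ c • ∑ b : K, ψ (-b) • ρ (tU m 0 0 b) v := by
    simp_rw [h1]
    rw [← Finset.smul_sum]
    congr 1
    exact Equiv.sum_comp (Equiv.addLeft c) (fun b => ψ (-b) • ρ (tU m 0 0 b) v)
  simp only [reP, LinearMap.smul_apply, LinearMap.sum_apply, map_smul, map_sum] at h2 ⊢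
  rw [h2, smul_comm]

lemma reP_id (ψ : AddChar K ℂ) {v : V} (hv : v ∈ reW ρ ψ) : reP ρ ψ v = v := by
  have hq : (Fintype.card K : ℂ) ≠ 0 := by exact_mod_cast Fintype.card_ne_zero
  simp only [reP, LinearMap.smul_apply, LinearMap.sum_apply]
  have h1 : ∀ b : K, ψ (-b) • ρ (tU m 0 0 b) v = v := by
    intro b
    rw [hv b, smul_smul, ← AddChar.map_add_eq_mul, neg_add_cancel, AddChar.map_zero_eq_one, one_smul]
  simp_rw [h1]
  rw [Finset.sum_const, Finset.card_univ, ← Nat.cast_smul_eq_nsmul ℂ, smul_smul, inv_mul_cancel₀ hq, one_smul]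

include hK in
lemma reP_isProj (ψ : AddChar K ℂ) : LinearMap.IsProj (reW ρ ψ) (reP ρ ψ) :=
  ⟨reP_mem hK ρ ψ, fun _ hv => reP_id ρ ψ hv⟩

variable [FiniteDimensional ℂ V]

include hK in
/-- The dimension formula. -/
lemma finrank_reW (ψ : AddChar K ℂ) :
    (Fintype.card K : ℂ) * (finrank ℂ (reW ρ ψ) : ℂ) = ∑ b : K, ψ (-b) * ρ.character (tU m 0 0 b) := by
  have hq : (Fintype.card K : ℂ) ≠ 0 := by exact_mod_cast Fintype.card_ne_zero
  have h := (reP_isProj hK ρ ψ).trace
  rw [← h]
  simp only [reP, map_smul, map_sum, smul_eq_mul, Representation.character]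
  field_simp

include hK in
/-- The value of the character on the centre of `U` is constant. -/
lemma character_rZ (b : K) (hb : b ≠ 0) :
    ρ.character (tU m 0 0 b) = ρ.character (tU m 0 0 1) := by
  obtain ⟨β, hβ⟩ := exists_c2_eq hK (Units.mk0 b hb)
  have h1 : tH hK β * tU m 0 0 1 * (tH hK β)⁻¹ = tU m 0 0 b := by
    rw [tH_conj hK]
    simp only [mul_zero, mul_one, hβ]
    rfl
  rw [← h1, Representation.char_conj]

omit [CharP K 3] in
lemma ree_sum_neg (ψ : AddChar K ℂ) : ∑ b : K, ψ (-b) = ∑ b : K, ψ b :=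
  Equiv.sum_comp (Equiv.neg K) (fun b => ψ b)

include hK in
/-- The two dimensions add up. -/
theorem dim_formula_r (ψ : AddChar K ℂ) (hψ : ψ ≠ 0) :
    finrank ℂ (reW ρ (0 : AddChar K ℂ)) + (Fintype.card K - 1) * finrank ℂ (reW ρ ψ) = finrank ℂ V := by
  classical
  have hq : (Fintype.card K : ℂ) ≠ 0 := by exact_mod_cast Fintype.card_ne_zero
  have hq1 : 1 ≤ Fintype.card K := Fintype.card_pos
  set α := ρ.character (tU m (0 : K) 0 1) with hα
  set k : ℂ := (finrank ℂ V : ℂ) with hk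
  have h0 : ρ.character (tU m (0 : K) 0 0) = k := by
    rw [tU_zero, Representation.char_one]
  -- split the sums
  have hsplit : ∀ f : AddChar K ℂ, ∑ b : K, f (-b) * ρ.character (tU m 0 0 b) = k + α * (∑ b : K, f b - 1) := by
    intro f
    rw [← Finset.add_sum_erase Finset.univ _ (Finset.mem_univ (0 : K)), h0, neg_zero, AddChar.map_zero_eq_one, one_mul]
    congr 1
    rw [← ree_sum_neg, ← Finset.add_sum_erase Finset.univ (fun b => f (-b)) (Finset.mem_univ (0 : K)), neg_zero, AddChar.map_zero_eq_one,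
      add_sub_cancel_left, Finset.mul_sum]
    apply Finset.sum_congr rfl
    intro b hb
    rw [character_rZ hK ρ b (Finset.ne_of_mem_erase hb), mul_comm]
  have e1 := finrank_reW hK ρ ψ
  have e2 := finrank_reW hK ρ (0 : AddChar K ℂ)
  rw [hsplit] at e1 e2
  rw [AddChar.sum_eq_zero_iff_ne_zero.2 hψ] at e1
  have e3 : ∑ b : K, (0 : AddChar K ℂ) b = (Fintype.card K : ℂ) := by
    simp
  rw [e3] at e2
  have e4 : ((Fintype.card K - 1 : ℕ) : ℂ) = (Fintype.card K : ℂ) - 1 := by
    rw [Nat.cast_sub hq1, Nat.cast_one]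
  have e5 : (Fintype.card K : ℂ) * (((finrank ℂ (reW ρ (0 : AddChar K ℂ)) + (Fintype.card K - 1) * finrank ℂ (reW ρ ψ) : ℕ)) : ℂ)
      = (Fintype.card K : ℂ) * (finrank ℂ V : ℂ) := by
    push_cast
    rw [e4, ← hk]
    linear_combination e2 + ((Fintype.card K : ℂ) - 1) * e1
  have e6 := mul_left_cancel₀ hq e5
  exact_mod_cast e6

include hK in
lemma tZ_comm (b t u v : K) : tU m (0 : K) 0 b * tU m t u v = tU m t u v * tU m 0 0 b := by
  rw [tU_mul hK, tU_mul hK]
  congr 1 <;> simp <;> ring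

/-- The representation of `U` on an eigenspace. -/
noncomputable def reRep (ψ : AddChar K ℂ) : Representation ℂ ↥(tUU K m) (reW ρ ψ) :=
  Subrepresentation.toRepresentation (ρ := ρ.comp (tUU K m).subtype) ⟨reW ρ ψ, by
    intro g v hv b
    obtain ⟨t, u, w, e⟩ := (mem_tUU_iff hK _).1 g.2
    show ρ (tU m 0 0 b) (ρ (g : RT K m) v) = ψ b • ρ (g : RT K m) v
    rw [e]
    have e1 : ρ (tU m 0 0 b) (ρ (tU m t u w) v) = ρ (tU m t u w) (ρ (tU m 0 0 b) v) := by
      have h1 := congrArg ρ (tZ_comm hK b t u w)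
      rw [map_mul, map_mul] at h1
      exact congrArg (fun f : Module.End ℂ V => f v) h1
    rw [e1, hv b, map_smul]⟩

include hK in
/-- On an eigenspace the character of `U` vanishes where the form is non-trivial. -/
lemma reRep_character_eq_zero (ψ : AddChar K ℂ) (u t : K) (hne : ψ (t * u) ≠ 1) :
    (reRep hK ρ ψ).character (⟨tU m 0 u 0, (mem_tUU_iff hK _).2 ⟨_, _, _, rfl⟩⟩ : ↥(tUU K m)) = 0 := by
  set τ := reRep hK ρ ψ with hτ
  set y : ↥(tUU K m) := ⟨tU m 0 u 0, (mem_tUU_iff hK _).2 ⟨_, _, _, rfl⟩⟩ with hy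
  set x : ↥(tUU K m) := ⟨tU m t 0 0, (mem_tUU_iff hK _).2 ⟨_, _, _, rfl⟩⟩ with hx
  set e := t * u with he
  set z : ↥(tUU K m) := ⟨tU m 0 0 e, (mem_tUU_iff hK _).2 ⟨_, _, _, rfl⟩⟩ with hz
  have h1 : tU m t 0 0 * tU m 0 u 0 * (tU m t 0 0)⁻¹ = tU m 0 0 e * tU m 0 u 0 := by
    rw [mul_inv_eq_iff_eq_mul, tU_mul hK, tU_mul hK, tU_mul hK]
    congr 1 <;> simp [he]
  have h4 : (x * y * x⁻¹ : ↥(tUU K m)) = z * y := Subtype.ext h1
  have h5 : τ z = ψ e • (1 : Module.End ℂ (reW ρ ψ)) := by
    ext v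
    exact v.2 e
  have h6 : τ.character y = ψ e * τ.character y := by
    conv_lhs => rw [← Representation.char_conj τ y x, h4]
    rw [Representation.character, map_mul, h5, smul_mul_assoc, one_mul, map_smul, smul_eq_mul]
    rfl
  have h7 : (1 - ψ e) * τ.character y = 0 := by
    rw [sub_mul, one_mul, sub_eq_zero]
    exact h6
  rcases mul_eq_zero.1 h7 with h8 | h8
  · exact absurd (sub_eq_zero.1 h8).symm hne
  · exact h8

/-- The additive group inside `U`. -/
noncomputable def tU2 : Multiplicative K →* ↥(tUU K m) where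
  toFun u := ⟨tU m 0 (Multiplicative.toAdd u) 0, (mem_tUU_iff hK _).2 ⟨_, _, _, rfl⟩⟩
  map_one' := by
    apply Subtype.ext
    exact tU_zero
  map_mul' := by
    intro a b
    apply Subtype.ext
    show tU m 0 (Multiplicative.toAdd (a * b)) 0 = tU m 0 (Multiplicative.toAdd a) 0 * tU m 0 (Multiplicative.toAdd b) 0
    rw [tU_mul hK]
    congr 1 <;> simp

include hK in
/-- The eigenspaces for a non-trivial character have dimension divisible by `q`. -/
theorem card_dvd_finrank_reW (ψ : AddChar K ℂ) (hψ : ψ ≠ 0) : Fintype.card K ∣ finrank ℂ (reW ρ ψ) := by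
  classical
  obtain ⟨c, hc⟩ : ∃ c, ψ c ≠ 1 := by
    by_contra hcon
    push Not at hcon
    apply hψ
    ext x
    simpa using hcon x
  have h := card_dvd_finrank_of_char ((reRep hK ρ ψ).comp (tU2 hK)) (by
    intro x hx
    have hx0 : Multiplicative.toAdd x ≠ 0 := fun h0 => hx (Multiplicative.toAdd.injective h0)
    exact reRep_character_eq_zero hK ρ ψ _ (c / Multiplicative.toAdd x) (by
      rw [div_mul_cancel₀ _ hx0]
      exact hc))
  rwa [Fintype.card_congr (Multiplicative.toAdd (α := K))] at h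

include hK in
lemma tA_tZ (b : K) : tA hK * tU m 0 0 b = tU m 0 0 b * tA hK * (tU m 0 0 b)⁻¹ := by
  have h3 : (3 : K) = 0 := by exact_mod_cast CharP.cast_eq_zero K 3
  have h1 : ∀ c : K, tA hK * tU m 0 0 c = tU m 0 0 (-c) * tA hK := by
    intro c
    have := tA_conj_tU hK (0 : K) 0 c
    rw [mul_inv_eq_iff_eq_mul] at this
    simpa using this
  have h2 : (tU m (0 : K) 0 b)⁻¹ = tU m 0 0 (-b) := by
    rw [eq_comm, ← mul_eq_one_iff_eq_inv, tZ_add hK, neg_add_cancel, tU_zero]
  have h4 := h1 (-b)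
  rw [neg_neg] at h4
  rw [h2, mul_assoc, h4, ← mul_assoc, tZ_add hK, h1 b]
  congr 2
  linear_combination (-b) * h3

include hK in
/-- The involution has zero trace if the centre has no fixed vectors. -/
theorem char_tA_of_bot (h : reW ρ (0 : AddChar K ℂ) = ⊥) : ρ.character (tA hK) = 0 := by
  have hq : (Fintype.card K : ℂ) ≠ 0 := by exact_mod_cast Fintype.card_ne_zero
  have hP : reP ρ (0 : AddChar K ℂ) = 0 := by
    ext v
    have := reP_mem hK ρ (0 : AddChar K ℂ) v
    rw [h, Submodule.mem_bot] at this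
    simpa using this
  have h1 : LinearMap.trace ℂ V (ρ (tA hK) * reP ρ (0 : AddChar K ℂ)) = 0 := by
    rw [hP, mul_zero, map_zero]
  have h2 : ρ (tA hK) * reP ρ (0 : AddChar K ℂ) = ((Fintype.card K : ℂ)⁻¹) • ∑ b : K, ρ (tA hK * tU m 0 0 b) := by
    simp only [reP, mul_smul_comm, Finset.mul_sum, map_mul]
    congr 1
    apply Finset.sum_congr rfl
    intro b _
    simp
  rw [h2, map_smul, map_sum] at h1
  have h3 : ∀ b : K, LinearMap.trace ℂ V (ρ (tA hK * tU m 0 0 b)) = ρ.character (tA hK) := by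
    intro b
    rw [tA_tZ hK]
    exact Representation.char_conj ρ _ _
  simp_rw [h3] at h1
  rw [Finset.sum_const, Finset.card_univ, nsmul_eq_mul, smul_eq_mul, ← mul_assoc, inv_mul_cancel₀ hq, one_mul] at h1
  exact h1

end rep

include hK in
/-- The degree bound for non-trivial representations. -/
theorem ree_degree_bound (hm : 1 ≤ m) {V : Type*} [AddCommGroup V] [Module ℂ V]
    [FiniteDimensional ℂ V] (ρ : Representation ℂ (RT K m) V) (hnt : ∃ g, ρ g ≠ 1) :
    (3 ^ (2 * m + 1)) ^ 2 - 3 ^ (2 * m + 1) + 1 ≤ finrank ℂ V := by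
  classical
  haveI := t_finite hK
  letI : Fintype (RT K m) := Fintype.ofFinite _
  obtain ⟨ψ, hψ1⟩ := (AddChar.exists_apply_ne_zero (a := (1 : K))).2 one_ne_zero
  have hψ : ψ ≠ 0 := by
    intro h
    apply hψ1
    rw [h]
    simp
  have hdim := dim_formula_r hK ρ ψ hψ
  have hdvd := card_dvd_finrank_reW hK ρ ψ hψ
  rw [hK] at hdim hdvd
  -- the eigenspace is non-zero
  have hd : finrank ℂ (reW ρ ψ) ≠ 0 := by
    intro h0
    rw [h0, mul_zero, add_zero] at hdim
    have htop : reW ρ (0 : AddChar K ℂ) = ⊤ := Submodule.eq_top_of_finrank_eq hdim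
    have h1 : ρ (tU m (0 : K) 0 1) = 1 := by
      ext v
      have hv : v ∈ reW ρ (0 : AddChar K ℂ) := by rw [htop]; trivial
      have := hv 1
      simpa using this
    haveI := t_simple hK hm
    have hker : ρ.ker = ⊤ := by
      rcases IsSimpleGroup.eq_bot_or_eq_top_of_normal ρ.ker (MonoidHom.normal_ker ρ) with h2 | h2
      · exfalso
        have h3 : tU m (0 : K) 0 1 ∈ ρ.ker := h1
        rw [h2, Subgroup.mem_bot, ← tU_zero (K := K) (m := m)] at h3
        exact one_ne_zero (tU_inj h3).2.2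
      · exact h2
    obtain ⟨g, hg⟩ := hnt
    apply hg
    have : g ∈ ρ.ker := by rw [hker]; trivial
    exact this
  by_contra hlt
  have hq8 := ree_num_mod8 m
  set q := 3 ^ (2 * m + 1) with hq
  have hq2 : q ^ 2 - q = (q - 1) * q := by rw [Nat.sub_one_mul, sq]
  rw [hq2] at hlt
  have hle : finrank ℂ V ≤ (q - 1) * q := by omega
  have hd2 : q ≤ finrank ℂ (reW ρ ψ) := Nat.le_of_dvd (Nat.pos_of_ne_zero hd) hdvd
  have hmul : (q - 1) * q ≤ (q - 1) * finrank ℂ (reW ρ ψ) := Nat.mul_le_mul_left _ hd2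
  have hd0 : finrank ℂ (reW ρ (0 : AddChar K ℂ)) = 0 := by omega
  have hk : finrank ℂ V = (q - 1) * q := by omega
  have hbot : reW ρ (0 : AddChar K ℂ) = ⊥ := Submodule.finrank_eq_zero.1 hd0
  have hA := char_tA_of_bot hK ρ hbot
  have hinv : ∀ x : RT K m, x * x = 1 → x ≠ 1 → ρ.character x = 0 := by
    intro x hx hx1
    obtain ⟨c, hc⟩ := invol_conj_a hK hx hx1
    rw [← hc] at hA
    rwa [Representation.char_conj] at hA
  obtain ⟨S₀, h8, helem, -⟩ := exists_S0 hK
  letI : Fintype S₀ := Fintype.ofFinite _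
  have h8' := card_dvd_finrank_of_char (ρ.comp S₀.subtype) (by
    intro x hx
    exact hinv x (helem x x.2) (fun h => hx (Subtype.ext h)))
  rw [← Nat.card_eq_fintype_card, h8, hk] at h8'
  have h1 : (q - 1) % 8 = 2 := by omega
  have h2 : (q - 1) * q % 8 = 6 := by rw [Nat.mul_mod, h1, hq8]
  omega

end Cfsg.Agent.H10
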