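import Cfsg.Agent.Lib.H10.ReeF4
import Cfsg.Agent.Lib.H01.Solv

/-!
# Solvable subgroups of the small Ree groups lie in local normalisers
-/

set_option autoImplicit false
set_option linter.style.longLine false
set_option linter.unusedSimpArgs false
set_option linter.unusedSectionVars false
set_option linter.style.haveILetI false
set_option maxRecDepth 100000

open Cfsg Cfsg.Lie Cfsg.Agent.H04.Chev Matrix
open scoped MatrixGroups commutatorElement Pointwise

namespace Cfsg.Agent.H10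

section generic

variable {G : Type*} [Group G]

lemma sol_le_norm_conj [Finite G] {Q A S : Subgroup G} {c : G} (hS : S ≤ Subgroup.normalizer (Q : Set G))
    (hN : Subgroup.normalizer ((Q.map (MulAut.conj c).toMonoidHom : Subgroup G) : Set G) ≤ Subgroup.normalizer (A : Set G)) :
    S ≤ Subgroup.normalizer ((A.map (MulAut.conj c⁻¹).toMonoidHom : Subgroup G) : Set G) := by
  intro g hg
  rw [normalizer_map_conj, mem_map_conj_inv]
  apply hN
  rw [normalizer_map_conj]
  exact ⟨g, hS hg, rfl⟩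

lemma sol_odd_mem_index_two [Finite G] {C A : Subgroup G} (hAC : A ≤ C) (hcard : Nat.card C = 2 * Nat.card A)
    {y : G} (hy : y ∈ C) (hodd : Odd (orderOf y)) : y ∈ A := by
  have hA : Nat.card ↥(A.subgroupOf C) = Nat.card A := Nat.card_congr (Subgroup.subgroupOfEquivOfLe hAC).toEquiv
  have hidx : (A.subgroupOf C).index = 2 := by
    have h1 := Subgroup.card_mul_index (A.subgroupOf C)
    rw [hA, hcard] at h1
    have hpos : 0 < Nat.card A := Nat.card_pos
    have h2 : Nat.card A * (A.subgroupOf C).index = Nat.card A * 2 := by rw [h1]; ring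
    exact Nat.eq_of_mul_eq_mul_left hpos h2
  have h2 : (⟨y, hy⟩ : C) * ⟨y, hy⟩ ∈ A.subgroupOf C := Subgroup.mul_self_mem_of_index_two hidx _
  have h3 : y * y ∈ A := by
    rw [Subgroup.mem_subgroupOf] at h2
    exact h2
  obtain ⟨k, hk⟩ := hodd
  have e : y = (y * y) ^ (k + 1) := by
    have h4 : y ^ (2 * k + 1) = 1 := by rw [← hk]; exact pow_orderOf_eq_one y
    rw [← pow_two, ← pow_mul]
    have h5 : 2 * (k + 1) = (2 * k + 1) + 1 := by ring
    rw [h5, pow_succ, h4, one_mul]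
  rw [e]
  exact A.pow_mem h3 _

lemma sol_le_norm_map [Finite G] {S : Subgroup G} (R : Subgroup S) [hR : R.Normal] :
    S ≤ Subgroup.normalizer ((R.map S.subtype : Subgroup G) : Set G) := by
  intro g hg
  apply mem_normalizer_of_conj_le
  rintro x ⟨r, hr, rfl⟩
  exact ⟨⟨g, hg⟩ * r * (⟨g, hg⟩ : S)⁻¹, hR.conj_mem r hr _, by simp⟩

lemma sol_exists_two_ne {H : Type*} [Group H] [Finite H] (h : 2 < Nat.card H) : ∃ u v : H, u ≠ 1 ∧ v ≠ 1 ∧ u ≠ v := by
  classical
  haveI := Fintype.ofFinite H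
  rw [Nat.card_eq_fintype_card, Fintype.two_lt_card_iff] at h
  obtain ⟨a, b, c, hab, hac, hbc⟩ := h
  refine ⟨a⁻¹ * b, a⁻¹ * c, ?_, ?_, ?_⟩
  · intro e
    apply hab
    rw [inv_mul_eq_one] at e
    exact e
  · intro e
    apply hac
    rw [inv_mul_eq_one] at e
    exact e
  · intro e
    exact hbc (mul_left_cancel e)

/-- A solvable group has a second layer above a proper normal subgroup. -/
lemma sol_second_layer {S : Type*} [Group S] [Finite S] [Group.IsSolvable S] (R : Subgroup S) [hRn : R.Normal] (hR : R ≠ ⊤) :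
    ∃ (M : Subgroup S) (p : ℕ), M.Normal ∧ p.Prime ∧ R ≤ M ∧ (∃ x ∈ M, x ∉ R) ∧ (∀ x ∈ M, x ^ p ∈ R) ∧
      ∀ x ∈ M, ∀ y ∈ M, x * y * x⁻¹ * y⁻¹ ∈ R := by
  have hnt : Nontrivial (S ⧸ R) := by
    obtain ⟨x, hx⟩ : ∃ x, x ∉ R := by
      by_contra hcon
      push Not at hcon
      exact hR (eq_top_iff.2 (fun x _ => hcon x))
    refine ⟨⟨(x : S ⧸ R), 1, ?_⟩⟩
    rwa [Ne, QuotientGroup.eq_one_iff]
  obtain ⟨R₂, p, h1, h2, hp, h4, h5⟩ := Cfsg.Agent.H01.exists_elementary_abelian_normal (G := S ⧸ R)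
  refine ⟨R₂.comap (QuotientGroup.mk' R), p, h1.comap _, hp, ?_, ?_, ?_, ?_⟩
  · intro x hx
    rw [Subgroup.mem_comap]
    have : (QuotientGroup.mk' R) x = 1 := (QuotientGroup.eq_one_iff x).2 hx
    rw [this]
    exact R₂.one_mem
  · obtain ⟨ξ, hξ⟩ := Subgroup.ne_bot_iff_exists_ne_one.1 h2
    obtain ⟨x, hx⟩ := QuotientGroup.mk'_surjective R (ξ : S ⧸ R)
    refine ⟨x, ?_, ?_⟩
    · rw [Subgroup.mem_comap, hx]
      exact ξ.2
    · intro hxR
      apply hξ
      apply Subtype.ext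
      rw [← hx]
      exact (QuotientGroup.eq_one_iff x).2 hxR
  · intro x hx
    rw [Subgroup.mem_comap] at hx
    have h6 := h5 _ hx
    rw [← map_pow] at h6
    exact (QuotientGroup.eq_one_iff _).1 h6
  · intro x hx y hy
    rw [Subgroup.mem_comap] at hx hy
    have h6 : (QuotientGroup.mk' R) x * (QuotientGroup.mk' R) y = (QuotientGroup.mk' R) y * (QuotientGroup.mk' R) x := by
      have := h4.1.1 ⟨_, hx⟩ ⟨_, hy⟩
      exact congrArg Subtype.val this
    apply (QuotientGroup.eq_one_iff _).1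
    show (QuotientGroup.mk' R) (x * y * x⁻¹ * y⁻¹) = 1
    rw [map_mul, map_mul, map_mul, map_inv, map_inv, h6]
    group

/-- The elements of odd prime exponent in a central extension by `2`. -/
lemma sol_odd_layer {M Q : Subgroup G} {t : G} {p : ℕ} (hodd : Odd p) (ht2 : t * t = 1) (ht1 : t ≠ 1)
    (hQ : ∀ x ∈ Q, x = 1 ∨ x = t) (hcen : ∀ x ∈ M, x * t = t * x)
    (hM2 : ∀ x ∈ M, ∀ y ∈ M, x * y * x⁻¹ * y⁻¹ ∈ Q) :
    ∃ Q' : Subgroup G, ∀ x, x ∈ Q' ↔ x ∈ M ∧ x ^ p = 1 := by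
  have htp : t ^ p = t := by
    obtain ⟨k, hk⟩ := hodd
    have h1 : t ^ 2 = 1 := by rw [pow_two, ht2]
    rw [hk, pow_succ, pow_mul, h1, one_pow, one_mul]
  have hcomm : ∀ x y : G, x ∈ M → y ∈ M → x ^ p = 1 → y ^ p = 1 → x * y = y * x := by
    intro x y hx hy hxp hyp
    rcases hQ _ (hM2 x hx y hy) with h | h
    · have h2 : x * y * x⁻¹ * y⁻¹ = 1 := h
      rw [mul_inv_eq_one, mul_inv_eq_iff_eq_mul] at h2
      exact h2
    · exfalso
      have h2 : x * y * x⁻¹ = t * y := by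
        rw [mul_inv_eq_iff_eq_mul] at h
        exact h
      have h3 : (x * y * x⁻¹) ^ p = 1 := by
        rw [conj_pow, hyp, mul_one, mul_inv_cancel]
      rw [h2] at h3
      have h4 : Commute t y := (hcen y hy).symm
      rw [h4.mul_pow, htp, hyp, mul_one] at h3
      exact ht1 h3
  refine ⟨{ carrier := {x | x ∈ M ∧ x ^ p = 1}
            one_mem' := ⟨M.one_mem, one_pow p⟩
            mul_mem' := ?_
            inv_mem' := ?_ }, fun x => Iff.rfl⟩
  · rintro x y ⟨hx, hxp⟩ ⟨hy, hyp⟩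
    refine ⟨M.mul_mem hx hy, ?_⟩
    have h4 : Commute x y := hcomm x y hx hy hxp hyp
    rw [h4.mul_pow, hxp, hyp, one_mul]
  · rintro x ⟨hx, hxp⟩
    exact ⟨M.inv_mem hx, by rw [inv_pow, hxp, inv_one]⟩

/-- The Fano plane combinatorics. -/
lemma sol_fano {a w J y : G} (ha2 : a * a = 1) (hw2 : w * w = 1) (hJ2 : J * J = 1) (haw : a * w = w * a) (haJ : a * J = J * a)
    (hwJ : w * J = J * w) (r1 : y * a = w * y) (r2 : y * w = w * J * y) (r3 : y * J = a * J * y) (hy7 : y ^ 7 = 1)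
    {u v : G} (hu : ∃ i j k : Bool, u = bpow a i * bpow w j * bpow J k) (hv : ∃ i j k : Bool, v = bpow a i * bpow w j * bpow J k)
    (hu1 : u ≠ 1) (hv1 : v ≠ 1) (huv : u ≠ v) (R : Subgroup G) (huR : u ∈ R) (hvR : v ∈ R) :
    ∃ k : ℕ, a ∈ R.map (MulAut.conj (y ^ k)).toMonoidHom ∧ w ∈ R.map (MulAut.conj (y ^ k)).toMonoidHom := by
  let f : ℕ → G := fun n => y ^ n * a * (y ^ n)⁻¹
  have hf : ∀ n, f (n + 1) = y * f n * y⁻¹ := by
    intro n
    simp only [f, pow_succ']
    group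
  have c1 : y * a * y⁻¹ = w := by rw [r1]; group
  have c2 : y * w * y⁻¹ = w * J := by rw [r2]; group
  have c3 : y * J * y⁻¹ = a * J := by rw [r3]; group
  have cm : ∀ p q : G, y * (p * q) * y⁻¹ = (y * p * y⁻¹) * (y * q * y⁻¹) := by
    intro p q
    group
  have f0 : f 0 = a := by simp [f]
  have f1 : f 1 = w := by rw [hf, f0, c1]
  have f2 : f 2 = w * J := by rw [hf, f1, c2]
  have f3 : f 3 = a * w := by
    rw [hf, f2, cm, c2, c3]
    calc w * J * (a * J) = a * w * (J * J) := by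
          rw [mul_assoc w J, ← mul_assoc J a J, ← haJ, mul_assoc a J J, ← mul_assoc w a, ← haw, mul_assoc]
      _ = a * w := by rw [hJ2, mul_one]
  have f4 : f 4 = J := by
    rw [hf, f3, cm, c1, c2, ← mul_assoc, hw2, one_mul]
  have f5 : f 5 = a * J := by rw [hf, f4, c3]
  have f6 : f 6 = a * w * J := by
    rw [hf, f5, cm, c1, c3, ← mul_assoc, ← haw]
  have f7 : f 7 = a := by
    simp only [f]
    rw [hy7]
    group
  have hper : ∀ n, f n = f (n % 7) := by
    intro n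
    simp only [f]
    rw [pow_eq_pow_mod n hy7]
  have hform : ∀ z : G, (∃ i j k : Bool, z = bpow a i * bpow w j * bpow J k) → z ≠ 1 → ∃ n : Fin 7, z = f n := by
    rintro z ⟨i, j, k, rfl⟩ hz
    cases i <;> cases j <;> cases k <;> simp only [bpow, if_true, if_false, Bool.false_eq_true, one_mul, mul_one] at hz ⊢
    · exact absurd rfl hz
    · exact ⟨4, f4.symm⟩
    · exact ⟨1, f1.symm⟩
    · exact ⟨2, f2.symm⟩
    · exact ⟨0, f0.symm⟩
    · exact ⟨5, f5.symm⟩
    · exact ⟨3, f3.symm⟩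
    · exact ⟨6, f6.symm⟩
  obtain ⟨i, hi⟩ := hform u hu hu1
  obtain ⟨j, hj⟩ := hform v hv hv1
  have hij : i ≠ j := by
    rintro rfl
    exact huv (hi.trans hj.symm)
  have hdec : ∀ i j : Fin 7, i ≠ j → ∃ k : Fin 7, ((i.val + k.val) % 7 = 0 ∧ (j.val + k.val) % 7 = 1) ∨ ((i.val + k.val) % 7 = 0 ∧ (j.val + k.val) % 7 = 3) ∨
      ((i.val + k.val) % 7 = 1 ∧ (j.val + k.val) % 7 = 0) ∨ ((i.val + k.val) % 7 = 1 ∧ (j.val + k.val) % 7 = 3) ∨
      ((i.val + k.val) % 7 = 3 ∧ (j.val + k.val) % 7 = 0) ∨ ((i.val + k.val) % 7 = 3 ∧ (j.val + k.val) % 7 = 1) := by decide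
  obtain ⟨k, hk⟩ := hdec i j hij
  refine ⟨k.val, ?_⟩
  set R' := R.map (MulAut.conj (y ^ k.val)).toMonoidHom with hR'
  have hconj : ∀ n : ℕ, y ^ k.val * f n * (y ^ k.val)⁻¹ = f ((n + k.val) % 7) := by
    intro n
    rw [← hper]
    simp only [f]
    rw [add_comm n, pow_add]
    group
  have h1 : f ((i.val + k.val) % 7) ∈ R' := by
    rw [← hconj]
    exact ⟨u, huR, by rw [hi]; rfl⟩
  have h2 : f ((j.val + k.val) % 7) ∈ R' := by
    rw [← hconj]
    exact ⟨v, hvR, by rw [hj]; rfl⟩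
  have key : ∀ x₁ x₂ : ℕ, ((x₁ = 0 ∧ x₂ = 1) ∨ (x₁ = 0 ∧ x₂ = 3) ∨ (x₁ = 1 ∧ x₂ = 0) ∨ (x₁ = 1 ∧ x₂ = 3) ∨ (x₁ = 3 ∧ x₂ = 0) ∨ (x₁ = 3 ∧ x₂ = 1)) →
      f x₁ ∈ R' → f x₂ ∈ R' → a ∈ R' ∧ w ∈ R' := by
    have e1 : ∀ {p q : G}, p ∈ R' → p * q ∈ R' → q ∈ R' := by
      intro p q hp hpq
      have : q = p⁻¹ * (p * q) := by group
      rw [this]
      exact R'.mul_mem (R'.inv_mem hp) hpq
    have e2 : ∀ {p q : G}, q ∈ R' → p * q ∈ R' → p ∈ R' := by
      intro p q hq hpq
      have : p = (p * q) * q⁻¹ := by group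
      rw [this]
      exact R'.mul_mem hpq (R'.inv_mem hq)
    rintro x₁ x₂ (⟨rfl, rfl⟩ | ⟨rfl, rfl⟩ | ⟨rfl, rfl⟩ | ⟨rfl, rfl⟩ | ⟨rfl, rfl⟩ | ⟨rfl, rfl⟩) h3 h4 <;>
      simp only [f0, f1, f3] at h3 h4
    · exact ⟨h3, h4⟩
    · exact ⟨h3, e1 h3 h4⟩
    · exact ⟨h4, h3⟩
    · exact ⟨e2 h3 h4, h3⟩
    · exact ⟨h4, e1 h4 h3⟩
    · exact ⟨e2 h4 h3, h4⟩
  exact key _ _ hk h1 h2

end generic

variable {K : Type*} [Field K] [CharP K 3] {m : ℕ} [Fintype K] (hK : Fintype.card K = 3 ^ (2 * m + 1))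

/-- The conclusion. -/
def ReeGood (S : Subgroup (RT K m)) : Prop :=
  ∃ A : Subgroup (RT K m), S ≤ Subgroup.normalizer (A : Set (RT K m)) ∧
      ((∃ P : Sylow 2 (RT K m), A = P) ∨ (∃ P : Sylow 3 (RT K m), A = P) ∨
       (IsCyclic A ∧ (Nat.card A = (3 ^ (2 * m + 1) - 1) / 2 ∨ Nat.card A = (3 ^ (2 * m + 1) + 1) / 4 ∨
          Nat.card A = 3 ^ (2 * m + 1) - 3 ^ (m + 1) + 1 ∨ Nat.card A = 3 ^ (2 * m + 1) + 3 ^ (m + 1) + 1)))

include hK

lemma sol_map_cyclic {A : Subgroup (RT K m)} (hA : IsCyclic A) (c : RT K m) : IsCyclic (A.map (MulAut.conj c).toMonoidHom) := by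
  let e := A.equivMapOfInjective (MulAut.conj c).toMonoidHom (MulAut.conj c).injective
  exact isCyclic_of_surjective (e : A ≃* _) e.surjective

/-- The case of odd exponent. -/
theorem good_odd (hm : 1 ≤ m) {S Q : Subgroup (RT K m)} {p : ℕ} (hp : p.Prime) (hp2 : p ≠ 2) (hQ : Q ≠ ⊥) (hexp : ∀ x ∈ Q, x ^ p = 1)
    (hS : S ≤ Subgroup.normalizer (Q : Set (RT K m))) : ReeGood (m := m) S := by
  haveI := t_finite hK
  haveI : Fact p.Prime := ⟨hp⟩
  have hPG : IsPGroup p Q := fun x => ⟨1, by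
    rw [pow_one]
    exact Subtype.ext (hexp x x.2)⟩
  obtain ⟨z, hz1⟩ := Subgroup.ne_bot_iff_exists_ne_one.mp hQ
  have hz1' : (z : RT K m) ≠ 1 := fun h => hz1 (Subtype.ext h)
  have hzo : orderOf (z : RT K m) = p := orderOf_eq_prime (hexp z z.2) hz1'
  have hodd : ∀ y ∈ Q, Odd (orderOf y) := by
    intro y hy
    exact (hp.odd_of_ne_two hp2).of_dvd_nat (orderOf_dvd_of_pow_eq_one (hexp y hy))
  by_cases hp3 : p = 3
  · subst hp3
    obtain ⟨P, hP⟩ := hPG.exists_le_sylow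
    refine ⟨P, ?_, Or.inr (Or.inl ⟨P, rfl⟩)⟩
    intro g hg
    have h1 : g • P = P := by
      by_contra hne
      have h2 := sylow3_TI hK (g • P) P hne
      have h3 : (z : RT K m) ∈ ((g • P : Sylow 3 (RT K m)) : Subgroup (RT K m)) := by
        rw [Sylow.coe_subgroup_smul, Subgroup.mem_pointwise_smul_iff_inv_smul_mem, MulAut.smul_def, MulAut.inv_def, MulAut.conj_symm_apply]
        apply hP
        have h5 := (Subgroup.mem_normalizer_iff.1 (hS hg) (g⁻¹ * z * g)).2 (by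
          have : g * (g⁻¹ * z * g) * g⁻¹ = z := by group
          rw [this]
          exact z.2)
        exact h5
      have h4 : (z : RT K m) ∈ ((g • P : Sylow 3 (RT K m)) : Subgroup (RT K m)) ⊓ (P : Subgroup (RT K m)) := ⟨h3, hP z.2⟩
      rw [h2] at h4
      exact hz1' h4
    exact Sylow.smul_eq_iff_mem_normalizer.1 h1
  have hp3' : 3 < p := by
    have := hp.two_le
    omega
  have hcyc : IsCyclic Q := by
    obtain ⟨P, hP⟩ := hPG.exists_le_sylow
    haveI := ree_sylow_cyclic hK hp3' P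
    exact Subgroup.isCyclic_of_le (H := Q) (H' := P) hP
  have hcm : ∀ a ∈ Q, ∀ b ∈ Q, a * b = b * a := fun a ha b hb => comm_of_isCyclic hcyc ha hb
  have hne' : ∀ c : RT K m, Q.map (MulAut.conj c).toMonoidHom ≠ ⊥ := by
    intro c h
    apply hz1'
    have h1 : c * z * c⁻¹ ∈ Q.map (MulAut.conj c).toMonoidHom := ⟨z, z.2, rfl⟩
    rw [h] at h1
    have h2 : c * z * c⁻¹ = 1 := h1
    have e : (z : RT K m) = c⁻¹ * (c * z * c⁻¹) * c := by group
    rw [e, h2]
    group
  rcases ree_element_prime_cases hK hp hzo with h | h | h | h | h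
  · exact absurd h hp3
  · exact absurd h hp2
  · -- the split torus
    obtain ⟨c, -, hmem⟩ := centralizer_of_dvd_h hK (H := Q) (fun y hy => dvd_trans (orderOf_dvd_of_pow_eq_one (hexp y hy)) h) hQ hcm
    obtain ⟨A, hAc, hAcard, hAle, hAord, -, hANN⟩ := ree_split_torus hK hm
    have hle : Q.map (MulAut.conj c).toMonoidHom ≤ A := by
      rintro _ ⟨y, hy, rfl⟩
      apply sol_odd_mem_index_two hAle (by rw [hAcard, card_tHH' hK]) (hmem y hy)
      show Odd (orderOf (c * y * c⁻¹))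
      rw [orderOf_conj_eq]
      exact hodd y hy
    have hN := hANN _ hle (hne' c)
    refine ⟨A.map (MulAut.conj c⁻¹).toMonoidHom, sol_le_norm_conj hS hN.le, Or.inr (Or.inr ⟨sol_map_cyclic hK hAc _, Or.inl ?_⟩)⟩
    rw [card_map_conj, hAcard]
    have := reeH_spec m
    omega
  · -- the `q + 1` torus
    obtain ⟨c, -, hmem⟩ := centralizer_of_dvd_n hK (H := Q) (fun y hy => dvd_trans (orderOf_dvd_of_pow_eq_one (hexp y hy)) h) hQ hcm
    have hle : Q.map (MulAut.conj c).toMonoidHom ≤ tD0 hK := by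
      rintro _ ⟨y, hy, rfl⟩
      exact hmem y hy
    have hN := (ree_D0_torus hK hm).2 _ hle (hne' c)
    refine ⟨(tD0 hK).map (MulAut.conj c⁻¹).toMonoidHom, sol_le_norm_conj hS hN.le, Or.inr (Or.inr ⟨sol_map_cyclic hK (tD0_cyclic hK) _, Or.inr (Or.inl ?_)⟩)⟩
    rw [card_map_conj, card_tD0 hK]
    have := reeN_spec m
    omega
  · -- the tori of order dividing `q² - q + 1`
    have hRA := isRA_centralizer hK (y := (z : RT K m)) (hzo ▸ h) hz1'
    refine ⟨Subgroup.centralizer ({(z : RT K m)} : Set (RT K m)), ?_, Or.inr (Or.inr ⟨hRA.isCyclic, Or.inr (Or.inr ?_)⟩)⟩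
    · intro g hg
      apply mem_normalizer_of_map_eq
      rw [← centralizer_conj]
      apply hRA.centralizer_eq
      · rw [Subgroup.mem_centralizer_singleton_iff]
        exact hcm _ ((Subgroup.mem_normalizer_iff.1 (hS hg) z).1 z.2) _ z.2
      · exact conj_ne_one hz1'
    · obtain ⟨A₁, A₂, h1, h2, -, -, hall⟩ := exists_ree_tori hK hm
      rcases hall ⟨_, hRA⟩ with ⟨g, hg⟩ | ⟨g, hg⟩
      · right
        have h3 := card_rsmul_val g A₁
        rw [hg] at h3
        rw [show Nat.card (Subgroup.centralizer ({(z : RT K m)} : Set (RT K m))) = Nat.card A₁.1 from h3, h1]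
      · left
        have h3 := card_rsmul_val g A₂
        rw [hg] at h3
        rw [show Nat.card (Subgroup.centralizer ({(z : RT K m)} : Set (RT K m))) = Nat.card A₂.1 from h3]
        have h4 : 3 ^ (m + 1) ≤ 3 ^ (2 * m + 1) := Nat.pow_le_pow_right (by norm_num) (by omega)
        omega

/-- Elements centralising `a` and `w`. -/
lemma comm_aw_form {x : RT K m} (ha : x * tA hK = tA hK * x) (hw : x * tW K m = tW K m * x) :
    x ∈ tK0 hK ∨ x * tJ hK ∈ tK0 hK := by
  have hAK := tA_mem_tK0 hK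
  have key : ∀ g : SL(2, K), tSL hK g * tW K m = tW K m * tSL hK g → tSL hK g ∈ tK0 hK ∨ tSL hK g * tJ hK ∈ tK0 hK := by
    intro g hW
    have hc : tSL hK g * tSL hK sW = tSL hK sW * tSL hK g := by
      rw [tSL_sW hK]
      exact hW
    rcases tSL_comm_sign hK hc with h3 | h3
    · left
      exact tTT_le_tK0 hK ((mem_tTT hK).2 ⟨g, Subgroup.mem_centralizer_singleton_iff.2 h3, rfl⟩)
    · right
      refine tTT_le_tK0 hK ((mem_tTT hK).2 ⟨g * sJ, ?_, by rw [map_mul]; rfl⟩)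
      show g * sJ ∈ Subgroup.centralizer ({sW} : Set (SL(2, K)))
      rw [Subgroup.mem_centralizer_singleton_iff]
      calc g * sJ * sW = g * (-(sW * sJ)) := by
            rw [mul_assoc]
            congr 1
            rw [sW_sJ, neg_neg]
        _ = (-(g * sW)) * sJ := by rw [mul_neg, neg_mul, mul_assoc]
        _ = (sW * g) * sJ := by rw [h3, neg_neg]
        _ = sW * (g * sJ) := by group
  have hAw : tA hK * tW K m = tW K m * tA hK := tK0_comm hK hAK (tW_mem_tK0 hK)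
  obtain ⟨g, e | e⟩ := C_a_form hK ha.symm
  · rw [e] at hw ⊢
    exact key g hw
  · have h1 : tSL hK g * tW K m = tW K m * tSL hK g := by
      rw [e] at hw
      apply mul_left_cancel (a := tA hK)
      calc tA hK * (tSL hK g * tW K m) = tA hK * tSL hK g * tW K m := by group
        _ = tW K m * (tA hK * tSL hK g) := hw
        _ = (tW K m * tA hK) * tSL hK g := by group
        _ = (tA hK * tW K m) * tSL hK g := by rw [hAw]
        _ = _ := by group
    rcases key g h1 with h2 | h2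
    · left
      rw [e]
      exact (tK0 hK).mul_mem hAK h2
    · right
      rw [e, mul_assoc]
      exact (tK0 hK).mul_mem hAK h2

lemma odd_comm_mem_D0 {z : RT K m} (ha : z * tA hK = tA hK * z) (hw : z * tW K m = tW K m * z) (hodd : Odd (orderOf z)) :
    z ∈ tD0 hK := by
  apply mem_tD0_of_odd hK _ hodd
  rcases comm_aw_form hK ha hw with h | h
  · exact h
  · have hJ2 : tJ hK * tJ hK = 1 := by
      have := tJ_sq hK
      exact this
    have h1 : z = (z * tJ hK) * tJ hK := by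
      rw [mul_assoc, hJ2, mul_one]
    have h2 : z * z ∈ tK0 hK := by
      have h3 := (Subgroup.mem_normalizer_iff.1 (tJ_mem_norm hK) _).1 h
      have e : (z * tJ hK) * (tJ hK * (z * tJ hK) * (tJ hK)⁻¹) = z * (tJ hK * tJ hK) * z * (tJ hK * (tJ hK)⁻¹) := by group
      rw [hJ2, mul_inv_cancel, mul_one, mul_one] at e
      rw [← e]
      exact (tK0 hK).mul_mem h h3
    obtain ⟨k, hk⟩ := hodd
    have e : z = (z * z) ^ (k + 1) := by
      have h4 : z ^ (2 * k + 1) = 1 := by rw [← hk]; exact pow_orderOf_eq_one z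
      rw [← pow_two, ← pow_mul]
      have h5 : 2 * (k + 1) = (2 * k + 1) + 1 := by ring
      rw [h5, pow_succ, h4, one_mul]
    rw [e]
    exact (tK0 hK).pow_mem h2 _

/-- The normaliser of the four-group. -/
lemma norm_V_le {R : Subgroup (RT K m)} (h4 : Nat.card R = 4) (ha : tA hK ∈ R) (hw : tW K m ∈ R) :
    Subgroup.normalizer (R : Set (RT K m)) ≤ Subgroup.normalizer (tD0 hK : Set (RT K m)) := by
  classical
  haveI := t_finite hK
  have hAK := tA_mem_tK0 hK
  have hWK := tW_mem_tK0 hK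
  -- `R` lies in `K₀`
  let T : Finset (RT K m) := {1, tA hK, tW K m, tA hK * tW K m}
  have hT : T.card = 4 := by
    have h1 : tA hK ≠ 1 := tA_ne_one hK
    have h2 : tW K m ≠ 1 := tW_ne_one hK
    have h3 : tW K m ≠ tA hK := tW_ne_tA hK
    have h5 : tA hK * tW K m ≠ tA hK := mul_tW_ne_tA hK
    have h6 : tA hK * tW K m ≠ tW K m := mul_tW_ne_tW hK
    have h7 : tA hK * tW K m ≠ 1 := mul_tW_ne_one hK
    simp only [T]
    rw [Finset.card_insert_of_notMem, Finset.card_insert_of_notMem, Finset.card_insert_of_notMem, Finset.card_singleton]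
    · simp only [Finset.mem_singleton]
      exact fun e => h6 e.symm
    · simp only [Finset.mem_insert, Finset.mem_singleton, not_or]
      exact ⟨h3.symm, fun e => h5 e.symm⟩
    · simp only [Finset.mem_insert, Finset.mem_singleton, not_or]
      exact ⟨h1.symm, h2.symm, h7.symm⟩
  have hsub : ((T : Finset (RT K m)) : Set (RT K m)) ⊆ (R : Set (RT K m)) := by
    intro x hx
    simp only [T, Finset.coe_insert, Finset.coe_singleton, Set.mem_insert_iff, Set.mem_singleton_iff] at hx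
    rcases hx with rfl | rfl | rfl | rfl
    · exact R.one_mem
    · exact ha
    · exact hw
    · exact R.mul_mem ha hw
  have hcardR : (R : Set (RT K m)).ncard ≤ ((T : Finset (RT K m)) : Set (RT K m)).ncard := by
    rw [Set.ncard_coe_finset, hT, ← Nat.card_coe_set_eq]
    exact h4.le
  have heq : ((T : Finset (RT K m)) : Set (RT K m)) = (R : Set (RT K m)) := Set.eq_of_subset_of_ncard_le hsub hcardR
  have hRK : ∀ x ∈ R, x ∈ tK0 hK := by
    intro x hx
    have hx' : x ∈ ((T : Finset (RT K m)) : Set (RT K m)) := by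
      rw [heq]
      exact hx
    simp only [T, Finset.coe_insert, Finset.coe_singleton, Set.mem_insert_iff, Set.mem_singleton_iff] at hx'
    rcases hx' with rfl | rfl | rfl | rfl
    · exact (tK0 hK).one_mem
    · exact hAK
    · exact hWK
    · exact (tK0 hK).mul_mem hAK hWK
  intro d hd
  apply mem_normalizer_of_conj_le
  intro y hy
  have hyK := tD0_le_K0 hK hy
  have hcomm : ∀ r ∈ R, (d * y * d⁻¹) * r = r * (d * y * d⁻¹) := by
    intro r hr
    have h1 : d⁻¹ * r * d ∈ R := by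
      have h2 := (Subgroup.mem_normalizer_iff.1 (Subgroup.inv_mem _ hd) r).1 hr
      simpa using h2
    have h2 := tK0_comm hK hyK (hRK _ h1)
    calc (d * y * d⁻¹) * r = d * (y * (d⁻¹ * r * d)) * d⁻¹ := by group
      _ = d * ((d⁻¹ * r * d) * y) * d⁻¹ := by rw [h2]
      _ = _ := by group
  apply odd_comm_mem_D0 hK (hcomm _ ha) (hcomm _ hw)
  rw [orderOf_conj_eq]
  exact tD0_odd hK hy

/-- Conjugating a `2`-subgroup into the standard elementary abelian group. -/
lemma exists_conj_S0 {S₀ R : Subgroup (RT K m)} (h8 : Nat.card S₀ = 8) (hR : IsPGroup 2 R) : ∃ c : RT K m, R.map (MulAut.conj c).toMonoidHom ≤ S₀ := by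
  haveI := t_finite hK
  haveI : Fact (Nat.Prime 2) := ⟨Nat.prime_two⟩
  obtain ⟨k, hk, hc⟩ := card_T_two hK
  have hp : IsPGroup 2 S₀ := IsPGroup.of_card (n := 3) (by rw [h8]; norm_num)
  have hi : ¬ 2 ∣ S₀.index := by
    have h1 := Subgroup.card_mul_index S₀
    rw [h8, hc] at h1
    have h2 : S₀.index = k := by omega
    rw [h2]
    exact hk.not_two_dvd_nat
  let P := hp.toSylow hi
  have hP : (P : Subgroup (RT K m)) = S₀ := rfl
  obtain ⟨Q, hQ⟩ := hR.exists_le_sylow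
  obtain ⟨g, hg⟩ := MulAction.exists_smul_eq (RT K m) Q P
  refine ⟨g, ?_⟩
  rintro _ ⟨x, hx, rfl⟩
  rw [← hP, ← hg, Sylow.coe_subgroup_smul, Subgroup.mem_pointwise_smul_iff_inv_smul_mem, MulAut.smul_def, MulAut.inv_def, MulAut.conj_symm_apply]
  have e : g⁻¹ * (MulAut.conj g).toMonoidHom x * g = x := by
    show g⁻¹ * (g * x * g⁻¹) * g = x
    group
  rw [e]
  exact hQ hx

/-- The four-group case. -/
theorem good_four {S R : Subgroup (RT K m)} (h4 : Nat.card R = 4) (hR : IsPGroup 2 R)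
    (hS : S ≤ Subgroup.normalizer (R : Set (RT K m))) (hm : 1 ≤ m) : ReeGood (m := m) S := by
  haveI := t_finite hK
  obtain ⟨S₀, h8, helem, haS, hwS, hJS, hform⟩ := exists_S0 hK
  obtain ⟨c, hc⟩ := exists_conj_S0 hK h8 hR
  set R₁ := R.map (MulAut.conj c).toMonoidHom with hR₁
  have hcard1 : Nat.card R₁ = 4 := by rw [hR₁, card_map_conj, h4]
  obtain ⟨u, v, hu, hv, huv⟩ := sol_exists_two_ne (H := R₁) (by omega)
  have hu' : (u : RT K m) ≠ 1 := fun h => hu (Subtype.ext h)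
  have hv' : (v : RT K m) ≠ 1 := fun h => hv (Subtype.ext h)
  have huv' : (u : RT K m) ≠ v := fun h => huv (Subtype.ext h)
  have hAw : tA hK * tW K m = tW K m * tA hK := tK0_comm hK (tA_mem_tK0 hK) (tW_mem_tK0 hK)
  have hAJ : tA hK * tJ hK = tJ hK * tA hK := a_comm_tSL hK _
  obtain ⟨k, hak, hwk⟩ := sol_fano (tA_sq hK) tW_sq (tJ_sq hK) hAw hAJ (tW_tJ_comm hK) (tG7_A hK) (tG7_W hK) (tG7_J hK)
    (by rw [← orderOf_tG7 hK]; exact pow_orderOf_eq_one _) (hform _ (hc u.2)) (hform _ (hc v.2)) hu' hv' huv' R₁ u.2 v.2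
  set d := tG7 K m ^ k with hd
  have hmap : R₁.map (MulAut.conj d).toMonoidHom = R.map (MulAut.conj (d * c)).toMonoidHom := map_conj_mul _ _ _
  rw [hmap] at hak hwk
  have hcard2 : Nat.card (R.map (MulAut.conj (d * c)).toMonoidHom) = 4 := by rw [card_map_conj, h4]
  have hN := norm_V_le hK hcard2 hak hwk
  refine ⟨(tD0 hK).map (MulAut.conj (d * c)⁻¹).toMonoidHom, sol_le_norm_conj hS hN, Or.inr (Or.inr ⟨sol_map_cyclic hK (tD0_cyclic hK) _, Or.inr (Or.inl ?_)⟩)⟩
  rw [card_map_conj, card_tD0 hK]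
  have := reeN_spec m
  omega

/-- The `2`-subgroups of order at least four. -/
theorem good_two_large {S R : Subgroup (RT K m)} (h4 : 4 ≤ Nat.card R) (hR : IsPGroup 2 R)
    (hS : S ≤ Subgroup.normalizer (R : Set (RT K m))) (hm : 1 ≤ m) : ReeGood (m := m) S := by
  haveI := t_finite hK
  haveI : Fact (Nat.Prime 2) := ⟨Nat.prime_two⟩
  obtain ⟨P, hP⟩ := hR.exists_le_sylow
  obtain ⟨h8, -⟩ := sylow2_facts hK P
  have hd : Nat.card R ∣ 8 := by
    rw [← h8]
    exact Subgroup.card_dvd_of_le hP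
  have hle : Nat.card R ≤ 8 := Nat.le_of_dvd (by norm_num) hd
  have hcases : Nat.card R = 4 ∨ Nat.card R = 8 := by
    generalize Nat.card R = n at *
    interval_cases n <;> first | omega | (exfalso; revert hd; decide)
  rcases hcases with h | h
  · exact good_four hK h hR hS hm
  · have hRP : R = P := Subgroup.eq_of_le_of_card_ge hP (by rw [h, h8])
    refine ⟨P, ?_, Or.inl ⟨P, rfl⟩⟩
    rw [← hRP]
    exact hS

/-- Solvable subgroups of the Ree group normalise a local subgroup. -/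
theorem ree_solvable_good (hm : 1 ≤ m) (S : Subgroup (RT K m)) (hS : Group.IsSolvable S) : ReeGood (m := m) S := by
  haveI := t_finite hK
  haveI : Fact (Nat.Prime 2) := ⟨Nat.prime_two⟩
  by_cases hS1 : S = ⊥
  · obtain ⟨P⟩ : Nonempty (Sylow 3 (RT K m)) := inferInstance
    refine ⟨P, ?_, Or.inr (Or.inl ⟨P, rfl⟩)⟩
    rw [hS1]
    exact bot_le
  haveI : Nontrivial S := (Subgroup.nontrivial_iff_ne_bot S).2 hS1
  obtain ⟨R, p, hRn, hR1, hp, hab, hexp⟩ := Cfsg.Agent.H01.exists_elementary_abelian_normal (G := S)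
  have hcardQ : ∀ R : Subgroup S, Nat.card (R.map S.subtype) = Nat.card R := fun R =>
    Subgroup.card_map_of_injective S.subtype_injective
  set Q := R.map S.subtype with hQdef
  have hSQ : S ≤ Subgroup.normalizer (Q : Set (RT K m)) := sol_le_norm_map R
  have hQ1 : Q ≠ ⊥ := by
    rw [hQdef, Ne, Subgroup.map_eq_bot_iff_of_injective _ S.subtype_injective]
    exact hR1
  have hQexp : ∀ x ∈ Q, x ^ p = 1 := by
    rintro _ ⟨x, hx, rfl⟩
    have := hexp x hx
    exact congrArg Subtype.val this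
  by_cases hp2 : p = 2
  swap
  · exact good_odd hK hm hp hp2 hQ1 hQexp hSQ
  subst hp2
  have hQ2 : IsPGroup 2 Q := fun x => ⟨1, by
    rw [pow_one]
    exact Subtype.ext (hQexp x x.2)⟩
  by_cases h4 : 4 ≤ Nat.card Q
  · exact good_two_large hK h4 hQ2 hSQ hm
  -- now `Q` has order two
  obtain ⟨P, hP⟩ := hQ2.exists_le_sylow
  obtain ⟨h8, -⟩ := sylow2_facts hK P
  have hd : Nat.card Q ∣ 8 := by
    rw [← h8]
    exact Subgroup.card_dvd_of_le hP
  have hc2 : Nat.card Q = 2 := by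
    have h1 : Nat.card Q ≠ 1 := by
      intro h
      exact hQ1 (Subgroup.card_eq_one.1 h)
    have h0 : Nat.card Q ≠ 0 := Nat.card_pos.ne'
    generalize Nat.card Q = n at *
    have : n < 4 := by omega
    interval_cases n <;> first | omega | (exfalso; revert hd; decide)
  by_cases hRtop : R = ⊤
  · refine ⟨P, ?_, Or.inl ⟨P, rfl⟩⟩
    have hSQ' : S ≤ P := by
      intro x hx
      apply hP
      refine ⟨⟨x, hx⟩, ?_, rfl⟩
      rw [hRtop]
      exact Subgroup.mem_top _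
    exact hSQ'.trans Subgroup.le_normalizer
  -- the second layer
  obtain ⟨M, p', hMn, hp', hRM, ⟨x₀, hx₀M, hx₀R⟩, hMpow, hMcomm⟩ := sol_second_layer R hRtop
  set M' := M.map S.subtype with hM'def
  have hSM : S ≤ Subgroup.normalizer (M' : Set (RT K m)) := sol_le_norm_map M
  have hM1 : ∀ x ∈ M', x ^ p' ∈ Q := by
    rintro _ ⟨x, hx, rfl⟩
    exact ⟨x ^ p', hMpow x hx, by simp⟩
  -- the involution
  obtain ⟨t, ht1⟩ := Subgroup.ne_bot_iff_exists_ne_one.mp hQ1
  have ht1' : (t : RT K m) ≠ 1 := fun h => ht1 (Subtype.ext h)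
  have ht2 : (t : RT K m) * t = 1 := by
    have := hQexp t t.2
    rwa [pow_two] at this
  have hQform : ∀ x ∈ Q, x = 1 ∨ x = t := by
    intro x hx
    by_contra hcon
    push Not at hcon
    obtain ⟨h5, h6⟩ := hcon
    have h7 : 2 < Nat.card Q := by
      classical
      haveI := Fintype.ofFinite Q
      rw [Nat.card_eq_fintype_card, Fintype.two_lt_card_iff]
      refine ⟨1, t, ⟨x, hx⟩, fun e => ht1 e.symm, fun e => h5 (congrArg Subtype.val e).symm, fun e => h6 (congrArg Subtype.val e).symm⟩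
    omega
  have hcen : ∀ g ∈ S, g * (t : RT K m) = t * g := by
    intro g hg
    have h5 : g * t * g⁻¹ ∈ Q := (Subgroup.mem_normalizer_iff.1 (hSQ hg) t).1 t.2
    rcases hQform _ h5 with h6 | h6
    · exact absurd h6 (conj_ne_one ht1')
    · rw [mul_inv_eq_iff_eq_mul] at h6
      exact h6
  have hx₀G : ((x₀ : S) : RT K m) ∈ M' := ⟨x₀, hx₀M, rfl⟩
  have hx₀Q : ((x₀ : S) : RT K m) ∉ Q := by
    rintro ⟨y, hy, hyx⟩
    have : y = x₀ := Subtype.ext hyx
    exact hx₀R (this ▸ hy)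
  have hM'S : ∀ x ∈ M', x ∈ S := by
    rintro _ ⟨x, hx, rfl⟩
    exact x.2
  by_cases hp'2 : p' = 2
  · subst hp'2
    -- `M'` is a `2`-group
    have hM'2 : IsPGroup 2 M' := by
      intro x
      refine ⟨2, ?_⟩
      apply Subtype.ext
      have h5 := hQexp _ (hM1 x x.2)
      rw [← pow_mul] at h5
      exact_mod_cast h5
    have hQM : Q ≤ M' := Subgroup.map_mono hRM
    have hdvd : 2 ∣ Nat.card M' := by
      rw [← hc2]
      exact Subgroup.card_dvd_of_le hQM
    have hne : Nat.card M' ≠ 2 := by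
      intro h
      have : Q = M' := Subgroup.eq_of_le_of_card_ge hQM (by rw [h, hc2])
      exact hx₀Q (this ▸ hx₀G)
    have hpos : 0 < Nat.card M' := Nat.card_pos
    have h4' : 4 ≤ Nat.card M' := by
      obtain ⟨k, hk⟩ := hdvd
      omega
    exact good_two_large hK h4' hM'2 hSM hm
  -- the odd case
  have hodd : Odd p' := hp'.odd_of_ne_two hp'2
  obtain ⟨Q', hQ'⟩ := sol_odd_layer (M := M') (Q := Q) (t := (t : RT K m)) (p := p') hodd ht2 ht1' hQform
    (fun x hx => hcen x (hM'S x hx))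
    (by
      rintro _ ⟨x, hx, rfl⟩ _ ⟨y, hy, rfl⟩
      exact ⟨_, hMcomm x hx y hy, by simp⟩)
  have hQ'1 : Q' ≠ ⊥ := by
    intro h
    have hsq : ((x₀ : S) : RT K m) * x₀ ∈ Q' := by
      rw [hQ']
      refine ⟨M'.mul_mem hx₀G hx₀G, ?_⟩
      rw [← pow_two, ← pow_mul, mul_comm, pow_mul]
      rcases hQform _ (hM1 _ hx₀G) with h5 | h5
      · rw [h5, one_pow]
      · rw [h5, pow_two, ht2]
    rw [h, Subgroup.mem_bot] at hsq
    apply hx₀Q
    obtain ⟨k, hk⟩ := hodd
    have h5 := hM1 _ hx₀G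
    have h6 : ((x₀ : S) : RT K m) ^ p' = x₀ := by
      rw [hk, pow_succ, pow_mul, pow_two, hsq, one_pow, one_mul]
    rwa [h6] at h5
  have hQ'exp : ∀ x ∈ Q', x ^ p' = 1 := fun x hx => ((hQ' x).1 hx).2
  have hSQ' : S ≤ Subgroup.normalizer (Q' : Set (RT K m)) := by
    intro g hg
    apply mem_normalizer_of_conj_le
    intro x hx
    obtain ⟨h5, h6⟩ := (hQ' x).1 hx
    rw [hQ']
    refine ⟨(Subgroup.mem_normalizer_iff.1 (hSM hg) x).1 h5, ?_⟩
    rw [conj_pow, h6, mul_one, mul_inv_cancel]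
  exact good_odd hK hm hp' hp'2 hQ'1 hQ'exp hSQ'

end Cfsg.Agent.H10
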