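import Mathlib
import Cfsg.Agent.Lib.Lead.SLn

/-! Steinberg's two generators of `SL_{n+1}` modulo its centre. -/

set_option autoImplicit false
set_option linter.unusedSectionVars false
set_option linter.unusedSimpArgs false
set_option linter.style.haveILetI false

namespace Cfsg.Agent.H10

open Matrix Matrix.SpecialLinearGroup

section Gen

variable {K : Type*} [Field K] {n : ℕ}

/-- Sign attached to an index. -/
def sgnW (K : Type*) [Field K] (n : ℕ) (i : Fin (n + 1)) : K := if i = 0 then (-1) ^ n else 1

lemma sgnW_sq (i : Fin (n + 1)) : sgnW K n i * sgnW K n i = 1 := by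
  unfold sgnW
  split_ifs
  · rw [← pow_add, ← two_mul, pow_mul]
    simp
  · simp

/-- The monomial matrix of the statement. -/
def wM (K : Type*) [Field K] (n : ℕ) : Matrix (Fin (n + 1)) (Fin (n + 1)) K :=
  Matrix.of (fun i j => if j.val = i.val + 1 then 1 else if i.val = n ∧ j.val = 0 then (-1) ^ n else 0)

lemma wM_apply' (a i : Fin (n + 1)) : wM K n a i = if i = a + 1 then sgnW K n i else 0 := by
  unfold wM sgnW
  simp only [Matrix.of_apply]
  have hval := Fin.val_add_one a
  by_cases hi : i = a + 1
  · rw [if_pos hi]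
    by_cases ha : a = Fin.last n
    · rw [if_pos ha] at hval
      have h0 : i = 0 := by
        apply Fin.ext
        rw [hi, hval]
        rfl
      have hav : a.val = n := by rw [ha]; rfl
      rw [if_pos h0, h0]
      simp [hav]
    · rw [if_neg ha] at hval
      have h1 : i.val = a.val + 1 := by rw [hi, hval]
      have h0 : i ≠ 0 := by
        intro h
        rw [h] at h1
        simp at h1
      rw [if_neg h0, if_pos h1]
  · rw [if_neg hi]
    have h1 : ¬ (i.val = a.val + 1) := by
      intro h
      apply hi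
      apply Fin.ext
      by_cases ha : a = Fin.last n
      · have hav : a.val = n := by rw [ha]; rfl
        have := i.2
        omega
      · rw [if_neg ha] at hval
        rw [hval, h]
    have h2 : ¬ (a.val = n ∧ i.val = 0) := by
      rintro ⟨h3, h4⟩
      apply hi
      apply Fin.ext
      have ha : a = Fin.last n := Fin.ext h3
      rw [if_pos ha] at hval
      rw [hval, h4]
    rw [if_neg h1, if_neg h2]

lemma wM_apply (a i : Fin (n + 1)) : wM K n a i = if a = i - 1 then sgnW K n i else 0 := by
  rw [wM_apply']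
  have : a = i - 1 ↔ i = a + 1 := by
    constructor
    · intro h; rw [h]; simp
    · intro h; rw [h]; simp
  simp only [this]

lemma wM_mul_single (i j : Fin (n + 1)) (t : K) :
    wM K n * Matrix.single i j t = Matrix.single (i - 1) j (sgnW K n i * t) := by
  ext a b
  rw [Matrix.mul_apply, Finset.sum_eq_single i]
  · rw [wM_apply, Matrix.single_apply, Matrix.single_apply]
    by_cases h1 : a = i - 1
    · by_cases h2 : j = b
      · subst h1 h2
        simp
      · simp [h1, h2]
    · have h3 : ¬ i - 1 = a := fun h => h1 h.symm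
      simp [h1, h3]
  · intro c _ hc
    rw [Matrix.single_apply, if_neg (fun h => hc h.1.symm), mul_zero]
  · simp

lemma single_mul_wM (i j : Fin (n + 1)) (t : K) :
    Matrix.single i j t * wM K n = Matrix.single i (j + 1) (t * sgnW K n (j + 1)) := by
  ext a b
  rw [Matrix.mul_apply, Finset.sum_eq_single j]
  · rw [wM_apply', Matrix.single_apply, Matrix.single_apply]
    by_cases h1 : i = a
    · by_cases h2 : j + 1 = b
      · subst h1 h2
        simp
      · have h3 : ¬ b = j + 1 := fun h => h2 h.symm
        simp [h1, h2, h3]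
    · simp [h1]
  · intro c _ hc
    rw [Matrix.single_apply, if_neg (fun h => hc h.2.symm), zero_mul]
  · simp

/-- Conjugation of a transvection by `w`, in matrix form. -/
lemma wM_mul_transvection (i j : Fin (n + 1)) (t : K) :
    wM K n * (1 + Matrix.single i j t) =
      (1 + Matrix.single (i - 1) (j - 1) (sgnW K n i * sgnW K n j * t)) * wM K n := by
  rw [mul_add, add_mul, mul_one, one_mul, wM_mul_single, single_mul_wM, sub_add_cancel]
  congr 2
  have := sgnW_sq (K := K) j
  linear_combination (sgnW K n i * t) * (-this)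

/-- A subgroup containing `w` and a root group contains everything. -/
theorem eq_top_of_root (hn : 1 ≤ n) (H : Subgroup (Matrix.SpecialLinearGroup (Fin (n + 1)) K))
    (w : Matrix.SpecialLinearGroup (Fin (n + 1)) K) (hw : (w : Matrix _ _ K) = wM K n) (hwH : w ∈ H)
    (h01 : (0 : Fin (n + 1)) ≠ 1)
    (hroot : ∀ t : K, SpecialLinearGroup.transvection h01 t ∈ H) : H = ⊤ := by
  haveI : NeZero n := ⟨by omega⟩
  have hone : ∀ i : Fin (n + 1), i ≠ i + 1 := by
    intro i h
    have : (1 : Fin (n + 1)) = 0 := by
      have h2 : i + 1 = i + 0 := by rw [← h, add_zero]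
      exact add_left_cancel h2
    exact h01 this.symm
  -- conjugation in the group
  have hconj : ∀ (i j : Fin (n + 1)) (hij : i ≠ j) (hij' : i - 1 ≠ j - 1) (t : K),
      w * SpecialLinearGroup.transvection hij t * w⁻¹ =
        SpecialLinearGroup.transvection hij' (sgnW K n i * sgnW K n j * t) := by
    intro i j hij hij' t
    rw [mul_inv_eq_iff_eq_mul]
    apply Subtype.ext
    change w.1 * (1 + Matrix.single i j t) =
      (1 + Matrix.single (i - 1) (j - 1) (sgnW K n i * sgnW K n j * t)) * w.1
    rw [hw, wM_mul_transvection]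
  have hsub : ∀ (i j : Fin (n + 1)), i ≠ j → i - 1 ≠ j - 1 := by
    intro i j hij h
    exact hij (sub_left_inj.mp h)
  -- neighbours
  have hstep : ∀ i : Fin (n + 1), (∀ t : K, SpecialLinearGroup.transvection (hone i) t ∈ H) →
      ∀ t : K, SpecialLinearGroup.transvection (hone (i - 1)) t ∈ H := by
    intro i hi t
    have hij' : i - 1 ≠ i := by
      intro h
      have := hone (i - 1)
      rw [sub_add_cancel] at this
      exact this h
    have h1 := hconj i (i + 1) (hone i) (by rw [add_sub_cancel_right]; exact hij') (sgnW K n i * sgnW K n (i + 1) * t)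
    have h2 : sgnW K n i * sgnW K n (i + 1) * (sgnW K n i * sgnW K n (i + 1) * t) = t := by
      have e1 := sgnW_sq (K := K) i
      have e2 := sgnW_sq (K := K) (i + 1)
      calc _ = (sgnW K n i * sgnW K n i) * (sgnW K n (i + 1) * sgnW K n (i + 1)) * t := by ring
        _ = t := by rw [e1, e2]; ring
    rw [h2] at h1
    have h3 : SpecialLinearGroup.transvection (hone (i - 1)) t =
        SpecialLinearGroup.transvection (by rw [add_sub_cancel_right]; exact hij' : i - 1 ≠ i + 1 - 1) t := by
      apply Subtype.ext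
      simp [SpecialLinearGroup.transvection_coe]
    rw [h3, ← h1]
    exact H.mul_mem (H.mul_mem hwH (hi _)) (H.inv_mem hwH)
  have hall1 : ∀ (m : ℕ) (i : Fin (n + 1)), (-i).val = m →
      ∀ t : K, SpecialLinearGroup.transvection (hone i) t ∈ H := by
    intro m
    induction m with
    | zero =>
      intro i hi t
      have hi0 : i = 0 := by
        have h1 : -i = 0 := Fin.ext hi
        exact neg_eq_zero.mp h1
      subst hi0
      have : SpecialLinearGroup.transvection (hone 0) t = SpecialLinearGroup.transvection h01 t := by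
        apply Subtype.ext
        simp [SpecialLinearGroup.transvection_coe]
      rw [this]
      exact hroot t
    | succ m ih =>
      intro i hi t
      have hne : -i ≠ 0 := by
        intro h
        rw [h] at hi
        simp at hi
      have h1 : (-(i + 1)).val = m := by
        have h2 : -(i + 1) = -i - 1 := by rw [neg_add, sub_eq_add_neg]
        rw [h2, Fin.val_sub_one_of_ne_zero hne, hi]
        rfl
      have h3 := hstep (i + 1) (ih _ h1) t
      have h4 : i + 1 - 1 = i := by simp
      have h5 : SpecialLinearGroup.transvection (hone (i + 1 - 1)) t = SpecialLinearGroup.transvection (hone i) t := by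
        simp only [h4]
      rw [← h5]
      exact h3
  have hnb : ∀ (i : Fin (n + 1)) (t : K), SpecialLinearGroup.transvection (hone i) t ∈ H := by
    intro i t
    exact hall1 _ i rfl t
  -- arbitrary gaps
  have hcast : ∀ (g : ℕ) (hg : g < n + 1), 1 ≤ g → (⟨g, hg⟩ : Fin (n + 1)) ≠ 0 := by
    intro g hg h1 h
    have h3 := congrArg Fin.val h
    simp at h3
    omega
  have hgap : ∀ g : ℕ, 1 ≤ g → ∀ (hg : g < n + 1) (i j : Fin (n + 1)) (hij : i ≠ j), j = i + ⟨g, hg⟩ →
      ∀ t : K, SpecialLinearGroup.transvection hij t ∈ H := by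
    intro g hg1
    induction g, hg1 using Nat.le_induction with
    | base =>
      intro hg i j hij hj t
      have hj' : j = i + 1 := by
        rw [hj]
        congr 1
        apply Fin.ext
        simp only
        rw [Fin.val_one']
        exact (Nat.mod_eq_of_lt hg).symm
      subst hj'
      exact hnb i t
    | succ g hg1 ih =>
      intro hg2 i j hij hj t
      have hg3 : g < n + 1 := by omega
      have hsucc : (⟨g + 1, hg2⟩ : Fin (n + 1)) = ⟨g, hg3⟩ + 1 := by
        apply Fin.ext
        rw [Fin.val_add_one]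
        split_ifs with h
        · have := congrArg Fin.val h
          simp at this
          omega
        · rfl
      have hk : i + ⟨g, hg3⟩ + 1 = j := by
        rw [hj, hsucc, add_assoc]
      have hik : i ≠ i + ⟨g, hg3⟩ := by
        intro h
        have : (⟨g, hg3⟩ : Fin (n + 1)) = 0 := by
          have h2 : i + ⟨g, hg3⟩ = i + 0 := by rw [← h, add_zero]
          exact add_left_cancel h2
        exact hcast g hg3 hg1 this
      have hkj : i + ⟨g, hg3⟩ ≠ j := by
        rw [← hk]
        exact hone _
      have hc := Cfsg.Agent.Lead.commutator_transvection hij hik hkj t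
      rw [← hc, commutatorElement_def]
      have m1 := ih hg3 i _ hik rfl t
      have m2 : SpecialLinearGroup.transvection hkj (1 : K) ∈ H := by
        subst hk
        exact hnb _ 1
      exact H.mul_mem (H.mul_mem (H.mul_mem m1 m2) (H.inv_mem m1)) (H.inv_mem m2)
  have hall : ∀ (i j : Fin (n + 1)) (hij : i ≠ j) (t : K), SpecialLinearGroup.transvection hij t ∈ H := by
    intro i j hij t
    refine hgap (j - i).val ?_ (j - i).2 i j hij ?_ t
    · have h1 : j - i ≠ 0 := sub_ne_zero.mpr hij.symm
      have h2 : (j - i).val ≠ 0 := fun h => h1 (Fin.ext h)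
      omega
    · simp
  rw [eq_top_iff]
  intro A _
  haveI : Nontrivial (Fin (n + 1)) := ⟨⟨0, 1, h01⟩⟩
  exact Cfsg.Agent.Lead.transvection_induction' (· ∈ H) (fun i j hij c => hall i j hij c)
    (fun A B hA hB => H.mul_mem hA hB) A

/-- Over a field of order at most three every element is a multiple of one. -/
lemma exists_natCast_of_card_le_three [Fintype K] (hK : Fintype.card K ≤ 3) (t : K) : ∃ m : ℕ, t = m := by
  classical
  obtain ⟨p, hp⟩ := CharP.exists K
  obtain ⟨n', hprime, hcard⟩ := FiniteField.card K p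
  haveI : Fact p.Prime := ⟨hprime⟩
  have hp2 := hprime.two_le
  have hn : (n' : ℕ) = 1 := by
    by_contra hcon
    have h1 : 2 ≤ (n' : ℕ) := by
      have : 0 < (n' : ℕ) := n'.2
      omega
    have h2 : p ^ 2 ≤ p ^ (n' : ℕ) := Nat.pow_le_pow_right (by omega) h1
    rw [← hcard] at h2
    nlinarith
  rw [hn, pow_one] at hcard
  let f : ZMod p →+* K := ZMod.castHom (dvd_refl p) K
  have hinj : Function.Injective f := f.injective
  have hsurj : Function.Surjective f := by
    have : Fintype.card (ZMod p) = Fintype.card K := by rw [ZMod.card, hcard]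
    exact (Fintype.bijective_iff_injective_and_card f).mpr ⟨hinj, this⟩ |>.2
  obtain ⟨a, rfl⟩ := hsurj t
  refine ⟨a.val, ?_⟩
  have : f a = f (a.val : ZMod p) := by rw [ZMod.natCast_zmod_val]
  rw [this, map_natCast]

lemma transvection_mul_add {ι : Type*} [Fintype ι] [DecidableEq ι] {i j : ι} (hij : i ≠ j) (s t : K) :
    SpecialLinearGroup.transvection hij s * SpecialLinearGroup.transvection hij t =
      SpecialLinearGroup.transvection hij (s + t) := by
  apply Subtype.ext
  change (1 + Matrix.single i j s) * (1 + Matrix.single i j t) = 1 + Matrix.single i j (s + t)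
  have e : Matrix.single i j s * Matrix.single i j t = 0 := Matrix.single_mul_single_of_ne _ _ _ _ hij.symm _
  simp only [mul_add, add_mul, e, mul_one, one_mul, add_zero, Matrix.single_add]
  abel

/-- `S2403`: the case of small fields. -/
theorem closure_small [Fintype K] (hK : Fintype.card K ≤ 3) (hn : 1 ≤ n)
    (x w : Matrix.SpecialLinearGroup (Fin (n + 1)) K)
    (hx : (x : Matrix (Fin (n + 1)) (Fin (n + 1)) K) = Matrix.transvection (0 : Fin (n + 1)) (1 : Fin (n + 1)) 1)
    (hw : (w : Matrix (Fin (n + 1)) (Fin (n + 1)) K) = wM K n) :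
    Subgroup.closure ({x, w} : Set (Matrix.SpecialLinearGroup (Fin (n + 1)) K)) = ⊤ := by
  haveI : NeZero n := ⟨by omega⟩
  have h01 : (0 : Fin (n + 1)) ≠ 1 := by
    intro h
    have h2 := congrArg Fin.val h
    rw [Fin.val_one'] at h2
    simp at h2
    omega
  set H := Subgroup.closure ({x, w} : Set (Matrix.SpecialLinearGroup (Fin (n + 1)) K))
  have hxH : x ∈ H := Subgroup.subset_closure (by simp)
  have hwH : w ∈ H := Subgroup.subset_closure (by simp)
  have hxT : x = SpecialLinearGroup.transvection h01 1 := Subtype.ext hx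
  refine eq_top_of_root hn H w hw hwH h01 ?_
  intro t
  obtain ⟨m, rfl⟩ := exists_natCast_of_card_le_three hK t
  induction m with
  | zero =>
    simp only [Nat.cast_zero, SpecialLinearGroup.transvection_coeff_zero]
    exact H.one_mem
  | succ m ih =>
    rw [Nat.cast_succ, ← transvection_mul_add]
    exact H.mul_mem ih (hxT ▸ hxH)

/-- Every element of a finite field is a sum of two squares. -/
lemma exists_sum_two_squares [Fintype K] (t : K) : ∃ a b : K, t = a ^ 2 + b ^ 2 := by
  by_cases h2 : ringChar K = 2
  · obtain ⟨a, ha⟩ := FiniteField.isSquare_of_char_two h2 t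
    exact ⟨a, 0, by rw [ha]; ring⟩
  · have hodd : Fintype.card K % 2 = 1 := FiniteField.odd_card_of_char_ne_two h2
    open Polynomial in
    obtain ⟨a, b, hab⟩ := FiniteField.exists_root_sum_quadratic (R := K) (f := X ^ 2) (g := X ^ 2 - C t)
      (degree_X_pow 2) (degree_X_pow_sub_C (by decide) _) hodd
    refine ⟨a, b, ?_⟩
    simp at hab
    linear_combination -hab

/-- Conjugation of a transvection by a diagonal matrix. -/
lemma diag_conj_transvection {ι : Type*} [Fintype ι] [DecidableEq ι] (D : Matrix.SpecialLinearGroup ι K)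
    (a : ι → K) (hD : (D : Matrix ι ι K) = Matrix.diagonal a) (ha : ∀ i, a i ≠ 0) {i j : ι} (hij : i ≠ j) (t : K) :
    D * SpecialLinearGroup.transvection hij t * D⁻¹ = SpecialLinearGroup.transvection hij (t * a i / a j) := by
  rw [mul_inv_eq_iff_eq_mul]
  apply Subtype.ext
  change D.1 * (1 + Matrix.single i j t) = (1 + Matrix.single i j (t * a i / a j)) * D.1
  rw [hD]
  ext u v
  rw [Matrix.diagonal_mul, Matrix.mul_diagonal]
  simp only [Matrix.add_apply, Matrix.single_apply]
  by_cases huv : u = v
  · subst huv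
    have h1 : ¬ (i = u ∧ j = u) := fun h => hij (h.1.trans h.2.symm)
    simp [h1]
  · rw [Matrix.one_apply_ne huv]
    by_cases h2 : i = u ∧ j = v
    · obtain ⟨rfl, rfl⟩ := h2
      simp
      have := ha j
      field_simp
    · simp [h2]

/-- `w` conjugates diagonal matrices by a shift. -/
lemma wM_mul_diagonal (a : Fin (n + 1) → K) :
    wM K n * Matrix.diagonal a = Matrix.diagonal (fun i => a (i + 1)) * wM K n := by
  ext u v
  rw [Matrix.mul_diagonal, Matrix.diagonal_mul, wM_apply']
  split_ifs with h
  · rw [h]; ring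
  · simp

/-- `S2402`: the case of large fields. -/
theorem closure_large [Fintype K] (hK : 3 < Fintype.card K) (hn : 1 ≤ n)
    (k : Kˣ) (hk : ∀ u : Kˣ, u ∈ Subgroup.zpowers k)
    (h x w : Matrix.SpecialLinearGroup (Fin (n + 1)) K)
    (hh : (h : Matrix (Fin (n + 1)) (Fin (n + 1)) K) =
      Matrix.diagonal (fun i => if i.val = 0 then (k : K) else if i.val = 1 then ((k⁻¹ : Kˣ) : K) else 1))
    (hx : (x : Matrix (Fin (n + 1)) (Fin (n + 1)) K) = Matrix.transvection (0 : Fin (n + 1)) (1 : Fin (n + 1)) 1)
    (hw : (w : Matrix (Fin (n + 1)) (Fin (n + 1)) K) = wM K n) :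
    Subgroup.closure ({h, x * w} : Set (Matrix.SpecialLinearGroup (Fin (n + 1)) K)) = ⊤ := by
  classical
  haveI : NeZero n := ⟨by omega⟩
  have h01 : (0 : Fin (n + 1)) ≠ 1 := by
    intro h
    have h2 := congrArg Fin.val h
    rw [Fin.val_one'] at h2
    simp at h2
    omega
  have hk0 : (k : K) ≠ 0 := k.ne_zero
  have hkinv : ((k⁻¹ : Kˣ) : K) = (k : K)⁻¹ := by simp
  have hk2 : (k : K) ^ 2 ≠ 1 := by
    intro hcon
    have h1 : k ^ 2 = 1 := by
      apply Units.ext
      simpa using hcon
    have h2 : orderOf k ∣ 2 := orderOf_dvd_of_pow_eq_one h1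
    have h3 : orderOf k = Nat.card Kˣ := orderOf_eq_card_of_forall_mem_zpowers hk
    rw [h3, Nat.card_eq_fintype_card, Fintype.card_units] at h2
    have := Nat.le_of_dvd (by norm_num) h2
    omega
  have hk1 : (k : K) ≠ 1 := by
    intro h
    apply hk2
    rw [h]; ring
  let a : Fin (n + 1) → K := fun i => if i.val = 0 then (k : K) else if i.val = 1 then ((k⁻¹ : Kˣ) : K) else 1
  have ha : ∀ i, a i ≠ 0 := by
    intro i
    simp only [a]
    split_ifs
    · exact hk0
    · exact Units.ne_zero _
    · exact one_ne_zero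
  have hval1 : (1 : Fin (n + 1)).val = 1 := by
    rw [Fin.val_one']; exact Nat.mod_eq_of_lt (by omega)
  have ha0 : a 0 = k := by simp [a]
  have ha1 : a 1 = (k : K)⁻¹ := by
    simp only [a]
    rw [if_neg (by omega), if_pos hval1, hkinv]
  set H := Subgroup.closure ({h, x * w} : Set (Matrix.SpecialLinearGroup (Fin (n + 1)) K)) with hH
  have hhH : h ∈ H := Subgroup.subset_closure (by simp)
  have hxwH : x * w ∈ H := Subgroup.subset_closure (by simp)
  let T : K → Matrix.SpecialLinearGroup (Fin (n + 1)) K := fun t => SpecialLinearGroup.transvection h01 t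
  have hT_add : ∀ s t, T s * T t = T (s + t) := fun s t => transvection_mul_add h01 s t
  have hT_zero : T 0 = 1 := by simp [T]
  have hT_inv : ∀ t, (T t)⁻¹ = T (-t) := by
    intro t
    rw [inv_eq_iff_mul_eq_one, hT_add, add_neg_cancel, hT_zero]
  have hxT : x = T 1 := Subtype.ext hx
  -- the conjugate of `h`
  let a' : Fin (n + 1) → K := fun i => a (i + 1)
  let h' := w * h * w⁻¹
  have hh' : (h' : Matrix _ _ K) = Matrix.diagonal a' := by
    have h1 : (w⁻¹ : Matrix.SpecialLinearGroup (Fin (n + 1)) K).1 * w.1 = 1 := by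
      rw [← Matrix.SpecialLinearGroup.coe_mul, inv_mul_cancel, Matrix.SpecialLinearGroup.coe_one]
    have h2 : w.1 * h.1 = Matrix.diagonal a' * w.1 := by
      rw [hw, hh]
      exact wM_mul_diagonal a
    change w.1 * h.1 * (w⁻¹ : Matrix.SpecialLinearGroup (Fin (n + 1)) K).1 = _
    rw [h2, Matrix.mul_assoc]
    have h3 : w.1 * (w⁻¹ : Matrix.SpecialLinearGroup (Fin (n + 1)) K).1 = 1 := by
      rw [← Matrix.SpecialLinearGroup.coe_mul, mul_inv_cancel, Matrix.SpecialLinearGroup.coe_one]
    rw [h3, Matrix.mul_one]
  have ha' : ∀ i, a' i ≠ 0 := fun i => ha _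
  have hcomm : h' * h = h * h' := by
    apply Subtype.ext
    change h'.1 * h.1 = h.1 * h'.1
    rw [hh', hh]
    simp only [Matrix.diagonal_mul_diagonal, mul_comm]
  have hh'inv : ∀ t, h' * T t * h'⁻¹ = T (t * a' 0 / a' 1) := fun t => diag_conj_transvection h' a' hh' ha' h01 t
  have hhinv : ∀ t, h * T t * h⁻¹ = T (t * (k : K) ^ 2) := by
    intro t
    rw [diag_conj_transvection h a hh ha h01 t, ha0, ha1]
    congr 1
    field_simp
  have hinvh : ∀ t, h⁻¹ * T t * h = T (t * ((k : K) ^ 2)⁻¹) := by
    intro t
    have h1 := hhinv (t * ((k : K) ^ 2)⁻¹)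
    have h2 : t * ((k : K) ^ 2)⁻¹ * (k : K) ^ 2 = t := by field_simp
    rw [h2] at h1
    rw [← h1]
    group
  -- the ratio
  have hρ : a' 0 / a' 1 ≠ 1 := by
    intro hcon
    have h1 : a' 0 = a' 1 := by
      have := ha' 1
      field_simp at hcon
      exact hcon
    have h2 : a' 0 = (k : K)⁻¹ := by
      change a (0 + 1) = _
      rw [zero_add, ha1]
    have h3 : a' 1 = k ∨ a' 1 = 1 := by
      change a (1 + 1) = _ ∨ a (1 + 1) = _
      simp only [a]
      split_ifs with h4 h5
      · exact Or.inl rfl
      · exfalso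
        have h6 : (1 + 1 : Fin (n + 1)) = 1 := Fin.ext (by rw [h5, hval1])
        have h7 : (1 : Fin (n + 1)) = 0 := by
          have h8 : (1 : Fin (n + 1)) + 1 = 1 + 0 := by rw [h6, add_zero]
          exact add_left_cancel h8
        exact h01 h7.symm
      · exact Or.inr rfl
    rw [h2] at h1
    rcases h3 with h3 | h3
    · rw [h3] at h1
      apply hk2
      field_simp at h1
      exact h1.symm
    · rw [h3] at h1
      apply hk1
      field_simp at h1
      exact h1.symm
  set c : K := 1 - a' 0 / a' 1 with hc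
  have hc0 : c ≠ 0 := by
    intro h0
    apply hρ
    linear_combination -h0
  -- the element `y`
  have hy : (x * w) * h * (x * w)⁻¹ = T c * h' := by
    have h1 : (x * w) * h * (x * w)⁻¹ = x * h' * x⁻¹ := by
      simp only [h', _root_.mul_inv_rev]
      group
    rw [h1, hxT, hT_inv]
    have h2 := hh'inv (-1)
    have h3 : h' * T (-1) = T (-1 * a' 0 / a' 1) * h' := by
      rw [← h2]; group
    rw [mul_assoc, h3, ← mul_assoc, hT_add, hc]
    congr 2
    ring
  have hyH : T c * h' ∈ H := by
    rw [← hy]
    exact H.mul_mem (H.mul_mem hxwH hhH) (H.inv_mem hxwH)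
  have hz : (T c * h') * h * (T c * h')⁻¹ * h⁻¹ = T (c * (1 - (k : K) ^ 2)) := by
    have h1 : (T c * h') * h * (T c * h')⁻¹ * h⁻¹ = T c * (h * (T c)⁻¹ * h⁻¹) := by
      have h2 : (T c * h') * h * (T c * h')⁻¹ = T c * (h' * h * h'⁻¹) * (T c)⁻¹ := by group
      rw [h2, hcomm]
      have h3 : h * h' * h'⁻¹ = h := by group
      rw [h3]
      group
    rw [h1, hT_inv, hhinv, hT_add]
    congr 1
    ring
  set c' : K := c * (1 - (k : K) ^ 2) with hc'
  have hc'0 : c' ≠ 0 := mul_ne_zero hc0 (sub_ne_zero.mpr (Ne.symm hk2))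
  have hc'H : T c' ∈ H := by
    rw [← hz]
    exact H.mul_mem (H.mul_mem (H.mul_mem hyH hhH) (H.inv_mem hyH)) (H.inv_mem hhH)
  -- powers of `k`
  have hpow : ∀ m : ℤ, T (c' * (((k ^ m : Kˣ) : K)) ^ 2) ∈ H := by
    intro m
    induction m using Int.induction_on with
    | zero => simpa using hc'H
    | succ i ih =>
      have h1 := H.mul_mem (H.mul_mem hhH ih) (H.inv_mem hhH)
      rw [hhinv] at h1
      convert h1 using 2
      rw [_root_.zpow_add_one, Units.val_mul]
      ring
    | pred i ih =>
      have h1 := H.mul_mem (H.mul_mem (H.inv_mem hhH) ih) hhH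
      rw [hinvh] at h1
      convert h1 using 2
      rw [_root_.zpow_sub_one, Units.val_mul, hkinv]
      field_simp
  have hsq : ∀ s : K, T (c' * s ^ 2) ∈ H := by
    intro s
    by_cases hs : s = 0
    · subst hs
      simp only [ne_eq, OfNat.ofNat_ne_zero, not_false_eq_true, zero_pow, mul_zero, hT_zero]
      exact H.one_mem
    · obtain ⟨m, hm⟩ := Subgroup.mem_zpowers_iff.mp (hk (Units.mk0 s hs))
      have h1 := hpow m
      rw [hm] at h1
      simpa using h1
  have hroot : ∀ t : K, T t ∈ H := by
    intro t
    obtain ⟨u, v, huv⟩ := exists_sum_two_squares (t / c')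
    have h1 : t = c' * u ^ 2 + c' * v ^ 2 := by
      have h2 : t = c' * (t / c') := by field_simp
      rw [h2, huv]
      ring_nf
    rw [h1, ← hT_add]
    exact H.mul_mem (hsq u) (hsq v)
  have hxH : x ∈ H := hxT ▸ hroot 1
  have hwH : w ∈ H := by
    have h1 : w = x⁻¹ * (x * w) := by group
    rw [h1]
    exact H.mul_mem (H.inv_mem hxH) hxwH
  exact eq_top_of_root hn H w hw hwH h01 hroot

end Gen

end Cfsg.Agent.H10
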