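import Mathlib
import Cfsg.Prelude.Def_Classical
import Cfsg.Agent.Lib.Lead.GUOrder
import Cfsg.Agent.Lib.H12.UTrans
import Cfsg.Agent.Lib.H22.NormalP

/-! Distinct Sylow `p`-subgroups of `SU₃(q)` (`q` a power of the odd prime `p`) meet trivially. -/

set_option autoImplicit false
set_option linter.unusedSectionVars false
set_option linter.unusedSimpArgs false
set_option linter.style.haveILetI false

namespace Cfsg.Agent.H10

open Matrix Cfsg
open Cfsg.Agent.Lead Cfsg.Agent.H12 Cfsg.Agent.H12.UTrans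

variable {F : Type*} [Field F] [Fintype F] {q : ℕ}

local notation "herm" => Cfsg.hermForm 3 F q

/-- The matrix of an element of `SU₃`. -/
abbrev suM (g : Cfsg.SU 3 F q) : Matrix (Fin 3) (Fin 3) F :=
  ((g : Matrix.SpecialLinearGroup (Fin 3) F) : Matrix (Fin 3) (Fin 3) F)

lemma suM_mul (g h : Cfsg.SU 3 F q) : suM (g * h) = suM g * suM h := rfl
lemma suM_one : suM (1 : Cfsg.SU 3 F q) = 1 := rfl
lemma suM_pow (g : Cfsg.SU 3 F q) (k : ℕ) : suM (g ^ k) = suM g ^ k := by
  induction k with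
  | zero => simp [suM_one]
  | succ k ih => rw [pow_succ, pow_succ, suM_mul, ih]

lemma suM_inj {g h : Cfsg.SU 3 F q} (e : suM g = suM h) : g = h :=
  Subtype.ext (Subtype.ext e)

lemma herm_suM (g : Cfsg.SU 3 F q) (u v : Fin 3 → F) : herm (suM g *ᵥ u) (suM g *ᵥ v) = herm u v :=
  g.2 u v

/-- Three independent vectors span. -/
lemma span3 {a b c : Fin 3 → F} (h : ∀ α β γ : F, α • a + β • b + γ • c = 0 → α = 0 ∧ β = 0 ∧ γ = 0)
    (x : Fin 3 → F) : ∃ α β γ : F, x = α • a + β • b + γ • c := by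
  have hli : LinearIndependent F ![a, b, c] := by
    rw [Fintype.linearIndependent_iff]
    intro g hg i
    rw [Fin.sum_univ_three] at hg
    simp only [Matrix.cons_val_zero, Matrix.cons_val_one, Matrix.cons_val] at hg
    obtain ⟨h0, h1, h2⟩ := h _ _ _ hg
    fin_cases i
    · exact h0
    · exact h1
    · exact h2
  have hspan := hli.span_eq_top_of_card_eq_finrank' (by simp)
  have hx : x ∈ Submodule.span F (Set.range ![a, b, c]) := by
    rw [hspan]; trivial
  obtain ⟨g, hg⟩ := (Submodule.mem_span_range_iff_exists_fun F).1 hx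
  rw [Fin.sum_univ_three] at hg
  simp only [Matrix.cons_val_zero, Matrix.cons_val_one, Matrix.cons_val] at hg
  exact ⟨_, _, _, hg.symm⟩

lemma eq_one_of_fix3 {M : Matrix (Fin 3) (Fin 3) F} {a b c : Fin 3 → F}
    (h : ∀ α β γ : F, α • a + β • b + γ • c = 0 → α = 0 ∧ β = 0 ∧ γ = 0)
    (ha : M *ᵥ a = a) (hb : M *ᵥ b = b) (hc : M *ᵥ c = c) : M = 1 := by
  have hall : ∀ x, M *ᵥ x = x := by
    intro x
    obtain ⟨α, β, γ, rfl⟩ := span3 h x
    rw [Matrix.mulVec_add, Matrix.mulVec_add, Matrix.mulVec_smul, Matrix.mulVec_smul, Matrix.mulVec_smul,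
      ha, hb, hc]
  ext i j
  have := congrFun (hall (Pi.single j 1)) i
  rw [Matrix.mulVec_single_one] at this
  simpa [Matrix.one_apply, Pi.single_apply, eq_comm] using this

/-- A non-zero vector orthogonal to two given ones. -/
lemma exists_perp2 (v w : Fin 3 → F) :
    ∃ x : Fin 3 → F, x ≠ 0 ∧ herm x v = 0 ∧ herm x w = 0 := by
  let L : (Fin 3 → F) →ₗ[F] (Fin 2 → F) :=
    { toFun := fun x => ![herm x v, herm x w]
      map_add' := fun x y => by
        ext i
        fin_cases i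
        · simp [herm_add_left]
        · simp [herm_add_left]
      map_smul' := fun c x => by
        ext i
        fin_cases i
        · simp [herm_smul_left]
        · simp [herm_smul_left] }
  have hk : LinearMap.ker L ≠ ⊥ := LinearMap.ker_ne_bot_of_finrank_lt (by simp)
  obtain ⟨x, hx, hx0⟩ := Submodule.exists_mem_ne_zero_of_ne_bot hk
  have h1 : L x = 0 := hx
  refine ⟨x, hx0, congrFun h1 0, congrFun h1 1⟩

variable {p : ℕ} [Fact p.Prime] [CharP F p]

/-- The fixed point lemma inside an invariant subspace. -/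
lemma exists_fixed_in (P : Subgroup (Cfsg.SU 3 F q)) (hP : IsPGroup p P)
    (W : Submodule F (Fin 3 → F)) (hW : ∀ g ∈ P, ∀ x ∈ W, suM g *ᵥ x ∈ W) {x₀ : Fin 3 → F} (hx₀ : x₀ ∈ W)
    (hne : x₀ ≠ 0) : ∃ w ∈ W, w ≠ 0 ∧ ∀ g ∈ P, suM g *ᵥ w = w := by
  classical
  let ρ : P → (Fin 3 → F) → (Fin 3 → F) := fun g x => suM (g : Cfsg.SU 3 F q) *ᵥ x
  obtain ⟨w, hw, hw0, hfix⟩ := Cfsg.Agent.H22.exists_fixed_of_pGroup (p := p) hP
    (fun v : Fin 3 → F => by
      ext i
      simp [CharP.cast_eq_zero F p]) ρ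
    (fun v => by simp [ρ, suM_one])
    (fun g h v => by simp [ρ, suM_mul, Matrix.mulVec_mulVec])
    (fun g v w => by simp [ρ, Matrix.mulVec_add]) x₀ hne
  refine ⟨w, ?_, hw0, fun g hg => hfix ⟨g, hg⟩⟩
  have hle : AddSubgroup.closure (Set.range fun g => ρ g x₀) ≤ W.toAddSubgroup := by
    rw [AddSubgroup.closure_le]
    rintro _ ⟨g, rfl⟩
    exact hW _ g.2 _ hx₀
  exact hle hw

variable (q) in
/-- The subspace orthogonal to two vectors. -/
def perp2 (v w : Fin 3 → F) : Submodule F (Fin 3 → F) where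
  carrier := {x | herm x v = 0 ∧ herm x w = 0}
  add_mem' := fun {a b} ha hb => ⟨by rw [herm_add_left, ha.1, hb.1, add_zero],
    by rw [herm_add_left, ha.2, hb.2, add_zero]⟩
  zero_mem' := ⟨by simp [Cfsg.hermForm], by simp [Cfsg.hermForm]⟩
  smul_mem' := fun c x hx => ⟨by rw [herm_smul_left, hx.1, mul_zero], by rw [herm_smul_left, hx.2, mul_zero]⟩

lemma perp2_inv (P : Subgroup (Cfsg.SU 3 F q)) {v w : Fin 3 → F} (hv : ∀ g ∈ P, suM g *ᵥ v = v)
    (hw : ∀ g ∈ P, suM g *ᵥ w = w) : ∀ g ∈ P, ∀ x ∈ perp2 q v w, suM g *ᵥ x ∈ perp2 q v w := by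
  intro g hg x hx
  refine ⟨?_, ?_⟩
  · have := herm_suM g x v
    rw [hv g hg] at this
    rw [this]
    exact hx.1
  · have := herm_suM g x w
    rw [hw g hg] at this
    rw [this]
    exact hx.2

lemma two_le_q_of (hF : Fintype.card F = q ^ 2) : 2 ≤ q := two_le_q hF

/-- A nontrivial `p`-subgroup of `SU₃` fixes a non-zero isotropic vector. -/
theorem fix_iso (hF : Fintype.card F = q ^ 2) (P : Subgroup (Cfsg.SU 3 F q)) (hP : IsPGroup p P) (hne : P ≠ ⊥) :
    ∃ v : Fin 3 → F, v ≠ 0 ∧ herm v v = 0 ∧ ∀ g ∈ P, suM g *ᵥ v = v := by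
  classical
  have hq2 := two_le_q hF
  by_contra hcon
  push Not at hcon
  -- first vector
  obtain ⟨v, -, hv0, hv⟩ := exists_fixed_in (p := p) P hP ⊤ (fun _ _ _ _ => trivial) (x₀ := Pi.single 0 1) trivial
    (by
      intro h
      have := congrFun h 0
      simp at this)
  have hvi : herm v v ≠ 0 := fun h => by
    obtain ⟨g, hg, hg'⟩ := hcon v hv0 h
    exact hg' (hv g hg)
  obtain ⟨x₁, hx₁0, hx₁, hx₁'⟩ := exists_perp2 (q := q) v v
  obtain ⟨w, hwm, hw0, hw⟩ := exists_fixed_in (p := p) P hP (perp2 q v v) (perp2_inv P hv hv) (x₀ := x₁)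
    ⟨hx₁, hx₁'⟩ hx₁0
  have hwi : herm w w ≠ 0 := fun h => by
    obtain ⟨g, hg, hg'⟩ := hcon w hw0 h
    exact hg' (hw g hg)
  obtain ⟨x₂, hx₂0, hx₂, hx₂'⟩ := exists_perp2 (q := q) v w
  obtain ⟨z, hzm, hz0, hz⟩ := exists_fixed_in (p := p) P hP (perp2 q v w) (perp2_inv P hv hw) (x₀ := x₂)
    ⟨hx₂, hx₂'⟩ hx₂0
  have hzi : herm z z ≠ 0 := fun h => by
    obtain ⟨g, hg, hg'⟩ := hcon z hz0 h
    exact hg' (hz g hg)
  have hwv : herm w v = 0 := hwm.1
  have hzv : herm z v = 0 := hzm.1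
  have hzw : herm z w = 0 := hzm.2
  have hvw : herm v w = 0 := by rw [herm_conj hF w v, hwv, zero_pow (by omega)]
  have hvz : herm v z = 0 := by rw [herm_conj hF z v, hzv, zero_pow (by omega)]
  have hwz : herm w z = 0 := by rw [herm_conj hF z w, hzw, zero_pow (by omega)]
  have hind : ∀ α β γ : F, α • v + β • w + γ • z = 0 → α = 0 ∧ β = 0 ∧ γ = 0 := by
    intro α β γ h
    have h0 : ∀ y : Fin 3 → F, herm (α • v + β • w + γ • z) y = 0 := by
      intro y
      rw [h]
      simp [Cfsg.hermForm]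
    have e1 := h0 v
    have e2 := h0 w
    have e3 := h0 z
    simp only [herm_add_left, herm_smul_left, hwv, hzv, hzw, hvw, hvz, hwz, mul_zero, add_zero, zero_add] at e1 e2 e3
    exact ⟨(mul_eq_zero.1 e1).resolve_right hvi, (mul_eq_zero.1 e2).resolve_right hwi,
      (mul_eq_zero.1 e3).resolve_right hzi⟩
  apply hne
  rw [eq_bot_iff]
  intro g hg
  rw [Subgroup.mem_bot]
  exact suM_inj (eq_one_of_fix3 hind (hv g hg) (hw g hg) (hz g hg))

/-- A non-zero isotropic vector `v`: the orthogonal complement is spanned by `v` and a unit vector. -/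
theorem iso_frame (hF : Fintype.card F = q ^ 2) {v : Fin 3 → F} (hv : v ≠ 0) (hi : herm v v = 0) :
    ∃ u : Fin 3 → F, herm u u = 1 ∧ herm u v = 0 ∧ ∀ x, herm x v = 0 → ∃ α β : F, x = α • v + β • u := by
  classical
  have hq2 := two_le_q hF
  obtain ⟨c, hc⟩ := exists_c hF
  obtain ⟨e₁, e₂, h11, h22, h12, rfl⟩ := exists_frame hF hv hi hc
  have hON : IsON q ![e₁, e₂] := by
    intro i j
    fin_cases i <;> fin_cases j
    · simpa using h11
    · simpa using h12
    · simp only [Fin.mk_one, Fin.zero_eta, Fin.isValue, Matrix.cons_val_one, Matrix.cons_val_zero]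
      rw [if_neg (by decide), herm_conj hF e₁ e₂, h12, zero_pow (by omega)]
    · simpa using h22
  obtain ⟨f, hf, hf2⟩ := extend_ON hF 1 2 (by omega) _ hON
  have h0 : f 0 = e₁ := by simpa using hf2 0
  have h1 : f 1 = e₂ := by simpa using hf2 1
  set u := f 2 with hu
  have huu : herm u u = 1 := by simpa using hf 2 2
  have hu1 : herm u e₁ = 0 := by
    have := hf 2 0
    rw [h0] at this
    simpa using this
  have hu2 : herm u e₂ = 0 := by
    have := hf 2 1
    rw [h1] at this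
    simpa using this
  have h1u : herm e₁ u = 0 := by rw [herm_conj hF u e₁, hu1, zero_pow (by omega)]
  have h2u : herm e₂ u = 0 := by rw [herm_conj hF u e₂, hu2, zero_pow (by omega)]
  have h21 : herm e₂ e₁ = 0 := by rw [herm_conj hF e₁ e₂, h12, zero_pow (by omega)]
  refine ⟨u, huu, ?_, ?_⟩
  · rw [herm_add_right hF, herm_smul_right hF, hu1, hu2, mul_zero, add_zero]
  · intro x hx
    have hind : ∀ α β γ : F, α • e₁ + β • e₂ + γ • u = 0 → α = 0 ∧ β = 0 ∧ γ = 0 := by
      intro α β γ h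
      have h0 : ∀ y : Fin 3 → F, herm (α • e₁ + β • e₂ + γ • u) y = 0 := by
        intro y
        rw [h]
        simp [Cfsg.hermForm]
      have e1 := h0 e₁
      have e2 := h0 e₂
      have e3 := h0 u
      simp only [herm_add_left, herm_smul_left, h11, h22, huu, h12, h21, h1u, h2u, hu1, hu2, mul_zero, add_zero,
        zero_add, mul_one] at e1 e2 e3
      exact ⟨e1, e2, e3⟩
    obtain ⟨a, b, γ, rfl⟩ := span3 hind x
    rw [herm_add_right hF, herm_smul_right hF] at hx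
    simp only [herm_add_left, herm_smul_left, h11, h22, huu, h12, h21, h1u, h2u, hu1, hu2, mul_zero, add_zero,
      zero_add, mul_one] at hx
    have hcq : c ^ q * c = -1 := by rw [← pow_succ, hc]
    have hb : b = a * c := by
      linear_combination (-c) * hx + b * hcq
    refine ⟨a, γ, ?_⟩
    subst hb
    ext i
    simp only [Pi.add_apply, Pi.smul_apply, smul_eq_mul]
    ring

/-- The subgroup of `SU₃` of "transvection-like" elements attached to the isotropic vector `v`. -/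
def Kv (_hF : Fintype.card F = q ^ 2) (v : Fin 3 → F) : Subgroup (Cfsg.SU 3 F q) where
  carrier := {t | suM t *ᵥ v = v ∧ ∀ x, herm x v = 0 → ∃ b : F, suM t *ᵥ x = x + b • v}
  mul_mem' := by
    rintro a b ⟨ha, ha'⟩ ⟨hb, hb'⟩
    refine ⟨by rw [suM_mul, ← Matrix.mulVec_mulVec, hb, ha], fun x hx => ?_⟩
    obtain ⟨c, hc⟩ := hb' x hx
    obtain ⟨d, hd⟩ := ha' x hx
    refine ⟨d + c, ?_⟩
    rw [suM_mul, ← Matrix.mulVec_mulVec, hc, Matrix.mulVec_add, Matrix.mulVec_smul, ha, hd, add_smul]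
    abel
  one_mem' := ⟨by simp [suM_one], fun x _ => ⟨0, by simp [suM_one]⟩⟩
  inv_mem' := by
    rintro a ⟨ha, ha'⟩
    have hinv : ∀ y, suM a⁻¹ *ᵥ (suM a *ᵥ y) = y := by
      intro y
      rw [Matrix.mulVec_mulVec, ← suM_mul, inv_mul_cancel, suM_one, Matrix.one_mulVec]
    have hv : suM a⁻¹ *ᵥ v = v := by
      have := hinv v
      rwa [ha] at this
    refine ⟨hv, fun x hx => ?_⟩
    obtain ⟨d, hd⟩ := ha' x hx
    refine ⟨-d, ?_⟩
    have := hinv x
    rw [hd, Matrix.mulVec_add, Matrix.mulVec_smul, hv] at this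
    rw [eq_sub_of_add_eq this, neg_smul, sub_eq_add_neg]

/-- Elements of `Kv` have order dividing `p`, for `p` odd. -/
theorem Kv_pow (hF : Fintype.card F = q ^ 2) (hp2 : p ≠ 2) {v : Fin 3 → F} {t : Cfsg.SU 3 F q} (ht : t ∈ Kv hF v) :
    t ^ p = 1 := by
  obtain ⟨h1, h2⟩ := ht
  have hp3 : 3 ≤ p := by
    have := (Fact.out : p.Prime).two_le
    omega
  have hcube : (suM t - 1) ^ 3 = 0 := by
    have hall : ∀ x, ((suM t - 1) ^ 3) *ᵥ x = 0 := by
      intro x
      have hy : herm (suM t *ᵥ x - x) v = 0 := by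
        have e := herm_suM t x v
        rw [h1] at e
        have e2 : herm (suM t *ᵥ x) v = herm (suM t *ᵥ x - x + x) v := by rw [sub_add_cancel]
        rw [herm_add_left, e] at e2
        exact (add_eq_right.1 e2.symm)
      obtain ⟨b, hb⟩ := h2 _ hy
      have e3 : (suM t - 1) *ᵥ x = suM t *ᵥ x - x := by
        rw [Matrix.sub_mulVec, Matrix.one_mulVec]
      have e4 : (suM t - 1) *ᵥ (suM t *ᵥ x - x) = b • v := by
        rw [Matrix.sub_mulVec, Matrix.one_mulVec, hb]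
        abel
      have e5 : (suM t - 1) *ᵥ (b • v) = 0 := by
        rw [Matrix.mulVec_smul, Matrix.sub_mulVec, Matrix.one_mulVec, h1, sub_self, smul_zero]
      rw [pow_succ, pow_two, ← Matrix.mulVec_mulVec, ← Matrix.mulVec_mulVec, e3, e4, e5]
    ext i j
    have := congrFun (hall (Pi.single j 1)) i
    rw [Matrix.mulVec_single_one] at this
    simpa using this
  haveI : CharP (Matrix (Fin 3) (Fin 3) F) p := inferInstance
  have h3 : suM t ^ p - 1 ^ p = (suM t - 1) ^ p := (sub_pow_char_of_commute p (Commute.one_right _)).symm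
  rw [pow_eq_zero_of_le hp3 hcube, one_pow, sub_eq_zero] at h3
  apply suM_inj
  rw [suM_pow, h3, suM_one]

/-- A `p`-element of `SU₃` fixing the isotropic vector `v` lies in `Kv`. -/
theorem mem_Kv (hF : Fintype.card F = q ^ 2) {v : Fin 3 → F} (hv : v ≠ 0) (hi : herm v v = 0) (t : Cfsg.SU 3 F q)
    (k : ℕ) (htp : t ^ p ^ k = 1) (htv : suM t *ᵥ v = v) : t ∈ Kv hF v := by
  classical
  have hq2 := two_le_q hF
  obtain ⟨u, huu, huv, hspan⟩ := iso_frame hF hv hi
  have hvu : herm v u = 0 := by rw [herm_conj hF u v, huv, zero_pow (by omega)]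
  have htu : herm (suM t *ᵥ u) v = 0 := by
    have := herm_suM t u v
    rw [htv, huv] at this
    exact this
  obtain ⟨α, β, hαβ⟩ := hspan _ htu
  have hvpow : ∀ m : ℕ, suM t ^ m *ᵥ v = v := by
    intro m
    induction m with
    | zero => simp
    | succ m ih =>
      rw [pow_succ, ← Matrix.mulVec_mulVec, htv, ih]
  have hpow : ∀ m : ℕ, ∃ a : F, suM t ^ m *ᵥ u = a • v + β ^ m • u := by
    intro m
    induction m with
    | zero => exact ⟨0, by simp⟩
    | succ m ih =>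
      obtain ⟨a, ha⟩ := ih
      refine ⟨α + β * a, ?_⟩
      rw [pow_succ, ← Matrix.mulVec_mulVec, hαβ, Matrix.mulVec_add, Matrix.mulVec_smul, Matrix.mulVec_smul,
        hvpow, ha]
      ext i
      simp only [Pi.add_apply, Pi.smul_apply, smul_eq_mul]
      ring
  obtain ⟨a, ha⟩ := hpow (p ^ k)
  have hone : suM t ^ p ^ k = 1 := by
    rw [← suM_pow, htp, suM_one]
  rw [hone, Matrix.one_mulVec] at ha
  have hβ1 : β ^ p ^ k = 1 := by
    have e := congrArg (fun y => herm y u) ha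
    simp only [herm_add_left, herm_smul_left, huu, hvu, mul_zero, zero_add, mul_one] at e
    exact e.symm
  have hβ : β = 1 := by
    have e : (β - 1) ^ p ^ k = 0 := by
      rw [sub_pow_char_pow, hβ1, one_pow, sub_self]
    exact sub_eq_zero.1 (pow_eq_zero_iff (pow_ne_zero _ (Fact.out : p.Prime).ne_zero) |>.1 e)
  refine ⟨htv, fun x hx => ?_⟩
  obtain ⟨a', c', rfl⟩ := hspan x hx
  refine ⟨c' * α, ?_⟩
  rw [Matrix.mulVec_add, Matrix.mulVec_smul, Matrix.mulVec_smul, htv, hαβ, hβ]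
  ext i
  simp only [Pi.add_apply, Pi.smul_apply, smul_eq_mul]
  ring

/-- A nontrivial `p`-element of `SU₃` fixes at most one isotropic line pointwise. -/
theorem unique_iso (hF : Fintype.card F = q ^ 2) (g : Cfsg.SU 3 F q) (k : ℕ) (hg : g ^ p ^ k = 1) (hg1 : g ≠ 1)
    {v₁ v₂ : Fin 3 → F} (h₁ : v₁ ≠ 0) (hi₁ : herm v₁ v₁ = 0) (hf₁ : suM g *ᵥ v₁ = v₁) (h₂ : v₂ ≠ 0)
    (hi₂ : herm v₂ v₂ = 0) (hf₂ : suM g *ᵥ v₂ = v₂) : ∃ α : F, v₂ = α • v₁ := by
  classical
  have hq2 := two_le_q hF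
  by_cases h12 : herm v₂ v₁ = 0
  · obtain ⟨u, huu, huv, hspan⟩ := iso_frame hF h₁ hi₁
    have hvu : herm v₁ u = 0 := by rw [herm_conj hF u v₁, huv, zero_pow (by omega)]
    obtain ⟨α, β, rfl⟩ := hspan _ h12
    have hβ : β ^ q * β = 0 := by
      have := hi₂
      rw [herm_add_left, herm_add_right hF, herm_add_right hF] at this
      simp only [herm_smul_left, herm_smul_right hF, hi₁, hvu, huv, huu] at this
      linear_combination this
    have hβ0 : β = 0 := by
      rcases mul_eq_zero.1 hβ with h | h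
      · exact pow_eq_zero_iff (by omega) |>.1 h
      · exact h
    refine ⟨α, ?_⟩
    rw [hβ0, zero_smul, add_zero]
  · exfalso
    have h21 : herm v₁ v₂ ≠ 0 := by
      rw [herm_conj hF v₂ v₁]
      exact pow_ne_zero _ h12
    obtain ⟨x, hx0, hx, hx'⟩ := exists_perp2 (q := q) v₁ v₂
    have hzp : IsPGroup p (Subgroup.zpowers g) := by
      rintro ⟨y, m, rfl⟩
      refine ⟨k, ?_⟩
      apply Subtype.ext
      simp only [Subgroup.coe_pow, Subgroup.coe_one]
      rw [← zpow_natCast, ← _root_.zpow_mul, mul_comm, _root_.zpow_mul, zpow_natCast, hg, _root_.one_zpow]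
    have hz1 : ∀ h ∈ Subgroup.zpowers g, suM h *ᵥ v₁ = v₁ ∧ suM h *ᵥ v₂ = v₂ := by
      intro h hh
      obtain ⟨m, rfl⟩ := hh
      have hgpow : ∀ {w : Fin 3 → F}, suM g *ᵥ w = w → ∀ m : ℤ, suM (g ^ m) *ᵥ w = w := by
        intro w hw m
        have hfin : g ^ m = g ^ (((m % (orderOf g : ℤ)).toNat : ℕ)) := by
          have hpos : 0 < orderOf g := orderOf_pos_iff.2 (isOfFinOrder_of_finite g)
          rw [← zpow_natCast, Int.toNat_of_nonneg (Int.emod_nonneg _ (by exact_mod_cast hpos.ne'))]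
          exact (zpow_mod_orderOf g m).symm
        rw [hfin, suM_pow]
        induction ((m % (orderOf g : ℤ)).toNat) with
        | zero => simp
        | succ n ih => rw [pow_succ, ← Matrix.mulVec_mulVec, hw, ih]
      exact ⟨hgpow hf₁ m, hgpow hf₂ m⟩
    obtain ⟨u, hum, hu0, hu⟩ := exists_fixed_in (p := p) (Subgroup.zpowers g) hzp (perp2 q v₁ v₂)
      (perp2_inv _ (fun h hh => (hz1 h hh).1) (fun h hh => (hz1 h hh).2)) (x₀ := x) ⟨hx, hx'⟩ hx0
    have hind : ∀ α β γ : F, α • v₁ + β • v₂ + γ • u = 0 → α = 0 ∧ β = 0 ∧ γ = 0 := by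
      intro α β γ h
      have h0 : ∀ y : Fin 3 → F, herm (α • v₁ + β • v₂ + γ • u) y = 0 := by
        intro y
        rw [h]
        simp [Cfsg.hermForm]
      have e1 := h0 v₁
      have e2 := h0 v₂
      have hu1 : herm u v₁ = 0 := hum.1
      have hu2 : herm u v₂ = 0 := hum.2
      simp only [herm_add_left, herm_smul_left, hi₁, hi₂, hu1, hu2, mul_zero, add_zero, zero_add] at e1 e2
      have hβ : β = 0 := (mul_eq_zero.1 e1).resolve_right h12
      have hα : α = 0 := (mul_eq_zero.1 e2).resolve_right h21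
      refine ⟨hα, hβ, ?_⟩
      rw [hα, hβ, zero_smul, zero_smul, zero_add, zero_add] at h
      exact (smul_eq_zero.1 h).resolve_right hu0
    exact hg1 (suM_inj (eq_one_of_fix3 hind hf₁ hf₂ (hu g (Subgroup.mem_zpowers g))))

/-- Distinct Sylow `p`-subgroups of `SU₃(q)` meet trivially for `p` odd, `q` a power of `p`. -/
theorem su3_sylow_TI (hF : Fintype.card F = q ^ 2) (hp2 : p ≠ 2) (S₁ S₂ : Sylow p (Cfsg.SU 3 F q)) (h : S₁ ≠ S₂) :
    (S₁ : Subgroup (Cfsg.SU 3 F q)) ⊓ S₂ = ⊥ := by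
  classical
  rw [eq_bot_iff]
  intro g hg
  rw [Subgroup.mem_bot]
  by_contra hg1
  have hne : ∀ S : Sylow p (Cfsg.SU 3 F q), g ∈ (S : Subgroup (Cfsg.SU 3 F q)) → (S : Subgroup (Cfsg.SU 3 F q)) ≠ ⊥ := by
    intro S hS h0
    rw [h0, Subgroup.mem_bot] at hS
    exact hg1 hS
  obtain ⟨v₁, h₁, hi₁, hf₁⟩ := fix_iso (p := p) hF S₁ S₁.isPGroup' (hne S₁ hg.1)
  obtain ⟨v₂, h₂, hi₂, hf₂⟩ := fix_iso (p := p) hF S₂ S₂.isPGroup' (hne S₂ hg.2)
  obtain ⟨k, hk⟩ := (S₁.isPGroup' ⟨g, hg.1⟩)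
  have hk' : g ^ p ^ k = 1 := by
    have := congrArg Subtype.val hk
    simpa using this
  obtain ⟨α, hα⟩ := unique_iso hF g k hk' hg1 h₁ hi₁ (hf₁ g hg.1) h₂ hi₂ (hf₂ g hg.2)
  have hα0 : α ≠ 0 := by
    rintro rfl
    rw [zero_smul] at hα
    exact h₂ hα
  have hf₂' : ∀ t ∈ (S₂ : Subgroup (Cfsg.SU 3 F q)), suM t *ᵥ v₁ = v₁ := by
    intro t ht
    have := hf₂ t ht
    rw [hα, Matrix.mulVec_smul] at this
    exact smul_right_injective _ hα0 this
  have hle : ∀ S : Sylow p (Cfsg.SU 3 F q), (∀ t ∈ (S : Subgroup (Cfsg.SU 3 F q)), suM t *ᵥ v₁ = v₁) →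
      (S : Subgroup (Cfsg.SU 3 F q)) = Kv hF v₁ := by
    intro S hS
    symm
    apply S.is_maximal'
    · intro t
      exact ⟨1, by
        apply Subtype.ext
        simpa using Kv_pow hF hp2 t.2⟩
    · intro t ht
      obtain ⟨m, hm⟩ := S.isPGroup' ⟨t, ht⟩
      have hm' : t ^ p ^ m = 1 := by
        have := congrArg Subtype.val hm
        simpa using this
      exact mem_Kv hF h₁ hi₁ t m hm' (hS t ht)
  apply h
  apply Sylow.ext
  rw [hle S₁ hf₁, hle S₂ hf₂']

end Cfsg.Agent.H10
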