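import Cfsg.Agent.Lib.H10.StWC3

/-!
# Steps: criteria in terms of the tables of the datum
-/

set_option autoImplicit false
set_option linter.style.haveILetI false
set_option linter.unusedSimpArgs false
set_option linter.unusedSectionVars false
set_option linter.unusedVariables false

open Cfsg.Lie Cfsg.Agent.H04.Chev

namespace Cfsg.Agent.H10

/-- all structure constants with a fundamental root are `±1`, chains are short -/
def laceB (D : ChevalleyDatum) : Bool :=
  (List.range D.rank).all fun j => (List.range D.nroots).all fun s =>
    decide ((D.chainEntry (D.simple j) s).length ≤ 1) && (D.chainEntry (D.simple j) s).all fun e => decide (e.2 = 1 ∨ e.2 = -1)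

/-- first form of a step, as a check -/
def chkA (nz z : ℤ → Bool) (μ : ℕ → ℤ) (r : ℕ) (L : List (ℕ × ℤ × ℕ × ℕ)) : Bool :=
  match L with
  | [] => false
  | c :: tail => decide (c.1 = r) && decide (c.2.2.1 = 1) && decide (c.2.2.2 = 1) && nz c.2.1 &&
      tail.all fun d => z d.2.1 || decide (μ r < μ d.1)

/-- second form of a step, as a check -/
def chkB (nz z : ℤ → Bool) (μ : ℕ → ℤ) (r : ℕ) (L : List (ℕ × ℤ × ℕ × ℕ)) : Bool :=
  match L with
  | [] => false
  | c₀ :: tail => decide (c₀.2.2.1 = 1) && decide (c₀.2.2.2 = 1) &&
      (List.range tail.length).any fun n =>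
        match tail[n]? with
        | none => false
        | some c => decide (c.1 = r) && decide (c.2.2.2 = 1) && nz c.2.1 && (decide (c.2.2.1 = 2) || decide (c.2.2.1 = 3)) &&
            (tail.take n ++ tail.drop (n + 1)).all fun d => z d.2.1 || decide (μ r < μ d.1)

/-- a step as a check -/
def stepB (D : ChevalleyDatum) (nz z : ℤ → Bool) (μ : ℕ → ℤ) (r : ℕ) : Bool :=
  (List.range D.rank).any fun j => (List.range D.nroots).any fun s =>
    decide (D.nroots / 2 ≤ s) && decide (s ≠ D.simple j) &&
      (chkA nz z μ r (D.commTerms (D.simple j) s) || chkB nz z μ r (D.commTerms (D.simple j) s))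

/-- all steps as a check -/
def allStepB (D : ChevalleyDatum) (nz z : ℤ → Bool) (μ : ℕ → ℤ) : Bool :=
  (List.range D.nroots).all fun r =>
    !decide (D.nroots / 2 ≤ r) || (List.range D.rank).any (fun m => decide (r = D.simple m)) || stepB D nz z μ r

/-- the product of the mixed Cartan integers -/
def cartanB (D : ChevalleyDatum) : Bool :=
  (List.range D.rank).all fun i => (List.range D.rank).all fun j =>
    decide (i = j) || decide (D.cartan j (D.simple i) = 0) ||
      decide (D.cartan j (D.simple i) * D.cartan i (D.simple j) = 1) ||
      decide (D.cartan j (D.simple i) * D.cartan i (D.simple j) = 2) ||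
      decide (D.cartan j (D.simple i) * D.cartan i (D.simple j) = 3)

/-- separating vectors modulo `m` -/
def sepB (D : ChevalleyDatum) (m : ℤ) : Bool :=
  (List.range D.rank).all fun i => (List.range D.rank).all fun j =>
    decide (i = j) || (List.range D.rank).any fun k => (List.range D.rank).any fun l =>
      (List.range 3).any fun x => (List.range 3).any fun y =>
        decide (m ∣ (x : ℤ) * D.cartan k (D.simple i) + (y : ℤ) * D.cartan l (D.simple i)) &&
        !decide (m ∣ (x : ℤ) * D.cartan k (D.simple j) + (y : ℤ) * D.cartan l (D.simple j))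

end Cfsg.Agent.H10
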