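import Cfsg.Agent.Lib.H10.StWC4

/-!
# Soundness of the checks for the steps and the separation
-/

set_option autoImplicit false
set_option linter.style.haveILetI false
set_option linter.unusedSimpArgs false
set_option linter.unusedSectionVars false
set_option linter.unusedVariables false

open Cfsg.Lie Cfsg.Agent.H04.Chev

namespace Cfsg.Agent.H10

variable {D : ChevalleyDatum} {T : Tabs} {U : Tabs3}

lemma chkA_sound {nz z : ℤ → Bool} {μ : ℕ → ℤ} {r : ℕ} {L : List (ℕ × ℤ × ℕ × ℕ)} (h : chkA nz z μ r L = true) :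
    ∃ (C' : ℤ) (tail : List (ℕ × ℤ × ℕ × ℕ)), L = (r, C', 1, 1) :: tail ∧ nz C' = true ∧
      ∀ c ∈ tail, z c.2.1 = true ∨ μ r < μ c.1 := by
  cases L with
  | nil => simp [chkA] at h
  | cons c tail =>
    obtain ⟨q, C', k, l⟩ := c
    simp only [chkA, Bool.and_eq_true, decide_eq_true_eq, List.all_eq_true, Bool.or_eq_true] at h
    obtain ⟨⟨⟨⟨h1, h2⟩, h3⟩, h4⟩, h5⟩ := h
    subst h1 h2 h3
    exact ⟨C', tail, rfl, h4, h5⟩

lemma chkB_sound {nz z : ℤ → Bool} {μ : ℕ → ℤ} {r : ℕ} {L : List (ℕ × ℤ × ℕ × ℕ)} (h : chkB nz z μ r L = true) :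
    ∃ (s₁ : ℕ) (C₁ : ℤ) (l₁ : List (ℕ × ℤ × ℕ × ℕ)) (C' : ℤ) (k : ℕ) (l₂ : List (ℕ × ℤ × ℕ × ℕ)),
      L = (s₁, C₁, 1, 1) :: (l₁ ++ (r, C', k, 1) :: l₂) ∧ nz C' = true ∧ (k = 2 ∨ k = 3) ∧
        ∀ c ∈ l₁ ++ l₂, z c.2.1 = true ∨ μ r < μ c.1 := by
  cases L with
  | nil => simp [chkB] at h
  | cons c₀ tail =>
    obtain ⟨s₁, C₁, k₀, l₀⟩ := c₀
    simp only [chkB, Bool.and_eq_true, decide_eq_true_eq, List.any_eq_true] at h
    obtain ⟨⟨h1, h2⟩, n, hn, h3⟩ := h
    subst h1 h2
    have hnl : n < tail.length := List.mem_range.mp hn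
    rw [List.getElem?_eq_getElem hnl] at h3
    generalize hc : tail[n] = c at h3
    obtain ⟨q, C', k, l⟩ := c
    simp only [Bool.and_eq_true, decide_eq_true_eq, List.all_eq_true, Bool.or_eq_true] at h3
    obtain ⟨⟨⟨⟨h4, h5⟩, h6⟩, h7⟩, h8⟩ := h3
    subst h4 h5
    refine ⟨s₁, C₁, tail.take n, C', k, tail.drop (n + 1), ?_, h6, h7, h8⟩
    have e := List.take_append_drop n tail
    rw [List.drop_eq_getElem_cons hnl, hc] at e
    rw [e]

/-- the steps from the checks -/
theorem step_of_allStepB {F : Type*} [Field F] (nz z : ℤ → Bool) (μ : ℕ → ℤ) (hnz : ∀ c, nz c = true → (c : F) ≠ 0)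
    (hz : ∀ c, z c = true → (c : F) = 0) (hl : ∃ l : F, l ≠ 0 ∧ l ^ 2 ≠ 1) (h : allStepB D nz z μ = true) :
    ∀ r, D.nroots / 2 ≤ r → r < D.nroots → (∀ m, m < D.rank → r ≠ D.simple m) → Step D F μ r := by
  intro r h0 hr hns
  unfold allStepB at h
  rw [List.all_eq_true] at h
  have h1 := h r (List.mem_range.mpr hr)
  simp only [Bool.or_eq_true, Bool.not_eq_true', decide_eq_false_iff_not, List.any_eq_true, decide_eq_true_eq] at h1
  rcases h1 with (h2 | ⟨m, hm, h2⟩) | h2
  · exact absurd h0 h2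
  · exact absurd h2 (hns m (List.mem_range.mp hm))
  · unfold stepB at h2
    simp only [List.any_eq_true, Bool.and_eq_true, decide_eq_true_eq, Bool.or_eq_true] at h2
    obtain ⟨j, hj, s, hs, ⟨hs0, hsne⟩, h3⟩ := h2
    refine ⟨j, s, List.mem_range.mp hj, hs0, List.mem_range.mp hs, hsne, ?_⟩
    rcases h3 with h3 | h3
    · left
      obtain ⟨C', tail, e, h4, h5⟩ := chkA_sound h3
      exact ⟨C', tail, e, hnz _ h4, fun c hc => (h5 c hc).imp_left (hz _)⟩
    · right
      obtain ⟨s₁, C₁, l₁, C', k, l₂, e, h4, h5, h6⟩ := chkB_sound h3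
      refine ⟨s₁, C₁, l₁, C', k, l₂, e, hnz _ h4, ?_, fun c hc => (h6 c hc).imp_left (hz _)⟩
      obtain ⟨l, hl0, hl1⟩ := hl
      refine ⟨l, hl0, ?_⟩
      rcases h5 with rfl | rfl
      · intro h7
        apply hl1
        simp only [Nat.add_one_sub_one, pow_one] at h7
        rw [h7, one_pow]
      · exact hl1

section
variable (C : Checks D T) (C2 : Checks2 D T) (C3 : Checks3 D T U)
variable {F : Type*} [Field F]

/-- the head of the list of commutator terms -/
lemma commTerms_head {p s q : ℕ} (h : D.chainRoot p s 1 = some q) :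
    ∃ tail, D.commTerms p s = (q, D.chainM p s 1, 1, 1) :: tail ∧ ∀ c ∈ tail, ¬ (c.2.2.1 = 1 ∧ c.2.2.2 = 1) := by
  unfold Cfsg.Lie.ChevalleyDatum.commTerms
  dsimp only
  rw [List.filterMap_cons, h]
  dsimp only [Option.map_some]
  refine ⟨_, rfl, ?_⟩
  intro c hc
  simp only [List.mem_filterMap, List.mem_cons, List.not_mem_nil, or_false, Option.map_eq_some_iff] at hc
  obtain ⟨d, hd, k, hk, rfl⟩ := hc
  rcases hd with rfl | rfl | rfl | rfl | rfl | rfl <;> simp

include C3 in
lemma htR_comm {p s : ℕ} {c : ℕ × ℤ × ℕ × ℕ} (hc : c ∈ D.commTerms p s) (hC : Checks D T) :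
    htR U D c.1 = (c.2.2.1 : ℤ) * htR U D p + (c.2.2.2 : ℤ) * htR U D s := by
  obtain ⟨_, _, h6⟩ := comm_cof hC C3 hc
  rw [htR_eq, htR_eq, htR_eq, Finset.mul_sum, Finset.mul_sum, ← Finset.sum_add_distrib]
  exact Finset.sum_congr rfl fun j hj => h6 j (Finset.mem_range.mp hj)

omit C C2 C3 in
lemma lace_spec (hL : laceB D = true) {j s : ℕ} (hj : j < D.rank) (hs : s < D.nroots) :
    (D.chainEntry (D.simple j) s).length ≤ 1 ∧ ∀ e ∈ D.chainEntry (D.simple j) s, e.2 = 1 ∨ e.2 = -1 := by
  unfold laceB at hL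
  rw [List.all_eq_true] at hL
  have h1 := hL j (List.mem_range.mpr hj)
  rw [List.all_eq_true] at h1
  have h2 := h1 s (List.mem_range.mpr hs)
  simp only [Bool.and_eq_true, decide_eq_true_eq, List.all_eq_true] at h2
  exact h2

include C C2 C3 in
/-- steps for the simply laced types -/
theorem step_of_lace (hL : laceB D = true) {r : ℕ} (h0 : D.nroots / 2 ≤ r) (hr : r < D.nroots)
    (hns : ∀ m, m < D.rank → r ≠ D.simple m) : Step D F (htR U D) r := by
  rcases C3.height r h0 hr with ⟨i, hi, e⟩ | ⟨j, hj, h1, h2, h3⟩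
  · exact absurd e (hns i hi)
  have hp := C.simple_lt j hj
  have hp0 := C3.simple_pos j hj
  set s := T.w (D.simple j) r with hs_def
  have hs : s < D.nroots := C.w_lt j hj r hr
  have hww : T.w (D.simple j) s = r := C.w_w j hj r hr
  have hsne : s ≠ D.simple j := by
    intro e
    rw [e, w_simple_self C C3 hj] at hww
    have := negF_neg C2 hp0 hp
    omega
  have hneg : s ≠ negF D (D.simple j) := by
    have := negF_neg C2 hp0 hp
    omega
  have hnr : r ≠ D.simple j := hns j hj
  have hnr' : r ≠ negF D (D.simple j) := by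
    have := negF_neg C2 hp0 hp
    omega
  have hn : D.neg (D.simple j) = negF D (D.simple j) := neg_eq C.neg hp
  have hA : D.cartan j r = - D.cartan j s := by
    have := cartan_w C3 hj hj hs (by rw [hww]; exact hr)
    rw [hww, cartan_self C C2 C3 hj] at this
    linarith
  have h4 : D.reflectRoot j s = r := by rw [← C3.w_reflect j hj s hs]; exact hww
  have h5 : D.reflectRoot j r = s := by rw [← C3.w_reflect j hj r hr]
  unfold Cfsg.Lie.ChevalleyDatum.reflectRoot at h4 h5
  simp only [if_neg hsne, hn, if_neg hneg] at h4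
  simp only [if_neg hnr, hn, if_neg hnr'] at h5
  have hrs : r ≠ s := by omega
  -- chain roots
  have getsome : ∀ (a k : ℕ) (b : ℕ), 1 ≤ k → (D.chainRoot (D.simple j) a k).getD a = b → a ≠ b → a < D.nroots → D.chainRoot (D.simple j) a 1 = some b ∧ k = 1 := by
    intro a k b hk hb hab ha
    obtain ⟨hlen, _⟩ := lace_spec hL hj ha
    have h6 : D.chainRoot (D.simple j) a k = some b := by
      cases h7 : D.chainRoot (D.simple j) a k with
      | none =>
        rw [h7] at hb
        exact absurd hb hab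
      | some b' =>
        rw [h7] at hb
        simpa using hb
    unfold Cfsg.Lie.ChevalleyDatum.chainRoot at h6
    have h7 : (D.chainEntry (D.simple j) a)[k - 1]? ≠ none := by
      intro h8
      rw [h8] at h6
      simp at h6
    have h8 : k - 1 < (D.chainEntry (D.simple j) a).length := by
      by_contra h9
      exact h7 (List.getElem?_eq_none (by omega))
    have hk1 : k = 1 := by omega
    subst hk1
    exact ⟨h6, rfl⟩
  have hneg_s : D.cartan j s < 0 := by
    by_contra hcon
    rcases (not_lt.mp hcon).lt_or_eq with h6 | h6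
    · -- `s` is higher than `r`
      have h7 : D.cartan j r < 0 := by omega
      rw [if_neg (by omega), if_pos h7] at h5
      obtain ⟨h8, _⟩ := getsome r _ s (by omega) h5 hrs hr
      obtain ⟨tail, e, _⟩ := commTerms_head h8
      have h9 : (s, D.chainM (D.simple j) r 1, 1, 1) ∈ D.commTerms (D.simple j) r := by
        rw [e]
        exact List.mem_cons_self
      have h10 := C2.pos_comm _ _ hp0 hp h0 hr hnr _ h9
      have h11 := h10.2.1
      simp only at h11
      omega
    · rw [if_neg (by omega), if_neg (by omega)] at h4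
      exact hrs h4.symm
  rw [if_neg (by omega), if_pos hneg_s] at h4
  obtain ⟨hch, _⟩ := getsome s _ r (by omega) h4 (Ne.symm hrs) hs
  obtain ⟨tail, e, htail⟩ := commTerms_head hch
  have hs0 : D.nroots / 2 ≤ s := h2
  refine ⟨j, s, hj, hs0, hs, hsne, Or.inl ⟨D.chainM (D.simple j) s 1, tail, e, ?_, ?_⟩⟩
  · -- the constant is `±1`
    unfold Cfsg.Lie.ChevalleyDatum.chainRoot at hch
    unfold Cfsg.Lie.ChevalleyDatum.chainM
    obtain ⟨_, hM⟩ := lace_spec hL hj hs
    cases h6 : (D.chainEntry (D.simple j) s)[1 - 1]? with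
    | none =>
      rw [h6] at hch
      simp at hch
    | some x =>
      have hmem : x ∈ D.chainEntry (D.simple j) s := List.mem_of_getElem? h6
      simp only [Option.map_some, Option.getD_some]
      rcases hM x hmem with h7 | h7
      · rw [h7]
        simp
      · rw [h7]
        simp
  · intro c hc
    right
    have hm : c ∈ D.commTerms (D.simple j) s := by
      rw [e]
      exact List.mem_cons_of_mem _ hc
    have hhead : (r, D.chainM (D.simple j) s 1, 1, 1) ∈ D.commTerms (D.simple j) s := by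
      rw [e]
      exact List.mem_cons_self
    have e1 := htR_comm C3 hm C
    have e2 := htR_comm C3 hhead C
    simp only at e2
    rw [htR_simple C3 hj] at e1 e2
    obtain ⟨h6, h7, _⟩ := comm_cof C C3 hm
    have h8 := htail c hc
    have hsp := htR_pos C C2 C3 hs0 hs
    rw [e1, e2]
    have h9 : (1 : ℤ) ≤ (c.2.2.1 : ℤ) := by exact_mod_cast h6
    have h10 : (1 : ℤ) ≤ (c.2.2.2 : ℤ) := by exact_mod_cast h7
    by_cases h11 : c.2.2.1 = 1
    · have h12 : 2 ≤ c.2.2.2 := by
        by_contra h13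
        exact h8 ⟨h11, by omega⟩
      have h13 : (2 : ℤ) ≤ (c.2.2.2 : ℤ) := by exact_mod_cast h12
      rw [h11]
      push_cast
      nlinarith
    · have h12 : 2 ≤ c.2.2.1 := by omega
      have h13 : (2 : ℤ) ≤ (c.2.2.1 : ℤ) := by exact_mod_cast h12
      push_cast
      nlinarith

end

section sep
variable {F : Type*} [Field F]

/-- separation from a vector -/
lemma sep_vec (g : Fˣ) {i j k l : ℕ} (hk : k < D.rank) (hl : l < D.rank) (x y : ℤ)
    (h1 : g ^ (x * D.cartan k (D.simple i) + y * D.cartan l (D.simple i)) = 1)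
    (h2 : g ^ (x * D.cartan k (D.simple j) + y * D.cartan l (D.simple j)) ≠ 1) :
    ∃ c : ℕ → Fˣ, capply D c i = 1 ∧ capply D c j ≠ 1 := by
  refine ⟨Function.update (1 : ℕ → Fˣ) k (g ^ x) * Function.update (1 : ℕ → Fˣ) l (g ^ y), ?_, ?_⟩
  · rw [capply_mul, capply_single hk, capply_single hl]
    simp only [Pi.mul_apply, psiI]
    rw [← zpow_mul, ← zpow_mul, ← zpow_add]
    exact h1
  · rw [capply_mul, capply_single hk, capply_single hl]
    simp only [Pi.mul_apply, psiI]
    rw [← zpow_mul, ← zpow_mul, ← zpow_add]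
    exact h2

variable [Fintype F]

/-- a generator of the multiplicative group -/
lemma exists_gen : ∃ g : Fˣ, ∀ e : ℤ, g ^ e = 1 ↔ ((Fintype.card F : ℤ) - 1) ∣ e := by
  classical
  obtain ⟨g, hg⟩ := IsCyclic.exists_generator (α := Fˣ)
  refine ⟨g, fun e => ?_⟩
  have h1 : orderOf g = Fintype.card Fˣ := orderOf_eq_card_of_forall_mem_zpowers hg |>.trans (Nat.card_eq_fintype_card)
  rw [← orderOf_dvd_iff_zpow_eq_one, h1, Fintype.card_units]
  have h2 : 1 ≤ Fintype.card F := Fintype.card_pos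
  push_cast [Nat.cast_sub h2]
  rfl

/-- separation from the table modulo `q - 1` -/
theorem sep_of_sepB {m : ℤ} (hm : (Fintype.card F : ℤ) - 1 = m) (h : sepB D m = true) : SepD D F := by
  obtain ⟨g, hg⟩ := exists_gen (F := F)
  rw [hm] at hg
  intro i j hi hj hij
  unfold sepB at h
  rw [List.all_eq_true] at h
  have h1 := h i (List.mem_range.mpr hi)
  rw [List.all_eq_true] at h1
  have h2 := h1 j (List.mem_range.mpr hj)
  simp only [Bool.or_eq_true, decide_eq_true_eq, List.any_eq_true, Bool.and_eq_true, Bool.not_eq_true', decide_eq_false_iff_not] at h2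
  rcases h2 with h2 | ⟨k, hk, l, hl, x, _, y, _, h3, h4⟩
  · exact absurd h2 hij
  · exact sep_vec g (List.mem_range.mp hk) (List.mem_range.mp hl) x y ((hg _).mpr h3) (fun h5 => h4 ((hg _).mp h5))

/-- separation for large fields -/
theorem sep_of_cartanB (C : Checks D T) (C2 : Checks2 D T) (C3 : Checks3 D T U) (hq : 5 ≤ Fintype.card F) (h : cartanB D = true) : SepD D F := by
  obtain ⟨g, hg⟩ := exists_gen (F := F)
  have hq' : (4 : ℤ) ≤ (Fintype.card F : ℤ) - 1 := by
    have : (5 : ℤ) ≤ (Fintype.card F : ℤ) := by exact_mod_cast hq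
    linarith
  have hnd : ∀ e : ℤ, 1 ≤ e → e ≤ 3 → ¬ ((Fintype.card F : ℤ) - 1) ∣ e := by
    intro e h1 h2 h3
    have := Int.le_of_dvd (by omega) h3
    omega
  intro i j hi hj hij
  unfold cartanB at h
  rw [List.all_eq_true] at h
  have h1 := h i (List.mem_range.mpr hi)
  rw [List.all_eq_true] at h1
  have h2 := h1 j (List.mem_range.mpr hj)
  simp only [Bool.or_eq_true, decide_eq_true_eq] at h2
  have hii := cartan_self C C2 C3 hi
  have hjj := cartan_self C C2 C3 hj
  rcases h2 with (((h2 | h2) | h2) | h2) | h2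
  · exact absurd h2 hij
  · refine sep_vec g hj hj 1 0 ?_ ?_
    · rw [h2]
      simp
    · rw [hjj]
      intro h3
      exact hnd 2 (by norm_num) (by norm_num) ((hg _).mp (by simpa using h3))
  all_goals
    refine sep_vec g hj hi 2 (- D.cartan j (D.simple i)) ?_ ?_
    · rw [hii]
      have : (2 : ℤ) * D.cartan j (D.simple i) + - D.cartan j (D.simple i) * 2 = 0 := by ring
      rw [this, zpow_zero]
    · rw [hjj]
      intro h3
      have h4 := (hg _).mp h3
      have h5 : (2 : ℤ) * 2 + - D.cartan j (D.simple i) * D.cartan i (D.simple j) = 4 - D.cartan j (D.simple i) * D.cartan i (D.simple j) := by ring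
      rw [h5, h2] at h4
      exact hnd _ (by norm_num) (by norm_num) h4

end sep

end Cfsg.Agent.H10
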