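import Cfsg.Agent.Lib.H10.StWC5
import Cfsg.Prelude.Def_ChevD4
import Cfsg.Prelude.Def_ChevF4
import Cfsg.Prelude.Def_ChevE6
import Cfsg.Prelude.Def_ChevE7
import Cfsg.Prelude.Def_ChevE8
import Cfsg.Prelude.Def_ChevB2
import Cfsg.Prelude.Def_LieTypes

/-!
# Weakly closed subgroups: the tables and the final statement
-/

set_option autoImplicit false
set_option linter.style.haveILetI false
set_option linter.unusedSimpArgs false
set_option linter.unusedSectionVars false
set_option linter.unusedVariables false
set_option maxRecDepth 100000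

open Cfsg.Lie Cfsg.Agent.H04.Chev

namespace Cfsg.Agent.H10

/-- odd integers -/
def nzTwo (c : ℤ) : Bool := decide (c % 2 = 1)
/-- even integers -/
def zTwo (c : ℤ) : Bool := decide (c % 2 = 0)
/-- integers prime to 3 -/
def nzThree (c : ℤ) : Bool := decide (c % 3 ≠ 0)
/-- multiples of 3 -/
def zThree (c : ℤ) : Bool := decide (c % 3 = 0)
/-- small integers -/
def nzA (c : ℤ) : Bool := decide (c = 1 ∨ c = -1 ∨ c = 2 ∨ c = -2)
/-- small integers -/
def nzB (c : ℤ) : Bool := decide (c = 1 ∨ c = -1 ∨ c = 2 ∨ c = -2 ∨ c = 3 ∨ c = -3)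
/-- zero -/
def zZero (c : ℤ) : Bool := decide (c = 0)
/-- the index -/
def idxM (r : ℕ) : ℤ := r
/-- the index, with two roots swapped -/
def swapM (r : ℕ) : ℤ := if r = 9 then 10 else if r = 10 then 9 else r

theorem stepB2_two : allStepB chevB2 nzTwo zTwo idxM = true := by decide +kernel
theorem stepB2_odd : allStepB chevB2 nzA zZero idxM = true := by decide +kernel
theorem stepF4_two : allStepB chevF4 nzTwo zTwo idxM = true := by decide +kernel
theorem stepF4_odd : allStepB chevF4 nzA zZero idxM = true := by decide +kernel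
theorem stepG2_two : allStepB chevG2 nzTwo zTwo idxM = true := by decide +kernel
theorem stepG2_three : allStepB chevG2 nzThree zThree swapM = true := by decide +kernel
theorem stepG2_big : allStepB chevG2 nzB zZero idxM = true := by decide +kernel
theorem laceD4 : laceB chevD4 = true := by decide +kernel
theorem laceE6 : laceB chevE6 = true := by decide +kernel
theorem laceE7 : laceB chevE7 = true := by decide +kernel
theorem laceE8 : laceB chevE8 = true := by decide +kernel
theorem cartanG2 : cartanB chevG2 = true := by decide +kernel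
theorem cartanB2 : cartanB chevB2 = true := by decide +kernel
theorem cartanD4 : cartanB chevD4 = true := by decide +kernel
theorem cartanF4 : cartanB chevF4 = true := by decide +kernel
theorem cartanE6 : cartanB chevE6 = true := by decide +kernel
theorem cartanE7 : cartanB chevE7 = true := by decide +kernel
theorem cartanE8 : cartanB chevE8 = true := by decide +kernel
theorem sepG2_three : sepB chevG2 3 = true := by decide +kernel
theorem sepB2_three : sepB chevB2 3 = true := by decide +kernel
theorem sepD4_three : sepB chevD4 3 = true := by decide +kernel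
theorem sepF4_three : sepB chevF4 3 = true := by decide +kernel
theorem sepE6_three : sepB chevE6 3 = true := by decide +kernel
theorem sepE7_three : sepB chevE7 3 = true := by decide +kernel
theorem sepE8_three : sepB chevE8 3 = true := by decide +kernel
theorem sepE6_two : sepB chevE6 2 = true := by decide +kernel
theorem sepE7_two : sepB chevE7 2 = true := by decide +kernel
theorem sepE8_two : sepB chevE8 2 = true := by decide +kernel

variable {D : ChevalleyDatum} {T : Tabs} {U : Tabs3}

section
variable {F : Type*} [Field F] [Fintype F]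

/-- separation by the torus for the fields in question -/
theorem sep_final (C : Checks D T) (C2 : Checks2 D T) (C3 : Checks3 D T U)
    (hD : D ∈ [chevG2, chevB2, chevD4, chevF4, chevE6, chevE7, chevE8])
    (h2 : Fintype.card F ≠ 2) (h3 : D ∈ [chevG2, chevB2, chevD4, chevF4] → Fintype.card F ≠ 3) : SepD D F := by
  have hq1 : 1 < Fintype.card F := Fintype.one_lt_card
  by_cases h5 : 5 ≤ Fintype.card F
  · apply sep_of_cartanB C C2 C3 h5
    simp only [List.mem_cons, List.not_mem_nil, or_false] at hD
    rcases hD with rfl | rfl | rfl | rfl | rfl | rfl | rfl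
    · exact cartanG2
    · exact cartanB2
    · exact cartanD4
    · exact cartanF4
    · exact cartanE6
    · exact cartanE7
    · exact cartanE8
  · by_cases h4 : Fintype.card F = 4
    · apply sep_of_sepB (m := 3) (by rw [h4]; norm_num)
      simp only [List.mem_cons, List.not_mem_nil, or_false] at hD
      rcases hD with rfl | rfl | rfl | rfl | rfl | rfl | rfl
      · exact sepG2_three
      · exact sepB2_three
      · exact sepD4_three
      · exact sepF4_three
      · exact sepE6_three
      · exact sepE7_three
      · exact sepE8_three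
    · have h33 : Fintype.card F = 3 := by omega
      apply sep_of_sepB (m := 2) (by rw [h33]; norm_num)
      simp only [List.mem_cons, List.not_mem_nil, or_false] at hD h3
      rcases hD with rfl | rfl | rfl | rfl | rfl | rfl | rfl
      · exact absurd h33 (h3 (by simp))
      · exact absurd h33 (h3 (by simp))
      · exact absurd h33 (h3 (by simp))
      · exact absurd h33 (h3 (by simp))
      · exact sepE6_two
      · exact sepE7_two
      · exact sepE8_two

/-- a scalar with square different from one -/
lemma exists_l (hq : 4 ≤ Fintype.card F) : ∃ l : F, l ≠ 0 ∧ l ^ 2 ≠ 1 := by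
  obtain ⟨g, hg⟩ := exists_gen (F := F)
  refine ⟨(g : F), g.ne_zero, ?_⟩
  intro h
  have h1 : g ^ (2 : ℤ) = 1 := by
    apply Units.ext
    simpa using h
  have h4 := (hg 2).mp h1
  have h5 := Int.le_of_dvd (by norm_num) h4
  have : (4 : ℤ) ≤ (Fintype.card F : ℤ) := by exact_mod_cast hq
  omega

lemma nz_two [CharP F 2] : ∀ c, nzTwo c = true → (c : F) ≠ 0 := by
  intro c h h0
  have h1 := (CharP.intCast_eq_zero_iff F 2 c).mp h0
  simp only [nzTwo, decide_eq_true_eq] at h
  omega

lemma z_two [CharP F 2] : ∀ c, zTwo c = true → (c : F) = 0 := by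
  intro c h
  simp only [zTwo, decide_eq_true_eq] at h
  apply (CharP.intCast_eq_zero_iff F 2 c).mpr
  omega

lemma nz_three [CharP F 3] : ∀ c, nzThree c = true → (c : F) ≠ 0 := by
  intro c h h0
  have h1 := (CharP.intCast_eq_zero_iff F 3 c).mp h0
  simp only [nzThree, decide_eq_true_eq] at h
  omega

lemma z_three [CharP F 3] : ∀ c, zThree c = true → (c : F) = 0 := by
  intro c h
  simp only [zThree, decide_eq_true_eq] at h
  apply (CharP.intCast_eq_zero_iff F 3 c).mpr
  omega

lemma z_zero : ∀ c, zZero c = true → (c : F) = 0 := by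
  intro c h
  simp only [zZero, decide_eq_true_eq] at h
  rw [h]
  simp

lemma nz_A (h2 : (2 : F) ≠ 0) : ∀ c, nzA c = true → (c : F) ≠ 0 := by
  intro c h
  simp only [nzA, decide_eq_true_eq] at h
  rcases h with rfl | rfl | rfl | rfl
  · simp
  · simp
  · simpa using h2
  · simpa using h2

lemma nz_B (h2 : (2 : F) ≠ 0) (h3 : (3 : F) ≠ 0) : ∀ c, nzB c = true → (c : F) ≠ 0 := by
  intro c h
  simp only [nzB, decide_eq_true_eq] at h
  rcases h with rfl | rfl | rfl | rfl | rfl | rfl
  · simp
  · simp
  · simpa using h2
  · simpa using h2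
  · simpa using h3
  · simpa using h3

/-- **Weakly closed subgroups of `U`** -/
theorem wc_final (C : Checks D T) (C2 : Checks2 D T) (C3 : Checks3 D T U)
    (hD : D ∈ [chevG2, chevB2, chevD4, chevF4, chevE6, chevE7, chevE8])
    (h2 : Fintype.card F ≠ 2) (h3 : D ∈ [chevG2, chevB2, chevD4, chevF4] → Fintype.card F ≠ 3)
    (X : Subgroup (GL D.Idx F)) (hXU : X ≤ D.posUnipotent F)
    (hwc : ∀ g ∈ D.group F, X.map (MulAut.conj g).toMonoidHom ≤ D.posUnipotent F → X.map (MulAut.conj g).toMonoidHom = X) :
    ∃ J : Set ℕ, (∀ j ∈ J, j < D.rank) ∧ X = D.unipotentRadical F J := by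
  have hsep := sep_final C C2 C3 hD h2 h3
  have hq1 : 1 < Fintype.card F := Fintype.one_lt_card
  have hq4 : D ∈ [chevG2, chevB2, chevD4, chevF4] → 4 ≤ Fintype.card F := by
    intro h
    have := h3 h
    omega
  obtain ⟨p, hp⟩ := CharP.exists F
  have h2F : p ≠ 2 → (2 : F) ≠ 0 := by
    intro hp2 h0
    have h1 : ((2 : ℕ) : F) = 0 := by exact_mod_cast h0
    have h5 := (CharP.cast_eq_zero_iff F p 2).mp h1
    obtain ⟨f, hpp, _⟩ := FiniteField.card F p
    have := (Nat.prime_dvd_prime_iff_eq hpp Nat.prime_two).mp h5
    exact hp2 this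
  have h3F : p ≠ 3 → (3 : F) ≠ 0 := by
    intro hp3 h0
    have h1 : ((3 : ℕ) : F) = 0 := by exact_mod_cast h0
    have h5 := (CharP.cast_eq_zero_iff F p 3).mp h1
    obtain ⟨f, hpp, _⟩ := FiniteField.card F p
    have := (Nat.prime_dvd_prime_iff_eq hpp Nat.prime_three).mp h5
    exact hp3 this
  simp only [List.mem_cons, List.not_mem_nil, or_false] at hD
  have lace : (laceB D = true) → ∃ J : Set ℕ, (∀ j ∈ J, j < D.rank) ∧ X = D.unipotentRadical F J := fun hL =>
    wc_main C C2 C3 hsep (htR U D) (fun r h0 hr hns => step_of_lace C C2 C3 hL h0 hr hns) X hXU hwc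
  rcases hD with rfl | rfl | rfl | rfl | rfl | rfl | rfl
  · have hl := exists_l (F := F) (hq4 (by simp))
    by_cases hp2 : p = 2
    · subst hp2
      exact wc_main C C2 C3 hsep idxM (step_of_allStepB _ _ _ nz_two z_two hl stepG2_two) X hXU hwc
    · by_cases hp3 : p = 3
      · subst hp3
        exact wc_main C C2 C3 hsep swapM (step_of_allStepB _ _ _ nz_three z_three hl stepG2_three) X hXU hwc
      · exact wc_main C C2 C3 hsep idxM (step_of_allStepB _ _ _ (nz_B (h2F hp2) (h3F hp3)) z_zero hl stepG2_big) X hXU hwc
  · have hl := exists_l (F := F) (hq4 (by simp))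
    by_cases hp2 : p = 2
    · subst hp2
      exact wc_main C C2 C3 hsep idxM (step_of_allStepB _ _ _ nz_two z_two hl stepB2_two) X hXU hwc
    · exact wc_main C C2 C3 hsep idxM (step_of_allStepB _ _ _ (nz_A (h2F hp2)) z_zero hl stepB2_odd) X hXU hwc
  · exact lace laceD4
  · have hl := exists_l (F := F) (hq4 (by simp))
    by_cases hp2 : p = 2
    · subst hp2
      exact wc_main C C2 C3 hsep idxM (step_of_allStepB _ _ _ nz_two z_two hl stepF4_two) X hXU hwc
    · exact wc_main C C2 C3 hsep idxM (step_of_allStepB _ _ _ (nz_A (h2F hp2)) z_zero hl stepF4_odd) X hXU hwc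
  · exact lace laceE6
  · exact lace laceE7
  · exact lace laceE8

end

end Cfsg.Agent.H10
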