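import Cfsg.Agent.Lib.H10.StWC3

/-!
# Subfield subgroups of the Chevalley groups: centralizers and normalizers

Let `f` be an automorphism of the field `F`, and let `L` be the subgroup generated by the root elements
`x_r(t)` with `t` fixed by `f`.  The centralizer of `L` in the Chevalley group over `F` is trivial, the elements of the
Chevalley group with entries fixed by `f` are the products `l h`, `l ∈ L`, `h` diagonal with fixed entries, and such `h`
normalize `L`.
-/

set_option autoImplicit false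
set_option linter.style.haveILetI false
set_option linter.unusedSimpArgs false
set_option linter.unusedSectionVars false
set_option linter.unusedVariables false

open Cfsg.Lie Cfsg.Agent.H04.Chev

namespace Cfsg.Agent.H10

variable {D : ChevalleyDatum} {T : Tabs} {U : Tabs3}

section
variable (C : Checks D T) (C2 : Checks2 D T) (C3 : Checks3 D T U)
variable {F : Type*} [Field F]

include C C2 C3 in
/-- a monomial element sending the fundamental roots to positive roots is diagonal -/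
lemma mem_H_of_simple_pos {n : GL D.Idx F} (hn : n ∈ D.monomialSubgroup F) {π π' : ℕ → ℕ} {d : ℕ → Fˣ} (a : NAct C n π π' d)
    (h : ∀ i, i < D.rank → D.nroots / 2 ≤ π (D.simple i)) : n ∈ D.diagonalSubgroup F := by
  obtain ⟨w, hw, -, π₁, d₁, a₁⟩ := RepN.of_N C C3 hn
  have e : ∀ s, s < D.nroots → piOf w s = π s := fun s hs => NAct.perm_unique a₁ a hs
  refine mem_H_of_pos C C2 C3 hn a ?_
  intro r hr0 hr
  by_contra hlt
  have hlt' : π r < D.nroots / 2 := not_le.mp hlt
  let t : Fin D.nroots := ⟨r, hr⟩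
  have e1 : ((w t : Fin D.nroots) : ℕ) = π r := by
    rw [← e r hr]
    exact (piOf_apply w t).symm
  have hnn : ∀ j, j < D.rank → 0 ≤ U.cofI (w t) j := by
    intro j hj
    rw [cof_perm_linear C C3 hw t hj]
    apply Finset.sum_nonneg
    intro k hk
    have hk' := Finset.mem_range.mp hk
    apply mul_nonneg (C3.cof_pos r hr0 hr k hk')
    rw [e _ (C.simple_lt k hk')]
    exact C3.cof_pos _ (h k hk') (a.lt _ (C.simple_lt k hk')) j hj
  have hs0 := negF_pos C2 (show ((w t : Fin D.nroots) : ℕ) < D.nroots / 2 by rw [e1]; exact hlt')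
  have hs1 := htR_pos C C2 C3 hs0 (negF_lt (w t).2)
  rw [htR_eq] at hs1
  have h2 : ∑ j ∈ Finset.range D.rank, U.cofI (negF D (w t)) j ≤ 0 := by
    apply Finset.sum_nonpos
    intro j hj
    have hj' := Finset.mem_range.mp hj
    rw [C3.cof_neg _ (w t).2 j hj']
    have := hnn j hj'
    omega
  omega

include C C2 C3 in
/-- an element commuting with an element of `U` all of whose fundamental coordinates are non-zero lies in `B` -/
theorem mem_B_of_comm {c y : GL D.Idx F} (hc : c ∈ D.group F) (hy : y ∈ D.posUnipotent F)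
    (hco : ∀ i (hi : i < D.rank), coordS C hi y ≠ 0) (hcy : c * y * c⁻¹ = y) : c ∈ D.borelSubgroup F := by
  obtain ⟨b, hb, n, hn, π, π', d, h, u, hu, e⟩ := bruhat_exists C C2 C3 hc
  have huU : u ∈ D.posUnipotent F := RS_le_U C C2 (fun r _ hr => hr.1) hu
  have hy'U : u * y * u⁻¹ ∈ D.posUnipotent F := mul_mem (mul_mem huU hy) (inv_mem huU)
  have hco' : ∀ i (hi : i < D.rank), coordS C hi (u * y * u⁻¹) ≠ 0 := by
    intro i hi
    rw [coord_mul C C2 C3 hi (mul_mem huU hy) (inv_mem huU), coord_mul C C2 C3 hi huU hy, coord_inv C C2 C3 hi huU]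
    have := hco i hi
    simpa using this
  obtain ⟨a', ha', a, ha, e2⟩ := U_factor_n C C2 C3 h hy'U
  have e3 : n * (u * y * u⁻¹) * n⁻¹ = b⁻¹ * y * b := by
    have h1 : (b * n * u) * y * (b * n * u)⁻¹ = y := by
      rw [← e]
      exact hcy
    calc n * (u * y * u⁻¹) * n⁻¹ = b⁻¹ * ((b * n * u) * y * (b * n * u)⁻¹) * b := by group
      _ = _ := by rw [h1]
  have h1 : b⁻¹ * y * b ∈ D.posUnipotent F := by
    have := (Subgroup.mem_normalizer_iff.mp (U_normal_B C2 C3 C (inv_mem hb)) y).mp hy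
    simpa using this
  have h2 := conj_Rplus C C2 C3 h ha'
  have h3 := conj_Rminus C C2 C3 h ha
  have h4 : n * a * n⁻¹ ∈ D.borelSubgroup F := by
    have e4 : n * a * n⁻¹ = (n * a' * n⁻¹)⁻¹ * (b⁻¹ * y * b) := by
      rw [← e3, e2]
      group
    rw [e4]
    exact U_le_B (mul_mem (inv_mem h2) h1)
  have h5 : n * a * n⁻¹ ∈ D.borelSubgroup F ⊓ D.negUnipotent F := ⟨h4, h3⟩
  rw [borel_inf_neg C C2 C3, Subgroup.mem_bot] at h5
  have ha1 : a = 1 := by
    have e5 : a = n⁻¹ * (n * a * n⁻¹) * n := by group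
    rw [e5, h5]
    group
  have hy'' : u * y * u⁻¹ = a' := by rw [e2, ha1, mul_one]
  have hpos : ∀ i, i < D.rank → D.nroots / 2 ≤ π (D.simple i) := by
    intro i hi
    by_contra hlt
    apply hco' i hi
    rw [hy'']
    refine coord_RS C C2 C3 hi ?_ ha'
    intro r hr hR
    refine ⟨hR.1, ?_⟩
    rintro rfl
    exact hlt hR.2
  have hH := mem_H_of_simple_pos C C2 C3 hn h hpos
  rw [e]
  exact mul_mem (mul_mem hb (H_le_B hH)) (U_le_B huU)

/-- the subgroup generated by the root elements with parameters fixed by `f` -/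
def subL (C : Checks D T) (f : F ≃+* F) : Subgroup (GL D.Idx F) :=
  Subgroup.closure {g | ∃ (r : ℕ) (t : F), r < D.nroots ∧ f t = t ∧ g = xG C r t}

lemma xG_mem_subL (f : F ≃+* F) {r : ℕ} {t : F} (hr : r < D.nroots) (ht : f t = t) : xG C r t ∈ subL C f :=
  Subgroup.subset_closure ⟨r, t, hr, ht, rfl⟩

lemma nG_mem_subL (f : F ≃+* F) {r : ℕ} (hr : r < D.nroots) : nG C r (1 : F) ∈ subL C f := by
  have hn : D.neg r < D.nroots := by
    rw [neg_eq C.neg hr]
    exact negF_lt hr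
  rw [nG, Cfsg.Lie.ChevalleyDatum.nWord]
  simp only [wordG_cons, wordG_nil, mul_one]
  exact mul_mem (xG_mem_subL C f hr (map_one f)) (mul_mem (xG_mem_subL C f hn (by simp)) (xG_mem_subL C f hr (map_one f)))

lemma nWordG_mem_subL (f : F ≃+* F) {l : List ℕ} (hl : ∀ i ∈ l, i < D.rank) : nWordG C F l ∈ subL C f := by
  apply Subgroup.list_prod_mem
  intro g hg
  rw [List.mem_map] at hg
  obtain ⟨i, hi, rfl⟩ := hg
  exact nG_mem_subL C f (C.simple_lt i (hl i hi))

include C C2 C3 in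
lemma simple_ne {i j : ℕ} (hi : i < D.rank) (hj : j < D.rank) (hij : i ≠ j) : D.simple i ≠ D.simple j := by
  intro h
  have h1 := C3.cof_simple i hi j hj
  have h2 := C3.cof_simple j hj j hj
  rw [h, h2, if_pos rfl, if_neg (Ne.symm hij)] at h1
  exact one_ne_zero h1

include C C2 C3 in
/-- a regular unipotent element in the subgroup `L` -/
lemma exists_reg (f : F ≃+* F) : ∃ y ∈ subL C f, y ∈ D.posUnipotent F ∧ ∀ i (hi : i < D.rank), coordS C hi y = 1 := by
  have key : ∀ m, ∃ y ∈ subL C f, y ∈ D.posUnipotent F ∧ ∀ i (hi : i < D.rank), coordS C hi y = if i < m then 1 else 0 := by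
    intro m
    induction m with
    | zero => exact ⟨1, one_mem _, one_mem _, fun i hi => by simp [coord_one C C2 C3]⟩
    | succ m ih =>
      obtain ⟨y, h1, h2, h3⟩ := ih
      by_cases hm : m < D.rank
      · have hp := C.simple_lt m hm
        have hp0 := C3.simple_pos m hm
        refine ⟨y * xG C (D.simple m) 1, mul_mem h1 (xG_mem_subL C f hp (map_one f)), mul_mem h2 (xG_pos_mem C C2 C3 hp0 hp 1), ?_⟩
        intro i hi
        rw [coord_mul C C2 C3 hi h2 (xG_pos_mem C C2 C3 hp0 hp 1), h3 i hi, coord_x C C2 C3 hi hp0 hp]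
        by_cases him : i = m
        · subst him
          simp
        · have hne : D.simple m ≠ D.simple i := simple_ne C C2 C3 hm hi (Ne.symm him)
          rw [if_neg hne, add_zero]
          by_cases h5 : i < m
          · rw [if_pos h5, if_pos (by omega)]
          · rw [if_neg h5, if_neg (by omega)]
      · refine ⟨y, h1, h2, ?_⟩
        intro i hi
        rw [h3 i hi, if_pos (by omega), if_pos (by omega)]
  obtain ⟨y, h1, h2, h3⟩ := key D.rank
  exact ⟨y, h1, h2, fun i hi => by rw [h3 i hi, if_pos hi]⟩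

include C C2 in
lemma xG_inj {r : ℕ} (hr : r < D.nroots) {a b : F} (h : xG C r a = xG C r b) : a = b := by
  have h1 : xG C r (a + -b) = 1 := by
    rw [← xG_add C, ← xG_inv C, h, mul_inv_cancel]
  have h2 : D.x F r (a + -b) = 1 := by
    rw [← xG_val C, h1, Units.val_one]
  rw [x_eq_one_iff C C2 hr] at h2
  linear_combination h2

include C C2 C3 in
/-- **The centralizer of `L` is trivial.** -/
theorem cent_subL (f : F ≃+* F) {c : GL D.Idx F} (hc : c ∈ D.group F) (hco : ∀ g ∈ subL C f, c * g * c⁻¹ = g) : c = 1 := by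
  obtain ⟨y, hyL, hyU, hy⟩ := exists_reg C C2 C3 f
  have hne : ∀ i (hi : i < D.rank), coordS C hi y ≠ 0 := by
    intro i hi
    rw [hy i hi]
    exact one_ne_zero
  have hB := mem_B_of_comm C C2 C3 hc hyU hne (hco y hyL)
  obtain ⟨π', d, a⟩ := NAct_word (F := F) C C3.w0_lt
  have hnL : nWordG C F U.w0 ∈ subL C f := nWordG_mem_subL C f C3.w0_lt
  have hnN := nWordG_mem (F := F) C C3 C3.w0_lt
  generalize nWordG C F U.w0 = n at a hnL hnN
  have hnG := N_le_group C hnN
  have hB' : n⁻¹ * c * n ∈ D.borelSubgroup F := by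
    apply mem_B_of_comm C C2 C3 (mul_mem (mul_mem (inv_mem hnG) hc) hnG) hyU hne
    have h1 := hco (n * y * n⁻¹) (mul_mem (mul_mem hnL hyL) (inv_mem hnL))
    calc n⁻¹ * c * n * y * (n⁻¹ * c * n)⁻¹ = n⁻¹ * (c * (n * y * n⁻¹) * c⁻¹) * n := by group
      _ = y := by
        rw [h1]
        group
  obtain ⟨u, hu, v, hv, e⟩ := (mem_borel_iff C C2 C3).mp hB'
  have e' : c = (n * u * n⁻¹) * (n * v * n⁻¹) := by
    have e2 : c = n * (n⁻¹ * c * n) * n⁻¹ := by group
    rw [e2, e]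
    group
  have hu' : u ∈ RS C (Rminus D (applyW D T U.w0)) F := by
    rw [pos_eq_RS C] at hu
    refine RS_mono C F ?_ hu
    intro r hr h
    have h1 := (C2.pos_iff _).mp h
    exact ⟨h1.1, C3.w0 r h1.1 hr⟩
  have h1 := conj_Rminus C C2 C3 a hu'
  have h2 := N_conj_H C C3 hnN hv
  have h3 : c ∈ D.negUnipotent F ⊔ D.diagonalSubgroup F := by
    rw [e']
    exact mul_mem (Subgroup.mem_sup_left h1) (Subgroup.mem_sup_right h2)
  have h4 : c ∈ D.diagonalSubgroup F := by
    rw [← borel_inf_negH C C2 C3]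
    exact ⟨hB, h3⟩
  rw [diagonal_eq C C3] at h4
  obtain ⟨e0, rfl⟩ := mem_HT.mp h4
  unfold hProd at *
  apply eq_one_of_tv C3
  intro s hs
  have h5 := hco _ (xG_mem_subL C f hs (map_one f))
  rw [torusG_conj C C3 hs, mul_one] at h5
  have h6 := xG_inj C C2 hs h5
  exact Units.ext h6

/-! ### The action of the field automorphism -/

lemma glMap_RS (f : F ≃+* F) {R : ℕ → Prop} {v : GL D.Idx F} (hv : v ∈ RS C R F) : glMap D f v ∈ RS C R F := by
  unfold RS at hv
  induction hv using Subgroup.closure_induction with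
  | mem x hx =>
    obtain ⟨r, t, h1, h2, rfl⟩ := hx
    rw [glMap_xG C]
    exact xG_mem_RS C h1 h2 _
  | one => simp
  | mul x y _ _ h1 h2 =>
    rw [map_mul]
    exact mul_mem h1 h2
  | inv x _ h1 =>
    rw [map_inv]
    exact inv_mem h1

lemma glMap_Vfrom (f : F ≃+* F) {k : ℕ} {v : GL D.Idx F} (hv : v ∈ Vfrom C k F) : glMap D f v ∈ Vfrom C k F := by
  unfold Vfrom at hv
  induction hv using Subgroup.closure_induction with
  | mem x hx =>
    obtain ⟨r, t, h1, h2, rfl⟩ := hx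
    rw [glMap_xG C]
    exact Subgroup.subset_closure ⟨r, _, h1, h2, rfl⟩
  | one => simp
  | mul x y _ _ h1 h2 =>
    rw [map_mul]
    exact mul_mem h1 h2
  | inv x _ h1 =>
    rw [map_inv]
    exact inv_mem h1

include C C2 in
lemma glMap_U (f : F ≃+* F) {v : GL D.Idx F} (hv : v ∈ D.posUnipotent F) : glMap D f v ∈ D.posUnipotent F := by
  rw [mem_posUnipotent_iff_Vfrom C C2] at hv ⊢
  exact glMap_Vfrom C f hv

lemma glMap_nG (f : F ≃+* F) (r : ℕ) (t : F) : glMap D f (nG C r t) = nG C r (f t) := by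
  rw [nG, nG, Cfsg.Lie.ChevalleyDatum.nWord, Cfsg.Lie.ChevalleyDatum.nWord]
  simp only [wordG_cons, wordG_nil, mul_one, map_mul, glMap_xG C, map_neg, map_inv₀]

lemma glMap_hG (f : F ≃+* F) (r : ℕ) (t : F) : glMap D f (hG C r t) = hG C r (f t) := by
  rw [hG_eq C, hG_eq C, map_mul, glMap_nG C, glMap_nG C]
  simp

include C in
lemma glMap_H (f : F ≃+* F) {v : GL D.Idx F} (hv : v ∈ D.diagonalSubgroup F) : glMap D f v ∈ D.diagonalSubgroup F := by
  unfold Cfsg.Lie.ChevalleyDatum.diagonalSubgroup at hv ⊢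
  induction hv using Subgroup.closure_induction with
  | mem x hx =>
    obtain ⟨r, t, h1, h2, h3⟩ := hx
    have e : x = hG C r t := Units.ext (by rw [h3, hG_val])
    subst e
    rw [glMap_hG C]
    refine Subgroup.subset_closure ⟨r, f t, h1, (map_ne_zero f).mpr h2, ?_⟩
    rw [hG_val]
  | one => simp
  | mul x y _ _ h1 h2 =>
    rw [map_mul]
    exact mul_mem h1 h2
  | inv x _ h1 =>
    rw [map_inv]
    exact inv_mem h1

include C2 in
/-- the fixed elements of the filtration lie in `L` -/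
lemma fix_V (f : F ≃+* F) : ∀ (m k : ℕ), D.nroots - k = m → D.nroots / 2 ≤ k → ∀ v ∈ Vfrom C k F, glMap D f v = v → v ∈ subL C f := by
  intro m
  induction m with
  | zero =>
    intro k hk hk0 v hv _
    have h1 : Vfrom C k F = ⊥ := by
      rw [Vfrom, Subgroup.closure_eq_bot_iff]
      rintro g ⟨r, t, h1, h2, rfl⟩
      omega
    rw [h1, Subgroup.mem_bot] at hv
    rw [hv]
    exact one_mem _
  | succ m ih =>
    intro k hk hk0 v hv hfix
    have hkn : k < D.nroots := by omega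
    obtain ⟨t, v₁, hv₁, rfl⟩ := Vfrom_decomp C C2 hk0 hkn hv
    have h1 : glMap D f v₁ ∈ Vfrom C (k + 1) F := glMap_Vfrom C f hv₁
    rw [map_mul, glMap_xG C] at hfix
    have e : xG C k (-t + f t) = v₁ * (glMap D f v₁)⁻¹ := by
      rw [← xG_add C, ← xG_inv C]
      calc (xG C k t)⁻¹ * xG C k (f t) = (xG C k t)⁻¹ * (xG C k (f t) * glMap D f v₁) * (glMap D f v₁)⁻¹ := by group
        _ = _ := by
          rw [hfix]
          group
    have h3 : xG C k (-t + f t) ∈ Vfrom C (k + 1) F := by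
      rw [e]
      exact mul_mem hv₁ (inv_mem h1)
    have h4 := eq_zero_of_xG_mem C C2 hk0 hkn h3
    have h5 : f t = t := by linear_combination h4
    rw [h5] at hfix
    have h6 : glMap D f v₁ = v₁ := mul_left_cancel hfix
    exact mul_mem (xG_mem_subL C f hkn h5) (ih (k + 1) (by omega) (by omega) v₁ hv₁ h6)

include C2 in
lemma fix_U (f : F ≃+* F) {v : GL D.Idx F} (hv : v ∈ D.posUnipotent F) (hfix : glMap D f v = v) : v ∈ subL C f := by
  rw [mem_posUnipotent_iff_Vfrom C C2] at hv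
  exact fix_V C C2 f _ _ rfl le_rfl v hv hfix

include C2 C3 in
lemma fix_B (f : F ≃+* F) {b : GL D.Idx F} (hb : b ∈ D.borelSubgroup F) (hfix : glMap D f b = b) :
    ∃ u ∈ subL C f, ∃ h ∈ D.diagonalSubgroup F, glMap D f h = h ∧ b = u * h := by
  obtain ⟨u, hu, h, hh, rfl⟩ := (mem_borel_iff C C2 C3).mp hb
  rw [map_mul] at hfix
  have e : u⁻¹ * glMap D f u = h * (glMap D f h)⁻¹ := by
    calc u⁻¹ * glMap D f u = u⁻¹ * (glMap D f u * glMap D f h) * (glMap D f h)⁻¹ := by group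
      _ = _ := by
        rw [hfix]
        group
  have h1 : u⁻¹ * glMap D f u ∈ D.posUnipotent F ⊓ D.diagonalSubgroup F :=
    Subgroup.mem_inf.mpr ⟨mul_mem (inv_mem hu) (glMap_U C C2 f hu), by
      rw [e]
      exact mul_mem hh (inv_mem (glMap_H C f hh))⟩
  rw [pos_inf_H C C2 C3, Subgroup.mem_bot] at h1
  have h2 : glMap D f u = u := (inv_mul_eq_one.mp h1).symm
  rw [h2] at hfix
  have h3 : glMap D f h = h := mul_left_cancel hfix
  exact ⟨u, fix_U C C2 f hu h2, h, hh, h3, rfl⟩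

include C3 in
/-- the fixed diagonal elements normalize `L` -/
lemma H_fix_conj (f : F ≃+* F) {h : GL D.Idx F} (hh : h ∈ D.diagonalSubgroup F) (hfix : glMap D f h = h) {g : GL D.Idx F}
    (hg : g ∈ subL C f) : h * g * h⁻¹ ∈ subL C f := by
  rw [diagonal_eq C C3] at hh
  obtain ⟨c, rfl⟩ := mem_HT.mp hh
  unfold hProd at *
  unfold subL at hg
  induction hg using Subgroup.closure_induction with
  | mem x hx =>
    obtain ⟨r, t, hr, ht, rfl⟩ := hx
    rw [torusG_conj C C3 hr]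
    apply xG_mem_subL C f hr
    rw [map_mul, ht]
    congr 1
    have h1 := congrFun (congrFun (congrArg (fun g : GL D.Idx F => (g : Matrix D.Idx D.Idx F)) hfix) (Sum.inr ⟨r, hr⟩)) (Sum.inr ⟨r, hr⟩)
    simp only [glMap_val, Matrix.map_apply, torusG_val, torusM, Matrix.diagonal_apply_eq, code_inr] at h1
    exact h1
  | one =>
    simp
  | mul x y _ _ h1 h2 =>
    have e : torusG U D (capply D c) * (x * y) * (torusG U D (capply D c))⁻¹ =
        (torusG U D (capply D c) * x * (torusG U D (capply D c))⁻¹) * (torusG U D (capply D c) * y * (torusG U D (capply D c))⁻¹) := by group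
    rw [e]
    exact mul_mem h1 h2
  | inv x _ h1 =>
    have e : torusG U D (capply D c) * x⁻¹ * (torusG U D (capply D c))⁻¹ = (torusG U D (capply D c) * x * (torusG U D (capply D c))⁻¹)⁻¹ := by group
    rw [e]
    exact inv_mem h1

include C2 C3 in
/-- the fixed elements of the Chevalley group are products `l h` -/
theorem fix_G (f : F ≃+* F) {g : GL D.Idx F} (hg : g ∈ D.group F) (hfix : glMap D f g = g) :
    ∃ l ∈ subL C f, ∃ h ∈ D.diagonalSubgroup F, glMap D f h = h ∧ g = l * h := by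
  obtain ⟨b, hb, n, hn, π, π', d, a, u, hu, e⟩ := bruhat_exists C C2 C3 hg
  obtain ⟨w, hw, hrep⟩ := RepN.of_N C C3 hn
  obtain ⟨l, hl, rfl⟩ := exists_word C hw
  have hl' : ∀ i ∈ l, i < D.rank := hl
  have hrep₁ := RepN.word (F := F) C C3 hl'
  have hnL : nWordG C F l ∈ subL C f := nWordG_mem_subL C f hl'
  have hσn : glMap D f (nWordG C F l) = nWordG C F l := by
    unfold nWordG
    rw [map_list_prod, List.map_map]
    congr 1
    apply List.map_congr_left
    intro i _
    simp [glMap_nG C]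
  have hk := RepN.unique C2 C3 hrep hrep₁
  obtain ⟨hN₁, ρ', d₁, a₁⟩ := id hrep₁
  obtain ⟨_, ρ₀, d₀, a₀⟩ := id hrep
  generalize nWordG C F l = n₁ at hrep₁ hnL hσn hk hN₁ a₁
  have hk' : n * n₁⁻¹ ∈ D.diagonalSubgroup F := by
    have h1 := N_conj_H C C3 hn (inv_mem hk)
    have e1 : n * (n⁻¹ * n₁)⁻¹ * n⁻¹ = n * n₁⁻¹ := by group
    rwa [e1] at h1
  have hb₁ : b * (n * n₁⁻¹) ∈ D.borelSubgroup F := mul_mem hb (H_le_B hk')
  have e₁ : g = (b * (n * n₁⁻¹)) * n₁ * u := by
    rw [e]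
    group
  have hu₁ : u ∈ RS C (Rminus D (piOf (wordP C l))) F := by
    refine RS_mono C F ?_ hu
    intro r hr h
    refine ⟨h.1, ?_⟩
    rw [NAct.perm_unique a₀ a hr]
    exact h.2
  generalize b * (n * n₁⁻¹) = b₁ at hb₁ e₁
  have hσu := glMap_RS C f hu₁
  have hσb : glMap D f b₁ ∈ D.borelSubgroup F := by
    obtain ⟨v, hv, h, hh, rfl⟩ := (mem_borel_iff C C2 C3).mp hb₁
    rw [map_mul]
    exact mul_mem (U_le_B (glMap_U C C2 f hv)) (H_le_B (glMap_H C f hh))
  have e₂ : glMap D f b₁ * n₁ * glMap D f u = b₁ * n₁ * u := by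
    rw [← e₁, ← hfix, e₁, map_mul, map_mul, hσn]
  obtain ⟨e3, e4⟩ := bruhat_unique_fixed C C2 C3 a₁ hσb hb₁ hσu hu₁ e₂
  obtain ⟨v, hv, h, hh, hσh, e5⟩ := fix_B C C2 C3 f hb₁ e3
  have huU : u ∈ D.posUnipotent F := RS_le_U C C2 (fun r _ hr => hr.1) hu
  have huL : u ∈ subL C f := fix_U C C2 f huU e4
  refine ⟨v * (h * (n₁ * u) * h⁻¹), mul_mem hv (H_fix_conj C C3 f hh hσh (mul_mem hnL huL)), h, hh, hσh, ?_⟩
  rw [e₁, e5]
  group

include C2 C3 in
/-- commutators of fixed elements lie in `L` -/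
theorem comm_L (f : F ≃+* F) {g₁ g₂ : GL D.Idx F} (hg₁ : g₁ ∈ D.group F) (hg₂ : g₂ ∈ D.group F) (hσ₁ : glMap D f g₁ = g₁)
    (hσ₂ : glMap D f g₂ = g₂) : g₁ * g₂ * g₁⁻¹ * g₂⁻¹ ∈ subL C f := by
  obtain ⟨l₁, hl₁, h₁, hh₁, hσh₁, rfl⟩ := fix_G C C2 C3 f hg₁ hσ₁
  obtain ⟨l₂, hl₂, h₂, hh₂, hσh₂, rfl⟩ := fix_G C C2 C3 f hg₂ hσ₂
  have hc : h₁ * h₂ = h₂ * h₁ := HT_comm (by rwa [diagonal_eq C C3] at hh₁) (by rwa [diagonal_eq C C3] at hh₂)
  have e0 : h₁ * h₂ * h₁⁻¹ = h₂ := by
    rw [hc]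
    group
  have e : (l₁ * h₁) * (l₂ * h₂) * (l₁ * h₁)⁻¹ * (l₂ * h₂)⁻¹ = l₁ * (h₁ * l₂ * h₁⁻¹) * (h₂ * l₁⁻¹ * h₂⁻¹) * l₂⁻¹ := by
    calc (l₁ * h₁) * (l₂ * h₂) * (l₁ * h₁)⁻¹ * (l₂ * h₂)⁻¹ = l₁ * (h₁ * l₂ * h₁⁻¹) * (h₁ * h₂ * h₁⁻¹) * l₁⁻¹ * h₂⁻¹ * l₂⁻¹ := by group
      _ = _ := by
        rw [e0]
        group
  rw [e]
  exact mul_mem (mul_mem (mul_mem hl₁ (H_fix_conj C C3 f hh₁ hσh₁ hl₂)) (H_fix_conj C C3 f hh₂ hσh₂ (inv_mem hl₁))) (inv_mem hl₂)

include C2 C3 in
/-- **Centralizers and normalizers of subfield subgroups.** -/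
theorem subfield_main (f : F ≃+* F) (K : Subgroup (GL D.Idx F)) (hKG : K ≤ D.group F) (hLK : subL C f ≤ K)
    (hKfix : ∀ g ∈ K, glMap D f g = g) :
    D.group F ⊓ Subgroup.centralizer (K : Set (GL D.Idx F)) = ⊥ ∧
    ∀ g : GL D.Idx F, g ∈ D.group F → (g ∈ Subgroup.normalizer (K : Set (GL D.Idx F)) ↔ glMap D f g = g) := by
  have hcent : ∀ c ∈ D.group F, (∀ y ∈ K, c * y * c⁻¹ = y) → c = 1 :=
    fun c hc h => cent_subL C C2 C3 f hc (fun g hg => h g (hLK hg))
  refine ⟨?_, ?_⟩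
  · rw [eq_bot_iff]
    rintro c ⟨h1, h2⟩
    rw [Subgroup.mem_bot]
    apply hcent c h1
    intro y hy
    have h3 := Subgroup.mem_centralizer_iff.mp h2 y hy
    rw [← h3]
    group
  · intro g hg
    constructor
    · intro hN
      have hsG : glMap D f g ∈ D.group F := glMap_group C f g hg
      have h1 := hcent (g⁻¹ * glMap D f g) (mul_mem (inv_mem hg) hsG) ?_
      · exact (inv_mul_eq_one.mp h1).symm
      · intro y hy
        have h2 := (Subgroup.mem_normalizer_iff.mp hN y).mp hy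
        have h3 := hKfix _ h2
        rw [map_mul, map_mul, map_inv, hKfix y hy] at h3
        calc g⁻¹ * glMap D f g * y * (g⁻¹ * glMap D f g)⁻¹ = g⁻¹ * (glMap D f g * y * (glMap D f g)⁻¹) * g := by group
          _ = y := by
            rw [h3]
            group
    · intro hfix
      have key : ∀ x ∈ D.group F, glMap D f x = x → ∀ y ∈ K, x * y * x⁻¹ ∈ K := by
        intro x hx hσx y hy
        have h1 := comm_L C C2 C3 f hx (hKG hy) hσx (hKfix y hy)
        have e : x * y * x⁻¹ = (x * y * x⁻¹ * y⁻¹) * y := by group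
        rw [e]
        exact mul_mem (hLK h1) hy
      rw [Subgroup.mem_normalizer_iff]
      intro y
      refine ⟨key g hg hfix y, ?_⟩
      intro hy
      have h2 := key g⁻¹ (inv_mem hg) (by rw [map_inv, hfix]) _ hy
      have e : g⁻¹ * (g * y * g⁻¹) * g⁻¹⁻¹ = y := by group
      rwa [e] at h2

end

end Cfsg.Agent.H10
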