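import Mathlib
import Cfsg.Agent.Lib.H10.LawSL2
import Cfsg.Prelude.Def_Sz

/-! Words in a free group are not laws in the Suzuki groups over large fields. -/

set_option autoImplicit false
set_option linter.unusedSectionVars false
set_option linter.unusedSimpArgs false
set_option linter.style.haveILetI false

namespace Cfsg.Agent.H10

open Polynomial Matrix Cfsg.Lie

section Mat

variable {A : Type*} [CommRing A]

/-- Lower triangular matrices used for the Suzuki group (`ε = false`: `b = 0`, `ε = true`: `b = a θ a`). -/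
def Lz (ε : Bool) (p P : A) : Matrix (Fin 4) (Fin 4) A :=
  !![1, 0, 0, 0; p, 1, 0, 0; (if ε then p * P else 0), P, 1, 0;
    p ^ 2 * P, (if ε then 0 else p * P), p, 1]

/-- The antidiagonal matrix. -/
def Jz : Matrix (Fin 4) (Fin 4) A := !![0, 0, 0, 1; 0, 0, 1, 0; 0, 1, 0, 0; 1, 0, 0, 0]

lemma Lz_mulVec (ε : Bool) (p P : A) (w : Fin 4 → A) :
    Lz ε p P *ᵥ w = ![w 0, p * w 0 + w 1, (if ε then p * P else 0) * w 0 + P * w 1 + w 2,
      p ^ 2 * P * w 0 + (if ε then 0 else p * P) * w 1 + p * w 2 + w 3] := by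
  ext j
  fin_cases j <;> simp [Lz, Matrix.mulVec, dotProduct, Fin.sum_univ_four]

lemma Jz_mulVec (w : Fin 4 → A) : (Jz : Matrix (Fin 4) (Fin 4) A) *ᵥ w = ![w 3, w 2, w 1, w 0] := by
  ext j
  fin_cases j <;> simp [Jz, Matrix.mulVec, dotProduct, Fin.sum_univ_four]

lemma Jz_mul_self : (Jz : Matrix (Fin 4) (Fin 4) A) * Jz = 1 := by
  ext i j
  fin_cases i <;> fin_cases j <;> simp [Jz, Matrix.mul_apply, Fin.sum_univ_four]

lemma Lz_mul_not (h2 : (2 : A) = 0) (ε : Bool) (p P : A) : Lz ε p P * Lz (!ε) p P = 1 := by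
  ext i j
  cases ε <;> fin_cases i <;> fin_cases j <;>
    simp [Lz, Matrix.mul_apply, Fin.sum_univ_four] <;>
    first
      | linear_combination p * h2
      | linear_combination P * h2
      | linear_combination (p * P) * h2
      | linear_combination (p ^ 2 * P) * h2
      | linear_combination (2 * p ^ 2 * P) * h2

/-- Letter head exponent. -/
def hdE (x : ℕ × Bool) : ℕ := if x.2 then 2 * x.1 + 1 else 2 * x.1 + 2
/-- Letter tail exponent. -/
def tlE (x : ℕ × Bool) : ℕ := if x.2 then 2 * x.1 + 2 else 2 * x.1 + 1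

/-- The matrix of a letter. -/
def Ym (t T : A) (x : ℕ × Bool) : Matrix (Fin 4) (Fin 4) A :=
  Lz (!x.2) (t ^ hdE x) (T ^ hdE x) * Jz * Lz (!x.2) (t ^ tlE x) (T ^ tlE x)

lemma Lz_map {B : Type*} [CommRing B] (φ : A →+* B) (ε : Bool) (p P : A) :
    (Lz ε p P).map φ = Lz ε (φ p) (φ P) := by
  ext i j
  fin_cases i <;> fin_cases j <;> cases ε <;> simp [Lz]

lemma Jz_map {B : Type*} [CommRing B] (φ : A →+* B) :
    (Jz : Matrix (Fin 4) (Fin 4) A).map φ = Jz := by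
  ext i j
  fin_cases i <;> fin_cases j <;> simp [Jz]

lemma Ym_map {B : Type*} [CommRing B] (φ : A →+* B) (t T : A) (x : ℕ × Bool) :
    (Ym t T x).map φ = Ym (φ t) (φ T) x := by
  unfold Ym
  rw [Matrix.map_mul, Matrix.map_mul, Lz_map, Lz_map, Jz_map]
  simp only [map_pow]

end Mat

section Deg

variable {F : Type*} [Field F]

/-- The general degree step. -/
lemma deg_step (c c' d a b A' : F[X]) (T D : ℕ) (hT : 1 ≤ T) (w : Fin 4 → F[X]) (hc : c = X ^ T + c')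
    (hc' : c'.natDegree ≤ T - 1) (hd : d.natDegree ≤ T - 1) (ha : a.natDegree ≤ T - 1)
    (hb : b.natDegree ≤ T - 1) (hA : A'.natDegree ≤ T - 1)
    (hne : w 0 ≠ 0) (hw0 : (w 0).natDegree = D) (hw : ∀ j, (w j).natDegree ≤ D) :
    (c * w 0 + d * w 1 + a * w 2 + w 3) ≠ 0 ∧
    (c * w 0 + d * w 1 + a * w 2 + w 3).natDegree = D + T ∧
    (b * w 0 + A' * w 1 + w 2).natDegree ≤ D + T ∧ (a * w 0 + w 1).natDegree ≤ D + T ∧
    (w 0).natDegree ≤ D + T := by
  have hm : ∀ (f g : F[X]) (j : Fin 4), f.natDegree ≤ T - 1 → g = w j → (f * g).natDegree ≤ D + T - 1 := by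
    intro f g j hf hg
    rw [hg]
    refine natDegree_mul_le.trans ?_
    have := hw j
    omega
  have hR : (c' * w 0 + d * w 1 + a * w 2 + w 3).natDegree ≤ D + T - 1 := by
    have h3 := hw 3
    refine (natDegree_add_le _ _).trans (max_le ((natDegree_add_le _ _).trans (max_le
      ((natDegree_add_le _ _).trans (max_le (hm _ _ 0 hc' rfl) (hm _ _ 1 hd rfl))) (hm _ _ 2 ha rfl))) (by omega))
  have hE : c * w 0 + d * w 1 + a * w 2 + w 3 = X ^ T * w 0 + (c' * w 0 + d * w 1 + a * w 2 + w 3) := by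
    rw [hc]; ring
  have hXw : (X ^ T * w 0 : F[X]).natDegree = D + T := by
    rw [natDegree_mul (pow_ne_zero _ X_ne_zero) hne, natDegree_X_pow, hw0]; omega
  have hlt : (c' * w 0 + d * w 1 + a * w 2 + w 3).natDegree < (X ^ T * w 0 : F[X]).natDegree := by
    rw [hXw]; omega
  have hdeg : (c * w 0 + d * w 1 + a * w 2 + w 3).natDegree = D + T := by
    rw [hE, natDegree_add_eq_left_of_natDegree_lt hlt, hXw]
  refine ⟨?_, hdeg, ?_, ?_, ?_⟩
  · intro h0
    rw [h0] at hdeg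
    simp at hdeg
    omega
  · have h2 := hw 2
    refine (natDegree_add_le _ _).trans (max_le ((natDegree_add_le _ _).trans (max_le ?_ ?_)) (by omega))
    · have := hm b (w 0) 0 hb rfl
      omega
    · have := hm A' (w 1) 1 hA rfl
      omega
  · have h1 := hw 1
    refine (natDegree_add_le _ _).trans (max_le ?_ (by omega))
    have := hm a (w 0) 0 ha rfl
    omega
  · have := hw 0
    omega

lemma gap_vec (ε ε' : Bool) (p P q Q : F[X]) (w : Fin 4 → F[X]) :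
    (Jz : Matrix (Fin 4) (Fin 4) F[X]) *ᵥ (Lz ε p P *ᵥ (Lz ε' q Q *ᵥ w)) =
      ![(p ^ 2 * P + (if ε then 0 else p * P) * q + p * (if ε' then q * Q else 0) + q ^ 2 * Q) * w 0 +
          ((if ε then 0 else p * P) + p * Q + (if ε' then 0 else q * Q)) * w 1 + (p + q) * w 2 + w 3,
        ((if ε then p * P else 0) + P * q + (if ε' then q * Q else 0)) * w 0 + (P + Q) * w 1 + w 2,
        (p + q) * w 0 + w 1, w 0] := by
  rw [Lz_mulVec, Lz_mulVec, Jz_mulVec]
  funext j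
  fin_cases j
  · cases ε <;> cases ε' <;> simp <;> ring
  · cases ε <;> cases ε' <;> simp <;> ring
  · simp
    ring
  · simp

/-- One step of the word recursion. -/
lemma gap_step (e n₁ n₂ : ℕ) (hne : n₁ ≠ n₂) (h1 : 1 ≤ n₁) (h2 : 1 ≤ n₂) (ε ε' : Bool)
    (w : Fin 4 → F[X]) (D : ℕ) (h0 : w 0 ≠ 0) (hw0 : (w 0).natDegree = D)
    (hw : ∀ j, (w j).natDegree ≤ D) :
    ∃ T : ℕ, T = (2 + e) * max n₁ n₂ ∧
      ((Jz : Matrix (Fin 4) (Fin 4) F[X]) *ᵥ (Lz ε (X ^ n₁) (X ^ (e * n₁)) *ᵥ (Lz ε' (X ^ n₂) (X ^ (e * n₂)) *ᵥ w))) 0 ≠ 0 ∧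
      (((Jz : Matrix (Fin 4) (Fin 4) F[X]) *ᵥ (Lz ε (X ^ n₁) (X ^ (e * n₁)) *ᵥ (Lz ε' (X ^ n₂) (X ^ (e * n₂)) *ᵥ w))) 0).natDegree = D + T ∧
      ∀ j, (((Jz : Matrix (Fin 4) (Fin 4) F[X]) *ᵥ (Lz ε (X ^ n₁) (X ^ (e * n₁)) *ᵥ (Lz ε' (X ^ n₂) (X ^ (e * n₂)) *ᵥ w))) j).natDegree ≤ D + T := by
  rw [gap_vec]
  generalize he1 : e * n₁ = E₁
  generalize he2 : e * n₂ = E₂
  rcases lt_or_gt_of_ne hne with hlt | hlt
  · -- `n₁ < n₂`
    have hE : E₁ ≤ E₂ := by
      rw [← he1, ← he2]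
      exact Nat.mul_le_mul_left e hlt.le
    have hT : (2 + e) * max n₁ n₂ = 2 * n₂ + E₂ := by
      rw [max_eq_right hlt.le, ← he2]; ring
    refine ⟨2 * n₂ + E₂, hT.symm, ?_⟩
    obtain ⟨h3, h4, h5, h6, h7⟩ := deg_step (F := F)
      ((X ^ n₁) ^ 2 * X ^ E₁ + (if ε then 0 else X ^ n₁ * X ^ E₁) * X ^ n₂ + X ^ n₁ * (if ε' then X ^ n₂ * X ^ E₂ else 0) + (X ^ n₂) ^ 2 * X ^ E₂)
      ((X ^ n₁) ^ 2 * X ^ E₁ + (if ε then 0 else X ^ n₁ * X ^ E₁) * X ^ n₂ + X ^ n₁ * (if ε' then X ^ n₂ * X ^ E₂ else 0))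
      ((if ε then 0 else X ^ n₁ * X ^ E₁) + X ^ n₁ * X ^ E₂ + (if ε' then 0 else X ^ n₂ * X ^ E₂))
      (X ^ n₁ + X ^ n₂)
      ((if ε then X ^ n₁ * X ^ E₁ else 0) + X ^ E₁ * X ^ n₂ + (if ε' then X ^ n₂ * X ^ E₂ else 0))
      (X ^ E₁ + X ^ E₂) (2 * n₂ + E₂) D (by omega) w
      (by rw [pow_add X, pow_mul X, pow_two (X ^ n₂)]; ring_nf)
      (by cases ε <;> cases ε' <;> simp only [Bool.false_eq_true, if_false, if_true] <;> compute_degree <;> omega)
      (by cases ε <;> cases ε' <;> simp only [Bool.false_eq_true, if_false, if_true] <;> compute_degree <;> omega)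
      (by compute_degree <;> omega)
      (by cases ε <;> cases ε' <;> simp only [Bool.false_eq_true, if_false, if_true] <;> compute_degree <;> omega)
      (by compute_degree <;> omega)
      h0 hw0 hw
    refine ⟨h3, h4, ?_⟩
    intro j
    fin_cases j
    · exact h4.le
    · exact h5
    · exact h6
    · exact h7
  · -- `n₂ < n₁`
    have hE : E₂ ≤ E₁ := by
      rw [← he1, ← he2]
      exact Nat.mul_le_mul_left e hlt.le
    have hT : (2 + e) * max n₁ n₂ = 2 * n₁ + E₁ := by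
      rw [max_eq_left hlt.le, ← he1]; ring
    refine ⟨2 * n₁ + E₁, hT.symm, ?_⟩
    obtain ⟨h3, h4, h5, h6, h7⟩ := deg_step (F := F)
      ((X ^ n₁) ^ 2 * X ^ E₁ + (if ε then 0 else X ^ n₁ * X ^ E₁) * X ^ n₂ + X ^ n₁ * (if ε' then X ^ n₂ * X ^ E₂ else 0) + (X ^ n₂) ^ 2 * X ^ E₂)
      ((if ε then 0 else X ^ n₁ * X ^ E₁) * X ^ n₂ + X ^ n₁ * (if ε' then X ^ n₂ * X ^ E₂ else 0) + (X ^ n₂) ^ 2 * X ^ E₂)
      ((if ε then 0 else X ^ n₁ * X ^ E₁) + X ^ n₁ * X ^ E₂ + (if ε' then 0 else X ^ n₂ * X ^ E₂))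
      (X ^ n₁ + X ^ n₂)
      ((if ε then X ^ n₁ * X ^ E₁ else 0) + X ^ E₁ * X ^ n₂ + (if ε' then X ^ n₂ * X ^ E₂ else 0))
      (X ^ E₁ + X ^ E₂) (2 * n₁ + E₁) D (by omega) w
      (by rw [pow_add X, pow_mul X, pow_two (X ^ n₁)]; ring_nf)
      (by cases ε <;> cases ε' <;> simp only [Bool.false_eq_true, if_false, if_true] <;> compute_degree <;> omega)
      (by cases ε <;> cases ε' <;> simp only [Bool.false_eq_true, if_false, if_true] <;> compute_degree <;> omega)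
      (by compute_degree <;> omega)
      (by cases ε <;> cases ε' <;> simp only [Bool.false_eq_true, if_false, if_true] <;> compute_degree <;> omega)
      (by compute_degree <;> omega)
      h0 hw0 hw
    refine ⟨h3, h4, ?_⟩
    intro j
    fin_cases j
    · exact h4.le
    · exact h5
    · exact h6
    · exact h7

/-- The vector recursion: image of the last basis vector under a product of letters. -/
noncomputable def Vp (e : ℕ) : List (ℕ × Bool) → Fin 4 → F[X]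
  | [] => ![0, 0, 0, 1]
  | x :: L => Ym X (X ^ e) x *ᵥ Vp e L

/-- The middle vector. -/
noncomputable def Wp (e : ℕ) (x : ℕ × Bool) (L : List (ℕ × Bool)) : Fin 4 → F[X] :=
  (Jz : Matrix (Fin 4) (Fin 4) F[X]) *ᵥ (Lz (!x.2) (X ^ tlE x) (X ^ (e * tlE x)) *ᵥ Vp e L)

lemma Vp_cons (e : ℕ) (x : ℕ × Bool) (L : List (ℕ × Bool)) :
    (Vp e (x :: L) : Fin 4 → F[X]) = Lz (!x.2) (X ^ hdE x) (X ^ (e * hdE x)) *ᵥ Wp e x L := by
  rw [Vp, Wp, Ym, Matrix.mulVec_mulVec, Matrix.mulVec_mulVec, ← pow_mul, ← pow_mul]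

lemma Vp_cons_zero (e : ℕ) (x : ℕ × Bool) (L : List (ℕ × Bool)) :
    (Vp e (x :: L) : Fin 4 → F[X]) 0 = Wp e x L 0 := by
  rw [Vp_cons, Lz_mulVec]
  simp

lemma hdE_pos (x : ℕ × Bool) : 1 ≤ hdE x := by
  unfold hdE; split_ifs <;> omega

lemma tlE_pos (x : ℕ × Bool) : 1 ≤ tlE x := by
  unfold tlE; split_ifs <;> omega

lemma tl_ne_hd (y z : ℕ × Bool) (h : y.1 = z.1 → y.2 = z.2) : tlE y ≠ hdE z := by
  obtain ⟨i, a⟩ := y
  obtain ⟨j, b⟩ := z
  simp only at h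
  unfold tlE hdE
  cases a <;> cases b <;> simp only [Bool.false_eq_true, if_false, if_true] <;> intro h' <;>
    first
      | omega
      | (have hij : i = j := by omega
         simpa using h hij)

lemma tl_le (y : ℕ × Bool) : tlE y ≤ 2 * y.1 + 2 := by
  unfold tlE; split_ifs <;> omega

lemma hd_le (y : ℕ × Bool) : hdE y ≤ 2 * y.1 + 2 := by
  unfold hdE; split_ifs <;> omega

/-- The main invariant of the word. -/
theorem sz_word_invariant (e : ℕ) (y : ℕ × Bool) (L : List (ℕ × Bool)) (hL : FreeGroup.IsReduced (y :: L)) :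
    ∃ D : ℕ, D + (2 + e) * (2 * y.1 + 2) ≤ (2 + e) * wordB (y :: L) ∧
      (Wp e y L : Fin 4 → F[X]) 0 ≠ 0 ∧ ((Wp e y L : Fin 4 → F[X]) 0).natDegree = D ∧
      ∀ j, ((Wp e y L : Fin 4 → F[X]) j).natDegree ≤ D := by
  induction L generalizing y with
  | nil =>
    have h1 : (Wp e y [] : Fin 4 → F[X]) = ![1, 0, 0, 0] := by
      rw [Wp, Vp, Lz_mulVec, Jz_mulVec]
      funext j
      fin_cases j <;> simp
    refine ⟨0, ?_, ?_, ?_, ?_⟩
    · simp only [wordB]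
      nlinarith
    · rw [h1]; simp
    · rw [h1]; simp
    · intro j
      rw [h1]
      fin_cases j <;> simp
  | cons z L ih =>
    rw [FreeGroup.isReduced_cons_cons] at hL
    obtain ⟨D, hD, h0, hdeg, hw⟩ := ih z hL.2
    have hW : (Wp e y (z :: L) : Fin 4 → F[X]) =
        (Jz : Matrix (Fin 4) (Fin 4) F[X]) *ᵥ (Lz (!y.2) (X ^ tlE y) (X ^ (e * tlE y)) *ᵥ
          (Lz (!z.2) (X ^ hdE z) (X ^ (e * hdE z)) *ᵥ Wp e z L)) := by
      rw [Wp, Vp_cons]
    obtain ⟨T, hT, h3, h4, h5⟩ := gap_step (F := F) e (tlE y) (hdE z) (tl_ne_hd y z hL.1) (tlE_pos y) (hdE_pos z)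
      (!y.2) (!z.2) (Wp e z L) D h0 hdeg hw
    rw [← hW] at h3 h4 h5
    refine ⟨D + T, ?_, h3, h4, h5⟩
    have hmax : max (tlE y) (hdE z) ≤ (2 * y.1 + 2) + (2 * z.1 + 2) := by
      have := tl_le y
      have := hd_le z
      exact max_le (by omega) (by omega)
    have hT' : T ≤ (2 + e) * ((2 * y.1 + 2) + (2 * z.1 + 2)) := by
      rw [hT]; exact Nat.mul_le_mul_left _ hmax
    simp only [wordB] at hD ⊢
    nlinarith

end Deg

section Group

variable {F : Type*} [Field F] [CharP F 2] {e : ℕ}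

lemma char2_two : (2 : F) = 0 := CharTwo.two_eq_zero

/-- The unit attached to `Lz`. -/
def LzGL (ε : Bool) (a : F) (e : ℕ) : Matrix.GeneralLinearGroup (Fin 4) F :=
  ⟨Lz ε a (a ^ e), Lz (!ε) a (a ^ e), Lz_mul_not char2_two ε _ _, by
    have := Lz_mul_not (A := F) char2_two (!ε) a (a ^ e)
    simpa using this⟩

/-- The unit attached to `Jz`. -/
def JzGL : Matrix.GeneralLinearGroup (Fin 4) F := ⟨Jz, Jz, Jz_mul_self, Jz_mul_self⟩

lemma LzGL_mem_Sp4 (ε : Bool) (a : F) : LzGL ε a e ∈ Sp4 F := by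
  intro u v
  change altForm4 (Lz ε a (a ^ e) *ᵥ u) (Lz ε a (a ^ e) *ᵥ v) = altForm4 u v
  rw [Lz_mulVec, Lz_mulVec]
  have h2 : (2 : F) = 0 := char2_two
  cases ε
  · simp [altForm4]
    linear_combination (a ^ 2 * a ^ e * u 0 * v 0 + a * a ^ e * (u 0 * v 1 + u 1 * v 0) +
      a * (u 0 * v 2 + u 2 * v 0) + a ^ e * u 1 * v 1) * h2
  · simp [altForm4]
    linear_combination ((a ^ 2 * a ^ e + a * (a * a ^ e)) * u 0 * v 0 + a * a ^ e * (u 0 * v 1 + u 1 * v 0) +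
      a * (u 0 * v 2 + u 2 * v 0) + a ^ e * u 1 * v 1) * h2

lemma JzGL_mem_Sp4 : (JzGL : Matrix.GeneralLinearGroup (Fin 4) F) ∈ Sp4 F := by
  intro u v
  change altForm4 (Jz *ᵥ u) (Jz *ᵥ v) = altForm4 u v
  rw [Jz_mulVec, Jz_mulVec]
  simp [altForm4]
  ring

lemma Lz_star (he : 0 < e) (hθ : ∀ x : F, (x ^ e) ^ e = x ^ 2) (ε : Bool) (a : F) :
    star4 (Lz ε a (a ^ e)) = (Lz ε a (a ^ e)).map (fun x => x ^ e) := by
  have h2 : (2 : F) = 0 := char2_two
  have h0 : (0 : F) ^ e = 0 := zero_pow he.ne'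
  ext p r
  cases ε <;> fin_cases p <;> fin_cases r <;>
    simp [star4, pairOf, Lz, h0, mul_pow, ← pow_mul, hθ] <;>
    first
      | done
      | linear_combination (-(a ^ 2 * a ^ (e * 2))) * h2
      | linear_combination (-(a ^ 2 * a ^ e)) * h2
      | linear_combination ((a ^ 2 * a ^ e)) * h2
      | ring

lemma Jz_star : star4 (Jz : Matrix (Fin 4) (Fin 4) F) = (Jz : Matrix (Fin 4) (Fin 4) F).map (fun x => x ^ e) ∨ e = 0 := by
  have h2 : (-1 : F) = 1 := by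
    have h3 : (2 : F) = 0 := char2_two
    linear_combination (-1 : F) * h3
  by_cases he : e = 0
  · exact Or.inr he
  left
  have h0 : (0 : F) ^ e = 0 := zero_pow he
  ext p r
  fin_cases p <;> fin_cases r <;> simp [star4, pairOf, Jz, h0, h2]

/-- Generators in the Suzuki group. -/
lemma LzGL_mem_Sz (he : 0 < e) (hθ : ∀ x : F, (x ^ e) ^ e = x ^ 2) (ε : Bool) (a : F) :
    LzGL ε a e ∈ Sz F e :=
  Subgroup.subset_closure ⟨LzGL_mem_Sp4 ε a, Lz_star he hθ ε a⟩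

lemma JzGL_mem_Sz (he : 0 < e) : (JzGL : Matrix.GeneralLinearGroup (Fin 4) F) ∈ Sz F e :=
  Subgroup.subset_closure ⟨JzGL_mem_Sp4, (Jz_star (e := e)).resolve_right he.ne'⟩

/-- The generator of the Suzuki group depending on a parameter. -/
noncomputable def genSz (he : 0 < e) (hθ : ∀ x : F, (x ^ e) ^ e = x ^ 2) (t : F) (i : ℕ) : Sz F e :=
  ⟨LzGL false (t ^ (2 * i + 1)) e * JzGL * LzGL false (t ^ (2 * i + 2)) e,
    (Subgroup.mul_mem _ (Subgroup.mul_mem _ (LzGL_mem_Sz he hθ _ _) (JzGL_mem_Sz he)) (LzGL_mem_Sz he hθ _ _))⟩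

/-- Matrix coercion of the Suzuki group. -/
noncomputable def szMat : Sz F e →* Matrix (Fin 4) (Fin 4) F :=
  (Units.coeHom _).comp (Sz F e).subtype

lemma szMat_gen (he : 0 < e) (hθ : ∀ x : F, (x ^ e) ^ e = x ^ 2) (t : F) (i : ℕ) :
    szMat (genSz he hθ t i) = Ym t (t ^ e) (i, true) := by
  change Lz false (t ^ (2 * i + 1)) ((t ^ (2 * i + 1)) ^ e) * Jz * Lz false (t ^ (2 * i + 2)) ((t ^ (2 * i + 2)) ^ e) = _
  simp [Ym, hdE, tlE, ← pow_mul, mul_comm]

lemma szMat_gen_inv (he : 0 < e) (hθ : ∀ x : F, (x ^ e) ^ e = x ^ 2) (t : F) (i : ℕ) :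
    szMat (genSz he hθ t i)⁻¹ = Ym t (t ^ e) (i, false) := by
  change Lz true (t ^ (2 * i + 2)) ((t ^ (2 * i + 2)) ^ e) * (Jz * Lz true (t ^ (2 * i + 1)) ((t ^ (2 * i + 1)) ^ e)) = _
  rw [← Matrix.mul_assoc]
  simp [Ym, hdE, tlE, ← pow_mul, mul_comm]

/-- Evaluation of the vector recursion. -/
lemma Vp_eval (t : F) (L : List (ℕ × Bool)) :
    (fun j => eval t ((Vp e L : Fin 4 → F[X]) j)) =
      (L.map (Ym t (t ^ e))).prod *ᵥ ![0, 0, 0, 1] := by
  induction L with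
  | nil =>
    funext j
    fin_cases j <;> simp [Vp]
  | cons x L ih =>
    rw [List.map_cons, List.prod_cons, ← Matrix.mulVec_mulVec, ← ih, Vp]
    have h1 : (Ym (X : F[X]) (X ^ e) x).map (evalRingHom t) = Ym t (t ^ e) x := by
      rw [Ym_map]
      simp
    rw [← h1]
    funext j
    exact RingHom.map_mulVec (evalRingHom t) (Ym (X : F[X]) (X ^ e) x) (Vp e L) j

/-- Substitutions of the generators. -/
lemma szMat_lift (he : 0 < e) (hθ : ∀ x : F, (x ^ e) ^ e = x ^ 2) (t : F) (L : List (ℕ × Bool)) :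
    szMat (FreeGroup.lift (genSz he hθ t) (FreeGroup.mk L)) = (L.map (Ym t (t ^ e))).prod := by
  rw [FreeGroup.lift_mk, map_list_prod, List.map_map]
  congr 1
  apply List.map_congr_left
  rintro ⟨i, b⟩ -
  cases b
  · simpa using szMat_gen_inv he hθ t i
  · simpa using szMat_gen he hθ t i

end Group

/-- The law theorem for the Suzuki groups. -/
theorem exists_word_sz (w : FreeGroup ℕ) (hw : w ≠ 1) :
    ∃ N : ℕ, ∀ (F : Type*) [Field F] [Fintype F] (m : ℕ), N ≤ m → Fintype.card F = 2 ^ (2 * m + 1) →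
      ∃ f : ℕ → ↥(Sz F (2 ^ (m + 1))), FreeGroup.lift f w ≠ 1 := by
  have hmk : FreeGroup.mk w.toWord = w := FreeGroup.mk_toWord
  have hred : FreeGroup.IsReduced w.toWord := FreeGroup.isReduced_toWord
  refine ⟨4 * wordB w.toWord + 4, ?_⟩
  intro F _ _ m hm hF
  rcases hL : w.toWord with _ | ⟨y, L⟩
  · exfalso
    apply hw
    rw [← hmk, hL]
    rfl
  rw [hL] at hred
  haveI : CharP F 2 := by
    have hd : 2 ∣ Fintype.card F := by
      rw [hF]; exact dvd_pow_self 2 (by omega)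
    have hc : ringChar F = 2 := (FiniteField.even_card_iff_char_two (F := F)).mpr (Nat.mod_eq_zero_of_dvd hd)
    exact ringChar.of_eq hc
  set e : ℕ := 2 ^ (m + 1) with he_def
  have he : 0 < e := by positivity
  have hee : e * e = 2 * Fintype.card F := by
    rw [hF, he_def, ← pow_add, ← pow_succ']
    congr 1
    omega
  have hθ : ∀ x : F, (x ^ e) ^ e = x ^ 2 := by
    intro x
    rw [← pow_mul, hee, mul_comm, pow_mul, FiniteField.pow_card]
  obtain ⟨D, hD, h0, hdeg, -⟩ := sz_word_invariant (F := F) e y L hred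
  have hem : 4 * wordB w.toWord + 4 ≤ e := by
    have : m + 1 < 2 ^ (m + 1) := Nat.lt_two_pow_self
    omega
  have hDlt : (Wp e y L 0 : F[X]).natDegree < Cardinal.mk F := by
    rw [hdeg, Cardinal.mk_fintype]
    have h1 : D ≤ (2 + e) * wordB (y :: L) := by
      refine le_trans (Nat.le_add_right _ _) hD
    rw [← hL] at h1
    have h2 : D < Fintype.card F := by
      have h3 : 2 * ((2 + e) * wordB w.toWord) < e * e := by
        nlinarith
      nlinarith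
    exact_mod_cast h2
  obtain ⟨t, ht⟩ := exists_eval_ne_zero_of_natDegree_lt_card _ h0 hDlt
  refine ⟨genSz he hθ t, ?_⟩
  intro hone
  have h1 := szMat_lift he hθ t (y :: L)
  rw [← hL, hmk, hone, map_one] at h1
  have h2 : eval t ((Vp e (y :: L) : Fin 4 → F[X]) 0) = _ := congrFun (Vp_eval (e := e) t (y :: L)) 0
  rw [Vp_cons_zero, ← hL, ← h1] at h2
  apply ht
  rw [h2]
  simp

end Cfsg.Agent.H10
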