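import Mathlib
import Cfsg.Agent.Lib.H10.SzSol4

/-! The subgroups of the Suzuki groups: the solvable case and the dihedral argument. -/

set_option autoImplicit false
set_option linter.unusedSectionVars false
set_option linter.unusedSimpArgs false
set_option linter.style.haveILetI false

namespace Cfsg.Agent.H10

open Matrix Cfsg

variable {F : Type*} [Field F] [Fintype F] [CharP F 2] {m : ℕ}

/-- The normaliser of a Sylow `2`-subgroup contains each point stabiliser. -/
lemma exists_sylow_of_fix (hm : 1 ≤ m) (hF : Fintype.card F = 2 ^ (2 * m + 1))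
    {p : Projectivization F (Fin 4 → F)} (hp : p ∈ suzukiOvoid F m) :
    ∃ P : Sylow 2 ↥(Sz F m), ∀ x : ↥(Sz F m), x • p = p →
      x ∈ Subgroup.normalizer ((P : Subgroup ↥(Sz F m)) : Set ↥(Sz F m)) := by
  obtain ⟨k, hk⟩ := exists_pt_G hF hp
  refine ⟨k • szSylow hm hF, fun x hx => ?_⟩
  have hmem : ∀ z, z ∈ ((k • szSylow hm hF : Sylow 2 ↥(Sz F m)) : Subgroup ↥(Sz F m)) ↔ k⁻¹ * z * k ∈ szUG hF := by
    intro z
    rw [Sylow.coe_subgroup_smul, Subgroup.mem_pointwise_smul_iff_inv_smul_mem, szSylow_coe]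
    simp [MulAut.smul_def, MulAut.conj_apply]
  have hy : k⁻¹ * x * k ∈ Subgroup.normalizer ((szUG hF : Subgroup ↥(Sz F m)) : Set ↥(Sz F m)) := by
    rw [normalizer_szUG hm hF]
    show (k⁻¹ * x * k) • suzukiPointInfinity F = suzukiPointInfinity F
    rw [mul_smul, mul_smul, hk, hx, inv_smul_eq_iff, hk]
  rw [Subgroup.mem_normalizer_iff]
  intro z
  rw [hmem, hmem, Subgroup.mem_normalizer_iff.1 hy (k⁻¹ * z * k)]
  have e : k⁻¹ * x * k * (k⁻¹ * z * k) * (k⁻¹ * x * k)⁻¹ = k⁻¹ * (x * z * x⁻¹) * k := by group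
  rw [e]

/-- The solvable subgroups. -/
theorem solvable_case (hm : 1 ≤ m) (hF : Fintype.card F = 2 ^ (2 * m + 1)) (M : Subgroup ↥(Sz F m))
    (hs : Group.IsSolvable ↥M) :
    (∃ P : Sylow 2 ↥(Sz F m), M ≤ Subgroup.normalizer ((P : Subgroup ↥(Sz F m)) : Set ↥(Sz F m))) ∨
    (∃ U : Subgroup ↥(Sz F m), IsCyclic ↥U ∧ Nat.card ↥U ∈ ({2 ^ (2 * m + 1) - 1, 2 ^ (2 * m + 1) + 2 ^ (m + 1) + 1, 2 ^ (2 * m + 1) - 2 ^ (m + 1) + 1} : Set ℕ) ∧
      M ≤ Subgroup.normalizer (U : Set ↥(Sz F m))) := by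
  by_cases hbot : M = ⊥
  · left
    subst hbot
    exact ⟨szSylow hm hF, bot_le⟩
  obtain ⟨x, hx1⟩ := Subgroup.ne_bot_iff_exists_ne_one.1 hbot
  haveI : Nontrivial M := ⟨⟨x, 1, hx1⟩⟩
  obtain ⟨D, hDn, hD1, hDc⟩ := exists_abelian_normal (H := M)
  obtain ⟨z₀, hz₀⟩ := Subgroup.ne_bot_iff_exists_ne_one.1 hD1
  set z : ↥(Sz F m) := (z₀ : M).1 with hz
  have hz1 : z ≠ 1 := by
    intro h
    apply hz₀
    apply Subtype.ext
    apply Subtype.ext
    exact h
  have hcomm : ∀ k ∈ M, (k * z * k⁻¹) * z = z * (k * z * k⁻¹) := by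
    intro k hk
    have h1 := hDn.conj_mem z₀.1 z₀.2 ⟨k, hk⟩
    have h2 := hDc _ h1 _ z₀.2
    exact congrArg Subtype.val h2
  have hne : ∀ k, k * z * k⁻¹ ≠ 1 := by
    intro k h
    apply hz1
    have e : z = k⁻¹ * (k * z * k⁻¹) * k := by group
    rw [e, h]
    group
  rcases fixed_cases z with hfpf | ⟨c, hc, h1, h2⟩ | ⟨c, hc, d, hd, hcd, h1, h2⟩
  · right
    have hA : IsSzA (Subgroup.centralizer ({z} : Set ↥(Sz F m))) := ⟨z, hfpf, rfl⟩
    refine ⟨Subgroup.centralizer ({z} : Set ↥(Sz F m)), hA.isCyclic hm hF, ?_, ?_⟩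
    · obtain ⟨D⟩ := exists_szTD (F := F) (m := m) hm hF
      obtain ⟨hb1, hb2⟩ := sz_q_bounds hm
      rcases (D.hS _).2 hA with h3 | h3
      · right
        left
        exact (D.tor_1 hm h3).2
      · right
        right
        have := (D.tor_2 hm h3).2
        show Nat.card _ = _
        omega
    · intro k hk
      apply mem_normalizer_of_map_eq
      rw [← centralizer_conj]
      exact centralizer_eq_of_fpf hm hF hfpf (hcomm k hk) (hne k)
  · left
    have hfix : fixS z = {c} := fixS_of_commute_unique hm hF hz1 hz1 hc h1 h2 rfl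
    have hk : ∀ k ∈ M, k • c = c := by
      intro k hk
      have h3 := fixS_eq_of_commute hm hF hz1 (hne k) (hcomm k hk)
      have h4 : k • c ∈ fixS (k * z * k⁻¹) := by
        refine ⟨smul_mem_ovoid k hc, ?_⟩
        rw [mul_smul, mul_smul, inv_smul_smul, h1]
      rw [h3, hfix] at h4
      exact h4
    obtain ⟨P, hP⟩ := exists_sylow_of_fix hm hF hc
    exact ⟨P, fun k hkM => hP k (hk k hkM)⟩
  · right
    refine ⟨szTwo (m := m) c d, szTwo_isCyclic hm hF hc hd hcd, Or.inl (szTwo_card hm hF hc hd hcd), ?_⟩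
    have hfix : fixS z = {c, d} := fixS_of_commute_two hm hF hz1 hz1 hc hd hcd h1 h2 rfl
    have hk : ∀ k ∈ M, PrePair c d k := by
      intro k hk
      have h3 := fixS_eq_of_commute hm hF hz1 (hne k) (hcomm k hk)
      have h4 : k • c ∈ fixS (k * z * k⁻¹) := by
        refine ⟨smul_mem_ovoid k hc, ?_⟩
        rw [mul_smul, mul_smul, inv_smul_smul, h1]
      have h5 : k • d ∈ fixS (k * z * k⁻¹) := by
        refine ⟨smul_mem_ovoid k hd, ?_⟩
        rw [mul_smul, mul_smul, inv_smul_smul, h2]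
      rw [h3, hfix] at h4 h5
      rcases h4 with h4 | h4 <;> rcases h5 with h5 | h5
      · exact absurd (MulAction.injective k (h4.trans h5.symm)) hcd
      · exact Or.inl ⟨h4, h5⟩
      · exact Or.inr ⟨h4, h5⟩
      · exact absurd (MulAction.injective k (h4.trans h5.symm)) hcd
    exact fun k hkM => mem_normalizer_of_prePair (hk k hkM)

/-- An involution has only one fixed point. -/
lemma invol_fix_unique (hm : 1 ≤ m) (hF : Fintype.card F = 2 ^ (2 * m + 1)) {t : ↥(Sz F m)} (ht1 : t ≠ 1)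
    (ht : t * t = 1) {c d : Projectivization F (Fin 4 → F)} (hc : c ∈ suzukiOvoid F m) (hd : d ∈ suzukiOvoid F m)
    (h1 : t • c = c) (h2 : t • d = d) : c = d := by
  have h4 : t ^ 4 = 1 := by
    have : t ^ 4 = (t * t) * (t * t) := by simp only [pow_succ, pow_zero, one_mul, mul_assoc]
    rw [this, ht, one_mul]
  obtain ⟨e, he, h3, h5⟩ := unique_fix_of_pow_four hm hF ht1 h4
  rw [h5 c hc h1, h5 d hd h2]

/-- The dihedral argument: two involutions with different fixed points are conjugate by an involution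
which swaps the fixed points. -/
theorem dihedral_swap (hm : 1 ≤ m) (hF : Fintype.card F = 2 ^ (2 * m + 1)) {t s : ↥(Sz F m)} (ht1 : t ≠ 1)
    (hs1 : s ≠ 1) (ht : t * t = 1) (hs : s * s = 1) {c d : Projectivization F (Fin 4 → F)}
    (hc : c ∈ suzukiOvoid F m) (hd : d ∈ suzukiOvoid F m) (hcd : c ≠ d) (htc : t • c = c) (hsd : s • d = d)
    (H : Subgroup ↥(Sz F m)) (htH : t ∈ H) (hsH : s ∈ H) :
    ∃ w ∈ H, w * w = 1 ∧ w * t * w = s ∧ w • c = d ∧ w • d = c := by
  set r := t * s with hr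
  have htinv : t⁻¹ = t := inv_eq_of_mul_eq_one_left ht
  have hsinv : s⁻¹ = s := inv_eq_of_mul_eq_one_left hs
  have hrinv : r⁻¹ = s * t := by
    rw [hr, _root_.mul_inv_rev, htinv, hsinv]
  have h1 : t * r * t = r⁻¹ := by
    rw [hrinv, hr, ← mul_assoc, ht, one_mul]
  have h2 : s * r * s = r⁻¹ := by
    rw [hrinv, hr, mul_assoc, mul_assoc, hs, mul_one]
  have hconj_t : ∀ j : ℕ, t * r ^ j * t = (r ^ j)⁻¹ := by
    intro j
    have := conj_pow (a := t) (b := r) (i := j)
    rw [htinv, h1, inv_pow] at this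
    exact this.symm
  have hconj_s : ∀ j : ℕ, s * r ^ j * s = (r ^ j)⁻¹ := by
    intro j
    have := conj_pow (a := s) (b := r) (i := j)
    rw [hsinv, h2, inv_pow] at this
    exact this.symm
  have hn : 0 < orderOf r := orderOf_pos r
  have hrn : r ^ orderOf r = 1 := pow_orderOf_eq_one r
  by_cases h2n : 2 ∣ orderOf r
  · exfalso
    obtain ⟨j, hj⟩ := h2n
    have hj0 : j ≠ 0 := by
      rintro rfl
      omega
    have hz1 : r ^ j ≠ 1 := pow_ne_one_of_lt_orderOf hj0 (by omega)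
    have hzz : r ^ j * r ^ j = 1 := by
      rw [← pow_add, ← two_mul, ← hj, hrn]
    have hzinv : (r ^ j)⁻¹ = r ^ j := inv_eq_of_mul_eq_one_left hzz
    have hct : t * r ^ j = r ^ j * t := by
      have := hconj_t j
      rw [hzinv] at this
      calc t * r ^ j = (t * r ^ j * t) * t := by rw [mul_assoc _ t t, ht, mul_one]
        _ = _ := by rw [this]
    have hcs : s * r ^ j = r ^ j * s := by
      have := hconj_s j
      rw [hzinv] at this
      calc s * r ^ j = (s * r ^ j * s) * s := by rw [mul_assoc _ s s, hs, mul_one]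
        _ = _ := by rw [this]
    have hzc : r ^ j • c = c := by
      apply invol_fix_unique hm hF ht1 ht (smul_mem_ovoid _ hc) hc _ htc
      rw [← mul_smul, hct, mul_smul, htc]
    have hzd : r ^ j • d = d := by
      apply invol_fix_unique hm hF hs1 hs (smul_mem_ovoid _ hd) hd _ hsd
      rw [← mul_smul, hcs, mul_smul, hsd]
    exact hcd (invol_fix_unique hm hF hz1 hzz hc hd hzc hzd)
  · obtain ⟨j, hj⟩ : ∃ j, orderOf r = 2 * j + 1 := ⟨orderOf r / 2, by omega⟩
    have hww : (r ^ j * t) * (r ^ j * t) = 1 := by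
      have := hconj_t j
      calc (r ^ j * t) * (r ^ j * t) = r ^ j * (t * r ^ j * t) := by group
        _ = 1 := by rw [this, mul_inv_cancel]
    have hwt : (r ^ j * t) * t * (r ^ j * t) = s := by
      have h3 : r ^ j * r ^ j * r = 1 := by
        rw [← pow_add, ← pow_succ, ← two_mul, ← hj, hrn]
      have h4 : r ^ j * r ^ j = r⁻¹ := eq_inv_of_mul_eq_one_left h3
      calc (r ^ j * t) * t * (r ^ j * t) = r ^ j * (t * t) * r ^ j * t := by group
        _ = r ^ j * r ^ j * t := by rw [ht, mul_one]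
        _ = s := by rw [h4, hrinv, mul_assoc, ht, mul_one]
    have hwc : (r ^ j * t) • c = d := by
      apply invol_fix_unique hm hF hs1 hs (smul_mem_ovoid _ hc) hd _ hsd
      calc s • ((r ^ j * t) • c) = ((r ^ j * t) * t * (r ^ j * t) * (r ^ j * t)) • c := by rw [hwt, ← mul_smul]
        _ = ((r ^ j * t) * t) • c := by rw [mul_assoc ((r ^ j * t) * t), hww, mul_one]
        _ = (r ^ j * t) • c := by rw [mul_smul, htc]
    refine ⟨r ^ j * t, H.mul_mem (H.pow_mem (H.mul_mem htH hsH) j) htH, hww, hwt, hwc, ?_⟩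
    rw [← hwc, ← mul_smul, hww, one_smul]

/-- If the central involutions in `M` are just `t₀`, then `M` is solvable. -/
theorem solvable_of_W_two (hm : 1 ≤ m) (hF : Fintype.card F = 2 ^ (2 * m + 1)) (M : Subgroup ↥(Sz F m)) {b₀ : F}
    (hb₀ : b₀ ≠ 0) (h0 : uG hF 0 b₀ ∈ M) (h2 : ∀ b, uG hF 0 b ∈ M → b = 0 ∨ b = b₀) : Group.IsSolvable ↥M := by
  classical
  haveI : Fact (Nat.Prime 2) := ⟨Nat.prime_two⟩
  have htwo : (2 : F) = 0 := sz_two
  set t₀ := uG hF 0 b₀ with ht₀
  have ht1 : t₀ ≠ 1 := by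
    intro h
    rw [ht₀, ← uG_zero hF] at h
    exact hb₀ (uG_inj hF h).2
  have ht2 : t₀ * t₀ = 1 := by
    rw [ht₀, uG_mul, zero_pow (by positivity), zero_mul, add_zero, add_zero, sz_add_self, uG_zero]
  have htinf : t₀ • suzukiPointInfinity F = suzukiPointInfinity F := uG_inf hF _ _
  -- the intersection with `B` lies in `U`
  have hMB : ∀ g ∈ M, g ∈ szB F m → ∃ a b, g = uG hF a b := by
    intro g hg hgB
    obtain ⟨a, b, l, rfl⟩ := (mem_B_iff hm hF g).1 hgB
    have h3 := M.mul_mem (M.mul_mem hg h0) (M.inv_mem hg)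
    rw [conj_central] at h3
    rcases h2 _ h3 with h4 | h4
    · exact absurd h4 (mul_ne_zero (pow_ne_zero _ l.ne_zero) hb₀)
    · have h5 : (l : F) ^ (2 ^ (m + 1) + 1) = 1 := mul_right_cancel₀ hb₀ (h4.trans (one_mul _).symm)
      have h6 : (l : F) = 1 := sz_pow_inj hF l.ne_zero one_ne_zero (by rw [h5, one_pow])
      have h7 : l = 1 := Units.ext h6
      exact ⟨a, b, by rw [h7, hG_one, mul_one]⟩
  -- abelian
  have hsq : ∀ a b, uG hF a b ∈ M → a = 0 ∨ a ^ (2 ^ (m + 1) + 1) = b₀ := by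
    intro a b hab
    have h3 := M.pow_mem hab 2
    rw [uG_sq] at h3
    rcases h2 _ h3 with h4 | h4
    · left
      exact pow_eq_zero_iff (by positivity) |>.1 h4
    · right
      exact h4
  have hcomm : ∀ a b c d, uG hF a b ∈ M → uG hF c d ∈ M → uG hF a b * uG hF c d = uG hF c d * uG hF a b := by
    intro a b c d hab hcd
    rw [← commutatorElement_eq_one_iff_mul_comm, uG_comm]
    rcases hsq a b hab with rfl | h3
    · rw [zero_pow (by positivity), zero_mul, mul_zero, add_zero, uG_zero]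
    rcases hsq c d hcd with rfl | h4
    · rw [zero_pow (by positivity), zero_mul, mul_zero, add_zero, uG_zero]
    have ha : a ≠ 0 := by
      rintro rfl
      rw [zero_pow (by positivity)] at h3
      exact hb₀ h3.symm
    have hc : c ≠ 0 := by
      rintro rfl
      rw [zero_pow (by positivity)] at h4
      exact hb₀ h4.symm
    have hac : a = c := sz_pow_inj hF ha hc (h3.trans h4.symm)
    subst hac
    rw [sz_add_self, uG_zero]
  -- the subgroup `M ∩ U`
  let P₁ : Subgroup ↥M := (szUG hF).subgroupOf M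
  have hP₁ : IsPGroup 2 P₁ := by
    have h3 : IsPGroup 2 (P₁.map M.subtype) := by
      apply (isPGroup_szUG hF).to_le
      rintro _ ⟨x, hx, rfl⟩
      exact hx
    let e := P₁.equivMapOfInjective M.subtype M.subtype_injective
    exact h3.of_equiv e.symm
  obtain ⟨Q, hQ⟩ := hP₁.exists_le_sylow
  have ht₀U : t₀ ∈ szUG hF := uG_mem hF _ _
  have ht₀Q : (⟨t₀, h0⟩ : ↥M) ∈ Q := hQ (Subgroup.mem_subgroupOf.2 ht₀U)
  obtain ⟨c, hc, hcfix⟩ := exists_fixed_of_pGroup hF (p := 2) (odd_q_sq_add_one m) ((Q : Subgroup ↥M).map M.subtype)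
    (Q.isPGroup'.map _)
  have hcinf : c = suzukiPointInfinity F :=
    invol_fix_unique hm hF ht1 ht2 hc inf_mem_ovoid (hcfix _ ⟨_, ht₀Q, rfl⟩) htinf
  subst hcinf
  have hQU : ∀ x : ↥M, x ∈ Q → ∃ a b, (x : ↥(Sz F m)) = uG hF a b := by
    intro x hx
    exact hMB x x.2 (hcfix _ ⟨x, hx, rfl⟩)
  have hQcomm : ∀ x ∈ Q, ∀ y ∈ Q, x * y = y * x := by
    intro x hx y hy
    obtain ⟨a, b, hab⟩ := hQU x hx
    obtain ⟨c, d, hcd⟩ := hQU y hy
    apply Subtype.ext
    show (x : ↥(Sz F m)) * y = y * x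
    rw [hab, hcd]
    exact hcomm a b c d (hab ▸ x.2) (hcd ▸ y.2)
  have hN : Subgroup.normalizer ((Q : Subgroup ↥M) : Set ↥M) ≤ Subgroup.centralizer ((Q : Subgroup ↥M) : Set ↥M) := by
    intro x hx
    have h3 : x * ⟨t₀, h0⟩ * x⁻¹ ∈ Q := (Subgroup.mem_normalizer_iff.1 hx _).1 ht₀Q
    obtain ⟨a, b, hab⟩ := hQU _ h3
    have hab' : (x : ↥(Sz F m)) * t₀ * (x : ↥(Sz F m))⁻¹ = uG hF a b := hab
    have h4 : (x : ↥(Sz F m)) * t₀ * (x : ↥(Sz F m))⁻¹ ≠ 1 := by
      intro h
      apply ht1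
      have e : t₀ = (x : ↥(Sz F m))⁻¹ * ((x : ↥(Sz F m)) * t₀ * (x : ↥(Sz F m))⁻¹) * x := by group
      rw [e, h]
      group
    have h5 : ((x : ↥(Sz F m)) * t₀ * (x : ↥(Sz F m))⁻¹) * ((x : ↥(Sz F m)) * t₀ * (x : ↥(Sz F m))⁻¹) = 1 := by
      calc _ = (x : ↥(Sz F m)) * (t₀ * t₀) * (x : ↥(Sz F m))⁻¹ := by group
        _ = 1 := by rw [ht2]; group
    obtain ⟨b', hb', h6⟩ := involution_of_mem_B hm hF (t := (x : ↥(Sz F m)) * t₀ * (x : ↥(Sz F m))⁻¹)
      (by rw [hab']; exact uG_mem_B hF _ _) h4 h5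
    have h7 : uG hF 0 b' ∈ M := by
      rw [← h6]
      exact M.mul_mem (M.mul_mem x.2 h0) (M.inv_mem x.2)
    have h8 : b' = b₀ := (h2 _ h7).resolve_left hb'
    rw [h8] at h6
    have h9 : (x : ↥(Sz F m)) * t₀ = t₀ * x := mul_inv_eq_iff_eq_mul.1 h6
    have h10 : (x : ↥(Sz F m)) • suzukiPointInfinity F = suzukiPointInfinity F := by
      apply invol_fix_unique hm hF ht1 ht2 (smul_mem_ovoid _ inf_mem_ovoid) inf_mem_ovoid _ htinf
      rw [← mul_smul, ← h9, mul_smul, htinf]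
    obtain ⟨a', b'', hab''⟩ := hMB x x.2 h10
    have hxQ : x ∈ Q := hQ (Subgroup.mem_subgroupOf.2 (by rw [hab'']; exact uG_mem hF _ _))
    rw [Subgroup.mem_centralizer_iff]
    intro y hy
    exact hQcomm y hy x hxQ
  -- Burnside
  let T := MonoidHom.transferSylow Q hN
  have hodd := MonoidHom.not_dvd_card_ker_transferSylow Q hN
  have hodd' : ¬ 2 ∣ Nat.card ((MonoidHom.transferSylow Q hN).ker.map M.subtype) := by
    rw [Subgroup.card_map_of_injective M.subtype_injective]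
    exact hodd
  haveI hZ := isZGroup_of_odd hm hF _ hodd'
  have hsolv : Group.IsSolvable ((MonoidHom.transferSylow Q hN).ker.map M.subtype) := inferInstance
  have hsolv' : Group.IsSolvable (MonoidHom.transferSylow Q hN).ker := by
    let e := (MonoidHom.transferSylow Q hN).ker.equivMapOfInjective M.subtype M.subtype_injective
    exact Group.isSolvable_of_surjective (f := e.symm.toMonoidHom) e.symm.surjective
  have hQs : Group.IsSolvable ↥(Q : Subgroup ↥M) := Group.isSolvable_of_comm (by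
    rintro ⟨a, ha⟩ ⟨b, hb⟩
    apply Subtype.ext
    exact hQcomm a ha b hb)
  exact Group.isSolvable_of_ker_le_range (MonoidHom.transferSylow Q hN).ker.subtype
    (MonoidHom.transferSylow Q hN) (by
    intro x hx
    exact ⟨⟨x, hx⟩, rfl⟩)

end Cfsg.Agent.H10
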