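import Mathlib
import Cfsg.Agent.Lib.H10.SzMax

/-! The subgroups of the Suzuki groups: the subfield attached to a non-solvable subgroup. -/

set_option autoImplicit false
set_option linter.unusedSectionVars false
set_option linter.unusedSimpArgs false
set_option linter.style.haveILetI false

namespace Cfsg.Agent.H10

open Matrix Cfsg

variable {F : Type*} [Field F] [Fintype F] [CharP F 2] {m : ℕ}

lemma uG_zero_mul (hF : Fintype.card F = 2 ^ (2 * m + 1)) (b c : F) :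
    uG hF 0 b * uG hF 0 c = uG hF 0 (b + c) := by
  rw [uG_mul, zero_pow (by positivity), zero_mul, add_zero, add_zero]

lemma uG_zero_ne_one (hF : Fintype.card F = 2 ^ (2 * m + 1)) {b : F} (hb : b ≠ 0) : uG hF 0 b ≠ 1 := by
  intro h
  rw [← uG_zero hF] at h
  exact hb (uG_inj hF h).2

lemma uG_zero_self (hF : Fintype.card F = 2 ^ (2 * m + 1)) (b : F) : uG hF 0 b * uG hF 0 b = 1 := by
  rw [uG_zero_mul, sz_add_self, uG_zero]

lemma uG_decomp (hF : Fintype.card F = 2 ^ (2 * m + 1)) (a b : F) : uG hF a b = uG hF a 0 * uG hF 0 b := by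
  rw [uG_mul]
  simp

lemma szPt_zero_ne (m : ℕ) : suzukiPointInfinity F ≠ szPt m (0 : F) 0 := (szPt_ne_inf 0 0).symm

/-- Transitivity of the torus on the central involutions. -/
theorem exists_hG_of_central (hm : 1 ≤ m) (hF : Fintype.card F = 2 ^ (2 * m + 1)) (M : Subgroup ↥(Sz F m))
    {g₀ : ↥(Sz F m)} (hg₀ : g₀ ∈ M) (hg₀' : g₀ • suzukiPointInfinity F = szPt m (0 : F) 0) {b c : F} (hb : b ≠ 0)
    (hc : c ≠ 0) (hbM : uG hF 0 b ∈ M) (hcM : uG hF 0 c ∈ M) :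
    ∃ l : Fˣ, hG hF l ∈ M ∧ (l : F) ^ (2 ^ (m + 1) + 1) * b = c := by
  set s := g₀ * uG hF 0 b * g₀⁻¹ with hs
  have hsM : s ∈ M := M.mul_mem (M.mul_mem hg₀ hbM) (M.inv_mem hg₀)
  have hs1 : s ≠ 1 := by
    intro h
    apply uG_zero_ne_one hF hb
    have e : uG hF 0 b = g₀⁻¹ * s * g₀ := by rw [hs]; group
    rw [e, h]
    group
  have hss : s * s = 1 := by
    calc s * s = g₀ * (uG hF 0 b * uG hF 0 b) * g₀⁻¹ := by rw [hs]; group
      _ = 1 := by rw [uG_zero_self]; group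
  have hsfix : s • szPt m (0 : F) 0 = szPt m (0 : F) 0 := by
    rw [hs, ← hg₀', mul_smul, mul_smul, inv_smul_smul, uG_inf]
  obtain ⟨w₁, hw₁M, hw₁, hw₁t, hw₁c, hw₁d⟩ := dihedral_swap hm hF (uG_zero_ne_one hF hb) hs1 (uG_zero_self hF b) hss
    inf_mem_ovoid (szPt_mem_ovoid (0 : F) 0) (szPt_zero_ne m) (uG_inf hF _ _) hsfix M hbM hsM
  obtain ⟨w₂, hw₂M, hw₂, hw₂t, hw₂c, hw₂d⟩ := dihedral_swap hm hF (uG_zero_ne_one hF hc) hs1 (uG_zero_self hF c) hss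
    inf_mem_ovoid (szPt_mem_ovoid (0 : F) 0) (szPt_zero_ne m) (uG_inf hF _ _) hsfix M hcM hsM
  obtain ⟨l, hl⟩ := fix_two_G hm hF (y := w₂ * w₁) (by rw [mul_smul, hw₁c, hw₂d]) (by rw [mul_smul, hw₁d, hw₂c])
  refine ⟨l, hl ▸ M.mul_mem hw₂M hw₁M, ?_⟩
  have h1 := conj_central hF 0 0 l b
  rw [uG_zero, one_mul, ← hl] at h1
  have hinv₁ : w₁⁻¹ = w₁ := inv_eq_of_mul_eq_one_left hw₁
  have hinv₂ : w₂⁻¹ = w₂ := inv_eq_of_mul_eq_one_left hw₂
  have h2 : w₂ * w₁ * uG hF 0 b * (w₂ * w₁)⁻¹ = uG hF 0 c := by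
    rw [_root_.mul_inv_rev, hinv₁, hinv₂]
    calc w₂ * w₁ * uG hF 0 b * (w₁ * w₂) = w₂ * (w₁ * uG hF 0 b * w₁) * w₂ := by group
      _ = w₂ * (w₂ * uG hF 0 c * w₂) * w₂ := by rw [hw₁t, hw₂t]
      _ = (w₂ * w₂) * uG hF 0 c * (w₂ * w₂) := by group
      _ = uG hF 0 c := by rw [hw₂, one_mul, mul_one]
  rw [h2] at h1
  exact (uG_inj hF h1).2.symm

/-- The subfield attached to a subgroup. -/
theorem exists_szK (hm : 1 ≤ m) (hF : Fintype.card F = 2 ^ (2 * m + 1)) (M : Subgroup ↥(Sz F m))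
    {g₀ : ↥(Sz F m)} (hg₀ : g₀ ∈ M) (hg₀' : g₀ • suzukiPointInfinity F = szPt m (0 : F) 0) {b₀ : F} (hb₀ : b₀ ≠ 0)
    (h0 : uG hF 0 b₀ ∈ M) : ∃ K' : Subfield F, ∀ x, x ∈ K' ↔ uG hF 0 (x * b₀) ∈ M := by
  have hl : ∀ x : F, x ≠ 0 → uG hF 0 (x * b₀) ∈ M → ∃ l : Fˣ, hG hF l ∈ M ∧ (l : F) ^ (2 ^ (m + 1) + 1) = x := by
    intro x hx hxM
    obtain ⟨l, hl1, hl2⟩ := exists_hG_of_central hm hF M hg₀ hg₀' hb₀ (mul_ne_zero hx hb₀) h0 hxM
    exact ⟨l, hl1, mul_right_cancel₀ hb₀ hl2⟩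
  have hconj : ∀ (l : Fˣ) (e : F), hG hF l ∈ M → uG hF 0 e ∈ M → uG hF 0 ((l : F) ^ (2 ^ (m + 1) + 1) * e) ∈ M := by
    intro l e hlM heM
    have h1 := conj_central hF 0 0 l e
    rw [uG_zero, one_mul] at h1
    rw [← h1]
    exact M.mul_mem (M.mul_mem hlM heM) (M.inv_mem hlM)
  refine ⟨{ carrier := {x | uG hF 0 (x * b₀) ∈ M}
            mul_mem' := ?_
            one_mem' := ?_
            add_mem' := ?_
            zero_mem' := ?_
            neg_mem' := ?_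
            inv_mem' := ?_ }, fun x => Iff.rfl⟩
  · intro x y hx hy
    by_cases hx0 : x = 0
    · subst hx0
      simpa [uG_zero] using M.one_mem
    · obtain ⟨l, hl1, hl2⟩ := hl x hx0 hx
      have := hconj l _ hl1 hy
      rwa [hl2, ← mul_assoc] at this
  · simpa using h0
  · intro x y hx hy
    have := M.mul_mem hx hy
    rwa [uG_zero_mul, ← add_mul] at this
  · simpa [uG_zero] using M.one_mem
  · intro x hx
    have h2 : -x = x := CharTwo.neg_eq x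
    show uG hF 0 (-x * b₀) ∈ M
    rw [h2]
    exact hx
  · intro x hx
    by_cases hx0 : x = 0
    · subst hx0
      simpa [uG_zero] using M.one_mem
    · obtain ⟨l, hl1, hl2⟩ := hl x hx0 hx
      have hl3 : hG hF l⁻¹ ∈ M := by
        rw [← hG_inv]
        exact M.inv_mem hl1
      have := hconj l⁻¹ _ hl3 h0
      have e : ((l⁻¹ : Fˣ) : F) ^ (2 ^ (m + 1) + 1) = x⁻¹ := by
        rw [← hl2, Units.val_inv_eq_inv_val, inv_pow]
      rwa [e] at this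

/-- `x ↦ x ^ (σ + 1)` is onto on subfields. -/
lemma subfield_pow_surj (hF : Fintype.card F = 2 ^ (2 * m + 1)) (K' : Subfield F) {x : F} (hx : x ∈ K') :
    ∃ y ∈ K', y ^ (2 ^ (m + 1) + 1) = x := by
  let f : K' → K' := fun y => y ^ (2 ^ (m + 1) + 1)
  have hf : Function.Injective f := by
    intro y z hyz
    have h1 : (y : F) ^ (2 ^ (m + 1) + 1) = (z : F) ^ (2 ^ (m + 1) + 1) := by
      have := congrArg Subtype.val hyz
      simpa [f] using this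
    by_cases hy : (y : F) = 0
    · rw [hy, zero_pow (by positivity)] at h1
      have h2 := pow_eq_zero_iff (n := 2 ^ (m + 1) + 1) (by positivity) |>.1 h1.symm
      exact Subtype.ext (hy.trans h2.symm)
    · have hz : (z : F) ≠ 0 := by
        intro hz
        rw [hz, zero_pow (by positivity)] at h1
        exact hy (pow_eq_zero_iff (n := 2 ^ (m + 1) + 1) (by positivity) |>.1 h1)
      exact Subtype.ext (sz_pow_inj hF hy hz h1)
  obtain ⟨y, hy⟩ := (Finite.injective_iff_surjective.1 hf) ⟨x, hx⟩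
  exact ⟨y, y.2, by simpa [f] using congrArg Subtype.val hy⟩

lemma mem_of_pow_mem (hF : Fintype.card F = 2 ^ (2 * m + 1)) (K' : Subfield F) {x : F}
    (hx : x ^ (2 ^ (m + 1) + 1) ∈ K') : x ∈ K' := by
  by_cases hx0 : x = 0
  · rw [hx0]
    exact K'.zero_mem
  obtain ⟨y, hy, hyx⟩ := subfield_pow_surj hF K' hx
  have hy0 : y ≠ 0 := by
    rintro rfl
    rw [zero_pow (by positivity)] at hyx
    exact hx0 (pow_eq_zero_iff (n := 2 ^ (m + 1) + 1) (by positivity) |>.1 hyx.symm)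
  rw [← sz_pow_inj hF hy0 hx0 hyx]
  exact hy

/-- Hypotheses on the subfield. -/
structure SzKData (hF : Fintype.card F = 2 ^ (2 * m + 1)) (M : Subgroup ↥(Sz F m)) (K' : Subfield F) (b₀ : F) : Prop where
  hb₀ : b₀ ≠ 0
  h0 : uG hF 0 b₀ ∈ M
  hK : ∀ x, x ∈ K' ↔ uG hF 0 (x * b₀) ∈ M
  hl : ∀ x : F, x ≠ 0 → x ∈ K' → ∃ l : Fˣ, hG hF l ∈ M ∧ (l : F) ^ (2 ^ (m + 1) + 1) = x

variable {hF : Fintype.card F = 2 ^ (2 * m + 1)} {M : Subgroup ↥(Sz F m)} {K' : Subfield F} {b₀ : F}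

theorem exists_szKData (hm : 1 ≤ m) (hF : Fintype.card F = 2 ^ (2 * m + 1)) (M : Subgroup ↥(Sz F m))
    {g₀ : ↥(Sz F m)} (hg₀ : g₀ ∈ M) (hg₀' : g₀ • suzukiPointInfinity F = szPt m (0 : F) 0) {b₀ : F} (hb₀ : b₀ ≠ 0)
    (h0 : uG hF 0 b₀ ∈ M) : ∃ K' : Subfield F, SzKData hF M K' b₀ := by
  obtain ⟨K', hK⟩ := exists_szK hm hF M hg₀ hg₀' hb₀ h0
  refine ⟨K', hb₀, h0, hK, fun x hx hxK => ?_⟩
  obtain ⟨l, hl1, hl2⟩ := exists_hG_of_central hm hF M hg₀ hg₀' hb₀ (mul_ne_zero hx hb₀) h0 ((hK x).1 hxK)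
  exact ⟨l, hl1, mul_right_cancel₀ hb₀ hl2⟩

lemma SzKData.mem_of_hG (D : SzKData hF M K' b₀) {l : Fˣ} (hl : hG hF l ∈ M) : (l : F) ∈ K' := by
  apply mem_of_pow_mem hF
  rw [D.hK]
  have h1 := conj_central hF 0 0 l b₀
  rw [uG_zero, one_mul] at h1
  rw [← h1]
  exact M.mul_mem (M.mul_mem hl D.h0) (M.inv_mem hl)

lemma SzKData.hG_mem (D : SzKData hF M K' b₀) {l : Fˣ} (hl : (l : F) ∈ K') : hG hF l ∈ M := by
  obtain ⟨l', h1, h2⟩ := D.hl _ (pow_ne_zero (2 ^ (m + 1) + 1) l.ne_zero) (K'.pow_mem hl _)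
  have h3 : (l' : F) = l := sz_pow_inj hF l'.ne_zero l.ne_zero h2
  rwa [Units.ext h3] at h1

/-- Two-transitivity. -/
theorem SzKData.uG_mem_of_smul (D : SzKData hF M K' b₀) (hm : 1 ≤ m) {x₀ : F} (hx₀ : x₀ ∈ K') (hx₀0 : x₀ ≠ 0) (hx₀1 : x₀ ≠ 1)
    {g : ↥(Sz F m)} (hg : g ∈ M) {x y : F} (hxy : g • suzukiPointInfinity F = szPt m x y) : uG hF x y ∈ M := by
  classical
  set v := uG hF x y with hv
  -- the conjugate subgroup
  set M' := M.map (MulAut.conj v⁻¹).toMonoidHom with hM'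
  have hmem : ∀ z, z ∈ M' ↔ v * z * v⁻¹ ∈ M := by
    intro z
    rw [hM', mem_map_conj_iff, inv_inv]
  have hcen : ∀ b, uG hF 0 b ∈ M' ↔ uG hF 0 b ∈ M := by
    intro b
    rw [hmem, hv]
    have : uG hF x y * uG hF 0 b = uG hF 0 b * uG hF x y := (uG_zero_mem_center hF b x y).symm
    rw [this, mul_inv_cancel_right]
  have hg' : v⁻¹ * g * v ∈ M' := by
    rw [hmem]
    have e : v * (v⁻¹ * g * v) * v⁻¹ = g := by group
    rwa [e]
  have hg'' : (v⁻¹ * g * v) • suzukiPointInfinity F = szPt m (0 : F) 0 := by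
    rw [mul_smul, mul_smul, hv, uG_inf, hxy, inv_smul_eq_iff, uG_smul]
    simp
  obtain ⟨l, hl1, hl2⟩ := exists_hG_of_central hm hF M' hg' hg'' D.hb₀ (mul_ne_zero hx₀0 D.hb₀) ((hcen _).2 D.h0)
    ((hcen _).2 ((D.hK _).1 hx₀))
  have hl3 : (l : F) ^ (2 ^ (m + 1) + 1) = x₀ := mul_right_cancel₀ D.hb₀ hl2
  have hl4 : hG hF l ∈ M := D.hG_mem (mem_of_pow_mem hF K' (hl3 ▸ hx₀))
  have hl5 : l ≠ 1 := by
    rintro rfl
    apply hx₀1
    rw [← hl3]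
    simp
  set h := hG hF l with hh
  have hvh := (hmem _).1 hl1
  have hN : h ∈ Subgroup.normalizer ((szUG hF : Subgroup ↥(Sz F m)) : Set ↥(Sz F m)) := by
    rw [normalizer_szUG hm hF]
    exact hG_mem_B hF l
  -- the commutator map on `M ∩ U`
  let P := M ⊓ szUG hF
  have hφ : ∀ p : ↥P, (p : ↥(Sz F m)) * (h * (p : ↥(Sz F m))⁻¹ * h⁻¹) ∈ P := by
    intro p
    refine ⟨M.mul_mem p.2.1 (M.mul_mem (M.mul_mem hl4 (M.inv_mem p.2.1)) (M.inv_mem hl4)), ?_⟩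
    exact (szUG hF).mul_mem p.2.2 ((Subgroup.mem_normalizer_iff.1 hN _).1 ((szUG hF).inv_mem p.2.2))
  let φ : ↥P → ↥P := fun p => ⟨_, hφ p⟩
  -- injectivity on `U`
  have hinjU : ∀ p q : ↥(Sz F m), p ∈ szUG hF → q ∈ szUG hF → p * (h * p⁻¹ * h⁻¹) = q * (h * q⁻¹ * h⁻¹) → p = q := by
    intro p q hp hq hpq
    have h1 : (q⁻¹ * p) ∈ szUG hF := (szUG hF).mul_mem ((szUG hF).inv_mem hq) hp
    obtain ⟨a, b, hab⟩ := h1
    have h2 : h * (q⁻¹ * p) = (q⁻¹ * p) * h := by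
      have e1 : p * h * p⁻¹ = q * h * q⁻¹ := by
        have := hpq
        calc p * h * p⁻¹ = p * (h * p⁻¹ * h⁻¹) * h := by group
          _ = q * (h * q⁻¹ * h⁻¹) * h := by rw [this]
          _ = _ := by group
      have e2 : (q⁻¹ * p) * h * (q⁻¹ * p)⁻¹ = h := by
        calc (q⁻¹ * p) * h * (q⁻¹ * p)⁻¹ = q⁻¹ * (p * h * p⁻¹) * q := by group
          _ = q⁻¹ * (q * h * q⁻¹) * q := by rw [e1]
          _ = h := by group
      exact (mul_inv_eq_iff_eq_mul.1 e2).symm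
    by_contra hne
    have hne' : a ≠ 0 ∨ b ≠ 0 := by
      by_contra hcon
      push Not at hcon
      obtain ⟨rfl, rfl⟩ := hcon
      rw [uG_zero] at hab
      apply hne
      have e : p = q * (q⁻¹ * p) := by group
      rw [e, hab, mul_one]
    apply hl5
    apply commute_uG hF (c := 0) (d := 0) hne'
    rw [uG_zero, one_mul, ← hab]
    exact h2
  have hinj : Function.Injective φ := by
    intro p q hpq
    apply Subtype.ext
    exact hinjU _ _ p.2.2 q.2.2 (congrArg Subtype.val hpq)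
  have hsurj := Finite.injective_iff_surjective.1 hinj
  have hc₁ : v * (h * v⁻¹ * h⁻¹) ∈ P := by
    refine ⟨?_, (szUG hF).mul_mem (uG_mem hF x y) ((Subgroup.mem_normalizer_iff.1 hN _).1 ((szUG hF).inv_mem (uG_mem hF x y)))⟩
    have e : v * (h * v⁻¹ * h⁻¹) = (v * h * v⁻¹) * h⁻¹ := by group
    rw [e]
    exact M.mul_mem hvh (M.inv_mem hl4)
  obtain ⟨p, hp⟩ := hsurj ⟨_, hc₁⟩
  have hpv : (p : ↥(Sz F m)) = v := hinjU _ _ p.2.2 (uG_mem hF x y) (congrArg Subtype.val hp)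
  rw [← hpv]
  exact p.2.1

end Cfsg.Agent.H10
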