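import Mathlib
import Cfsg.Agent.Lib.H10.SzMax2

/-! The subgroups of the Suzuki groups: non-solvable subgroups are subfield subgroups. -/

set_option autoImplicit false
set_option linter.unusedSectionVars false
set_option linter.unusedSimpArgs false
set_option linter.style.haveILetI false

namespace Cfsg.Agent.H10

open Matrix Cfsg

variable {F : Type*} [Field F] [Fintype F] [CharP F 2] {m : ℕ}

variable {hF : Fintype.card F = 2 ^ (2 * m + 1)} {M : Subgroup ↥(Sz F m)} {K' : Subfield F} {b₀ : F}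

/-- From the centre of `U` to `U`. -/
lemma SzKData.uG_inv_mem (D : SzKData hF M K' b₀) (hm : 1 ≤ m) {x₀ : F} (hx₀ : x₀ ∈ K') (hx₀0 : x₀ ≠ 0) (hx₀1 : x₀ ≠ 1)
    (hw : wG hF ∈ M) {c : F} (hc : c ≠ 0) (hcM : uG hF 0 (c ^ (2 ^ (m + 1) + 1)) ∈ M) : uG hF c⁻¹ 0 ∈ M := by
  have h1 := w_uG_w_inf hF (pow_ne_zero (2 ^ (m + 1) + 1) hc)
  rw [pow_div_pow_eq_inv hF hc] at h1
  exact D.uG_mem_of_smul hm hx₀ hx₀0 hx₀1 (M.mul_mem (M.mul_mem hw hcM) hw) h1

lemma SzKData.b₀_mem (D : SzKData hF M K' b₀) (hm : 1 ≤ m) {x₀ : F} (hx₀ : x₀ ∈ K') (hx₀0 : x₀ ≠ 0) (hx₀1 : x₀ ≠ 1)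
    (hw : wG hF ∈ M) : b₀ ∈ K' := by
  obtain ⟨c, hc⟩ := exists_pow_eq hF b₀
  have hc0 : c ≠ 0 := by
    rintro rfl
    rw [zero_pow (by positivity)] at hc
    exact D.hb₀ hc.symm
  have h1 := D.uG_inv_mem hm hx₀ hx₀0 hx₀1 hw hc0 (by rw [hc]; exact D.h0)
  have h2 := M.pow_mem h1 2
  rw [uG_sq, inv_pow, hc] at h2
  have h3 : b₀⁻¹ / b₀ ∈ K' := (D.hK _).2 (by rwa [div_mul_cancel₀ _ D.hb₀])
  have h4 : b₀ * b₀ ∈ K' := by
    have := K'.inv_mem h3
    have e : (b₀⁻¹ / b₀)⁻¹ = b₀ * b₀ := by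
      field_simp [D.hb₀]
    rwa [e] at this
  have h5 : b₀ = (b₀ * b₀) ^ (2 ^ (2 * m)) := by
    have h6 := FiniteField.pow_card b₀
    rw [hF] at h6
    have e : (2 : ℕ) ^ (2 * m + 1) = 2 * 2 ^ (2 * m) := by ring
    rw [e, pow_mul, sq] at h6
    exact h6.symm
  rw [h5]
  exact K'.pow_mem h4 _

lemma SzKData.central_iff (D : SzKData hF M K' b₀) (hb : b₀ ∈ K') (x : F) : x ∈ K' ↔ uG hF 0 x ∈ M := by
  constructor
  · intro hx
    have h1 : x / b₀ ∈ K' := K'.div_mem hx hb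
    have h2 := (D.hK _).1 h1
    rwa [div_mul_cancel₀ _ D.hb₀] at h2
  · intro hx
    have h1 : x / b₀ ∈ K' := (D.hK _).2 (by rwa [div_mul_cancel₀ _ D.hb₀])
    have h2 := K'.mul_mem h1 hb
    rwa [div_mul_cancel₀ _ D.hb₀] at h2

/-- The complete description of the subgroup, and the generators. -/
theorem SzKData.structure (D : SzKData hF M K' b₀) (hm : 1 ≤ m) {x₀ : F} (hx₀ : x₀ ∈ K') (hx₀0 : x₀ ≠ 0) (hx₀1 : x₀ ≠ 1)
    (hw : wG hF ∈ M) :
    (∀ a b, a ∈ K' → b ∈ K' → uG hF a b ∈ M) ∧ (∀ a b, uG hF a b ∈ M → a ∈ K' ∧ b ∈ K') ∧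
    (∀ E : Subgroup ↥(Sz F m), (∀ a b, a ∈ K' → b ∈ K' → uG hF a b ∈ E) → (∀ l : Fˣ, (l : F) ∈ K' → hG hF l ∈ E) →
      wG hF ∈ E → M ≤ E) := by
  have hb := D.b₀_mem hm hx₀ hx₀0 hx₀1 hw
  have hcen := D.central_iff hb
  have ha : ∀ a, a ∈ K' → uG hF a 0 ∈ M := by
    intro a ha
    by_cases ha0 : a = 0
    · subst ha0
      rw [uG_zero]
      exact M.one_mem
    · have h1 := D.uG_inv_mem hm hx₀ hx₀0 hx₀1 hw (inv_ne_zero ha0)
        ((hcen _).1 (K'.pow_mem (K'.inv_mem ha) _))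
      rwa [inv_inv] at h1
  have h1 : ∀ a b, a ∈ K' → b ∈ K' → uG hF a b ∈ M := by
    intro a b h2 h3
    rw [uG_decomp]
    exact M.mul_mem (ha a h2) ((hcen b).1 h3)
  have h2 : ∀ a b, uG hF a b ∈ M → a ∈ K' ∧ b ∈ K' := by
    intro a b hab
    have h3 := M.pow_mem hab 2
    rw [uG_sq] at h3
    have h4 : a ∈ K' := mem_of_pow_mem hF K' ((hcen _).2 h3)
    refine ⟨h4, (hcen b).2 ?_⟩
    have h5 := M.mul_mem (M.inv_mem (ha a h4)) hab
    rw [uG_decomp hF a b, inv_mul_cancel_left] at h5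
    exact h5
  refine ⟨h1, h2, fun E hE1 hE2 hE3 => ?_⟩
  have hB : ∀ g ∈ M, g ∈ szB F m → g ∈ E := by
    intro g hg hgB
    obtain ⟨a, b, l, rfl⟩ := (mem_B_iff hm hF g).1 hgB
    have h3 := conj_central hF a b l 1
    have h4 : uG hF 0 1 ∈ M := (hcen 1).1 K'.one_mem
    have h5 : uG hF 0 ((l : F) ^ (2 ^ (m + 1) + 1) * 1) ∈ M := by
      rw [← h3]
      exact M.mul_mem (M.mul_mem hg h4) (M.inv_mem hg)
    rw [mul_one] at h5
    have h6 : (l : F) ∈ K' := mem_of_pow_mem hF K' ((hcen _).2 h5)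
    have h7 : hG hF l ∈ M := D.hG_mem h6
    have h8 : uG hF a b ∈ M := by
      have := M.mul_mem hg (M.inv_mem h7)
      rwa [mul_inv_cancel_right] at this
    obtain ⟨h9, h10⟩ := h2 a b h8
    exact E.mul_mem (hE1 a b h9 h10) (hE2 l h6)
  intro g hg
  by_cases hgB : g ∈ szB F m
  · exact hB g hg hgB
  rcases (mem_ovoid_iff _).1 (smul_mem_ovoid g (inf_mem_ovoid (F := F) (m := m))) with h3 | ⟨x, y, h3⟩
  · exact absurd h3 hgB
  have h4 := D.uG_mem_of_smul hm hx₀ hx₀0 hx₀1 hg h3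
  obtain ⟨h5, h6⟩ := h2 x y h4
  set g' := (uG hF x y * wG hF)⁻¹ * g with hg'
  have hg'M : g' ∈ M := M.mul_mem (M.inv_mem (M.mul_mem h4 hw)) hg
  have hg'B : g' ∈ szB F m := by
    show g' • suzukiPointInfinity F = suzukiPointInfinity F
    rw [hg', mul_smul, h3, inv_smul_eq_iff, mul_smul, wG_infty, uG_smul]
    simp
  have e : g = uG hF x y * wG hF * g' := by
    rw [hg']
    group
  rw [e]
  exact E.mul_mem (E.mul_mem (hE1 x y h5 h6) hE3) (hB g' hg'M hg'B)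

/-- Roots in the image. -/
lemma mem_range_of_pow_card {K : Type*} [Field K] [Fintype K] (α : K →+* F) {x : F} (hx : x ^ Fintype.card K = x) :
    x ∈ Set.range α := by
  classical
  let P : Polynomial F := Polynomial.X ^ Fintype.card K - Polynomial.X
  have hP : P ≠ 0 := FiniteField.X_pow_card_sub_X_ne_zero F Fintype.one_lt_card
  have hdeg : P.natDegree = Fintype.card K := FiniteField.X_pow_card_sub_X_natDegree_eq F Fintype.one_lt_card
  have hsub : (Finset.univ.image α) ⊆ P.roots.toFinset := by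
    intro y hy
    obtain ⟨z, -, rfl⟩ := Finset.mem_image.1 hy
    rw [Multiset.mem_toFinset, Polynomial.mem_roots hP]
    simp [P, ← map_pow, FiniteField.pow_card]
  have hcard : (Finset.univ.image α).card = Fintype.card K := by
    rw [Finset.card_image_of_injective _ α.injective, Finset.card_univ]
  have hle : P.roots.toFinset.card ≤ (Finset.univ.image α).card := by
    rw [hcard]
    exact (Multiset.toFinset_card_le _).trans ((Polynomial.card_roots' P).trans hdeg.le)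
  have heq := Finset.eq_of_subset_of_card_le hsub hle
  have hxr : x ∈ P.roots.toFinset := by
    rw [Multiset.mem_toFinset, Polynomial.mem_roots hP]
    simp [P, hx]
  rw [← heq] at hxr
  obtain ⟨z, -, rfl⟩ := Finset.mem_image.1 hxr
  exact ⟨z, rfl⟩

/-- The third alternative in the subgroup theorem. -/
def SzThird (M : Subgroup ↥(Sz F m)) : Prop :=
  ∃ (K : Type) (_ : Field K) (_ : Fintype K) (k : ℕ), 1 ≤ k ∧ k < m ∧ Fintype.card K = 2 ^ (2 * k + 1) ∧
    2 * k + 1 ∣ 2 * m + 1 ∧ ∃ S : Subgroup ↥(Sz F m), Nonempty (↥S ≃* ↥(Sz K k)) ∧ M ≤ S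

lemma SzThird.of_conj {M : Subgroup ↥(Sz F m)} {g : ↥(Sz F m)} (h : SzThird (M.map (MulAut.conj g).toMonoidHom)) :
    SzThird M := by
  obtain ⟨K, i1, i2, k, h1, h2, h3, h4, S, ⟨e⟩, h5⟩ := h
  refine ⟨K, i1, i2, k, h1, h2, h3, h4, S.map (MulAut.conj g⁻¹).toMonoidHom,
    ⟨(S.equivMapOfInjective _ (MulAut.conj g⁻¹).injective).symm.trans e⟩, ?_⟩
  intro x hx
  rw [mem_map_conj_iff, inv_inv]
  exact h5 ((mem_map_conj_iff _ _ _).2 (by
    have e : g⁻¹ * (g * x * g⁻¹) * g = x := by group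
    rwa [e]))

/-- A subgroup containing `w` and a central involution. -/
theorem third_of_nf (hm : 1 ≤ m) (hF : Fintype.card F = 2 ^ (2 * m + 1)) (M : Subgroup ↥(Sz F m)) (hM : M ≠ ⊤)
    (hns : ¬ Group.IsSolvable ↥M) (hw : wG hF ∈ M) {b₀ : F} (hb₀ : b₀ ≠ 0) (h0 : uG hF 0 b₀ ∈ M) : SzThird M := by
  classical
  haveI : Fact (Nat.Prime 2) := ⟨Nat.prime_two⟩
  obtain ⟨K', D⟩ := exists_szKData hm hF M hw (wG_infty hF) hb₀ h0
  have hx : ∃ x₀ ∈ K', x₀ ≠ 0 ∧ x₀ ≠ 1 := by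
    by_contra hcon
    push Not at hcon
    apply hns
    apply solvable_of_W_two hm hF M hb₀ h0
    intro b hb
    have h1 : b / b₀ ∈ K' := (D.hK _).2 (by rwa [div_mul_cancel₀ _ hb₀])
    by_cases hb0 : b = 0
    · exact Or.inl hb0
    · right
      have h2 := hcon _ h1 (div_ne_zero hb0 hb₀)
      exact (div_eq_one_iff_eq hb₀).1 h2
  obtain ⟨x₀, hx₀, hx₀0, hx₀1⟩ := hx
  obtain ⟨hS1, hS2, hS3⟩ := D.structure hm hx₀ hx₀0 hx₀1 hw
  -- the order of `K'`
  have hcardF : Fintype.card F = Fintype.card K' ^ Module.finrank K' F := Module.card_eq_pow_finrank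
  set r := Module.finrank K' F with hr
  have hr0 : r ≠ 0 := by
    intro h
    rw [h, pow_zero, hF] at hcardF
    have : 1 < 2 ^ (2 * m + 1) := Nat.one_lt_two_pow (by omega)
    omega
  have hdvd : Fintype.card K' ∣ 2 ^ (2 * m + 1) := by
    rw [← hF, hcardF]
    exact dvd_pow_self _ hr0
  obtain ⟨n, -, hn⟩ := (Nat.dvd_prime_pow Nat.prime_two).1 hdvd
  have hnr : 2 * m + 1 = n * r := by
    apply Nat.pow_right_injective (le_refl 2)
    show 2 ^ (2 * m + 1) = 2 ^ (n * r)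
    rw [← hF, hcardF, hn, pow_mul]
  have hthree : 2 < Fintype.card K' := by
    rw [Fintype.two_lt_card_iff]
    refine ⟨0, 1, ⟨x₀, hx₀⟩, zero_ne_one, ?_, ?_⟩
    · intro h
      exact hx₀0 (congrArg Subtype.val h).symm
    · intro h
      exact hx₀1 (congrArg Subtype.val h).symm
  have hn2 : 2 ≤ n := by
    by_contra h
    have h1 : n = 0 ∨ n = 1 := by omega
    rcases h1 with rfl | rfl <;> simp [hn] at hthree
  have hnodd : n % 2 = 1 := by
    by_contra h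
    have h1 : n % 2 = 0 := by omega
    obtain ⟨e, rfl⟩ : ∃ e, n = 2 * e := ⟨n / 2, by omega⟩
    have h2 : 2 * m + 1 = 2 * (e * r) := by rw [hnr]; ring
    omega
  obtain ⟨k, rfl⟩ : ∃ k, n = 2 * k + 1 := ⟨n / 2, by omega⟩
  have hk : 1 ≤ k := by omega
  have hdiv : 2 * k + 1 ∣ 2 * m + 1 := ⟨r, hnr⟩
  have hkm : k ≤ m := by
    have := Nat.le_of_dvd (by omega) hdiv
    omega
  have hkm' : k < m := by
    by_contra hcon
    have hkm2 : k = m := by omega
    subst hkm2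
    have hbij : Function.Bijective (K'.subtype) := by
      rw [Fintype.bijective_iff_injective_and_card]
      exact ⟨K'.subtype.injective, by rw [hn, hF]⟩
    have hall : ∀ x : F, x ∈ K' := by
      intro x
      obtain ⟨y, rfl⟩ := hbij.2 x
      exact y.2
    exact hM (eq_top_of_U_w hm hF M (fun a b => hS1 a b (hall a) (hall b)) hw)
  -- the field
  let K := GaloisField 2 (2 * k + 1)
  haveI : Fintype K := Fintype.ofFinite K
  have hK : Fintype.card K = 2 ^ (2 * k + 1) := by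
    rw [← Nat.card_eq_fintype_card]
    exact GaloisField.card 2 (2 * k + 1) (by omega)
  haveI : CharP K 2 := sz_charP hK
  obtain ⟨α⟩ := exists_ringHom_of_dvd hF hK hdiv
  have hsub : ∀ x ∈ K', x ∈ Set.range α := by
    intro x hx
    apply mem_range_of_pow_card
    rw [hK, ← hn]
    have := FiniteField.pow_card (⟨x, hx⟩ : K')
    exact congrArg Subtype.val this
  refine ⟨K, inferInstance, inferInstance, k, hk, hkm', hK, hdiv, (szEmb hk hK hF hdiv α).range,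
    ⟨(MonoidHom.ofInjective (szEmb_inj hk hK hF hdiv α)).symm⟩, ?_⟩
  apply hS3
  · intro a b ha hb
    obtain ⟨a', rfl⟩ := hsub a ha
    obtain ⟨b', rfl⟩ := hsub b hb
    exact ⟨uG hK a' b', szEmb_uG hk hK hF hdiv α a' b'⟩
  · intro l hl
    obtain ⟨l', hl'⟩ := hsub _ hl
    have hl'0 : l' ≠ 0 := by
      rintro rfl
      rw [map_zero] at hl'
      exact l.ne_zero hl'.symm
    refine ⟨hG hK (Units.mk0 l' hl'0), ?_⟩
    rw [szEmb_hG]
    congr 1
    apply Units.ext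
    exact hl'
  · exact ⟨wG hK, szEmb_wG hk hK hF hdiv α⟩

/-- Conjugates of non-solvable subgroups. -/
lemma not_solvable_conj {G : Type*} [Group G] {M : Subgroup G} (g : G) (h : ¬ Group.IsSolvable ↥M) :
    ¬ Group.IsSolvable ↥(M.map (MulAut.conj g).toMonoidHom) := by
  intro h1
  apply h
  let e := M.equivMapOfInjective (MulAut.conj g).toMonoidHom (MulAut.conj g).injective
  exact Group.isSolvable_of_surjective (f := e.symm.toMonoidHom) e.symm.surjective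

lemma ne_top_conj {G : Type*} [Group G] [Finite G] {M : Subgroup G} (g : G) (h : M ≠ ⊤) :
    M.map (MulAut.conj g).toMonoidHom ≠ ⊤ := by
  intro h1
  apply h
  rw [eq_top_iff]
  intro x _
  have h2 : g * x * g⁻¹ ∈ M.map (MulAut.conj g).toMonoidHom := by rw [h1]; trivial
  rw [mem_map_conj_iff] at h2
  have e : g⁻¹ * (g * x * g⁻¹) * g = x := by group
  rwa [e] at h2

/-- First step: a central involution. -/
lemma exists_central_conj (hm : 1 ≤ m) (hF : Fintype.card F = 2 ^ (2 * m + 1)) (M : Subgroup ↥(Sz F m))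
    (hns : ¬ Group.IsSolvable ↥M) :
    ∃ (k : ↥(Sz F m)) (b : F), b ≠ 0 ∧ uG hF 0 b ∈ M.map (MulAut.conj k).toMonoidHom := by
  haveI : Fact (Nat.Prime 2) := ⟨Nat.prime_two⟩
  have h2 : 2 ∣ Nat.card M := by
    by_contra hodd
    haveI := isZGroup_of_odd hm hF M hodd
    exact hns inferInstance
  obtain ⟨t, ht⟩ := exists_prime_orderOf_dvd_card' 2 h2
  have ht1 : (t : ↥(Sz F m)) ≠ 1 := by
    intro h
    have : t = 1 := Subtype.ext h
    rw [this, orderOf_one] at ht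
    omega
  have ht2 : (t : ↥(Sz F m)) * t = 1 := by
    have := pow_orderOf_eq_one t
    rw [ht, sq] at this
    exact congrArg Subtype.val this
  obtain ⟨k, b, hb, h⟩ := exists_conj_involution hm hF ht1 ht2
  refine ⟨k⁻¹, b, hb, ?_⟩
  rw [mem_map_conj_iff, inv_inv, ← h]
  have e : k * (k⁻¹ * (t : ↥(Sz F m)) * k) * k⁻¹ = t := by group
  rw [e]
  exact t.2

/-- Second step: a point moved to zero. -/
lemma exists_move_conj (hm : 1 ≤ m) (hF : Fintype.card F = 2 ^ (2 * m + 1)) (M : Subgroup ↥(Sz F m))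
    (hns : ¬ Group.IsSolvable ↥M) {b : F} (h0 : uG hF 0 b ∈ M) :
    ∃ v : ↥(Sz F m), uG hF 0 b ∈ M.map (MulAut.conj v).toMonoidHom ∧
      ∃ g ∈ M.map (MulAut.conj v).toMonoidHom, g • suzukiPointInfinity F = szPt m (0 : F) 0 := by
  have hnB : ¬ M ≤ szB F m := by
    intro h
    apply hns
    haveI := isSolvable_B (F := F) hm hF
    exact Group.isSolvable_of_isSolvable_injective (Subgroup.inclusion_injective h)
  obtain ⟨g, hg, hgB⟩ := SetLike.not_le_iff_exists.1 hnB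
  rcases (mem_ovoid_iff _).1 (smul_mem_ovoid g (inf_mem_ovoid (F := F) (m := m))) with h3 | ⟨x, y, h3⟩
  · exact absurd h3 hgB
  refine ⟨(uG hF x y)⁻¹, ?_, (uG hF x y)⁻¹ * g * uG hF x y, ?_, ?_⟩
  · rw [mem_map_conj_iff, inv_inv]
    have : uG hF x y * uG hF 0 b = uG hF 0 b * uG hF x y := (uG_zero_mem_center hF b x y).symm
    rw [this, mul_inv_cancel_right]
    exact h0
  · rw [mem_map_conj_iff, inv_inv]
    have e : uG hF x y * ((uG hF x y)⁻¹ * g * uG hF x y) * (uG hF x y)⁻¹ = g := by group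
    rwa [e]
  · rw [mul_smul, mul_smul, uG_inf, h3, inv_smul_eq_iff, uG_smul]
    simp

/-- Third step: the Weyl element. -/
lemma exists_weyl_conj (hm : 1 ≤ m) (hF : Fintype.card F = 2 ^ (2 * m + 1)) (M : Subgroup ↥(Sz F m)) {b : F} (hb : b ≠ 0)
    (h0 : uG hF 0 b ∈ M) {g : ↥(Sz F m)} (hg : g ∈ M) (hg' : g • suzukiPointInfinity F = szPt m (0 : F) 0) :
    ∃ (l : Fˣ) (b' : F), b' ≠ 0 ∧ uG hF 0 b' ∈ M.map (MulAut.conj (hG hF l)).toMonoidHom ∧
      wG hF ∈ M.map (MulAut.conj (hG hF l)).toMonoidHom := by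
  set s := g * uG hF 0 b * g⁻¹ with hs
  have hsM : s ∈ M := M.mul_mem (M.mul_mem hg h0) (M.inv_mem hg)
  have hs1 : s ≠ 1 := by
    intro h
    apply uG_zero_ne_one hF hb
    have e : uG hF 0 b = g⁻¹ * s * g := by rw [hs]; group
    rw [e, h]
    group
  have hss : s * s = 1 := by
    calc s * s = g * (uG hF 0 b * uG hF 0 b) * g⁻¹ := by rw [hs]; group
      _ = 1 := by rw [uG_zero_self]; group
  have hsfix : s • szPt m (0 : F) 0 = szPt m (0 : F) 0 := by
    rw [hs, ← hg', mul_smul, mul_smul, inv_smul_smul, uG_inf]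
  obtain ⟨w, hwM, -, -, hwc, hwd⟩ := dihedral_swap hm hF (uG_zero_ne_one hF hb) hs1 (uG_zero_self hF b) hss
    inf_mem_ovoid (szPt_mem_ovoid (0 : F) 0) (szPt_zero_ne m) (uG_inf hF _ _) hsfix M h0 hsM
  obtain ⟨l₃, hl₃⟩ := swap_G hm hF hwc hwd
  obtain ⟨l₄, hl₄⟩ := exists_unit_sq hF l₃
  have hconj : hG hF l₄ * w * (hG hF l₄)⁻¹ = wG hF := by
    rw [hl₃, ← mul_assoc, hG_wG, ← hl₄, ← hG_mul, ← hG_inv]
    group
  refine ⟨l₄, (l₄ : F) ^ (2 ^ (m + 1) + 1) * b, mul_ne_zero (pow_ne_zero _ l₄.ne_zero) hb, ?_, ?_⟩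
  · rw [mem_map_conj_iff]
    have h1 := conj_central hF 0 0 l₄ b
    rw [uG_zero, one_mul] at h1
    rw [← h1]
    have e : (hG hF l₄)⁻¹ * (hG hF l₄ * uG hF 0 b * (hG hF l₄)⁻¹) * hG hF l₄ = uG hF 0 b := by group
    rwa [e]
  · rw [mem_map_conj_iff, ← hconj]
    have e : (hG hF l₄)⁻¹ * (hG hF l₄ * w * (hG hF l₄)⁻¹) * hG hF l₄ = w := by group
    rwa [e]

/-- Non-solvable proper subgroups are contained in subfield subgroups. -/
theorem third_of_not_solvable (hm : 1 ≤ m) (hF : Fintype.card F = 2 ^ (2 * m + 1)) (M : Subgroup ↥(Sz F m)) (hM : M ≠ ⊤)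
    (hns : ¬ Group.IsSolvable ↥M) : SzThird M := by
  obtain ⟨k₁, b₁, hb₁, h₁⟩ := exists_central_conj hm hF M hns
  apply SzThird.of_conj (g := k₁)
  have hns₁ := not_solvable_conj k₁ hns
  have hM₁ := ne_top_conj k₁ hM
  set M₁ := M.map (MulAut.conj k₁).toMonoidHom with hM₁'
  obtain ⟨v, h₂, g, hg, hg'⟩ := exists_move_conj hm hF M₁ hns₁ h₁
  apply SzThird.of_conj (g := v)
  have hns₂ := not_solvable_conj v hns₁
  have hM₂ := ne_top_conj v hM₁
  set M₂ := M₁.map (MulAut.conj v).toMonoidHom with hM₂'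
  obtain ⟨l, b', hb', h₃, hw⟩ := exists_weyl_conj hm hF M₂ hb₁ h₂ hg hg'
  apply SzThird.of_conj (g := hG hF l)
  exact third_of_nf hm hF _ (ne_top_conj _ hM₂) (not_solvable_conj _ hns₂) hw hb' h₃

end Cfsg.Agent.H10
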