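import Mathlib
import Cfsg.Agent.Lib.H10.SzFix
import Cfsg.Agent.Lib.H21.CharCore

/-! The Suzuki group: the minimal degree of a non-trivial complex representation. -/

set_option autoImplicit false
set_option linter.unusedSectionVars false
set_option linter.unusedSimpArgs false
set_option linter.style.haveILetI false

namespace Cfsg.Agent.H10

open Matrix Cfsg Module
open scoped commutatorElement

/-- A representation whose character is supported on a small set has large degree. -/
theorem card_le_of_support {U V : Type*} [Group U] [Fintype U] [AddCommGroup V] [Module ℂ V]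
    [FiniteDimensional ℂ V] [Nontrivial V] (τ : Representation ℂ U V) (S : Finset U)
    (h0 : ∀ u, u ∉ S → τ.character u = 0) : Fintype.card U ≤ S.card * (finrank ℂ V) ^ 2 := by
  classical
  haveI : Invertible ((Nat.card U : ℕ) : ℂ) := invertibleOfNonzero (by exact_mod_cast Nat.card_pos.ne')
  have h := Representation.card_inv_mul_sum_char_mul_char_eq_finrank τ τ
  have hn : 1 ≤ finrank ℂ (Representation.IntertwiningMap τ τ) := by
    haveI : Nontrivial (Representation.IntertwiningMap τ τ) := by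
      refine ⟨⟨Representation.IntertwiningMap.id τ, 0, ?_⟩⟩
      intro h1
      obtain ⟨v, hv⟩ := exists_ne (0 : V)
      have := congrArg (fun f : Representation.IntertwiningMap τ τ => f v) h1
      exact hv (by simpa using this)
    exact Module.finrank_pos
  have hc : ((Nat.card U : ℕ) : ℂ) ≠ 0 := by exact_mod_cast Nat.card_pos.ne'
  have h2 : ∑ g : U, τ.character g * τ.character g⁻¹ =
      ((Nat.card U : ℕ) : ℂ) * (finrank ℂ (Representation.IntertwiningMap τ τ) : ℂ) := by
    rw [← h]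
    field_simp
  have h3 : ∑ g : U, τ.character g * τ.character g⁻¹ = ∑ g ∈ S, τ.character g * τ.character g⁻¹ := by
    symm
    apply Finset.sum_subset (Finset.subset_univ _)
    intro g _ hg
    rw [h0 g hg, zero_mul]
  have h4 : ‖∑ g ∈ S, τ.character g * τ.character g⁻¹‖ ≤ S.card * ((finrank ℂ V : ℝ) ^ 2) := by
    calc ‖∑ g ∈ S, τ.character g * τ.character g⁻¹‖ ≤ ∑ g ∈ S, ‖τ.character g * τ.character g⁻¹‖ := norm_sum_le _ _
      _ ≤ ∑ _g ∈ S, ((finrank ℂ V : ℝ) ^ 2) := by
        apply Finset.sum_le_sum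
        intro g _
        rw [norm_mul, sq]
        exact mul_le_mul (H21.norm_character_le τ g) (H21.norm_character_le τ g⁻¹) (norm_nonneg _) (by positivity)
      _ = _ := by rw [Finset.sum_const, nsmul_eq_mul]
  rw [← h3, h2, norm_mul, Complex.norm_natCast, Complex.norm_natCast] at h4
  have h5 : ((Nat.card U : ℕ) : ℝ) ≤ ((Nat.card U : ℕ) : ℝ) * (finrank ℂ (Representation.IntertwiningMap τ τ) : ℝ) := by
    have : (1 : ℝ) ≤ (finrank ℂ (Representation.IntertwiningMap τ τ) : ℝ) := by exact_mod_cast hn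
    nlinarith [(Nat.cast_nonneg (Nat.card U) : (0 : ℝ) ≤ ((Nat.card U : ℕ) : ℝ))]
  have h6 := h5.trans h4
  rw [Nat.card_eq_fintype_card] at h6
  exact_mod_cast h6

variable {F : Type*} [Field F] [Fintype F] [CharP F 2] {m : ℕ}

lemma addChar_sq (ψ : AddChar F ℂ) (b : F) : ψ b * ψ b = 1 := by
  rw [← AddChar.map_add_eq_mul, sz_add_self, AddChar.map_zero_eq_one]

/-- The commutator form. -/
def szB₂ (m : ℕ) (a c : F) : F := a ^ (2 ^ (m + 1)) * c + c ^ (2 ^ (m + 1)) * a

lemma szB₂_add (a c d : F) : szB₂ m a (c + d) = szB₂ m a c + szB₂ m a d := by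
  simp only [szB₂, sz_add_pow]
  ring

/-- The kernel of the commutator form. -/
lemma szB₂_eq_zero (hF : Fintype.card F = 2 ^ (2 * m + 1)) {a c : F} (ha : a ≠ 0) (h : szB₂ m a c = 0) : c = 0 ∨ c = a := by
  by_cases hc : c = 0
  · exact Or.inl hc
  right
  have h2 : (2 : F) = 0 := sz_two
  have h1 : a ^ (2 ^ (m + 1)) * c = c ^ (2 ^ (m + 1)) * a := by
    simp only [szB₂] at h
    linear_combination h - (c ^ (2 ^ (m + 1)) * a) * h2
  -- `(c / a) ^ σ = c / a`
  have h3 : (c / a) ^ (2 ^ (m + 1)) = c / a := by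
    rw [div_pow, div_eq_div_iff (pow_ne_zero _ ha) ha]
    exact h1.symm.trans (mul_comm _ _)
  have h4 : (c / a) ^ 2 = c / a := by
    have := sz_frob2 hF (c / a)
    rw [h3, h3] at this
    exact this.symm
  have h5 : c / a ≠ 0 := div_ne_zero hc ha
  have h6 : c / a = 1 := by
    have h7 : (c / a) * (c / a) = (c / a) * 1 := by
      rw [mul_one, ← sq]
      exact h4
    exact mul_left_cancel₀ h5 h7
  field_simp at h6
  exact h6

/-- A non-trivial character vanishes on half of the field. -/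
lemma card_ker_addChar (ψ : AddChar F ℂ) (hψ : ψ ≠ 0) [DecidablePred (fun x : F => ψ x = 1)] :
    2 * (Finset.univ.filter (fun x : F => ψ x = 1)).card = Fintype.card F := by
  have h0 := AddChar.sum_eq_zero_iff_ne_zero.2 hψ
  have hval : ∀ x : F, ψ x ≠ 1 → ψ x = -1 := by
    intro x hx
    have h1 : (ψ x - 1) * (ψ x + 1) = 0 := by
      have := addChar_sq ψ x
      linear_combination this
    rcases mul_eq_zero.1 h1 with h2 | h2
    · exact absurd (sub_eq_zero.1 h2) hx
    · linear_combination h2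
  rw [← Finset.sum_filter_add_sum_filter_not Finset.univ (fun x : F => ψ x = 1)] at h0
  rw [Finset.sum_congr rfl (g := fun _ => (1 : ℂ)) (fun x hx => (Finset.mem_filter.1 hx).2),
    Finset.sum_congr rfl (g := fun _ => (-1 : ℂ)) (fun x hx => hval x (Finset.mem_filter.1 hx).2)] at h0
  simp only [Finset.sum_const, nsmul_eq_mul, mul_one, mul_neg] at h0
  have h1 := Finset.card_filter_add_card_filter_not (s := (Finset.univ : Finset F)) (fun x : F => ψ x = 1)
  rw [Finset.card_univ] at h1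
  have h2 : ((Finset.univ.filter (fun x : F => ψ x = 1)).card : ℂ) = ((Finset.univ.filter (fun x : F => ¬ ψ x = 1)).card : ℂ) := by
    linear_combination h0
  have h3 : (Finset.univ.filter (fun x : F => ψ x = 1)).card = (Finset.univ.filter (fun x : F => ¬ ψ x = 1)).card := by
    exact_mod_cast h2
  omega

/-- The elements with trivial character are values of the commutator form. -/
lemma exists_szB₂_eq (hF : Fintype.card F = 2 ^ (2 * m + 1)) (ψ : AddChar F ℂ) (hψ : ψ ≠ 0) {a : F} (ha : a ≠ 0)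
    (h : ∀ c, ψ (szB₂ m a c) = 1) {x : F} (hx : ψ x = 1) : ∃ c, szB₂ m a c = x := by
  classical
  have hK := card_ker_addChar ψ hψ
  set K := Finset.univ.filter (fun x : F => ψ x = 1) with hKdef
  set I := Finset.univ.image (szB₂ m a) with hI
  have hsub : I ⊆ K := by
    intro y hy
    obtain ⟨c, -, rfl⟩ := Finset.mem_image.1 hy
    exact Finset.mem_filter.2 ⟨Finset.mem_univ _, h c⟩
  -- fibres have at most two elements
  have hfib : ∀ y ∈ I, (Finset.univ.filter (fun c => szB₂ m a c = y)).card ≤ 2 := by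
    intro y hy
    obtain ⟨c₀, -, rfl⟩ := Finset.mem_image.1 hy
    have hsub2 : Finset.univ.filter (fun c => szB₂ m a c = szB₂ m a c₀) ⊆ {c₀, c₀ + a} := by
      intro c hc
      have h1 := (Finset.mem_filter.1 hc).2
      have h2 : szB₂ m a (c + c₀) = 0 := by
        rw [szB₂_add, h1, sz_add_self]
      have h3 : c = c₀ + (c + c₀) := by
        rw [add_comm c c₀, ← add_assoc, sz_add_self, zero_add]
      rcases szB₂_eq_zero hF ha h2 with h4 | h4
      · rw [h4, add_zero] at h3
        simp [h3]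
      · rw [h4] at h3
        simp [h3]
    exact (Finset.card_le_card hsub2).trans Finset.card_le_two
  have hcard : Fintype.card F ≤ 2 * I.card := by
    have := Finset.card_le_mul_card_image (Finset.univ : Finset F) 2 (f := szB₂ m a) hfib
    rwa [Finset.card_univ] at this
  have hEq : I = K := Finset.eq_of_subset_of_card_le hsub (by omega)
  have hxK : x ∈ I := by
    rw [hEq]
    exact Finset.mem_filter.2 ⟨Finset.mem_univ _, hx⟩
  obtain ⟨c, -, hc⟩ := Finset.mem_image.1 hxK
  exact ⟨c, hc⟩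

/-- The radical of the form defined by a non-trivial character has at most one non-zero element. -/
theorem radical_unique (hF : Fintype.card F = 2 ^ (2 * m + 1)) (ψ : AddChar F ℂ) (hψ : ψ ≠ 0) {a a' : F} (ha : a ≠ 0)
    (ha' : a' ≠ 0) (h : ∀ c, ψ (szB₂ m a c) = 1) (h' : ∀ c, ψ (szB₂ m a' c) = 1) : a = a' := by
  by_contra hne
  set l := a' / a with hl
  have hl0 : l ≠ 0 := div_ne_zero ha' ha
  have hl1 : l ≠ 1 := by
    intro h1
    apply hne
    rw [hl, div_eq_one_iff_eq ha] at h1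
    exact h1.symm
  set μ := l ^ (2 ^ (m + 1) + 1) with hμ
  have hμ0 : μ ≠ 0 := pow_ne_zero _ hl0
  have hμ1 : μ ≠ 1 := fun h1 => hl1 (sz_pow_eq_one hF hl0 h1)
  have hB : ∀ c, szB₂ m a' (l * c) = μ * szB₂ m a c := by
    intro c
    have e : a' = l * a := by
      rw [hl]
      field_simp
    rw [e]
    simp only [szB₂, mul_pow, hμ, pow_succ l]
    ring
  have hK : ∀ x, ψ x = 1 → ψ (μ * x) = 1 := by
    intro x hx
    obtain ⟨c, rfl⟩ := exists_szB₂_eq hF ψ hψ ha h hx
    rw [← hB]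
    exact h' _
  have hval : ∀ x : F, ψ x ≠ 1 → ψ x = -1 := by
    intro x hx
    have h1 : (ψ x - 1) * (ψ x + 1) = 0 := by
      have := addChar_sq ψ x
      linear_combination this
    rcases mul_eq_zero.1 h1 with h2 | h2
    · exact absurd (sub_eq_zero.1 h2) hx
    · linear_combination h2
  have hne1 : ∀ x, ψ x ≠ 1 → ψ (μ * x) ≠ 1 := by
    intro x₀ hx₀ hμx₀
    have hallμ : ∀ x, ψ (μ * x) = 1 := by
      intro x
      by_cases hx : ψ x = 1
      · exact hK x hx
      · have h1 : ψ (x + x₀) = 1 := by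
          rw [AddChar.map_add_eq_mul, hval x hx, hval x₀ hx₀]
          norm_num
        have h2 := hK _ h1
        rw [mul_add, AddChar.map_add_eq_mul, hμx₀, mul_one] at h2
        exact h2
    apply hψ
    rw [AddChar.eq_zero_iff]
    intro y
    have := hallμ (y / μ)
    rwa [mul_div_cancel₀ _ hμ0] at this
  have heq : ∀ x, ψ (μ * x) = ψ x := by
    intro x
    by_cases hx : ψ x = 1
    · rw [hx]
      exact hK x hx
    · rw [hval x hx, hval _ (hne1 x hx)]
  have hμ2 : μ + 1 ≠ 0 := by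
    intro h1
    apply hμ1
    have h2 : (2 : F) = 0 := sz_two
    linear_combination h1 - h2
  apply hψ
  rw [AddChar.eq_zero_iff]
  intro y
  have h1 : y = μ * (y / (μ + 1)) + y / (μ + 1) := by
    field_simp
  rw [h1, AddChar.map_add_eq_mul, heq, addChar_sq]

section rep

variable {V : Type*} [AddCommGroup V] [Module ℂ V] (hF : Fintype.card F = 2 ^ (2 * m + 1))
  (ρ : Representation ℂ ↥(Sz F m) V)

/-- The simultaneous eigenspace of the centre of `U`. -/
def zW (ψ : AddChar F ℂ) : Submodule ℂ V where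
  carrier := {v | ∀ b : F, ρ (uG hF 0 b) v = ψ b • v}
  add_mem' := by
    intro v w hv hw b
    rw [map_add, hv b, hw b, smul_add]
  zero_mem' := by
    intro b
    simp
  smul_mem' := by
    intro c v hv b
    rw [map_smul, hv b, smul_comm]

lemma uG_zero_add (b c : F) : uG hF (0 : F) b * uG hF 0 c = uG hF 0 (b + c) := by
  rw [uG_mul, add_zero, zero_pow (by positivity), zero_mul, add_zero]

/-- The projection on an eigenspace. -/
noncomputable def zP (ψ : AddChar F ℂ) : V →ₗ[ℂ] V :=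
  ((Fintype.card F : ℂ)⁻¹) • ∑ b : F, ψ b • ρ (uG hF 0 b)

lemma zP_mem (ψ : AddChar F ℂ) (v : V) : zP hF ρ ψ v ∈ zW hF ρ ψ := by
  intro c
  have h1 : ∀ b : F, ρ (uG hF 0 c) (ψ b • ρ (uG hF 0 b) v) = ψ c • (ψ (c + b) • ρ (uG hF 0 (c + b)) v) := by
    intro b
    have e1 : ρ (uG hF 0 c) (ρ (uG hF 0 b) v) = ρ (uG hF 0 (c + b)) v := by
      rw [← uG_zero_add hF, map_mul]
      rfl
    rw [map_smul, e1, smul_smul, AddChar.map_add_eq_mul, ← mul_assoc, addChar_sq, one_mul]
  have h2 : ∑ b : F, ρ (uG hF 0 c) (ψ b • ρ (uG hF 0 b) v) = ψ c • ∑ b : F, ψ b • ρ (uG hF 0 b) v := by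
    simp_rw [h1]
    rw [← Finset.smul_sum]
    congr 1
    exact Equiv.sum_comp (Equiv.addLeft c) (fun b => ψ b • ρ (uG hF 0 b) v)
  simp only [zP, LinearMap.smul_apply, LinearMap.sum_apply, map_smul, map_sum] at h2 ⊢
  rw [h2, smul_comm]

lemma zP_id (ψ : AddChar F ℂ) {v : V} (hv : v ∈ zW hF ρ ψ) : zP hF ρ ψ v = v := by
  have hq : (Fintype.card F : ℂ) ≠ 0 := by exact_mod_cast Fintype.card_ne_zero
  simp only [zP, LinearMap.smul_apply, LinearMap.sum_apply]
  have h1 : ∀ b : F, ψ b • ρ (uG hF 0 b) v = v := by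
    intro b
    rw [hv b, smul_smul, addChar_sq, one_smul]
  simp_rw [h1]
  rw [Finset.sum_const, Finset.card_univ, ← Nat.cast_smul_eq_nsmul ℂ, smul_smul, inv_mul_cancel₀ hq, one_smul]

lemma zP_isProj (ψ : AddChar F ℂ) : LinearMap.IsProj (zW hF ρ ψ) (zP hF ρ ψ) :=
  ⟨zP_mem hF ρ ψ, fun _ hv => zP_id hF ρ ψ hv⟩

variable [FiniteDimensional ℂ V]

/-- The dimension formula. -/
lemma finrank_zW (ψ : AddChar F ℂ) :
    (Fintype.card F : ℂ) * (finrank ℂ (zW hF ρ ψ) : ℂ) = ∑ b : F, ψ b * ρ.character (uG hF 0 b) := by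
  have hq : (Fintype.card F : ℂ) ≠ 0 := by exact_mod_cast Fintype.card_ne_zero
  have h := (zP_isProj hF ρ ψ).trace
  rw [← h]
  simp only [zP, map_smul, map_sum, smul_eq_mul, Representation.character]
  field_simp

/-- The value of the character on the centre of `U` is constant. -/
lemma character_zG (b : F) (hb : b ≠ 0) :
    ρ.character (uG hF 0 b) = ρ.character (uG hF 0 1) := by
  obtain ⟨l, hl⟩ := exists_pow_eq hF b
  have hl0 : l ≠ 0 := by
    rintro rfl
    rw [zero_pow (by positivity)] at hl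
    exact hb hl.symm
  have h1 : hG hF (Units.mk0 l hl0) * uG hF 0 1 * (hG hF (Units.mk0 l hl0))⁻¹ = uG hF 0 b := by
    rw [hG_uG, mul_assoc, mul_inv_cancel, mul_one, mul_zero, mul_one]
    simp [hl]
  rw [← h1, Representation.char_conj]

/-- The two dimensions add up. -/
theorem dim_formula (ψ : AddChar F ℂ) (hψ : ψ ≠ 0) :
    finrank ℂ (zW hF ρ (0 : AddChar F ℂ)) + (Fintype.card F - 1) * finrank ℂ (zW hF ρ ψ) = finrank ℂ V := by
  classical
  have hq : (Fintype.card F : ℂ) ≠ 0 := by exact_mod_cast Fintype.card_ne_zero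
  have hq1 : 1 ≤ Fintype.card F := Fintype.card_pos
  set α := ρ.character (uG hF 0 1) with hα
  set k : ℂ := (finrank ℂ V : ℂ) with hk
  have h0 : ρ.character (uG hF 0 (0 : F)) = k := by
    rw [uG_zero, Representation.char_one]
  -- split the sums
  have hsplit : ∀ f : AddChar F ℂ, ∑ b : F, f b * ρ.character (uG hF 0 b) = k + α * (∑ b : F, f b - 1) := by
    intro f
    rw [← Finset.add_sum_erase Finset.univ _ (Finset.mem_univ (0 : F)), h0, AddChar.map_zero_eq_one, one_mul]
    congr 1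
    rw [← Finset.add_sum_erase Finset.univ (fun b => f b) (Finset.mem_univ (0 : F)), AddChar.map_zero_eq_one,
      add_sub_cancel_left, Finset.mul_sum]
    apply Finset.sum_congr rfl
    intro b hb
    rw [character_zG hF ρ b (Finset.ne_of_mem_erase hb), mul_comm]
  have e1 := finrank_zW hF ρ ψ
  have e2 := finrank_zW hF ρ (0 : AddChar F ℂ)
  rw [hsplit] at e1 e2
  rw [AddChar.sum_eq_zero_iff_ne_zero.2 hψ] at e1
  have e3 : ∑ b : F, (0 : AddChar F ℂ) b = (Fintype.card F : ℂ) := by
    simp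
  rw [e3] at e2
  have e4 : ((Fintype.card F - 1 : ℕ) : ℂ) = (Fintype.card F : ℂ) - 1 := by
    rw [Nat.cast_sub hq1, Nat.cast_one]
  have e5 : (Fintype.card F : ℂ) * (((finrank ℂ (zW hF ρ (0 : AddChar F ℂ)) + (Fintype.card F - 1) * finrank ℂ (zW hF ρ ψ) : ℕ)) : ℂ)
      = (Fintype.card F : ℂ) * (finrank ℂ V : ℂ) := by
    push_cast
    rw [e4, ← hk]
    linear_combination e2 + ((Fintype.card F : ℂ) - 1) * e1
  have e6 := mul_left_cancel₀ hq e5
  exact_mod_cast e6

/-- The representation of `U` on an eigenspace. -/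
noncomputable def zRep (ψ : AddChar F ℂ) : Representation ℂ ↥(szUG hF) (zW hF ρ ψ) :=
  Subrepresentation.toRepresentation (ρ := ρ.comp (szUG hF).subtype) ⟨zW hF ρ ψ, by
    rintro ⟨u, a, c, rfl⟩ v hv b
    show ρ (uG hF 0 b) (ρ (uG hF a c) v) = ψ b • ρ (uG hF a c) v
    have e1 : ρ (uG hF 0 b) (ρ (uG hF a c) v) = ρ (uG hF a c) (ρ (uG hF 0 b) v) := by
      have h1 := congrArg ρ (uG_zero_mem_center hF b a c)
      rw [map_mul, map_mul] at h1
      exact congrArg (fun f : Module.End ℂ V => f v) h1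
    rw [e1, hv b, map_smul]⟩

lemma zRep_apply (ψ : AddChar F ℂ) (u : ↥(szUG hF)) (v : zW hF ρ ψ) :
    ((zRep hF ρ ψ u v : zW hF ρ ψ) : V) = ρ (u : ↥(Sz F m)) v := rfl

/-- On an eigenspace the centre acts by scalars: the character of `U` vanishes where the form is non-trivial. -/
lemma zRep_character_eq_zero (ψ : AddChar F ℂ) (a b c : F)
    (hne : ψ (a ^ (2 ^ (m + 1)) * c + c ^ (2 ^ (m + 1)) * a) ≠ 1) :
    (zRep hF ρ ψ).character (⟨uG hF a b, uG_mem hF a b⟩ : ↥(szUG hF)) = 0 := by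
  set τ := zRep hF ρ ψ with hτ
  set u : ↥(szUG hF) := ⟨uG hF a b, uG_mem hF a b⟩ with hu
  set x : ↥(szUG hF) := ⟨uG hF c 0, uG_mem hF c 0⟩ with hx
  set e := a ^ (2 ^ (m + 1)) * c + c ^ (2 ^ (m + 1)) * a with he
  have h1 : uG hF c 0 * uG hF a b * (uG hF c 0)⁻¹ = uG hF 0 e * uG hF a b := by
    have h2 := uG_comm hF c 0 a b
    rw [commutatorElement_def] at h2
    have h3 : c ^ (2 ^ (m + 1)) * a + a ^ (2 ^ (m + 1)) * c = e := add_comm _ _
    rw [h3] at h2
    rw [← h2]
    group
  have h4 : (x * u * x⁻¹ : ↥(szUG hF)) = ⟨uG hF 0 e, uG_mem hF 0 e⟩ * u := Subtype.ext h1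
  have h5 : τ (⟨uG hF 0 e, uG_mem hF 0 e⟩ : ↥(szUG hF)) = ψ e • (1 : Module.End ℂ (zW hF ρ ψ)) := by
    ext v
    exact v.2 e
  have h6 : τ.character u = ψ e * τ.character u := by
    conv_lhs => rw [← Representation.char_conj τ u x, h4]
    rw [Representation.character, map_mul, h5, smul_mul_assoc, one_mul, map_smul, smul_eq_mul]
    rfl
  have h7 : (1 - ψ e) * τ.character u = 0 := by
    rw [sub_mul, one_mul, sub_eq_zero]
    exact h6
  rcases mul_eq_zero.1 h7 with h8 | h8
  · exact absurd (sub_eq_zero.1 h8).symm hne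
  · exact h8

end rep

/-- The degree bound for non-trivial representations. -/
theorem degree_bound (hm : 1 ≤ m) (hF : Fintype.card F = 2 ^ (2 * m + 1)) {V : Type*} [AddCommGroup V] [Module ℂ V]
    [FiniteDimensional ℂ V] (ρ : Representation ℂ ↥(Sz F m) V) (hnt : ∃ g, ρ g ≠ 1) :
    2 ^ m * (2 ^ (2 * m + 1) - 1) ≤ finrank ℂ V := by
  classical
  obtain ⟨ψ, hψ1⟩ := (AddChar.exists_apply_ne_zero (a := (1 : F))).2 one_ne_zero
  have hψ : ψ ≠ 0 := by
    intro h
    apply hψ1
    rw [h]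
    simp
  have hdim := dim_formula hF ρ ψ hψ
  rw [hF] at hdim
  have hq : 2 ^ (2 * 1 + 1) ≤ 2 ^ (2 * m + 1) := Nat.pow_le_pow_right (by norm_num) (by omega)
  -- the eigenspace is non-zero
  have hd : finrank ℂ (zW hF ρ ψ) ≠ 0 := by
    intro h0
    rw [h0, mul_zero, add_zero] at hdim
    have htop : zW hF ρ (0 : AddChar F ℂ) = ⊤ := Submodule.eq_top_of_finrank_eq hdim
    have h1 : ρ (uG hF (0 : F) 1) = 1 := by
      ext v
      have hv : v ∈ zW hF ρ (0 : AddChar F ℂ) := by rw [htop]; trivial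
      have := hv 1
      simpa using this
    haveI := isSimple_Sz (F := F) hm hF
    have hker : ρ.ker = ⊤ := by
      rcases IsSimpleGroup.eq_bot_or_eq_top_of_normal ρ.ker (MonoidHom.normal_ker ρ) with h2 | h2
      · exfalso
        have h3 : uG hF (0 : F) 1 ∈ ρ.ker := h1
        rw [h2, Subgroup.mem_bot, ← uG_zero hF] at h3
        exact one_ne_zero (uG_inj hF h3).2
      · exact h2
    obtain ⟨g, hg⟩ := hnt
    apply hg
    have : g ∈ ρ.ker := by rw [hker]; trivial
    exact this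
  haveI : Nontrivial (zW hF ρ ψ) := Module.nontrivial_of_finrank_pos (R := ℂ) (Nat.pos_of_ne_zero hd)
  letI : Fintype ↥(szUG hF) := Fintype.ofFinite _
  -- the radical
  let R : Finset F := Finset.univ.filter (fun a => ∀ c, ψ (szB₂ m a c) = 1)
  have hRcard : R.card ≤ 2 := by
    by_cases hex : ∃ a ∈ R, a ≠ 0
    · obtain ⟨a, ha, ha0⟩ := hex
      have hsub : R ⊆ {0, a} := by
        intro a' ha'
        by_cases h0 : a' = 0
        · simp [h0]
        · have := radical_unique hF ψ hψ ha0 h0 (Finset.mem_filter.1 ha).2 (Finset.mem_filter.1 ha').2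
          simp [this]
      exact (Finset.card_le_card hsub).trans Finset.card_le_two
    · push Not at hex
      have hsub : R ⊆ {0} := by
        intro a' ha'
        simp [hex a' ha']
      have := Finset.card_le_card hsub
      simp at this
      omega
  let f : F × F → ↥(szUG hF) := fun t => ⟨uG hF t.1 t.2, uG_mem hF _ _⟩
  let S : Finset ↥(szUG hF) := (R ×ˢ (Finset.univ : Finset F)).image f
  have hS : S.card ≤ 2 * 2 ^ (2 * m + 1) := by
    calc S.card ≤ (R ×ˢ (Finset.univ : Finset F)).card := Finset.card_image_le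
      _ = R.card * Fintype.card F := by rw [Finset.card_product, Finset.card_univ]
      _ ≤ 2 * 2 ^ (2 * m + 1) := by
        rw [hF]
        exact Nat.mul_le_mul_right _ hRcard
  have hsupp : ∀ u, u ∉ S → (zRep hF ρ ψ).character u = 0 := by
    rintro ⟨_, a, b, rfl⟩ hu
    have ha : a ∉ R := by
      intro h
      exact hu (Finset.mem_image.2 ⟨(a, b), Finset.mem_product.2 ⟨h, Finset.mem_univ _⟩, rfl⟩)
    have : ∃ c, ψ (szB₂ m a c) ≠ 1 := by
      by_contra hcon
      push Not at hcon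
      exact ha (Finset.mem_filter.2 ⟨Finset.mem_univ _, hcon⟩)
    obtain ⟨c, hc⟩ := this
    exact zRep_character_eq_zero hF ρ ψ a b c hc
  have hmain := card_le_of_support (zRep hF ρ ψ) S hsupp
  have hcardU : Fintype.card ↥(szUG hF) = (2 ^ (2 * m + 1)) ^ 2 := by
    rw [← Nat.card_eq_fintype_card, card_szUG]
  rw [hcardU] at hmain
  set d := finrank ℂ (zW hF ρ ψ) with hdd
  have h1 : (2 ^ (2 * m + 1)) ^ 2 ≤ 2 * 2 ^ (2 * m + 1) * d ^ 2 :=
    hmain.trans (Nat.mul_le_mul_right _ hS)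
  have hqpos : 0 < 2 ^ (2 * m + 1) := by positivity
  have h2 : 2 ^ (2 * m + 1) ≤ 2 * d ^ 2 := by
    apply Nat.le_of_mul_le_mul_left _ hqpos
    calc 2 ^ (2 * m + 1) * 2 ^ (2 * m + 1) = (2 ^ (2 * m + 1)) ^ 2 := by ring
      _ ≤ 2 * 2 ^ (2 * m + 1) * d ^ 2 := h1
      _ = _ := by ring
  have h3 : (2 ^ m) ^ 2 ≤ d ^ 2 := by
    have : 2 ^ (2 * m + 1) = 2 * (2 ^ m) ^ 2 := by
      rw [← pow_mul]
      ring
    omega
  have h4 : 2 ^ m ≤ d := (Nat.pow_le_pow_iff_left (by norm_num)).1 h3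
  calc 2 ^ m * (2 ^ (2 * m + 1) - 1) ≤ d * (2 ^ (2 * m + 1) - 1) := Nat.mul_le_mul_right _ h4
    _ = (2 ^ (2 * m + 1) - 1) * d := mul_comm _ _
    _ ≤ finrank ℂ V := by omega


end Cfsg.Agent.H10
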