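import Mathlib
import Cfsg.Agent.Lib.H10.SzSol4

/-! The solubilizers of the Suzuki groups: the counts. -/

set_option autoImplicit false
set_option linter.unusedSectionVars false
set_option linter.unusedSimpArgs false
set_option linter.style.haveILetI false

namespace Cfsg.Agent.H10

open Matrix Cfsg

lemma a_mul_e {G : Type*} [Group G] [Finite G] {K₀ : Subgroup G} {e : ℕ} (hK : IsTor K₀ e) (𝓞 : Finset (Subgroup G))
    (h𝓞 : ∀ K, K ∈ 𝓞 ↔ ∃ g : G, K = K₀.map (MulAut.conj g).toMonoidHom) (C : Finset G)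
    (hC : ∀ g : G, ∀ y ∈ C, g * y * g⁻¹ ∈ C) [∀ (y : G) (K : Subgroup G), Decidable (y ∈ Subgroup.normalizer (K : Set G))]
    (a : ℕ) (ha : ∀ y ∈ C, (𝓞.filter (fun K : Subgroup G => y ∈ Subgroup.normalizer (K : Set G))).card = a) :
    C.card * a * (e * Nat.card K₀) = Nat.card G * (C.filter (fun y => y ∈ Subgroup.normalizer (K₀ : Set G))).card := by
  have h1 := double_count_sub K₀ 𝓞 h𝓞 C hC a ha
  have h2 := card_conj_orbit K₀ 𝓞 h𝓞
  rw [hK.card] at h2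
  rw [h1, ← h2]
  ring

variable {F : Type*} [Field F] [Fintype F] [CharP F 2] {m : ℕ}

section values

variable {K₀ : Subgroup ↥(Sz F m)} {e : ℕ} (𝓞 : Finset (Subgroup ↥(Sz F m)))

/-- The number of tori of a given class normalised by an involution. -/
lemma invol_a_e (hm : 1 ≤ m) (hF : Fintype.card F = 2 ^ (2 * m + 1)) (hK : IsTor K₀ e)
    (h𝓞 : ∀ K, K ∈ 𝓞 ↔ ∃ g : ↥(Sz F m), K = K₀.map (MulAut.conj g).toMonoidHom) {x : ↥(Sz F m)} (hx : x * x = 1)
    (hx1 : x ≠ 1) [DecidablePred (fun K : Subgroup ↥(Sz F m) => x ∈ Subgroup.normalizer (K : Set ↥(Sz F m)))] :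
    (𝓞.filter (fun K : Subgroup ↥(Sz F m) => x ∈ Subgroup.normalizer (K : Set ↥(Sz F m)))).card * e = (2 ^ (2 * m + 1)) ^ 2 := by
  classical
  haveI : Fintype ↥(Sz F m) := Fintype.ofFinite _
  set I : Finset ↥(Sz F m) := Finset.univ.filter (fun y : ↥(Sz F m) => y * y = 1 ∧ y ≠ 1) with hI
  set a := (𝓞.filter (fun K : Subgroup ↥(Sz F m) => x ∈ Subgroup.normalizer (K : Set ↥(Sz F m)))).card with ha
  have hC : ∀ g : ↥(Sz F m), ∀ y ∈ I, g * y * g⁻¹ ∈ I := by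
    intro g y hy
    obtain ⟨h1, h2⟩ := (Finset.mem_filter.1 hy).2
    refine Finset.mem_filter.2 ⟨Finset.mem_univ _, ?_, ?_⟩
    · calc g * y * g⁻¹ * (g * y * g⁻¹) = g * (y * y) * g⁻¹ := by group
        _ = 1 := by rw [h1]; group
    · intro h
      apply h2
      have e : y = g⁻¹ * (g * y * g⁻¹) * g := by group
      rw [e, h]
      group
  have hconst : ∀ y ∈ I, (𝓞.filter (fun K : Subgroup ↥(Sz F m) => y ∈ Subgroup.normalizer (K : Set ↥(Sz F m)))).card = a := by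
    intro y hy
    obtain ⟨h1, h2⟩ := (Finset.mem_filter.1 hy).2
    obtain ⟨g, hg⟩ := invol_conj hm hF h1 h2
    obtain ⟨g', hg'⟩ := invol_conj hm hF hx hx1
    have e1 : y = (g⁻¹ * g') * x * (g⁻¹ * g')⁻¹ := by
      calc y = g⁻¹ * (g * y * g⁻¹) * g := by group
        _ = g⁻¹ * (g' * x * g'⁻¹) * g := by rw [hg, hg']
        _ = _ := by group
    rw [e1, ha]
    convert card_filter_conj K₀ 𝓞 h𝓞 (g⁻¹ * g') x
  have h1 := a_mul_e hK 𝓞 h𝓞 I hC a hconst
  have h2 : (I.filter (fun y => y ∈ Subgroup.normalizer (K₀ : Set ↥(Sz F m)))).card = Nat.card K₀ := by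
    rw [← hK.card_invol, Nat.card_eq_fintype_card, Fintype.card_subtype, hI, Finset.filter_filter]
    congr 1
    ext y
    simp only [Finset.mem_filter, Finset.mem_univ, true_and]
    tauto
  have h3 : I.card = ((2 ^ (2 * m + 1)) ^ 2 + 1) * (2 ^ (2 * m + 1) - 1) := by
    rw [hI]
    convert card_invol_Sz hm hF
  rw [h2, h3, card_Sz hm hF] at h1
  have hq1 : 0 < 2 ^ (2 * m + 1) - 1 := by
    have : 2 ^ 1 ≤ 2 ^ (2 * m + 1) := Nat.pow_le_pow_right (by norm_num) (by omega)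
    omega
  have hn : 0 < Nat.card K₀ := Nat.card_pos
  have hpos : 0 < ((2 ^ (2 * m + 1)) ^ 2 + 1) * (2 ^ (2 * m + 1) - 1) * Nat.card K₀ := by positivity
  apply Nat.eq_of_mul_eq_mul_right hpos
  rw [show a * e * (((2 ^ (2 * m + 1)) ^ 2 + 1) * (2 ^ (2 * m + 1) - 1) * Nat.card K₀) =
      ((2 ^ (2 * m + 1)) ^ 2 + 1) * (2 ^ (2 * m + 1) - 1) * a * (e * Nat.card K₀) by ring, h1]
  ring

/-- The number of tori of a given class normalised by an element of order four. -/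
lemma four_a_e (hm : 1 ≤ m) (hF : Fintype.card F = 2 ^ (2 * m + 1)) (hK : IsTor K₀ e)
    (h𝓞 : ∀ K, K ∈ 𝓞 ↔ ∃ g : ↥(Sz F m), K = K₀.map (MulAut.conj g).toMonoidHom) {x : ↥(Sz F m)} (hx : orderOf x = 4)
    [DecidablePred (fun K : Subgroup ↥(Sz F m) => x ∈ Subgroup.normalizer (K : Set ↥(Sz F m)))] :
    (𝓞.filter (fun K : Subgroup ↥(Sz F m) => x ∈ Subgroup.normalizer (K : Set ↥(Sz F m)))).card * e =
      2 ^ (2 * m + 1) * (e - 2) := by
  classical
  haveI : Fintype ↥(Sz F m) := Fintype.ofFinite _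
  set I : Finset ↥(Sz F m) := Finset.univ.filter (fun y : ↥(Sz F m) => orderOf y = 4) with hI
  set a := (𝓞.filter (fun K : Subgroup ↥(Sz F m) => x ∈ Subgroup.normalizer (K : Set ↥(Sz F m)))).card with ha
  have hC : ∀ g : ↥(Sz F m), ∀ y ∈ I, g * y * g⁻¹ ∈ I := by
    intro g y hy
    have h1 := (Finset.mem_filter.1 hy).2
    refine Finset.mem_filter.2 ⟨Finset.mem_univ _, ?_⟩
    have h7 := (MulAut.conj g).orderOf_eq y
    rw [MulAut.conj_apply] at h7
    exact h7.trans h1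
  -- the count only depends on the element up to conjugacy and inversion
  let a' : ↥(Sz F m) → ℕ := fun z => (𝓞.filter (fun K : Subgroup ↥(Sz F m) => z ∈ Subgroup.normalizer (K : Set ↥(Sz F m)))).card
  have ha'conj : ∀ g z, a' (g * z * g⁻¹) = a' z := fun g z => card_filter_conj K₀ 𝓞 h𝓞 g z
  have ha'inv : ∀ z, a' z⁻¹ = a' z := by
    intro z
    apply congrArg Finset.card
    ext K
    simp only [Finset.mem_filter, Subgroup.inv_mem_iff]
  have hclass : ∀ y, orderOf y = 4 → a' y = a' (uG hF 1 0) := by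
    intro y hy
    obtain ⟨g, hg | hg⟩ := order_four_conj hm hF hy
    · rw [← hg, ha'conj]
    · rw [← ha'inv (uG hF 1 0), ← hg, ha'conj]
  have hconst : ∀ y ∈ I, (𝓞.filter (fun K : Subgroup ↥(Sz F m) => y ∈ Subgroup.normalizer (K : Set ↥(Sz F m)))).card = a := by
    intro y hy
    have h1 := (Finset.mem_filter.1 hy).2
    have h2 := (hclass y h1).trans (hclass x hx).symm
    rw [ha]
    convert h2
  have h1 := a_mul_e hK 𝓞 h𝓞 I hC a hconst
  have h2 : (I.filter (fun y => y ∈ Subgroup.normalizer (K₀ : Set ↥(Sz F m)))).card = (e - 2) * Nat.card K₀ := by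
    rw [← hK.card_order_four, Nat.card_eq_fintype_card, Fintype.card_subtype, hI, Finset.filter_filter]
    congr 1
    ext y
    simp only [Finset.mem_filter, Finset.mem_univ, true_and]
    tauto
  have h3 : I.card = ((2 ^ (2 * m + 1)) ^ 2 + 1) * ((2 ^ (2 * m + 1) - 1) * 2 ^ (2 * m + 1)) := by
    rw [hI]
    convert card_order_four_Sz hm hF
  rw [h2, h3, card_Sz hm hF] at h1
  have hq1 : 0 < 2 ^ (2 * m + 1) - 1 := by
    have : 2 ^ 1 ≤ 2 ^ (2 * m + 1) := Nat.pow_le_pow_right (by norm_num) (by omega)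
    omega
  have hn : 0 < Nat.card K₀ := Nat.card_pos
  have hpos : 0 < ((2 ^ (2 * m + 1)) ^ 2 + 1) * ((2 ^ (2 * m + 1) - 1) * 2 ^ (2 * m + 1)) * Nat.card K₀ := by positivity
  apply Nat.eq_of_mul_eq_mul_right hpos
  rw [show a * e * (((2 ^ (2 * m + 1)) ^ 2 + 1) * ((2 ^ (2 * m + 1) - 1) * 2 ^ (2 * m + 1)) * Nat.card K₀) =
      ((2 ^ (2 * m + 1)) ^ 2 + 1) * ((2 ^ (2 * m + 1) - 1) * 2 ^ (2 * m + 1)) * a * (e * Nat.card K₀) by ring, h1]
  ring

end values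

/-- The solubilizer of an involution. -/
theorem sol_invol (hm : 1 ≤ m) (hF : Fintype.card F = 2 ^ (2 * m + 1)) {x : ↥(Sz F m)} (hx : x * x = 1) (hx1 : x ≠ 1) :
    Nat.card {y : ↥(Sz F m) // Group.IsSolvable ↥(Subgroup.closure ({x, y} : Set ↥(Sz F m)))} =
      (2 ^ (2 * m + 1)) ^ 2 * (4 * 2 ^ (2 * m + 1) - 3) := by
  classical
  obtain ⟨D⟩ := exists_szTD (F := F) hm hF
  have h4 : x ^ 4 = 1 := by
    calc x ^ 4 = (x * x) * (x * x) := by simp only [pow_succ, pow_zero, one_mul, mul_assoc]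
      _ = 1 := by rw [hx, one_mul]
  rw [D.card_sol hm hx1 h4]
  have hT := invol_a_e D.𝓞T hm hF (isTor_szTwo hm hF inf_mem_ovoid (szPt_mem_ovoid _ _) (szPt_ne_inf (m := m) (0 : F) 0).symm) D.hT hx hx1
  have h1 := invol_a_e D.𝓞₁ hm hF (isTor_isSzA hm hF D.hA₁) D.h₁ hx hx1
  have h2 := invol_a_e D.𝓞₂ hm hF (isTor_isSzA hm hF D.hA₂) D.h₂ hx hx1
  obtain ⟨hb1, hb2⟩ := sz_q_bounds (m := m) hm
  have h_2 : ∀ a b : ℕ, a * (2 * b) = (a * 2) * b := fun a b => by ring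
  have h_4 : ∀ a b : ℕ, a * (4 * b) = (a * 4) * b := fun a b => by ring
  rw [h_2, h_4, h_4, hT, h1, h2, ← mul_add, ← mul_add, ← mul_add]
  congr 1
  omega

/-- The solubilizer of an element of order four. -/
theorem sol_four (hm : 1 ≤ m) (hF : Fintype.card F = 2 ^ (2 * m + 1)) {x : ↥(Sz F m)} (hx : orderOf x = 4) :
    Nat.card {y : ↥(Sz F m) // Group.IsSolvable ↥(Subgroup.closure ({x, y} : Set ↥(Sz F m)))} =
      (2 ^ (2 * m + 1)) ^ 2 * (2 ^ (2 * m + 1) + 3) := by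
  classical
  obtain ⟨D⟩ := exists_szTD (F := F) hm hF
  have h4 : x ^ 4 = 1 := by
    have := pow_orderOf_eq_one x
    rwa [hx] at this
  have hx1 : x ≠ 1 := by
    rintro rfl
    rw [orderOf_one] at hx
    omega
  rw [D.card_sol hm hx1 h4]
  have hT := four_a_e D.𝓞T hm hF (isTor_szTwo hm hF inf_mem_ovoid (szPt_mem_ovoid _ _) (szPt_ne_inf (m := m) (0 : F) 0).symm) D.hT hx
  have h1 := four_a_e D.𝓞₁ hm hF (isTor_isSzA hm hF D.hA₁) D.h₁ hx
  have h2 := four_a_e D.𝓞₂ hm hF (isTor_isSzA hm hF D.hA₂) D.h₂ hx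
  obtain ⟨hb1, hb2⟩ := sz_q_bounds (m := m) hm
  have h_2 : ∀ a b : ℕ, a * (2 * b) = (a * 2) * b := fun a b => by ring
  have h_4 : ∀ a b : ℕ, a * (4 * b) = (a * 4) * b := fun a b => by ring
  rw [h_2, h_4, h_4, hT, h1, h2]
  set q := 2 ^ (2 * m + 1) with hq
  set r := 2 ^ (m + 1) with hr
  obtain ⟨s, hs⟩ : ∃ s, q = s + r := ⟨q - r, by omega⟩
  obtain ⟨t, ht⟩ : ∃ t, q = t + 1 := ⟨q - 1, by omega⟩
  have e1 : q - r = s := by omega
  have e2 : q - 1 = t := by omega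
  have e3 : (4 : ℕ) - 2 = 2 := rfl
  have e4 : (2 : ℕ) - 2 = 0 := rfl
  rw [e1, e2, e3, e4]
  nlinarith [hs, ht]

end Cfsg.Agent.H10
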