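import Mathlib
import Cfsg.Agent.Lib.H10.SzSol5

/-! The solubilizers of the Suzuki groups: elements of odd order. -/

set_option autoImplicit false
set_option linter.unusedSectionVars false
set_option linter.unusedSimpArgs false
set_option linter.style.haveILetI false

namespace Cfsg.Agent.H10

open Matrix Cfsg

variable {F : Type*} [Field F] [Fintype F] [CharP F 2] {m : ℕ}

lemma PrePair.swap {c d : Projectivization F (Fin 4 → F)} {y : ↥(Sz F m)} (h : PrePair c d y) : PrePair d c y := by
  rcases h with ⟨h1, h2⟩ | ⟨h1, h2⟩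
  · exact Or.inl ⟨h2, h1⟩
  · exact Or.inr ⟨h2, h1⟩

/-- The solubilizer of a non-identity element of order dividing `q - 1`. -/
theorem sol_T (hm : 1 ≤ m) (hF : Fintype.card F = 2 ^ (2 * m + 1)) {x : ↥(Sz F m)} (hx1 : x ≠ 1)
    (hxd : orderOf x ∣ 2 ^ (2 * m + 1) - 1) :
    Nat.card {y : ↥(Sz F m) // Group.IsSolvable ↥(Subgroup.closure ({x, y} : Set ↥(Sz F m)))} =
      2 * (2 ^ (2 * m + 1)) ^ 2 * (2 ^ (2 * m + 1) - 1) := by
  classical
  haveI : Fintype ↥(Sz F m) := Fintype.ofFinite _
  have hxn : x ^ (2 ^ (2 * m + 1) - 1) = 1 := orderOf_dvd_iff_pow_eq_one.1 hxd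
  have hodd := odd_q_sub_one m
  -- `x` fixes a point
  have hfix : ∃ c ∈ suzukiOvoid F m, x • c = c := by
    by_contra hcon
    have hfpf : IsFpf x := by
      intro c hc h
      exact hcon ⟨c, hc, h⟩
    have hA : IsSzA (Subgroup.centralizer ({x} : Set ↥(Sz F m))) := ⟨x, hfpf, rfl⟩
    have hxA : x ∈ Subgroup.centralizer ({x} : Set ↥(Sz F m)) := Subgroup.mem_centralizer_singleton_iff.2 rfl
    have h1 : orderOf x ∣ Nat.card (Subgroup.centralizer ({x} : Set ↥(Sz F m))) := by
      rw [← Subgroup.orderOf_mk x hxA]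
      exact orderOf_dvd_natCard _
    have h2 : orderOf x ∣ Nat.gcd (2 ^ (2 * m + 1) - 1) ((2 ^ (2 * m + 1)) ^ 2 + 1) :=
      Nat.dvd_gcd hxd (h1.trans (hA.card_dvd hm hF))
    rw [coprime_q_sub_one m, Nat.dvd_one, orderOf_eq_one_iff] at h2
    exact hx1 h2
  obtain ⟨c, hc, hxc⟩ := hfix
  obtain ⟨d, hd, hdc, hxd'⟩ := exists_other_fix hm hF hx1 hodd hxn hc hxc
  have hcd : c ≠ d := Ne.symm hdc
  have hT := isTor_szTwo (m := m) hm hF hc hd hcd
  -- the solubilizer
  have hsol : ∀ y, Group.IsSolvable ↥(Subgroup.closure ({x, y} : Set ↥(Sz F m))) ↔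
      y • c = c ∨ y • d = d ∨ (y • c = d ∧ y • d = c) := by
    intro y
    constructor
    · intro hs
      rcases exists_of_solvable hm hF hx1 hs with ⟨p, hp, h5, h6⟩ | ⟨c', d', hc', hd', hcd', h5, h6⟩ | ⟨A, hA, h5, h6⟩
      · rcases fix_three_G hm hF hx1 hc hd hp hxc hxd' h5 with h | h | h
        · exact absurd h hcd
        · right; left
          rw [h]
          exact h6
        · left
          rw [h]
          exact h6
      · have hT' := isTor_szTwo (m := m) hm hF hc' hd' hcd'
        have hxK := hT'.mem_of_odd h5 hodd hxn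
        obtain ⟨h7, h8⟩ := mem_szTwo.1 hxK
        have hP := prePair_of_normalizer hm hF hc' hd' hcd' h6
        -- the two pairs agree
        have hcc : c' = c ∨ c' = d := by
          rcases fix_three_G hm hF hx1 hc hd hc' hxc hxd' h7 with h | h | h
          · exact absurd h hcd
          · exact Or.inr h.symm
          · exact Or.inl h.symm
        have hdd : d' = c ∨ d' = d := by
          rcases fix_three_G hm hF hx1 hc hd hd' hxc hxd' h8 with h | h | h
          · exact absurd h hcd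
          · exact Or.inr h.symm
          · exact Or.inl h.symm
        have hP' : PrePair c d y := by
          rcases hcc with rfl | rfl <;> rcases hdd with rfl | rfl
          · exact absurd rfl hcd'
          · exact hP
          · exact hP.swap
          · exact absurd rfl hcd'
        rcases hP' with ⟨h9, -⟩ | h9
        · exact Or.inl h9
        · exact Or.inr (Or.inr h9)
      · exfalso
        have hT' := isTor_isSzA hm hF hA
        have hxK := hT'.mem_of_odd h5 hodd hxn
        exact hA.fpf hm hF hxK hx1 c hc hxc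
    · rintro (h | h | h)
      · exact solvable_of_mem (isSolvable_stabilizer hm hF hc) hxc h
      · exact solvable_of_mem (isSolvable_stabilizer hm hF hd) hxd' h
      · exact solvable_of_mem hT.isSolvable (mem_normalizer_of_prePair (Or.inl ⟨hxc, hxd'⟩))
          (mem_normalizer_of_prePair (Or.inr h))
  -- the count
  let Bc : Finset ↥(Sz F m) := Finset.univ.filter (fun y => y • c = c)
  let Bd : Finset ↥(Sz F m) := Finset.univ.filter (fun y => y • d = d)
  let S : Finset ↥(Sz F m) := Finset.univ.filter (fun y => y • c = d ∧ y • d = c)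
  have hBc : Bc.card = (2 ^ (2 * m + 1)) ^ 2 * (2 ^ (2 * m + 1) - 1) := by
    rw [← card_stabilizer hm hF hc, Nat.card_eq_fintype_card, Fintype.card_subtype]
    rfl
  have hBd : Bd.card = (2 ^ (2 * m + 1)) ^ 2 * (2 ^ (2 * m + 1) - 1) := by
    rw [← card_stabilizer hm hF hd, Nat.card_eq_fintype_card, Fintype.card_subtype]
    rfl
  have hKc : (Bd ∩ Bc).card = 2 ^ (2 * m + 1) - 1 := by
    rw [← szTwo_card (m := m) hm hF hc hd hcd, Nat.card_eq_fintype_card, Fintype.card_subtype]
    congr 1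
    ext y
    simp only [Finset.mem_inter, Finset.mem_filter, Finset.mem_univ, true_and, Bc, Bd, mem_szTwo]
    tauto
  have hS : S.card = 2 ^ (2 * m + 1) - 1 := by
    have h1 := hT.card
    rw [szTwo_card hm hF hc hd hcd] at h1
    have h2 : (Finset.univ.filter (fun y => y ∈ Subgroup.normalizer ((szTwo (m := m) c d : Subgroup ↥(Sz F m)) : Set ↥(Sz F m)))).card =
        2 * (2 ^ (2 * m + 1) - 1) := by
      rw [← h1, Nat.card_eq_fintype_card, Fintype.card_subtype]
    have h3 : Finset.univ.filter (fun y => y ∈ Subgroup.normalizer ((szTwo (m := m) c d : Subgroup ↥(Sz F m)) : Set ↥(Sz F m))) =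
        (Bd ∩ Bc) ∪ S := by
      ext y
      simp only [Finset.mem_inter, Finset.mem_union, Finset.mem_filter, Finset.mem_univ, true_and, Bc, Bd, S]
      constructor
      · intro h
        rcases prePair_of_normalizer hm hF hc hd hcd h with ⟨h4, h5⟩ | h4
        · exact Or.inl ⟨h5, h4⟩
        · exact Or.inr h4
      · rintro (⟨h4, h5⟩ | h4)
        · exact mem_normalizer_of_prePair (Or.inl ⟨h5, h4⟩)
        · exact mem_normalizer_of_prePair (Or.inr h4)
    have h4 : Disjoint (Bd ∩ Bc) S := by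
      rw [Finset.disjoint_left]
      intro y hy hy2
      have h5 := (Finset.mem_filter.1 (Finset.mem_inter.1 hy).2).2
      have h6 := (Finset.mem_filter.1 hy2).2.1
      exact hcd (h5.symm.trans h6)
    rw [h3, Finset.card_union_of_disjoint h4, hKc] at h2
    omega
  have hY : Finset.univ.filter (fun y => Group.IsSolvable ↥(Subgroup.closure ({x, y} : Set ↥(Sz F m)))) =
      Bc ∪ ((Bd \ Bc) ∪ S) := by
    ext y
    simp only [Finset.mem_union, Finset.mem_sdiff, Finset.mem_filter, Finset.mem_univ, true_and, Bc, Bd, S]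
    rw [hsol y]
    tauto
  have hd1 : Disjoint Bc ((Bd \ Bc) ∪ S) := by
    rw [Finset.disjoint_left]
    intro y hy hy2
    rcases Finset.mem_union.1 hy2 with h | h
    · exact (Finset.mem_sdiff.1 h).2 hy
    · have h5 := (Finset.mem_filter.1 hy).2
      have h6 := (Finset.mem_filter.1 h).2.1
      exact hcd (h5.symm.trans h6)
  have hd2 : Disjoint (Bd \ Bc) S := by
    rw [Finset.disjoint_left]
    intro y hy hy2
    have h5 := (Finset.mem_filter.1 (Finset.mem_sdiff.1 hy).1).2
    have h6 := (Finset.mem_filter.1 hy2).2.2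
    exact hcd (h6.symm.trans h5)
  have hsd : (Bd \ Bc).card + (Bd ∩ Bc).card = Bd.card := Finset.card_sdiff_add_card_inter Bd Bc
  rw [Nat.card_eq_fintype_card, Fintype.card_subtype, hY, Finset.card_union_of_disjoint hd1,
    Finset.card_union_of_disjoint hd2, hBc, hS]
  rw [hKc, hBd] at hsd
  have h10 : (Bd \ Bc).card + (2 ^ (2 * m + 1) - 1) = (2 ^ (2 * m + 1)) ^ 2 * (2 ^ (2 * m + 1) - 1) := hsd
  have h11 : 2 * (2 ^ (2 * m + 1)) ^ 2 * (2 ^ (2 * m + 1) - 1) = 2 * ((2 ^ (2 * m + 1)) ^ 2 * (2 ^ (2 * m + 1) - 1)) := by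
    ring
  rw [h11]
  omega

/-- The number of elements in the product. -/
lemma sz_d_mul {q r d₁ d₂ : ℕ} (hr : r ^ 2 = 2 * q) (h1 : d₁ = q + r + 1) (h2 : d₂ + r = q + 1) : d₁ * d₂ = q ^ 2 + 1 := by
  subst h1
  have h3 : (d₂ : ℤ) = q + 1 - r := by
    have : ((d₂ + r : ℕ) : ℤ) = ((q + 1 : ℕ) : ℤ) := by rw [h2]
    push_cast at this
    linarith
  have h4 : (r : ℤ) ^ 2 = 2 * q := by exact_mod_cast hr
  zify
  rw [h3]
  linear_combination - h4

lemma sz_r_sq (m : ℕ) : (2 ^ (m + 1)) ^ 2 = 2 * 2 ^ (2 * m + 1) := by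
  rw [← pow_mul, ← pow_succ']
  congr 1
  ring

/-- The solubilizer of a non-identity element of order dividing the order of a fixed-point-free torus. -/
theorem sol_A (hm : 1 ≤ m) (hF : Fintype.card F = 2 ^ (2 * m + 1)) {x : ↥(Sz F m)} (hx1 : x ≠ 1) {n : ℕ}
    (hn : n = 2 ^ (2 * m + 1) + 2 ^ (m + 1) + 1 ∨ n + 2 ^ (m + 1) = 2 ^ (2 * m + 1) + 1) (hxd : orderOf x ∣ n) :
    Nat.card {y : ↥(Sz F m) // Group.IsSolvable ↥(Subgroup.closure ({x, y} : Set ↥(Sz F m)))} = 4 * n := by
  classical
  obtain ⟨D⟩ := exists_szTD (F := F) hm hF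
  obtain ⟨hb1, hb2⟩ := sz_q_bounds (m := m) hm
  have hdf := sz_d_facts (d₁ := 2 ^ (2 * m + 1) + 2 ^ (m + 1) + 1) (d₂ := 2 ^ (2 * m + 1) + 1 - 2 ^ (m + 1)) m hm rfl (by omega)
  obtain ⟨hd1, hd2, hcop, -, -⟩ := hdf
  have hmul := sz_d_mul (sz_r_sq m) (d₁ := 2 ^ (2 * m + 1) + 2 ^ (m + 1) + 1) (d₂ := 2 ^ (2 * m + 1) + 1 - 2 ^ (m + 1)) rfl (by omega)
  have hnodd : ¬ 2 ∣ n := by
    rcases hn with h | h
    · rw [h]
      exact hd1
    · have : n = 2 ^ (2 * m + 1) + 1 - 2 ^ (m + 1) := by omega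
      rw [this]
      exact hd2
  have hndvd : n ∣ (2 ^ (2 * m + 1)) ^ 2 + 1 := by
    rw [← hmul]
    rcases hn with h | h
    · rw [h]
      exact dvd_mul_right _ _
    · have : n = 2 ^ (2 * m + 1) + 1 - 2 ^ (m + 1) := by omega
      rw [this]
      exact dvd_mul_left _ _
  have hxn : x ^ n = 1 := orderOf_dvd_iff_pow_eq_one.1 hxd
  -- `x` has no fixed point
  have hfpf : IsFpf x := by
    intro c hc hxc
    obtain ⟨d, hd, hdc, hxd'⟩ := exists_other_fix hm hF hx1 hnodd hxn hc hxc
    have h3 := pow_eq_one_of_two_fix hm hF hc hd (Ne.symm hdc) hxc hxd'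
    have h4 : orderOf x ∣ Nat.gcd (2 ^ (2 * m + 1) - 1) ((2 ^ (2 * m + 1)) ^ 2 + 1) :=
      Nat.dvd_gcd (orderOf_dvd_of_pow_eq_one h3) (hxd.trans hndvd)
    rw [coprime_q_sub_one m, Nat.dvd_one, orderOf_eq_one_iff] at h4
    exact hx1 h4
  set A := Subgroup.centralizer ({x} : Set ↥(Sz F m)) with hAdef
  have hA : IsSzA A := ⟨x, hfpf, rfl⟩
  have hxA : x ∈ A := Subgroup.mem_centralizer_singleton_iff.2 rfl
  have hTA := isTor_isSzA hm hF hA
  have hord : orderOf x ∣ Nat.card A := by
    rw [← Subgroup.orderOf_mk x hxA]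
    exact orderOf_dvd_natCard _
  -- the order of `A`
  have hcA : Nat.card A = n := by
    rcases (D.hS A).2 hA with h | h
    · have h1 := (D.tor_1 hm h).2
      rcases hn with h2 | h2
      · rw [h1, h2]
      · exfalso
        have h3 : n = 2 ^ (2 * m + 1) + 1 - 2 ^ (m + 1) := by omega
        rw [h1] at hord
        rw [h3] at hxd
        have h4 := Nat.dvd_gcd hord hxd
        rw [hcop, Nat.dvd_one, orderOf_eq_one_iff] at h4
        exact hx1 h4
    · have h1 := (D.tor_2 hm h).2
      have h5 : Nat.card A = 2 ^ (2 * m + 1) + 1 - 2 ^ (m + 1) := by omega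
      rcases hn with h2 | h2
      · exfalso
        rw [h5] at hord
        rw [h2] at hxd
        have h4 := Nat.dvd_gcd hxd hord
        rw [hcop, Nat.dvd_one, orderOf_eq_one_iff] at h4
        exact hx1 h4
      · omega
  -- the solubilizer
  have hsol : ∀ y, Group.IsSolvable ↥(Subgroup.closure ({x, y} : Set ↥(Sz F m))) ↔
      y ∈ Subgroup.normalizer (A : Set ↥(Sz F m)) := by
    intro y
    constructor
    · intro hs
      rcases exists_of_solvable hm hF hx1 hs with ⟨p, hp, h5, -⟩ | ⟨c', d', hc', hd', hcd', h5, -⟩ | ⟨A', hA', h5, h6⟩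
      · exact absurd h5 (hfpf p hp)
      · have hT' := isTor_szTwo (m := m) hm hF hc' hd' hcd'
        have hxK := hT'.mem_of_odd h5 hnodd hxn
        exact absurd (mem_szTwo.1 hxK).1 (hfpf c' hc')
      · have hT' := isTor_isSzA hm hF hA'
        have hxK := hT'.mem_of_odd h5 hnodd hxn
        have h7 : A = A' := hT'.cent x hxK hx1
        rw [h7]
        exact h6
    · intro h
      exact solvable_of_mem hTA.isSolvable (Subgroup.le_normalizer hxA) h
  have e : {y : ↥(Sz F m) // Group.IsSolvable ↥(Subgroup.closure ({x, y} : Set ↥(Sz F m)))} ≃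
      ↥(Subgroup.normalizer (A : Set ↥(Sz F m))) := Equiv.subtypeEquivRight hsol
  rw [Nat.card_congr e, hTA.card, hcA]

/-! ### Transport -/

lemma card_sol_congr {G H : Type*} [Group G] [Group H] (e : G ≃* H) (x : G) :
    Nat.card {y : G // Group.IsSolvable ↥(Subgroup.closure ({x, y} : Set G))} =
      Nat.card {y : H // Group.IsSolvable ↥(Subgroup.closure ({e x, y} : Set H))} := by
  refine Nat.card_congr (Equiv.subtypeEquiv e.toEquiv (fun y => ?_))
  have h1 : Subgroup.closure ({e x, e y} : Set H) = (Subgroup.closure ({x, y} : Set G)).map e.toMonoidHom := by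
    rw [MonoidHom.map_closure, Set.image_pair]
    rfl
  show _ ↔ Group.IsSolvable ↥(Subgroup.closure ({e x, e y} : Set H))
  rw [h1]
  constructor
  · intro h
    let f := (Subgroup.closure ({x, y} : Set G)).equivMapOfInjective e.toMonoidHom e.injective
    exact Group.isSolvable_of_surjective (f := f.toMonoidHom) f.surjective
  · intro h
    let f := (Subgroup.closure ({x, y} : Set G)).equivMapOfInjective e.toMonoidHom e.injective
    exact Group.isSolvable_of_surjective (f := f.symm.toMonoidHom) f.symm.surjective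

end Cfsg.Agent.H10
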