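import Mathlib
import Cfsg.Prelude.Def_LocalEven
import Cfsg.Prelude.Def_PLocal

/-! A group with a non-normal Sylow subgroup and a nontrivial normal `p`-subgroup is not a section
of a group with TI Sylow `p`-subgroups; application to `Qd(p)`. -/

set_option autoImplicit false
set_option linter.unusedSectionVars false
set_option linter.unusedSimpArgs false
set_option linter.style.haveILetI false

namespace Cfsg.Agent.H10

open Cfsg

section Core

/-- The core of the argument: no surjection from a subgroup of a TI group. -/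
theorem no_section_of_TI {G K X : Type*} [Group G] [Finite G] [Group K] [Group X] [Finite X] (p : ℕ) [Fact p.Prime]
    (hTI : ∀ S₁ S₂ : Sylow p G, S₁ ≠ S₂ → (S₁ : Subgroup G) ⊓ S₂ = ⊥)
    (ι : K →* G) (hι : Function.Injective ι) (π : K →* X) (hπ : Function.Surjective π)
    (E : Subgroup X) [E.Normal] (hE : IsPGroup p E) (hE1 : E ≠ ⊥)
    (hX : ∀ R : Sylow p X, ¬ (R : Subgroup X).Normal) : False := by
  classical
  haveI : Finite K := Finite.of_injective ι hι
  let M : Subgroup K := E.comap π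
  haveI : M.Normal := Subgroup.Normal.comap inferInstance π
  obtain ⟨P⟩ : Nonempty (Sylow p M) := inferInstance
  let P₁ : Subgroup K := (P : Subgroup M).map M.subtype
  have hP₁ : IsPGroup p P₁ := P.isPGroup'.map _
  -- `P₁` is nontrivial
  let f : M →* E := (π.comp M.subtype).codRestrict E (fun m => m.2)
  have hf : Function.Surjective f := by
    rintro ⟨y, hy⟩
    obtain ⟨k, rfl⟩ := hπ y
    exact ⟨⟨k, hy⟩, rfl⟩
  have hP'top : ((P.mapSurjective hf : Sylow p E) : Subgroup E) = ⊤ := by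
    have htop : IsPGroup p (⊤ : Subgroup E) := IsPGroup.of_equiv hE Subgroup.topEquiv.symm
    exact ((P.mapSurjective hf).is_maximal' htop le_top).symm
  obtain ⟨y, hyE, hy1⟩ : ∃ y ∈ E, y ≠ 1 := by
    by_contra hcon
    push Not at hcon
    apply hE1
    rw [eq_bot_iff]
    intro y hy
    exact (Subgroup.mem_bot).mpr (hcon y hy)
  have hmem : (⟨y, hyE⟩ : E) ∈ ((P.mapSurjective hf : Sylow p E) : Subgroup E) := by
    rw [hP'top]; trivial
  rw [Sylow.coe_mapSurjective] at hmem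
  obtain ⟨m, hmP, hm⟩ := hmem
  have hm1 : (m : K) ≠ 1 := by
    intro h
    have h2 : f m = 1 := by
      have : m = 1 := Subtype.ext h
      rw [this, map_one]
    rw [hm] at h2
    exact hy1 (congrArg Subtype.val h2)
  have hmP₁ : (m : K) ∈ P₁ := ⟨m, hmP, rfl⟩
  -- the Sylow subgroups above
  obtain ⟨Q₀, hQ₀⟩ := hP₁.exists_le_sylow
  have hQmap : IsPGroup p ((Q₀ : Subgroup K).map ι) := Q₀.isPGroup'.map _
  obtain ⟨T, hT⟩ := hQmap.exists_le_sylow
  have hQ_eq : (T : Subgroup G).comap ι = Q₀ := by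
    apply Q₀.is_maximal'
    · have h1 : IsPGroup p ((T : Subgroup G).comap ι) :=
        T.isPGroup'.comap_of_injective ι hι
      exact h1
    · intro x hx
      exact hT ⟨x, hx, rfl⟩
  -- normalizer elements fix `T`
  have hnorm : ∀ n ∈ Subgroup.normalizer (P₁ : Set K), ∀ q ∈ (Q₀ : Subgroup K), n * q * n⁻¹ ∈ (Q₀ : Subgroup K) := by
    intro n hn q hq
    have hTeq : (ι n) • T = T := by
      by_contra hne
      have hbot := hTI _ _ hne
      have h1 : ι (m : K) ∈ ((ι n • T : Sylow p G) : Subgroup G) := by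
        rw [Sylow.smul_def, Sylow.pointwise_smul_def, Subgroup.mem_pointwise_smul_iff_inv_smul_mem]
        have h2 : n⁻¹ * (m : K) * n ∈ P₁ := by
          have := (Subgroup.mem_normalizer_iff''.mp hn (m : K)).mp hmP₁
          exact this
        have h3 : ι (n⁻¹ * (m : K) * n) ∈ (T : Subgroup G) := hT ⟨_, hQ₀ h2, rfl⟩
        simpa [MulAut.smul_def, mul_assoc] using h3
      have h2 : ι (m : K) ∈ (T : Subgroup G) := hT ⟨_, hQ₀ hmP₁, rfl⟩
      have h3 : ι (m : K) ∈ ((ι n • T : Sylow p G) : Subgroup G) ⊓ (T : Subgroup G) := ⟨h1, h2⟩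
      rw [hbot, Subgroup.mem_bot] at h3
      exact hm1 (hι (h3.trans (map_one ι).symm))
    have hq' : ι q ∈ (T : Subgroup G) := hT ⟨q, hq, rfl⟩
    rw [← hQ_eq, Subgroup.mem_comap, map_mul, map_mul, map_inv]
    have h4 : ι q ∈ ((ι n • T : Sylow p G) : Subgroup G) := by rw [hTeq]; exact hq'
    rw [← hTeq, Sylow.smul_def, Sylow.pointwise_smul_def, Subgroup.mem_pointwise_smul_iff_inv_smul_mem]
    simpa [MulAut.smul_def, mul_assoc] using hq'
  -- the image is normal
  apply hX (Q₀.mapSurjective hπ)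
  rw [Sylow.coe_mapSurjective]
  have hEle : E ≤ (Q₀ : Subgroup K).map π := by
    have := hE.le_sylow_of_normal (Q₀.mapSurjective hπ)
    rwa [Sylow.coe_mapSurjective] at this
  constructor
  rintro _ ⟨q, hq, rfl⟩ x
  obtain ⟨k, rfl⟩ := hπ x
  have hk : k ∈ Subgroup.normalizer (P₁ : Set K) ⊔ M := by
    rw [Sylow.normalizer_sup_eq_top P]
    trivial
  have hk' : k ∈ ((M ⊔ Subgroup.normalizer (P₁ : Set K) : Subgroup K) : Set K) := by
    rw [sup_comm]; exact hk
  rw [Subgroup.normal_mul] at hk'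
  obtain ⟨m', hm', n, hn, rfl⟩ := hk'
  have h1 : π m' ∈ (Q₀ : Subgroup K).map π := hEle hm'
  obtain ⟨a, ha, hae⟩ := h1
  refine ⟨a * (n * q * n⁻¹) * a⁻¹, ?_, ?_⟩
  · exact Subgroup.mul_mem _ (Subgroup.mul_mem _ ha (hnorm n hn q hq)) (Subgroup.inv_mem _ ha)
  · simp only [map_mul, map_inv, hae]
    group

/-- Involvement in a quotient of a subgroup gives the data above. -/
theorem not_involves_of_TI_quot {G G₀ X : Type*} [Group G] [Finite G] [Group G₀] [Group X] [Finite X] (p : ℕ) [Fact p.Prime]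
    (hTI : ∀ S₁ S₂ : Sylow p G, S₁ ≠ S₂ → (S₁ : Subgroup G) ⊓ S₂ = ⊥)
    (ι : G₀ →* G) (hι : Function.Injective ι) (Z : Subgroup G₀) [Z.Normal]
    (E : Subgroup X) [E.Normal] (hE : IsPGroup p E) (hE1 : E ≠ ⊥)
    (hX : ∀ R : Sylow p X, ¬ (R : Subgroup X).Normal) : ¬ Involves X (G₀ ⧸ Z) := by
  rintro ⟨K', R', hR', ⟨e⟩⟩
  let K : Subgroup G₀ := K'.comap (QuotientGroup.mk' Z)
  let r : K →* K' := (QuotientGroup.mk' Z).subgroupComap K'
  have hr : Function.Surjective r := (QuotientGroup.mk' Z).subgroupComap_surjective_of_surjective _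
    (QuotientGroup.mk'_surjective Z)
  exact no_section_of_TI p hTI (ι.comp K.subtype) (hι.comp Subtype.val_injective)
    (e.toMonoidHom.comp ((QuotientGroup.mk' (R'.subgroupOf K')).comp r))
    (e.surjective.comp ((QuotientGroup.mk'_surjective _).comp hr)) E hE hE1 hX

end Core

section Qd

variable {p : ℕ} [Fact p.Prime]

/-- The matrix of an element of `Qd(p)`. -/
abbrev qdM (M : ↥(Cfsg.qd p)) : Matrix (Fin 3) (Fin 3) (ZMod p) :=
  ((M : Matrix.SpecialLinearGroup (Fin 3) (ZMod p)) : Matrix (Fin 3) (Fin 3) (ZMod p))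

theorem qd_last_row (M : ↥(Cfsg.qd p)) :
    qdM M 2 0 = 0 ∧ qdM M 2 1 = 0 ∧ qdM M 2 2 = 1 := by
  obtain ⟨M, hM⟩ := M
  induction hM using Subgroup.closure_induction with
  | mem x hx => exact hx
  | one => simp [qdM, Matrix.one_apply]
  | mul x y _ _ hx hy =>
    obtain ⟨h0, h1, h2⟩ := hx
    obtain ⟨h0', h1', h2'⟩ := hy
    simp only [qdM, Subgroup.coe_mul, Matrix.SpecialLinearGroup.coe_mul, Matrix.mul_apply,
      Fin.sum_univ_three] at *
    simp [h0, h1, h2, h0', h1', h2']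
  | inv x _ hx =>
    obtain ⟨h0, h1, h2⟩ := hx
    simp only [qdM] at h0 h1 h2
    have hinv : ((x * x⁻¹ : Matrix.SpecialLinearGroup (Fin 3) (ZMod p)) : Matrix (Fin 3) (Fin 3) (ZMod p)) = 1 := by
      simp
    have e0 := congrFun (congrFun hinv 2) 0
    have e1 := congrFun (congrFun hinv 2) 1
    have e2 := congrFun (congrFun hinv 2) 2
    simp only [Matrix.SpecialLinearGroup.coe_mul, Matrix.mul_apply, Fin.sum_univ_three, h0, h1, h2] at e0 e1 e2
    simp [Matrix.one_apply] at e0 e1 e2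
    exact ⟨e0, e1, e2⟩

theorem mem_qd_of_last_row (M : Matrix.SpecialLinearGroup (Fin 3) (ZMod p))
    (h0 : (M : Matrix (Fin 3) (Fin 3) (ZMod p)) 2 0 = 0)
    (h1 : (M : Matrix (Fin 3) (Fin 3) (ZMod p)) 2 1 = 0)
    (h2 : (M : Matrix (Fin 3) (Fin 3) (ZMod p)) 2 2 = 1) : M ∈ Cfsg.qd p :=
  Subgroup.subset_closure ⟨h0, h1, h2⟩

/-- Elements `M` with `(M - 1)² = 0` have `M ^ p = 1`. -/
theorem qd_pow_eq_one (M : ↥(Cfsg.qd p)) (h : (qdM M - 1) ^ 2 = 0) : M ^ p = 1 := by
  haveI : CharP (Matrix (Fin 3) (Fin 3) (ZMod p)) p := inferInstance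
  have hp2 : 2 ≤ p := (Fact.out : p.Prime).two_le
  have h1 : qdM M ^ p - 1 ^ p = (qdM M - 1) ^ p :=
    (sub_pow_char_of_commute p (Commute.one_right _)).symm
  have h2 : (qdM M - 1) ^ p = 0 := pow_eq_zero_of_le hp2 h
  rw [h2, one_pow, sub_eq_zero] at h1
  apply Subtype.ext
  apply Subtype.ext
  simpa [qdM] using h1

/-- The block homomorphism of `Qd(p)`. -/
def qdBlock : ↥(Cfsg.qd p) →* Matrix (Fin 2) (Fin 2) (ZMod p) where
  toFun M := (qdM M).submatrix (Fin.castLE (by omega)) (Fin.castLE (by omega))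
  map_one' := by
    ext i j
    fin_cases i <;> fin_cases j <;> simp [qdM]
  map_mul' x y := by
    obtain ⟨h0, h1, h2⟩ := qd_last_row x
    obtain ⟨h0', h1', h2'⟩ := qd_last_row y
    ext i j
    fin_cases i <;> fin_cases j <;>
      simp [qdM, Matrix.mul_apply, Fin.sum_univ_three, Fin.sum_univ_two] at * <;> simp [*]

/-- The translation subgroup of `Qd(p)`. -/
def qdE : Subgroup ↥(Cfsg.qd p) := (qdBlock (p := p)).ker

instance : (qdE (p := p)).Normal := MonoidHom.normal_ker _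

theorem qdE_isPGroup : IsPGroup p (qdE (p := p)) := by
  rintro ⟨M, hM⟩
  refine ⟨1, ?_⟩
  obtain ⟨h0, h1, h2⟩ := qd_last_row M
  have hb : qdBlock M = 1 := hM
  have e00 := congrFun (congrFun hb 0) 0
  have e01 := congrFun (congrFun hb 0) 1
  have e10 := congrFun (congrFun hb 1) 0
  have e11 := congrFun (congrFun hb 1) 1
  simp [qdBlock, qdM] at e00 e01 e10 e11
  have hpow : M ^ p = 1 := by
    apply qd_pow_eq_one
    ext i j
    fin_cases i <;> fin_cases j <;>
      simp [pow_two, qdM, Matrix.mul_apply, Fin.sum_univ_three, Matrix.one_apply] at * <;> simp [*]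
  apply Subtype.ext
  simpa using hpow

/-- An explicit element of `Qd(p)` from a `3 × 3` matrix `[[a, b, c], [d, e, f], [0, 0, 1]]`. -/
def qdMk (a b c d e f : ZMod p) (h : a * e - b * d = 1) : ↥(Cfsg.qd p) :=
  ⟨⟨!![a, b, c; d, e, f; 0, 0, 1], by
    rw [Matrix.det_fin_three]; simp; linear_combination h⟩,
    mem_qd_of_last_row _ (by simp) (by simp) (by simp)⟩

theorem qdE_ne_bot : qdE (p := p) ≠ ⊥ := by
  intro h
  have hmem : qdMk (p := p) 1 0 1 0 1 0 (by ring) ∈ qdE (p := p) := by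
    change qdBlock _ = 1
    ext i j
    fin_cases i <;> fin_cases j <;> simp [qdBlock, qdM, qdMk]
  rw [h, Subgroup.mem_bot] at hmem
  have := congrArg (fun M : ↥(Cfsg.qd p) => qdM M 0 2) hmem
  simp [qdM, qdMk] at this

theorem qd_no_normal_sylow (hp : p ≠ 2) (R : Sylow p ↥(Cfsg.qd p)) : ¬ (R : Subgroup ↥(Cfsg.qd p)).Normal := by
  intro hR
  -- `p`-elements lie in `R`
  have hmem : ∀ x : ↥(Cfsg.qd p), x ^ p = 1 → x ∈ (R : Subgroup ↥(Cfsg.qd p)) := by
    intro x hx
    have h1 : IsPGroup p (Subgroup.zpowers x) := by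
      rintro ⟨y, k, rfl⟩
      refine ⟨1, ?_⟩
      apply Subtype.ext
      simp only [pow_one, Subgroup.coe_pow, Subgroup.coe_one]
      rw [← zpow_natCast, ← zpow_mul, mul_comm, zpow_mul, zpow_natCast, hx, one_zpow]
    obtain ⟨T, hT⟩ := h1.exists_le_sylow
    have hle : (R : Subgroup ↥(Cfsg.qd p)) ≤ T := R.isPGroup'.le_sylow_of_normal T
    have : (T : Subgroup ↥(Cfsg.qd p)) = R := R.is_maximal' T.isPGroup' hle
    rw [← this]
    exact hT (Subgroup.mem_zpowers x)
  let u : ↥(Cfsg.qd p) := qdMk 1 1 0 0 1 0 (by ring)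
  let l : ↥(Cfsg.qd p) := qdMk 1 0 0 (-1) 1 0 (by ring)
  have hu : u ^ p = 1 := by
    apply qd_pow_eq_one
    ext i j
    fin_cases i <;> fin_cases j <;>
      simp [u, pow_two, qdM, qdMk, Matrix.mul_apply, Fin.sum_univ_three, Matrix.one_apply]
  have hl : l ^ p = 1 := by
    apply qd_pow_eq_one
    ext i j
    fin_cases i <;> fin_cases j <;>
      simp [l, pow_two, qdM, qdMk, Matrix.mul_apply, Fin.sum_univ_three, Matrix.one_apply]
  have ht : (u * l) ^ 3 ∈ (R : Subgroup ↥(Cfsg.qd p)) :=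
    Subgroup.pow_mem _ (Subgroup.mul_mem _ (hmem u hu) (hmem l hl)) 3
  have hul : qdM (u * l) = !![0, 1, 0; -1, 1, 0; 0, 0, 1] := by
    have e : qdM (u * l) = qdM u * qdM l := rfl
    rw [e]
    ext i j
    fin_cases i <;> fin_cases j <;>
      simp [u, l, qdM, qdMk, Matrix.mul_apply, Fin.sum_univ_three]
  have hte : qdM ((u * l) ^ 3) = !![-1, 0, 0; 0, -1, 0; 0, 0, 1] := by
    have e : qdM ((u * l) ^ 3) = qdM (u * l) * qdM (u * l) * qdM (u * l) := by
      rw [pow_succ, pow_two]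
      rfl
    rw [e, hul]
    ext i j
    fin_cases i <;> fin_cases j <;>
      simp [Matrix.mul_apply, Fin.sum_univ_three]
  obtain ⟨k, hk⟩ := R.isPGroup' ⟨_, ht⟩
  have hk' : ((u * l) ^ 3) ^ (p ^ k) = 1 := by
    have := congrArg Subtype.val hk
    simpa using this
  have hsq : (((u * l) ^ 3) ^ 2) = 1 := by
    apply Subtype.ext
    apply Subtype.ext
    have : qdM (((u * l) ^ 3) ^ 2) = 1 := by
      rw [pow_two]
      have e : qdM (((u * l) ^ 3) * ((u * l) ^ 3)) = qdM ((u * l) ^ 3) * qdM ((u * l) ^ 3) := by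
        simp [qdM]
      rw [e, hte]
      ext i j
      fin_cases i <;> fin_cases j <;> simp [Matrix.mul_apply, Fin.sum_univ_three, Matrix.one_apply]
    simpa [qdM] using this
  have hodd : Nat.Coprime (p ^ k) 2 := by
    apply Nat.Coprime.pow_left
    exact (Nat.coprime_primes (Fact.out : p.Prime) Nat.prime_two).mpr hp
  have hone : (u * l) ^ 3 = 1 := by
    have h1 := orderOf_dvd_of_pow_eq_one hk'
    have h2 := orderOf_dvd_of_pow_eq_one hsq
    have h3 := Nat.dvd_gcd h1 h2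
    rw [hodd] at h3
    exact orderOf_eq_one_iff.mp (Nat.dvd_one.mp h3)
  rw [hone] at hte
  have h00 := congrFun (congrFun hte 0) 0
  simp [qdM] at h00
  have hp' : (Fact.out : p.Prime).two_le = (Fact.out : p.Prime).two_le := rfl
  haveI : NeZero p := ⟨(Fact.out : p.Prime).ne_zero⟩
  have h2 : ((2 : ℕ) : ZMod p) = 0 := by
    push_cast
    linear_combination h00
  rw [ZMod.natCast_eq_zero_iff] at h2
  exact hp ((Nat.prime_dvd_prime_iff_eq (Fact.out : p.Prime) Nat.prime_two).mp h2)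

/-- `Qd(p)` is not involved in a quotient of a group embedded in a group with TI Sylow
`p`-subgroups. -/
theorem qd_not_involves_of_TI {G G₀ : Type*} [Group G] [Finite G] [Group G₀] (hp : p ≠ 2)
    (hTI : ∀ S₁ S₂ : Sylow p G, S₁ ≠ S₂ → (S₁ : Subgroup G) ⊓ S₂ = ⊥)
    (ι : G₀ →* G) (hι : Function.Injective ι) (Z : Subgroup G₀) [Z.Normal] :
    ¬ Involves ↥(Cfsg.qd p) (G₀ ⧸ Z) :=
  not_involves_of_TI_quot p hTI ι hι Z qdE qdE_isPGroup qdE_ne_bot (qd_no_normal_sylow hp)

end Qd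

end Cfsg.Agent.H10
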